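import Cfsg.Agent.H514.DP.Cyc_m3
import Mathlib
import Cfsg.Agent.S0242
import Cfsg.Agent.S2299
import Cfsg.Agent.S2300
import Cfsg.Agent.H259.NatMod
import Cfsg.Agent.H112.B57.Diag
import Cfsg.Prelude.Def_Classification2
import Cfsg.Agent.S0269
import Cfsg.Agent.S0270
import Cfsg.Agent.S0271
import Cfsg.Agent.LieClassical.OrthFinite
import Cfsg.Agent.LieClassical.OrthForms
import Cfsg.Agent.LieClassical.HermPerfect
import Cfsg.Agent.LieClassical.HermCount
import Cfsg.Agent.LieClassical.GUOrder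
import Cfsg.Agent.H813.Af.MinType_m3
import Cfsg.Agent.Lib.GenFitting
import Cfsg.Agent.Lib.Cores
import Cfsg.Agent.Lib.NormalAbelian
import Cfsg.Agent.SignalizersComponents.Components
import Cfsg.Agent.H893.PPow
import Cfsg.Agent.Lib.Involves
import Cfsg.Agent.H893.Fac
import Cfsg.Agent.H793.SecFree
import Cfsg.Agent.H901.PrimBound
import Cfsg.Agent.StandardComponent.AltAut
import Cfsg.Agent.FastGrp
import Cfsg.Agent.Prune
set_option linter.all false

section
prune_inst 0x7ff0a8f8aba829dfdffe7e7fa792cffc31801fffa6dff943bfe02b8f0b9f030209c1fb8509e000fc0e02401410b87803f97ec23fe063d87ff3fd1ff41ffbee0fa5e6b508519488340fbc0ff603f0778e7f3fffffffffffffffffffffffffff8effbdffffffff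

-- part: H917/FP/Hom
section
prune_inst 0x30000000000000
set_option linter.all false
open scoped Cfsg.Agent.FastGrp

/-!
Fixed point ratio calculus for S5717: averages over a finite group `Y` mapped into `G` by a
homomorphism, and transport along homomorphisms.
-/

set_option autoImplicit false

namespace Cfsg.Agent.H917.FP

section

variable {G : Type*} [Group G] (Ω : Type*) [MulAction G Ω]

/-- conjugate of a set. -/
def cj (g : G) (A : Set G) : Set G := (fun a => g * a * g⁻¹) '' A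

/-- **Cauchy-Schwarz** for the average over a finite group `Y` mapped into `G`. -/
theorem cs_hom [Finite Ω] {Y : Type*} [Group Y] [Fintype Y] (j : Y →* G) (A : Set G) :
    fpr Ω A ^ 2 * (Nat.card Y : ℝ) ≤ ∑ y : Y, fpr Ω (A ∪ cj (j y) A) := by
  classical
  have := Fintype.ofFinite Ω
  rcases Nat.eq_zero_or_pos (Nat.card Ω) with h0 | h0
  · have h1 : ∀ B : Set G, fpr Ω B = 0 := fun B => by unfold fpr; rw [h0]; simp
    simp [h1]
  have hN : (0 : ℝ) < Nat.card Ω := by exact_mod_cast h0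
  have hY : (0 : ℝ) < Nat.card Y := by exact_mod_cast Nat.card_pos
  set P : Ω → ℝ := fun w => ∑ y : Y, ind Ω A ((j y)⁻¹ • w) with hP
  have hsumP : ∑ w, P w = (Nat.card Y : ℝ) * (fpr Ω A * Nat.card Ω) := by
    rw [hP, Finset.sum_comm]
    have : ∀ y : Y, ∑ w : Ω, ind Ω A ((j y)⁻¹ • w) = fpr Ω A * Nat.card Ω := by
      intro y
      rw [← sum_ind]
      exact Fintype.sum_equiv (MulAction.toPerm ((j y)⁻¹)) _ _ (fun w => rfl)
    rw [Finset.sum_congr rfl fun y _ => this y, Finset.sum_const, nsmul_eq_mul,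
      Finset.card_univ, Nat.card_eq_fintype_card (α := Y)]
  have hsq : ∑ w, P w ^ 2 = (Nat.card Y : ℝ) *
      ∑ y : Y, fpr Ω (A ∪ cj (j y) A) * Nat.card Ω := by
    have e1 : ∀ w, P w ^ 2 = ∑ y : Y, ∑ z : Y,
        ind Ω A ((j y)⁻¹ • w) * ind Ω A ((j z)⁻¹ • w) := by
      intro w
      rw [sq, hP, Finset.sum_mul_sum]
    rw [Finset.sum_congr rfl fun w _ => e1 w, Finset.sum_comm]
    have e2 : ∀ y : Y, ∑ w : Ω, ∑ z : Y,
        ind Ω A ((j y)⁻¹ • w) * ind Ω A ((j z)⁻¹ • w) =
        ∑ z : Y, fpr Ω (A ∪ cj (j z) A) * Nat.card Ω := by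
      intro y
      rw [Finset.sum_comm]
      have e3 : ∀ z : Y, ∑ w : Ω, ind Ω A ((j y)⁻¹ • w) * ind Ω A ((j z)⁻¹ • w) =
          ∑ w : Ω, ind Ω A w * ind Ω A ((j (y⁻¹ * z))⁻¹ • w) := by
        intro z
        refine Fintype.sum_equiv (MulAction.toPerm ((j y)⁻¹)) _ _ (fun w => ?_)
        simp only [MulAction.toPerm_apply]
        rw [smul_smul, map_mul, map_inv, mul_inv_rev, inv_inv, mul_assoc,
          mul_inv_cancel, mul_one]
      rw [Finset.sum_congr rfl fun z _ => e3 z]
      refine Fintype.sum_equiv (Equiv.mulLeft y⁻¹) _ _ (fun z => ?_)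
      simp only [Equiv.coe_mulLeft]
      rw [← sum_ind]
      refine Finset.sum_congr rfl fun w _ => ?_
      rw [← ind_mul, cj, ind_conj]
    rw [Finset.sum_congr rfl fun y _ => e2 y, Finset.sum_const, nsmul_eq_mul,
      Finset.card_univ, Nat.card_eq_fintype_card (α := Y)]
  have hCS : (∑ w, P w) ^ 2 ≤ (Nat.card Ω : ℝ) * ∑ w, P w ^ 2 := by
    have := sq_sum_le_card_mul_sum_sq (s := (Finset.univ : Finset Ω)) (f := P)
    rwa [Finset.card_univ, ← Nat.card_eq_fintype_card] at this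
  rw [hsumP, hsq, ← Finset.sum_mul] at hCS
  have h2 : (Nat.card Y : ℝ) * (Nat.card Ω : ℝ) ^ 2 * (fpr Ω A ^ 2 * Nat.card Y) ≤
      (Nat.card Y : ℝ) * (Nat.card Ω : ℝ) ^ 2 * ∑ y : Y, fpr Ω (A ∪ cj (j y) A) := by
    nlinarith [hCS]
  exact le_of_mul_le_mul_left h2 (by positivity)

/-- Cauchy-Schwarz, split form. -/
theorem cs_split_hom [Finite Ω] {Y : Type*} [Group Y] [Finite Y] (j : Y →* G) (A : Set G)
    (Bad : Set Y) (δ : ℝ) (hδ : 0 ≤ δ)
    (h : ∀ y : Y, y ∉ Bad → fpr Ω (A ∪ cj (j y) A) ≤ δ) :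
    fpr Ω A ^ 2 ≤ δ + (Nat.card Bad : ℝ) / Nat.card Y := by
  classical
  have := Fintype.ofFinite Y
  have h1 := cs_hom Ω j A
  have hY : (0 : ℝ) < Nat.card Y := by exact_mod_cast Nat.card_pos
  have h2 : ∑ y : Y, fpr Ω (A ∪ cj (j y) A) ≤ ∑ y : Y, (δ + if y ∈ Bad then 1 else 0) := by
    refine Finset.sum_le_sum fun y _ => ?_
    by_cases hy : y ∈ Bad
    · rw [if_pos hy]
      have := fpr_le_one Ω (A ∪ cj (j y) A)
      linarith
    · rw [if_neg hy, add_zero]
      exact h y hy
  rw [Finset.sum_add_distrib, Finset.sum_const, nsmul_eq_mul, Finset.card_univ,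
    ← Nat.card_eq_fintype_card, Finset.sum_boole] at h2
  have h3 : ((Finset.univ.filter fun y => y ∈ Bad).card : ℝ) = Nat.card Bad := by
    rw [Nat.card_eq_fintype_card, ← Set.toFinset_card]
    congr 2
    ext y; simp
  rw [h3] at h2
  have h4 : fpr Ω A ^ 2 * (Nat.card Y : ℝ) ≤ (δ + (Nat.card Bad : ℝ) / Nat.card Y) *
      Nat.card Y := by
    rw [add_mul, div_mul_cancel₀ _ hY.ne']
    linarith
  exact le_of_mul_le_mul_right h4 hY

/-- the same with commutators. -/
theorem cs_comm_hom [Finite Ω] {Y : Type*} [Group Y] [Finite Y] (j : Y →* G) (x : G)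
    (Bad : Set Y) (δ : ℝ) (hδ : 0 ≤ δ)
    (h : ∀ y : Y, y ∉ Bad → fpr Ω {x * (j y * x⁻¹ * (j y)⁻¹)} ≤ δ) :
    fpr Ω {x} ^ 2 ≤ δ + (Nat.card Bad : ℝ) / Nat.card Y := by
  refine cs_split_hom Ω j {x} Bad δ hδ fun y hy => le_trans ?_ (h y hy)
  apply fpr_closure_le
  rintro _ rfl
  have h1 : x ∈ Subgroup.closure ({x} ∪ cj (j y) {x}) := Subgroup.subset_closure (Or.inl rfl)
  have h2 : j y * x * (j y)⁻¹ ∈ Subgroup.closure ({x} ∪ cj (j y) {x}) :=
    Subgroup.subset_closure (Or.inr ⟨x, rfl, rfl⟩)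
  have h3 := Subgroup.mul_mem _ h1 (Subgroup.inv_mem _ h2)
  have e : x * (j y * x * (j y)⁻¹)⁻¹ = x * (j y * x⁻¹ * (j y)⁻¹) := by group
  rw [e] at h3
  exact h3

end

section Comp

variable {S G : Type*} [Group S] [Group G] {Ω : Type*} [MulAction G Ω]

/-- fixed point ratio of the image of a set under a homomorphism. -/
theorem fpr_comp (φ : S →* G) (A : Set S) :
    @fpr S _ Ω (MulAction.compHom Ω φ) A = fpr Ω (φ '' A) := by
  unfold fpr
  congr 2
  refine Nat.card_congr (Equiv.subtypeEquivRight fun w => ?_)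
  constructor
  · rintro h _ ⟨a, ha, rfl⟩
    exact h a ha
  · intro h a ha
    exact h (φ a) ⟨a, ha, rfl⟩

end Comp

end Cfsg.Agent.H917.FP

private theorem dce_be06afdca40f : _root_.True := by
  try have : _root_.True := by simp only [_root_.Cfsg.Agent.H917.FP.cj.eq_1]
  exact _root_.True.intro
end

-- part: H917/FP/TV
section
prune_inst 0xf47031055d40000010180000c0001ce3fa0005020048840004070f0606c98c602046a821a9a0051f5a200c440034006813dc0030822000c000000000011d058110000006a1480000000090000000000000000000000000000000000000030000200000000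
set_option linter.all false
open scoped Cfsg.Agent.FastGrp

-- part: H917/FP/Gen
section
/-!
Generation of groups of transvections (S5717, doubling steps).

`Has H v f` : the transvection `x ↦ x + f x • v` belongs to `H` (if `f v = 0`).
-/

set_option autoImplicit false

namespace Cfsg.Agent.H917.FP

open Module
open LinearEquiv (transvection)

universe u v

section Has

variable {F : Type u} {V : Type v} [Field F] [AddCommGroup V] [Module F V]

/-- the transvection `x ↦ x + f x • v` belongs to `H`. -/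
def Has (H : Subgroup (V ≃ₗ[F] V)) (v : V) (f : Dual F V) : Prop :=
  ∀ h : f v = 0, transvection h ∈ H

variable {H : Subgroup (V ≃ₗ[F] V)}

theorem tv_apply {f : Dual F V} {v : V} (h : f v = 0) (x : V) : transvection h x = x + f x • v := rfl

theorem tv_inv {f : Dual F V} {v : V} (h : f v = 0) (x : V) :
    (transvection h)⁻¹ x = x - f x • v := by
  have h1 : (transvection h) (x - f x • v) = x := by
    rw [tv_apply, map_sub, map_smul, h, smul_zero, sub_zero, sub_add_cancel]
  have h2 : (transvection h)⁻¹ ((transvection h) (x - f x • v)) = x - f x • v :=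
    (transvection h).symm_apply_apply _
  rwa [h1] at h2

theorem has_zero_left (f : Dual F V) : Has H 0 f := by
  intro h
  have : transvection h = 1 := by
    refine LinearEquiv.ext fun x => ?_
    rw [tv_apply]; simp
  rw [this]; exact H.one_mem

theorem Has.add_right {v : V} {f g : Dual F V} (h1 : Has H v f) (h2 : Has H v g)
    (hf : f v = 0) (hg : g v = 0) : Has H v (f + g) := by
  intro h
  have : transvection h = transvection hf * transvection hg := by
    refine LinearEquiv.ext fun x => ?_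
    simp only [tv_apply, LinearEquiv.mul_apply, LinearMap.add_apply, map_add, map_smul, hf,
      zero_smul, add_zero, add_smul]
    abel
  rw [this]
  exact H.mul_mem (h1 hf) (h2 hg)

theorem Has.add_left {v w : V} {f : Dual F V} (h1 : Has H v f) (h2 : Has H w f)
    (hf : f v = 0) (hg : f w = 0) : Has H (v + w) f := by
  intro h
  have : transvection h = transvection hf * transvection hg := by
    refine LinearEquiv.ext fun x => ?_
    simp only [tv_apply, LinearEquiv.mul_apply, map_add, map_smul, hg, zero_smul,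
      add_zero, smul_add]
    abel
  rw [this]
  exact H.mul_mem (h1 hf) (h2 hg)

theorem Has.conj {v : V} {f : Dual F V} (h : Has H v f) {s : V ≃ₗ[F] V} (hs : s ∈ H) :
    Has H (s v) (f ∘ₗ (s.symm : V →ₗ[F] V)) := by
  intro h1
  have h2 : f v = 0 := by simpa only [_root_.LinearMap.coe_comp, _root_.LinearEquiv.coe_coe, _root_.Function.comp_apply, _root_.LinearEquiv.symm_apply_apply] using h1
  have : transvection h1 = s * transvection h2 * s⁻¹ := by
    refine LinearEquiv.ext fun x => ?_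
    have e : s⁻¹ x = s.symm x := rfl
    simp only [tv_apply, LinearEquiv.mul_apply, e, map_add, map_smul, LinearEquiv.apply_symm_apply,
      LinearMap.comp_apply, LinearEquiv.coe_coe]
  rw [this]
  exact H.mul_mem (H.mul_mem hs (h h2)) (H.inv_mem hs)

/-- the commutator formula. -/
theorem Has.comm {v w : V} {f g : Dual F V} (h1 : Has H v f) (h2 : Has H w g)
    (hf : f v = 0) (hg : g w = 0) (hgv : g v = 0) : Has H v (f w • g) := by
  intro h
  have : transvection h =
      transvection hf * transvection hg * (transvection hf)⁻¹ * (transvection hg)⁻¹ := by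
    refine LinearEquiv.ext fun x => ?_
    simp only [tv_apply, tv_inv, LinearEquiv.mul_apply, LinearMap.smul_apply, map_add, map_sub,
      map_smul, hf, hg, hgv, smul_eq_mul]
    module
  rw [this]
  exact H.mul_mem (H.mul_mem (H.mul_mem (h1 hf) (h2 hg)) (H.inv_mem (h1 hf))) (H.inv_mem (h2 hg))

/-- a scaled form of the commutator formula: if all multiples of `f` are allowed. -/
theorem Has.comm' {v w : V} {f g : Dual F V} (h1 : ∀ c : F, Has H v (c • f)) (h2 : Has H w g)
    (hf : f v = 0) (hg : g w = 0) (hgv : g v = 0) (hfw : f w ≠ 0) : Has H v g := by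
  have := Has.comm (h1 (f w)⁻¹) h2 (by simp [hf]) hg hgv
  rw [LinearMap.smul_apply, smul_eq_mul, inv_mul_cancel₀ hfw, one_smul] at this
  exact this

/-- there is a functional vanishing at `u` and equal to one at `w`. -/
theorem exists_dual {u w : V} (h : w ∉ Submodule.span F {u}) :
    ∃ f : Dual F V, f u = 0 ∧ f w = 1 := by
  obtain ⟨f, hf1, hf2⟩ := Submodule.exists_dual_map_eq_bot_of_notMem h inferInstance
  have hu : f u = 0 := by
    have h1 : f u ∈ Submodule.map f (Submodule.span F {u}) :=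
      ⟨u, Submodule.mem_span_singleton_self u, rfl⟩
    rw [hf2] at h1
    simpa only [_root_.Submodule.mem_bot] using h1
  refine ⟨(f w)⁻¹ • f, by simp [hu], by simp [hf1]⟩

/-- **The S-trick.** If `H` contains all transvections with vector in `U₁` or in `U₂` and
`U₁ + U₂ = V`, then it contains all transvections. -/
theorem has_all_of_two {U₁ U₂ : Submodule F V} (hU : U₁ ⊔ U₂ = ⊤)
    (h1 : ∀ u ∈ U₁, ∀ f : Dual F V, Has H u f) (h2 : ∀ u ∈ U₂, ∀ f : Dual F V, Has H u f)
    (p : V) (f : Dual F V) : Has H p f := by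
  intro hp
  have hp2 : p ∈ U₁ ⊔ U₂ := by rw [hU]; trivial
  obtain ⟨u, hu, w, hw, rfl⟩ := Submodule.mem_sup.mp hp2
  by_cases hspan : w ∈ Submodule.span F {u}
  · obtain ⟨c, rfl⟩ := Submodule.mem_span_singleton.mp hspan
    have : u + c • u = (1 + c) • u := by rw [add_smul, one_smul]
    exact h1 _ (by rw [this]; exact U₁.smul_mem _ hu) f hp
  · obtain ⟨h, hh1, hh2⟩ := exists_dual hspan
    have hs := h1 u hu h hh1
    set s : V ≃ₗ[F] V := transvection hh1 with hsdef
    have hsw : s w = u + w := by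
      rw [hsdef, tv_apply, hh2, one_smul, add_comm]
    have h3 : Has H (s w) ((f ∘ₗ (s : V →ₗ[F] V)) ∘ₗ (s.symm : V →ₗ[F] V)) :=
      (h2 w hw (f ∘ₗ (s : V →ₗ[F] V))).conj hs
    have e : (f ∘ₗ (s : V →ₗ[F] V)) ∘ₗ (s.symm : V →ₗ[F] V) = f := by
      ext x; simp
    rw [e, hsw] at h3
    exact h3 hp

end Has

section Two

/-! ### The space `K × K` -/

variable {F : Type u} {K : Type v} [Field F] [Field K] [Algebra F K]

open LinearMap

/-- functionals on `K × K`. -/
def fn (f g : Dual F K) : Dual F (K × K) := f ∘ₗ LinearMap.fst F K K + g ∘ₗ LinearMap.snd F K K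

@[simp] theorem fn_apply (f g : Dual F K) (x : K × K) : fn f g x = f x.1 + g x.2 := rfl

theorem fn_eta (h : Dual F (K × K)) :
    h = fn (h ∘ₗ LinearMap.inl F K K) (h ∘ₗ LinearMap.inr F K K) := by
  refine LinearMap.ext fun x => ?_
  rw [fn_apply, LinearMap.comp_apply, LinearMap.comp_apply, ← map_add]
  congr 1
  simp

/-- `f ∘ (c * ·)` -/
def mulf (f : Dual F K) (c : K) : Dual F K := f ∘ₗ LinearMap.mulLeft F c

@[simp] theorem mulf_apply (f : Dual F K) (c x : K) : mulf f c x = f (c * x) := rfl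

variable {H : Subgroup ((K × K) ≃ₗ[F] (K × K))}

/-- `u ∉ F v` for `v ≠ 0`, and a nonzero functional: elements of its kernel outside a line. -/
theorem exists_ker_notMem [FiniteDimensional F K] (h3 : 3 ≤ finrank F K) (f : Dual F K) (u : K) :
    ∃ x : K, f x = 0 ∧ x ∉ Submodule.span F {u} := by
  by_contra hcon
  push Not at hcon
  have h1 : LinearMap.ker f ≤ Submodule.span F {u} := fun x hx => hcon x hx
  have h2 := Submodule.finrank_mono h1
  have h4 : finrank F (Submodule.span F {u}) ≤ 1 := (finrank_span_le_card ({u} : Set K)).trans (by simp)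
  have h5 := LinearMap.finrank_range_add_finrank_ker f
  have h6 : finrank F (LinearMap.range f) ≤ 1 := by
    have := Submodule.finrank_le (LinearMap.range f)
    simpa using this
  omega

theorem exists_ker_ne_zero [FiniteDimensional F K] (h2 : 2 ≤ finrank F K) (f : Dual F K) :
    ∃ x : K, f x = 0 ∧ x ≠ 0 := by
  by_contra hcon
  push Not at hcon
  have h1 : LinearMap.ker f = ⊥ := (Submodule.eq_bot_iff _).mpr fun x hx => hcon x hx
  have h5 := LinearMap.finrank_range_add_finrank_ker f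
  rw [h1, finrank_bot, add_zero] at h5
  have h6 : finrank F (LinearMap.range f) ≤ 1 := by
    have := Submodule.finrank_le (LinearMap.range f)
    simpa using this
  omega

/-- **Step 4, first half.** `γ, δ` distinct and nonzero; the group contains the transvections of
`SL(U₁; W₁)`, `U₁ = K × 0`, `W₁ = 0 × K`, and of `SL(U₂; W₂)`, `U₂ = {(x, γ x)}`,
`W₂ = {(x, δ x)}`: it contains all transvections with vector in `U₁`. -/
theorem has_left [FiniteDimensional F K] (h3 : 3 ≤ finrank F K) {γ δ : K}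
    (h1 : ∀ (u : K) (f : Dual F K), Has H (u, 0) (fn f 0))
    (h2 : ∀ (x : K) (f : Dual F K), Has H (x, γ * x) (fn (-mulf f δ) f))
    (u : K) (h : Dual F (K × K)) : Has H (u, 0) h := by
  -- `R₁`
  have R1 : ∀ (u : K) (f : Dual F K), f (δ * u) = 0 → Has H (u, 0) (fn (-mulf f δ) f) := by
    intro u f hf
    obtain ⟨x, hx1, hx2⟩ := exists_ker_notMem h3 (mulf f (γ - δ)) u
    obtain ⟨g, hg1, hg2⟩ := exists_dual hx2
    refine Has.comm' (w := (x, γ * x)) (f := fn g 0) (fun c => ?_) (h2 x f) ?_ ?_ ?_ ?_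
    · have : c • fn g (0 : Dual F K) = fn (c • g) 0 := by
        refine LinearMap.ext fun y => ?_
        simp
      rw [this]; exact h1 u _
    · simp [hg1]
    · simp only [mulf_apply, sub_mul, map_sub] at hx1
      simp only [fn_apply, LinearMap.neg_apply, mulf_apply]
      linear_combination hx1
    · simp only [hf, _root_.Cfsg.Agent.H917.FP.fn_apply, _root_.LinearMap.neg_apply, _root_.Cfsg.Agent.H917.FP.mulf_apply, _root_.neg_zero, _root_.map_zero, _root_.add_zero]
    · simp [hg2]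
  have R2 : ∀ (u : K) (f : Dual F K), f (δ * u) = 0 → Has H (u, 0) (fn 0 f) := by
    intro u f hf
    have e : fn (0 : Dual F K) f = fn (-mulf f δ) f + fn (mulf f δ) 0 := by
      refine LinearMap.ext fun y => ?_
      simp only [_root_.Cfsg.Agent.H917.FP.fn_apply, _root_.LinearMap.zero_apply, _root_.zero_add, _root_.LinearMap.add_apply, _root_.LinearMap.neg_apply, _root_.Cfsg.Agent.H917.FP.mulf_apply, _root_.add_zero, _root_.neg_add_cancel_comm]
    rw [e]
    exact (R1 u f hf).add_right (h1 u _) (by simp only [hf, _root_.Cfsg.Agent.H917.FP.fn_apply, _root_.LinearMap.neg_apply, _root_.Cfsg.Agent.H917.FP.mulf_apply, _root_.neg_zero, _root_.map_zero, _root_.add_zero]) (by simp [hf])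
  have R3 : ∀ (u : K) (f : Dual F K), Has H (u, 0) (fn 0 f) := by
    intro u f
    by_cases hf : f (δ * u) = 0
    · exact R2 u f hf
    · obtain ⟨v, hv1, hv2⟩ := exists_ker_ne_zero (by omega) (mulf f δ)
      have hvu : v ∉ Submodule.span F {u} := by
        intro hmem
        obtain ⟨c, rfl⟩ := Submodule.mem_span_singleton.mp hmem
        rcases eq_or_ne c 0 with rfl | hc
        · exact hv2 (zero_smul _ _)
        · apply hf
          rw [mulf_apply, Algebra.mul_smul_comm, map_smul, smul_eq_mul] at hv1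
          exact (mul_eq_zero.mp hv1).resolve_left hc
      obtain ⟨g, hg1, hg2⟩ := exists_dual hvu
      refine Has.comm' (w := (v, 0)) (f := fn g 0) (fun c => ?_) (R2 v f hv1) ?_ ?_ ?_ ?_
      · have : c • fn g (0 : Dual F K) = fn (c • g) 0 := by
          refine LinearMap.ext fun y => ?_
          simp
        rw [this]; exact h1 u _
      · simp [hg1]
      · simp only [_root_.Cfsg.Agent.H917.FP.fn_apply, _root_.LinearMap.zero_apply, _root_.map_zero, _root_.add_zero]
      · simp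
      · simp [hg2]
  rw [fn_eta h]
  intro hu
  have e : fn (h ∘ₗ LinearMap.inl F K K) (h ∘ₗ LinearMap.inr F K K) =
      fn (h ∘ₗ LinearMap.inl F K K) 0 + fn 0 (h ∘ₗ LinearMap.inr F K K) := by
    refine LinearMap.ext fun y => ?_
    simp only [fn_apply, LinearMap.add_apply, LinearMap.zero_apply, add_zero, zero_add]
  revert hu
  rw [e]
  intro hu
  refine (Has.add_right (h1 u _) (R3 u _) ?_ ?_) hu
  · rw [LinearMap.add_apply, fn_apply, fn_apply] at hu
    simpa only [LinearMap.zero_apply, map_zero, add_zero, fn_apply] using hu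
  · rw [fn_apply, LinearMap.zero_apply, map_zero, add_zero]

/-- conjugation of the group. -/
theorem has_conj_iff {V : Type*} [AddCommGroup V] [Module F V] {H : Subgroup (V ≃ₗ[F] V)}
    (s : V ≃ₗ[F] V) {v : V} {f : Dual F V} :
    Has (H.map (MulAut.conj s⁻¹).toMonoidHom) v f ↔ Has H (s v) (f ∘ₗ (s.symm : V →ₗ[F] V)) := by
  have e : s⁻¹ = s.symm := rfl
  constructor
  · intro h h1
    have h2 : f v = 0 := by simpa only [_root_.LinearMap.coe_comp, _root_.LinearEquiv.coe_coe, _root_.Function.comp_apply, _root_.LinearEquiv.symm_apply_apply] using h1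
    obtain ⟨t, ht, ht2⟩ := h h2
    have : _root_.LinearEquiv.transvection h1 = t := by
      have h3 : t = s * _root_.LinearEquiv.transvection h2 * s⁻¹ := by
        rw [← ht2]
        change t = s * (s⁻¹ * t * s⁻¹⁻¹) * s⁻¹
        group
      rw [h3]
      refine LinearEquiv.ext fun x => ?_
      simp only [tv_apply, LinearEquiv.mul_apply, e, map_add, map_smul,
        LinearEquiv.apply_symm_apply, LinearMap.comp_apply, LinearEquiv.coe_coe]
    rw [this]; exact ht
  · intro h h2
    have h1 : (f ∘ₗ (s.symm : V →ₗ[F] V)) (s v) = 0 := by simpa only [_root_.LinearMap.coe_comp, _root_.LinearEquiv.coe_coe, _root_.Function.comp_apply, _root_.LinearEquiv.symm_apply_apply] using h2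
    refine ⟨_root_.LinearEquiv.transvection h1, h h1, ?_⟩
    change s⁻¹ * _root_.LinearEquiv.transvection h1 * s⁻¹⁻¹ = _
    rw [inv_inv]
    refine LinearEquiv.ext fun x => ?_
    simp only [tv_apply, LinearEquiv.mul_apply, e, map_add, map_smul,
      LinearEquiv.symm_apply_apply, LinearMap.comp_apply, LinearEquiv.coe_coe]

/-- the natural action of `SL₂(K)` on `K × K`, as a group of `F`-linear maps. -/
noncomputable def act (F : Type u) (K : Type v) [Field F] [Field K] [Algebra F K] :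
    Matrix.SpecialLinearGroup (Fin 2) K →* ((K × K) ≃ₗ[F] (K × K)) where
  toFun g :=
    { toFun := fun x => (g.1 0 0 * x.1 + g.1 0 1 * x.2, g.1 1 0 * x.1 + g.1 1 1 * x.2)
      invFun := fun x => (g.1 1 1 * x.1 - g.1 0 1 * x.2, - g.1 1 0 * x.1 + g.1 0 0 * x.2)
      map_add' := fun x y => by
        ext <;> simp only [Prod.fst_add, Prod.snd_add] <;> ring
      map_smul' := fun c x => by
        ext <;> simp only [Prod.smul_fst, Prod.smul_snd, Algebra.mul_smul_comm, smul_add,
          RingHom.id_apply]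
      left_inv := fun x => by
        have h := g.2
        rw [Matrix.det_fin_two] at h
        ext
        · linear_combination x.1 * h
        · linear_combination x.2 * h
      right_inv := fun x => by
        have h := g.2
        rw [Matrix.det_fin_two] at h
        ext
        · linear_combination x.1 * h
        · linear_combination x.2 * h }
  map_one' := by
    refine LinearEquiv.ext fun x => ?_
    ext <;> simp only [_root_.Fin.isValue, _root_.Matrix.SpecialLinearGroup.coe_one, _root_.Matrix.one_apply_eq, _root_.one_mul, _root_.ne_eq, _root_.zero_ne_one, _root_.not_false_eq_true, _root_.Matrix.one_apply_ne, _root_.MulZeroClass.zero_mul, _root_.add_zero, _root_.one_ne_zero, _root_.zero_add, _root_.Prod.mk.eta, _root_.sub_zero, _root_.neg_zero, _root_.LinearEquiv.coe_mk, _root_.LinearMap.coe_mk, _root_.AddHom.coe_mk, _root_.LinearEquiv.coe_one, _root_.id_eq]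
  map_mul' g h := by
    refine LinearEquiv.ext fun x => ?_
    ext
    · change (g.1 * h.1) 0 0 * x.1 + (g.1 * h.1) 0 1 * x.2 =
        g.1 0 0 * (h.1 0 0 * x.1 + h.1 0 1 * x.2) + g.1 0 1 * (h.1 1 0 * x.1 + h.1 1 1 * x.2)
      rw [Matrix.mul_apply, Matrix.mul_apply, Fin.sum_univ_two, Fin.sum_univ_two]
      ring
    · change (g.1 * h.1) 1 0 * x.1 + (g.1 * h.1) 1 1 * x.2 =
        g.1 1 0 * (h.1 0 0 * x.1 + h.1 0 1 * x.2) + g.1 1 1 * (h.1 1 0 * x.1 + h.1 1 1 * x.2)
      rw [Matrix.mul_apply, Matrix.mul_apply, Fin.sum_univ_two, Fin.sum_univ_two]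
      ring

theorem act_apply (g : Matrix.SpecialLinearGroup (Fin 2) K) (x : K × K) :
    act F K g x = (g.1 0 0 * x.1 + g.1 0 1 * x.2, g.1 1 0 * x.1 + g.1 1 1 * x.2) := rfl

theorem act_symm_apply (g : Matrix.SpecialLinearGroup (Fin 2) K) (x : K × K) :
    (act F K g).symm x = (g.1 1 1 * x.1 - g.1 0 1 * x.2, - g.1 1 0 * x.1 + g.1 0 0 * x.2) := rfl

/-- **Step 4, one side.** -/
theorem has_left_act [FiniteDimensional F K] (h3 : 3 ≤ finrank F K)
    (g : Matrix.SpecialLinearGroup (Fin 2) K) (ha : g.1 0 0 ≠ 0) (hb : g.1 0 1 ≠ 0)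
    (h1 : ∀ (u : K) (f : Dual F K), Has H (u, 0) (fn f 0))
    (h2 : ∀ (u : K) (f : Dual F K),
      Has H (act F K g (u, 0)) (fn f 0 ∘ₗ ((act F K g).symm : (K × K) →ₗ[F] (K × K))))
    (u : K) (h : Dual F (K × K)) : Has H (u, 0) h := by
  have hdet := g.2
  rw [Matrix.det_fin_two] at hdet
  refine has_left h3 (γ := g.1 1 0 / g.1 0 0) (δ := g.1 1 1 / g.1 0 1) h1 ?_ u h
  intro x f
  have h4 := h2 (x / g.1 0 0) (mulf f (-(1 / g.1 0 1)))
  have e1 : act F K g (x / g.1 0 0, 0) = (x, g.1 1 0 / g.1 0 0 * x) := by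
    rw [act_apply]
    ext
    · simp only [mul_zero, add_zero]; field_simp
    · simp only [mul_zero, add_zero]; field_simp
  have e2 : fn (mulf f (-(1 / g.1 0 1))) 0 ∘ₗ ((act F K g).symm : (K × K) →ₗ[F] (K × K)) =
      fn (-mulf f (g.1 1 1 / g.1 0 1)) f := by
    refine LinearMap.ext fun y => ?_
    rw [LinearMap.comp_apply, LinearEquiv.coe_coe, act_symm_apply, fn_apply, fn_apply,
      LinearMap.zero_apply, add_zero, mulf_apply, LinearMap.neg_apply, mulf_apply, ← map_neg,
      ← map_add]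
    congr 1
    field_simp
    ring
  rw [e1, e2] at h4
  exact h4

/-- **Step 4.** `g ∈ SL₂(K)` with four nonzero entries: the block `SL(K × 0; 0 × K)` and its
conjugate by `g` generate `SL(K × K)` (all transvections). -/
theorem has_all_act [FiniteDimensional F K] (h3 : 3 ≤ finrank F K)
    (g : Matrix.SpecialLinearGroup (Fin 2) K) (hg : ∀ i j, g.1 i j ≠ 0)
    (h1 : ∀ (u : K) (f : Dual F K), Has H (u, 0) (fn f 0))
    (h2 : ∀ (u : K) (f : Dual F K),
      Has H (act F K g (u, 0)) (fn f 0 ∘ₗ ((act F K g).symm : (K × K) →ₗ[F] (K × K))))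
    (p : K × K) (h : Dual F (K × K)) : Has H p h := by
  have hA := has_left_act h3 g (hg 0 0) (hg 0 1) h1 h2
  -- the conjugate group
  set s : (K × K) ≃ₗ[F] (K × K) := act F K g with hs
  set H' : Subgroup ((K × K) ≃ₗ[F] (K × K)) := H.map (MulAut.conj s⁻¹).toMonoidHom with hH'
  have hginv : act F K g⁻¹ = s⁻¹ := map_inv _ _
  have hB := has_left_act (H := H') h3 g⁻¹ (by
      rw [Matrix.SpecialLinearGroup.SL2_inv_expl]; simpa using hg 1 1) (by
      rw [Matrix.SpecialLinearGroup.SL2_inv_expl]; simpa only [_root_.Fin.isValue, _root_.Matrix.cons_val', _root_.Matrix.cons_val_one, _root_.Matrix.cons_val_fin_one, _root_.Matrix.cons_val_zero, _root_.ne_eq, _root_.neg_eq_zero] using hg 0 1)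
    (fun u f => (has_conj_iff s).mpr (h2 u f)) (fun u f => by
      rw [has_conj_iff, hginv]
      have e1 : s ((s⁻¹) (u, (0 : K))) = (u, 0) := s.apply_symm_apply _
      have e2 : (fn f (0 : Dual F K) ∘ₗ ((s⁻¹).symm : (K × K) →ₗ[F] (K × K))) ∘ₗ
          (s.symm : (K × K) →ₗ[F] (K × K)) = fn f 0 := by
        refine LinearMap.ext fun y => ?_
        change fn f 0 (s (s.symm y)) = _
        rw [s.apply_symm_apply]
      rw [e1, e2]
      exact h1 u f)
  refine has_all_of_two (U₁ := LinearMap.ker (LinearMap.snd F K K))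
    (U₂ := (LinearMap.ker (LinearMap.snd F K K)).map (s : (K × K) →ₗ[F] (K × K))) ?_ ?_ ?_ p h
  · rw [eq_top_iff]
    intro y _
    rw [Submodule.mem_sup]
    have hc := hg 1 0
    refine ⟨(y.1 - g.1 0 0 * (y.2 / g.1 1 0), 0), by simp, act F K g (y.2 / g.1 1 0, 0),
      ⟨(y.2 / g.1 1 0, 0), by simp, rfl⟩, ?_⟩
    rw [act_apply]
    ext
    · simp
    · simp only [mul_zero, add_zero, Prod.snd_add, zero_add]
      field_simp
  · rintro ⟨a, b⟩ hu f
    have hb : b = 0 := by simpa using hu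
    subst hb
    exact hA a f
  · rintro _ ⟨⟨a, b⟩, hu, rfl⟩ f
    have hb : b = 0 := by simpa using hu
    subst hb
    have h4 := (has_conj_iff s).mp (hB a (f ∘ₗ (s : (K × K) →ₗ[F] (K × K))))
    have e : (f ∘ₗ (s : (K × K) →ₗ[F] (K × K))) ∘ₗ (s.symm : (K × K) →ₗ[F] (K × K)) = f := by
      refine LinearMap.ext fun y => ?_
      change f (s (s.symm y)) = _
      rw [s.apply_symm_apply]
    rw [e] at h4
    exact h4

end Two

end Cfsg.Agent.H917.FP
end

-- part: H917/FP/Gen2
section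
/-!
Generation of groups of transvections (S5717): the field step and the last (hyperplane) step.
-/

set_option autoImplicit false

namespace Cfsg.Agent.H917.FP

open Module
open LinearEquiv (transvection)

universe u v

section Field

variable {F : Type u} {K : Type v} [Field F] [Field K] [Algebra F K]

variable {H : Subgroup ((K × K) ≃ₗ[F] (K × K))}

/-- every functional on `K` is `f (c · )`. -/
theorem exists_mulf [FiniteDimensional F K] {f : Dual F K} (hf : f ≠ 0) (g : Dual F K) :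
    ∃ c : K, mulf f c = g := by
  let L : K →ₗ[F] Dual F K :=
    { toFun := fun c => mulf f c
      map_add' := fun a b => by
        refine LinearMap.ext fun x => ?_
        simp only [add_mul, _root_.Cfsg.Agent.H917.FP.mulf_apply, _root_.map_add, _root_.LinearMap.add_apply]
      map_smul' := fun r a => by
        refine LinearMap.ext fun x => ?_
        simp only [_root_.Cfsg.Agent.H917.FP.mulf_apply, _root_.Algebra.smul_mul_assoc, _root_.map_smul, _root_.smul_eq_mul, _root_.RingHom.id_apply, _root_.LinearMap.smul_apply] }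
  have hinj : Function.Injective L := by
    rw [← LinearMap.ker_eq_bot, Submodule.eq_bot_iff]
    intro c hc
    by_contra hc0
    apply hf
    refine LinearMap.ext fun x => ?_
    have h1 : mulf f c (c⁻¹ * x) = 0 := by
      have : L c = 0 := hc
      change (L c) (c⁻¹ * x) = 0
      rw [this]; rfl
    rw [mulf_apply, mul_inv_cancel_left₀ hc0] at h1
    rw [h1]; rfl
  have hfin : finrank F K = finrank F (Dual F K) := (Subspace.dual_finrank_eq (K := F) (V := K)).symm
  have hsurj : Function.Surjective L :=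
    (LinearMap.injective_iff_surjective_of_finrank_eq_finrank hfin).mp hinj
  exact hsurj g

/-- `[[1, c], [0, 1]]` -/
def up (c : K) : Matrix.SpecialLinearGroup (Fin 2) K :=
  ⟨!![1, c; 0, 1], by rw [Matrix.det_fin_two_of]; ring⟩

/-- `[[c, 0], [0, c⁻¹]]` -/
def dg (c : K) (hc : c ≠ 0) : Matrix.SpecialLinearGroup (Fin 2) K :=
  ⟨!![c, 0; 0, c⁻¹], by rw [Matrix.det_fin_two_of, mul_inv_cancel₀ hc]; ring⟩

/-- `[[0, -1], [1, 0]]` -/
def wy : Matrix.SpecialLinearGroup (Fin 2) K :=
  ⟨!![0, -1; 1, 0], by rw [Matrix.det_fin_two_of]; ring⟩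

theorem act_up (c : K) (x : K × K) : act F K (up c) x = (x.1 + c * x.2, x.2) := by
  rw [act_apply]; simp only [up, _root_.Fin.isValue, _root_.Matrix.of_apply, _root_.Matrix.cons_val', _root_.Matrix.cons_val_zero, _root_.Matrix.cons_val_fin_one, _root_.one_mul, _root_.Matrix.cons_val_one, _root_.MulZeroClass.zero_mul, _root_.zero_add]

theorem act_dg (c : K) (hc : c ≠ 0) (x : K × K) :
    act F K (dg c hc) x = (c * x.1, c⁻¹ * x.2) := by
  rw [act_apply]; simp only [dg, _root_.Fin.isValue, _root_.Matrix.of_apply, _root_.Matrix.cons_val', _root_.Matrix.cons_val_zero, _root_.Matrix.cons_val_fin_one, _root_.Matrix.cons_val_one, _root_.MulZeroClass.zero_mul, _root_.add_zero, _root_.zero_add]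

theorem act_dg_symm (c : K) (hc : c ≠ 0) (x : K × K) :
    (act F K (dg c hc)).symm x = (c⁻¹ * x.1, c * x.2) := by
  rw [act_symm_apply]; simp only [dg, _root_.Fin.isValue, _root_.Matrix.of_apply, _root_.Matrix.cons_val', _root_.Matrix.cons_val_one, _root_.Matrix.cons_val_fin_one, _root_.Matrix.cons_val_zero, _root_.MulZeroClass.zero_mul, _root_.sub_zero, _root_.neg_zero, _root_.zero_add]

theorem act_wy (x : K × K) : act F K wy x = (-x.2, x.1) := by
  rw [act_apply]; simp [wy]

theorem act_wy_symm (x : K × K) : (act F K wy).symm x = (x.2, -x.1) := by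
  rw [act_symm_apply]; simp [wy]

/-- **Step 3.** A group containing `SL₂(K)` and its conjugate by one block transvection contains
all transvections of `K × K`. -/
theorem has_all_field [FiniteDimensional F K] {u : K} {f : Dual F K} (hu : u ≠ 0) (hf : f ≠ 0)
    (hfu : fn f 0 (u, (0 : K)) = 0) (h1 : ∀ g, act F K g ∈ H)
    (h2 : ∀ g, transvection hfu * act F K g * (transvection hfu)⁻¹ ∈ H)
    (p : K × K) (h : Dual F (K × K)) : Has H p h := by
  -- the transvections with vector in `K × 0` and functional on `0 × K`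
  have A1 : ∀ g : Dual F K, Has H (u, 0) (fn 0 g) := by
    intro g hg
    obtain ⟨c, rfl⟩ := exists_mulf hf g
    have h3 : transvection hfu * act F K (up c) * (transvection hfu)⁻¹ * (act F K (up c))⁻¹ ∈ H :=
      H.mul_mem (h2 _) (H.inv_mem (h1 _))
    have e : transvection hfu * act F K (up c) * (transvection hfu)⁻¹ * (act F K (up c))⁻¹ =
        transvection hg := by
      rw [mul_inv_eq_iff_eq_mul]
      refine LinearEquiv.ext fun x => ?_
      have hfu' : f u = 0 := by simpa only [_root_.Cfsg.Agent.H917.FP.fn_apply, _root_.LinearMap.zero_apply, _root_.add_zero] using hfu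
      have e1 : ∀ z : K × K, (transvection hfu)⁻¹ z = (z.1 - f z.1 • u, z.2) := by
        intro z; rw [tv_inv]; ext <;> simp only [_root_.Cfsg.Agent.H917.FP.fn_apply, _root_.LinearMap.zero_apply, _root_.add_zero, _root_.Prod.smul_mk, _root_.smul_zero, _root_.Prod.fst_sub, _root_.Prod.snd_sub, _root_.sub_zero]
      have e2 : ∀ z : K × K, transvection hfu z = (z.1 + f z.1 • u, z.2) := by
        intro z; rw [tv_apply]; ext <;> simp
      have e3 : ∀ z : K × K, transvection hg z = (z.1 + f (c * z.2) • u, z.2) := by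
        intro z; rw [tv_apply]; ext <;> simp only [_root_.Cfsg.Agent.H917.FP.fn_apply, _root_.LinearMap.zero_apply, _root_.Cfsg.Agent.H917.FP.mulf_apply, _root_.zero_add, _root_.Prod.smul_mk, _root_.smul_zero, _root_.Prod.fst_add, _root_.Prod.snd_add, _root_.add_zero]
      rw [LinearEquiv.mul_apply, LinearEquiv.mul_apply, LinearEquiv.mul_apply, e1, act_up, e2, act_up, e3]
      simp only [map_add, map_sub, map_smul, hfu', smul_zero, sub_zero]
      ext
      · simp only
        module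
      · rfl
    rw [e] at h3
    exact h3
  have A2 : ∀ (v : K) (g : Dual F K), Has H (v, 0) (fn 0 g) := by
    intro v g
    rcases eq_or_ne v 0 with rfl | hv
    · exact has_zero_left _
    · have hc : v / u ≠ 0 := div_ne_zero hv hu
      have h3 := (A1 (mulf g (v / u)⁻¹)).conj (h1 (dg (v / u) hc))
      have e1 : act F K (dg (v / u) hc) (u, 0) = (v, 0) := by
        rw [act_dg]; ext
        · simp only; field_simp
        · simp
      have e2 : fn 0 (mulf g (v / u)⁻¹) ∘ₗ ((act F K (dg (v / u) hc)).symm : (K × K) →ₗ[F] (K × K)) =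
          fn 0 g := by
        refine LinearMap.ext fun y => ?_
        rw [LinearMap.comp_apply, LinearEquiv.coe_coe, act_dg_symm, fn_apply, fn_apply,
          LinearMap.zero_apply, LinearMap.zero_apply, zero_add, zero_add, mulf_apply]
        congr 1
        rw [inv_mul_cancel_left₀ hc]
      rw [e1, e2] at h3
      exact h3
  have A3 : ∀ (v : K) (g : Dual F K), Has H (0, v) (fn g 0) := by
    intro v g
    have h3 := (A2 v (-g)).conj (h1 wy)
    have e1 : act F K wy (v, 0) = (0, v) := by rw [act_wy]; simp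
    have e2 : fn 0 (-g) ∘ₗ ((act F K wy).symm : (K × K) →ₗ[F] (K × K)) = fn g 0 := by
      refine LinearMap.ext fun y => ?_
      rw [LinearMap.comp_apply, LinearEquiv.coe_coe, act_wy_symm, fn_apply, fn_apply]
      simp only [_root_.LinearMap.zero_apply, _root_.LinearMap.neg_apply, _root_.map_neg, _root_.neg_neg, _root_.zero_add, _root_.add_zero]
    rw [e1, e2] at h3
    exact h3
  -- vector in `K × 0`, functional on `K × 0`
  have A4 : ∀ (v : K) (g : Dual F K), Has H (v, 0) (fn g 0) := by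
    intro v g hgv
    obtain ⟨k, -, hk⟩ := exists_dual (F := F) (u := (0 : K)) (w := (1 : K)) (by
      simp only [_root_.Submodule.span_zero_singleton, _root_.Submodule.mem_bot, _root_.one_ne_zero, _root_.not_false_eq_true])
    refine Has.comm' (w := (0, 1)) (f := fn 0 k) (fun c => ?_) (A3 1 g) ?_ ?_ ?_ ?_ hgv
    · have : c • fn (0 : Dual F K) k = fn 0 (c • k) := by
        refine LinearMap.ext fun y => ?_
        simp
      rw [this]; exact A2 v _
    · simp only [_root_.Cfsg.Agent.H917.FP.fn_apply, _root_.LinearMap.zero_apply, _root_.map_zero, _root_.add_zero]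
    · simp
    · exact hgv
    · simp [hk]
  have A5 : ∀ (v : K) (g : Dual F K), Has H (0, v) (fn 0 g) := by
    intro v g hgv
    obtain ⟨k, -, hk⟩ := exists_dual (F := F) (u := (0 : K)) (w := (1 : K)) (by
      simp only [_root_.Submodule.span_zero_singleton, _root_.Submodule.mem_bot, _root_.one_ne_zero, _root_.not_false_eq_true])
    refine Has.comm' (w := (1, 0)) (f := fn k 0) (fun c => ?_) (A2 1 g) ?_ ?_ ?_ ?_ hgv
    · have : c • fn k (0 : Dual F K) = fn (c • k) 0 := by
        refine LinearMap.ext fun y => ?_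
        simp
      rw [this]; exact A3 v _
    · simp only [_root_.Cfsg.Agent.H917.FP.fn_apply, _root_.map_zero, _root_.LinearMap.zero_apply, _root_.add_zero]
    · simp
    · exact hgv
    · simp [hk]
  have B1 : ∀ (v : K) (k : Dual F (K × K)), Has H (v, 0) k := by
    intro v k hk
    have e : k = fn (k ∘ₗ LinearMap.inl F K K) 0 + fn 0 (k ∘ₗ LinearMap.inr F K K) := by
      refine LinearMap.ext fun y => ?_
      conv_lhs => rw [fn_eta k]
      simp only [fn_apply, LinearMap.add_apply, LinearMap.zero_apply, add_zero, zero_add]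
    revert hk
    rw [e]
    intro hk
    refine (Has.add_right (A4 v _) (A2 v _) ?_ ?_) hk
    · rw [LinearMap.add_apply, fn_apply, fn_apply] at hk
      simpa only [LinearMap.zero_apply, map_zero, add_zero, fn_apply] using hk
    · rw [fn_apply, LinearMap.zero_apply, map_zero, add_zero]
  have B2 : ∀ (v : K) (k : Dual F (K × K)), Has H (0, v) k := by
    intro v k hk
    have e : k = fn (k ∘ₗ LinearMap.inl F K K) 0 + fn 0 (k ∘ₗ LinearMap.inr F K K) := by
      refine LinearMap.ext fun y => ?_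
      conv_lhs => rw [fn_eta k]
      simp only [fn_apply, LinearMap.add_apply, LinearMap.zero_apply, add_zero, zero_add]
    revert hk
    rw [e]
    intro hk
    refine (Has.add_right (A3 v _) (A5 v _) ?_ ?_) hk
    · rw [fn_apply, LinearMap.zero_apply, map_zero, add_zero]
    · rw [LinearMap.add_apply, fn_apply, fn_apply] at hk
      simpa only [LinearMap.zero_apply, map_zero, zero_add, fn_apply] using hk
  refine has_all_of_two (U₁ := LinearMap.ker (LinearMap.snd F K K))
    (U₂ := LinearMap.ker (LinearMap.fst F K K)) ?_ ?_ ?_ p h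
  · rw [eq_top_iff]
    intro y _
    rw [Submodule.mem_sup]
    exact ⟨(y.1, 0), by simp, (0, y.2), by simp, by simp⟩
  · rintro ⟨a, b⟩ hu f
    have hb : b = 0 := by simpa using hu
    subst hb
    exact B1 a f
  · rintro ⟨a, b⟩ hu f
    have hb : a = 0 := by simpa using hu
    subst hb
    exact B2 b f

end Field

section Hyp

variable {F : Type u} {V : Type v} [Field F] [AddCommGroup V] [Module F V]
variable {H : Subgroup (V ≃ₗ[F] V)}

/-- **The last step, first half.** -/
theorem has_hyp [FiniteDimensional F V] {U : Submodule F V} {e u : V} {ε : Dual F V}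
    (hU : LinearMap.ker ε = U) (he : ε e = 1) (h3 : 3 ≤ finrank F U) (hu : u ∈ U) (hu0 : u ≠ 0)
    (h1 : ∀ v ∈ U, ∀ f : Dual F V, f e = 0 → Has H v f)
    (h2 : ∀ v ∈ U, ∀ f : Dual F V, f (e + u) = 0 → Has H v f)
    (v : V) (hv : v ∈ U) (f : Dual F V) : Has H v f := by
  have hεU : ∀ x ∈ U, ε x = 0 := fun x hx => by rw [← hU] at hx; exact hx
  -- the generic case
  have gen : ∀ v ∈ U, u ∉ Submodule.span F {v} → ∀ f : Dual F V, Has H v f := by
    intro v hv huv f hfv
    obtain ⟨g, hg1, hg2⟩ := exists_dual huv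
    set k : Dual F V := ε - (g - g e • ε) with hk
    have hke : k e = 1 := by simp [hk, he]
    have hku : k u = -1 := by simp [hk, hεU u hu, hg2]
    have hkv : k v = 0 := by simp [hk, hεU v hv, hg1]
    have e1 : f = (f - f e • k) + f e • k := by abel
    revert hfv
    rw [e1]
    intro hfv
    have hfv' : f v = 0 := by
      rw [← e1] at hfv; exact hfv
    refine (Has.add_right (h1 v hv _ ?_) (h2 v hv _ ?_) ?_ ?_) hfv
    · simp [hke]
    · simp [hke, hku]
    · simp [hfv', hkv]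
    · simp [hkv]
  by_cases huv : u ∈ Submodule.span F {v}
  · obtain ⟨c, rfl⟩ := Submodule.mem_span_singleton.mp huv
    have hc : c ≠ 0 := fun h => hu0 (by rw [h, zero_smul])
    intro hfv
    -- a vector of `U ∩ ker f` outside `F v`
    obtain ⟨w, hwU, hwf, hwv⟩ : ∃ w ∈ U, f w = 0 ∧ w ∉ Submodule.span F {v} := by
      by_contra hcon
      push Not at hcon
      have h4 : LinearMap.ker (f.domRestrict U) ≤ (Submodule.span F {v}).comap U.subtype := by
        intro x hx
        exact hcon x.1 x.2 hx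
      have h5 := Submodule.finrank_mono h4
      have h6 : finrank F ((Submodule.span F {v}).comap U.subtype) ≤ 1 := by
        have h7 : finrank F ((Submodule.span F {v}).comap U.subtype) ≤
            finrank F (Submodule.span F {v}) := by
          rw [← Submodule.finrank_map_subtype_eq U]
          exact Submodule.finrank_mono (Submodule.map_comap_le _ _)
        exact h7.trans ((finrank_span_le_card ({v} : Set V)).trans (by simp))
      have h8 := LinearMap.finrank_range_add_finrank_ker (f.domRestrict U)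
      have h9 : finrank F (LinearMap.range (f.domRestrict U)) ≤ 1 := by
        have := Submodule.finrank_le (LinearMap.range (f.domRestrict U))
        simpa using this
      omega
    have k1 : c • v ∉ Submodule.span F {w} := by
      intro hmem
      obtain ⟨a, ha⟩ := Submodule.mem_span_singleton.mp hmem
      have ha0 : a ≠ 0 := by
        rintro rfl
        rw [zero_smul] at ha
        exact hu0 ha.symm
      apply hwv
      rw [Submodule.mem_span_singleton]
      refine ⟨a⁻¹ * c, ?_⟩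
      rw [mul_smul, ← ha, smul_smul, inv_mul_cancel₀ ha0, one_smul]
    have k2 : c • v ∉ Submodule.span F {v - w} := by
      intro hmem
      obtain ⟨a, ha⟩ := Submodule.mem_span_singleton.mp hmem
      have ha0 : a ≠ 0 := by
        rintro rfl
        rw [zero_smul] at ha
        exact hu0 ha.symm
      apply hwv
      rw [Submodule.mem_span_singleton]
      refine ⟨1 - a⁻¹ * c, ?_⟩
      have : (a⁻¹ * c) • v = v - w := by
        rw [mul_smul, ← ha, smul_smul, inv_mul_cancel₀ ha0, one_smul]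
      rw [sub_smul, one_smul, this]
      abel
    have h4 := Has.add_left (gen (v - w) (U.sub_mem hv hwU) k2 f) (gen w hwU k1 f)
      (by rw [map_sub, hfv, hwf, sub_zero]) hwf
    rw [sub_add_cancel] at h4
    exact h4 hfv
  · exact gen v hv huv f

end Hyp

end Cfsg.Agent.H917.FP
end

-- part: H917/FP/TV
section
/-!
The group `TV F V` generated by the transvections of `V`, its block subgroups, and the inequalities
of the doubling steps (S5717).
-/

set_option autoImplicit false

namespace Cfsg.Agent.H917.FP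

open Module
open LinearEquiv (transvection)

universe u v w

section Def

variable (F : Type u) (V : Type v) [Field F] [AddCommGroup V] [Module F V]

/-- the group generated by the transvections. -/
def TV : Subgroup (V ≃ₗ[F] V) := Subgroup.closure (LinearEquiv.transvections F V)

variable {F V}

theorem tv_mem {f : Dual F V} {v : V} (h : f v = 0) : transvection h ∈ TV F V :=
  Subgroup.subset_closure ⟨f, v, h, rfl⟩

/-- the transvection as an element of `TV F V`. -/
def tt {f : Dual F V} {v : V} (h : f v = 0) : TV F V := ⟨transvection h, tv_mem h⟩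

/-- a subgroup of `TV F V` containing all transvections is everything. -/
theorem eq_top_of_has {H : Subgroup (TV F V)}
    (h : ∀ (v : V) (f : Dual F V) (h : f v = 0), tt h ∈ H) : H = ⊤ := by
  have h1 : TV F V ≤ H.map (TV F V).subtype := by
    unfold TV
    rw [Subgroup.closure_le]
    rintro _ ⟨f, v, hf, rfl⟩
    exact ⟨tt hf, h v f hf, rfl⟩
  rw [eq_top_iff]
  intro x _
  obtain ⟨y, hy, hy2⟩ := h1 x.2
  have : y = x := Subtype.ext hy2
  rwa [← this]

/-- set version, for closures. -/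
theorem closure_eq_top_of_has {A : Set (TV F V)}
    (h : ∀ (v : V) (f : Dual F V),
      Has ((Subgroup.closure A).map (TV F V).subtype) v f) : Subgroup.closure A = ⊤ := by
  refine eq_top_of_has fun v f hf => ?_
  obtain ⟨y, hy, hy2⟩ := h v f hf
  have : y = tt hf := Subtype.ext hy2
  rwa [← this]

theorem mem_map_iff {A : Subgroup (TV F V)} (x : TV F V) :
    (x : V ≃ₗ[F] V) ∈ A.map (TV F V).subtype ↔ x ∈ A := by
  constructor
  · rintro ⟨y, hy, hy2⟩
    have : y = x := Subtype.ext hy2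
    rwa [← this]
  · intro hx; exact ⟨x, hx, rfl⟩

end Def

section Block

variable {F : Type u} {A : Type v} {M : Type w} {V : Type*} [Field F] [AddCommGroup A] [Module F A]
  [AddCommGroup M] [Module F M] [AddCommGroup V] [Module F V]

/-- the block embedding `GL(A) → GL(V)`, `V ≅ A × M`. -/
def bhE (e : (A × M) ≃ₗ[F] V) : (A ≃ₗ[F] A) →* (V ≃ₗ[F] V) where
  toFun g := (e.symm ≪≫ₗ (g.prodCongr (LinearEquiv.refl F M))) ≪≫ₗ e
  map_one' := by
    refine LinearEquiv.ext fun x => ?_
    change e ((1 : A ≃ₗ[F] A) (e.symm x).1, (e.symm x).2) = x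
    change e ((e.symm x).1, (e.symm x).2) = x
    rw [Prod.mk.eta, e.apply_symm_apply]
  map_mul' g h := by
    refine LinearEquiv.ext fun x => ?_
    change e (g (h (e.symm x).1), (e.symm x).2) =
      e (g (e.symm (e (h (e.symm x).1, (e.symm x).2))).1,
        (e.symm (e (h (e.symm x).1, (e.symm x).2))).2)
    rw [e.symm_apply_apply]

theorem bhE_apply (e : (A × M) ≃ₗ[F] V) (g : A ≃ₗ[F] A) (x : V) :
    bhE e g x = e (g (e.symm x).1, (e.symm x).2) := rfl

/-- the functional `f ∘ fst ∘ e⁻¹`. -/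
def lf (e : (A × M) ≃ₗ[F] V) (f : Dual F A) : Dual F V :=
  (f ∘ₗ LinearMap.fst F A M) ∘ₗ (e.symm : V →ₗ[F] (A × M))

@[simp] theorem lf_apply (e : (A × M) ≃ₗ[F] V) (f : Dual F A) (x : V) :
    lf e f x = f (e.symm x).1 := rfl

theorem bhE_tv (e : (A × M) ≃ₗ[F] V) {f : Dual F A} {a : A} (h : f a = 0)
    (h' : lf e f (e (a, 0)) = 0) : bhE e (transvection h) = transvection h' := by
  refine LinearEquiv.ext fun x => ?_
  apply e.symm.injective
  rw [bhE_apply, tv_apply, tv_apply, lf_apply, ← map_smul, map_add, LinearEquiv.symm_apply_apply,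
    LinearEquiv.symm_apply_apply]
  ext <;> simp

theorem lf_zero (e : (A × M) ≃ₗ[F] V) {f : Dual F A} {a : A} (h : f a = 0) :
    lf e f (e (a, 0)) = 0 := by
  rw [lf_apply, e.symm_apply_apply]; exact h

/-- the block embedding `TV A → TV V`. -/
def bh (e : (A × M) ≃ₗ[F] V) : TV F A →* TV F V :=
  ((bhE e).comp (TV F A).subtype).codRestrict (TV F V) (by
    intro x
    have h1 : TV F A ≤ (TV F V).comap (bhE e) := by
      unfold TV
      rw [Subgroup.closure_le]
      rintro _ ⟨f, v, hf, rfl⟩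
      change bhE e (transvection hf) ∈ TV F V
      rw [bhE_tv e hf (lf_zero e hf)]
      exact tv_mem _
    exact h1 x.2)

theorem bh_coe (e : (A × M) ≃ₗ[F] V) (x : TV F A) : (bh e x : V ≃ₗ[F] V) = bhE e x := rfl

theorem bh_tt (e : (A × M) ≃ₗ[F] V) {f : Dual F A} {a : A} (h : f a = 0) :
    bh e (tt h) = tt (lf_zero e h) := Subtype.ext (bhE_tv e h (lf_zero e h))

end Block

section Act

variable {F : Type u} {K : Type v} [Field F] [Field K] [Algebra F K]

/-- the shear `(x, y) ↦ (x + φ y, y)`. -/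
def shear (φ : K →ₗ[F] K) : (K × K) ≃ₗ[F] (K × K) where
  toFun x := (x.1 + φ x.2, x.2)
  invFun x := (x.1 - φ x.2, x.2)
  map_add' x y := by
    ext
    · simp only [Prod.fst_add, Prod.snd_add, map_add]; abel
    · simp
  map_smul' c x := by
    ext
    · simp [smul_add]
    · simp
  left_inv x := by ext <;> simp
  right_inv x := by ext <;> simp

theorem shear_mem [FiniteDimensional F K] (φ : K →ₗ[F] K) : shear φ ∈ TV F (K × K) := by
  have hadd : ∀ φ ψ : K →ₗ[F] K, shear (φ + ψ) = shear φ * shear ψ := by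
    intro φ ψ
    refine LinearEquiv.ext fun x => ?_
    change (x.1 + (φ + ψ) x.2, x.2) = ((x.1 + ψ x.2) + φ x.2, x.2)
    rw [LinearMap.add_apply]
    ext
    · simp only; abel
    · rfl
  have hzero : shear (0 : K →ₗ[F] K) = 1 := by
    refine LinearEquiv.ext fun x => ?_
    change (x.1 + 0, x.2) = x
    rw [add_zero]
  set b := Module.finBasis F K
  have hφ : φ = ∑ i, (b.coord i).smulRight (φ (b i)) := by
    refine LinearMap.ext fun x => ?_
    rw [LinearMap.sum_apply]
    conv_lhs => rw [← b.sum_repr x, map_sum]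
    refine Finset.sum_congr rfl fun i _ => ?_
    rw [map_smul, LinearMap.smulRight_apply, Basis.coord_apply]
  rw [hφ]
  refine Finset.sum_induction _ (fun ψ => shear ψ ∈ TV F (K × K)) (fun φ ψ h1 h2 => ?_) ?_ ?_
  · rw [hadd]; exact (TV F (K × K)).mul_mem h1 h2
  · rw [hzero]; exact (TV F (K × K)).one_mem
  · intro i _
    have h1 : fn (0 : Dual F K) (b.coord i) (φ (b i), (0 : K)) = 0 := by simp only [_root_.Cfsg.Agent.H917.FP.fn_apply, _root_.LinearMap.zero_apply, _root_.Module.Basis.coord_apply, _root_.map_zero, _root_.Finsupp.coe_zero, _root_.Pi.zero_apply, _root_.add_zero]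
    have : shear ((b.coord i).smulRight (φ (b i))) = transvection h1 := by
      refine LinearEquiv.ext fun x => ?_
      rw [tv_apply]
      change (x.1 + (b.coord i).smulRight (φ (b i)) x.2, x.2) = _
      ext <;> simp
    rw [this]
    exact tv_mem _

theorem act_up_mem [FiniteDimensional F K] (c : K) : act F K (up c) ∈ TV F (K × K) := by
  have : act F K (up c) = shear (LinearMap.mulLeft F c) := by
    refine LinearEquiv.ext fun x => ?_
    rw [act_up]; rfl
  rw [this]; exact shear_mem _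

/-- `[[1, 0], [c, 1]]` -/
def lo (c : K) : Matrix.SpecialLinearGroup (Fin 2) K :=
  ⟨!![1, 0; c, 1], by rw [Matrix.det_fin_two_of]; ring⟩

/-- the shear `(x, y) ↦ (x, y + φ x)`. -/
theorem act_lo_mem [FiniteDimensional F K] (c : K) : act F K (lo c) ∈ TV F (K × K) := by
  -- conjugate by the swap
  let s : (K × K) ≃ₗ[F] (K × K) := LinearEquiv.prodComm F K K
  have hs : TV F (K × K) ≤ (TV F (K × K)).comap (MulAut.conj s).toMonoidHom := by
    conv_lhs => unfold TV
    rw [Subgroup.closure_le]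
    rintro _ ⟨f, v, hf, rfl⟩
    change s * transvection hf * s⁻¹ ∈ TV F (K × K)
    have h1 : (f ∘ₗ (s.symm : (K × K) →ₗ[F] (K × K))) (s v) = 0 := by simpa only [_root_.LinearMap.coe_comp, _root_.LinearEquiv.coe_coe, _root_.Function.comp_apply, _root_.LinearEquiv.symm_apply_apply] using hf
    have : s * transvection hf * s⁻¹ = transvection h1 := by
      refine LinearEquiv.ext fun x => ?_
      have e : s⁻¹ x = s.symm x := rfl
      simp only [tv_apply, LinearEquiv.mul_apply, e, map_add, map_smul,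
        LinearEquiv.apply_symm_apply, LinearMap.comp_apply, LinearEquiv.coe_coe]
    rw [this]; exact tv_mem _
  have h2 := hs (act_up_mem (F := F) c)
  have h3 : (MulAut.conj s).toMonoidHom (act F K (up c)) = act F K (lo c) := by
    refine LinearEquiv.ext fun x => ?_
    change s (act F K (up c) (s.symm x)) = _
    rw [act_up, act_apply]
    change (x.1, x.2 + c * x.1) = _
    simp [lo, add_comm]
  rw [Subgroup.mem_comap, h3] at h2
  exact h2

theorem act_mem [FiniteDimensional F K] (g : Matrix.SpecialLinearGroup (Fin 2) K) :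
    act F K g ∈ TV F (K × K) := by
  -- lower left entry nonzero
  have key : ∀ g : Matrix.SpecialLinearGroup (Fin 2) K, g.1 1 0 ≠ 0 → act F K g ∈ TV F (K × K) := by
    intro g hc
    have hdet := g.2
    rw [Matrix.det_fin_two] at hdet
    have : g = up ((g.1 0 0 - 1) / g.1 1 0) * lo (g.1 1 0) * up ((g.1 1 1 - 1) / g.1 1 0) := by
      apply Subtype.ext
      change g.1 = !![1, (g.1 0 0 - 1) / g.1 1 0; 0, 1] * !![1, 0; g.1 1 0, 1] *
        !![1, (g.1 1 1 - 1) / g.1 1 0; 0, 1]
      rw [Matrix.mul_fin_two, Matrix.mul_fin_two]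
      ext i j
      fin_cases i <;> fin_cases j
      · simp only [Fin.zero_eta, Matrix.of_apply, Matrix.cons_val', Matrix.cons_val_zero,
          Matrix.cons_val_fin_one]
        field_simp
        ring
      · simp only [Fin.zero_eta, Fin.mk_one, Matrix.of_apply, Matrix.cons_val', Matrix.cons_val_zero,
          Matrix.cons_val_one, Matrix.cons_val_fin_one]
        field_simp
        linear_combination -hdet
      · simp only [_root_.Fin.mk_one, _root_.Fin.isValue, _root_.Fin.zero_eta, _root_.mul_one, _root_.MulZeroClass.mul_zero, _root_.zero_add, _root_.add_zero, _root_.one_mul, _root_.Matrix.of_apply, _root_.Matrix.cons_val', _root_.Matrix.cons_val_zero, _root_.Matrix.cons_val_fin_one, _root_.Matrix.cons_val_one]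
      · simp only [Fin.mk_one, Matrix.of_apply, Matrix.cons_val', Matrix.cons_val_one,
          Matrix.cons_val_fin_one]
        field_simp
        ring
    rw [this, map_mul, map_mul]
    exact (TV F (K × K)).mul_mem ((TV F (K × K)).mul_mem (act_up_mem _) (act_lo_mem _)) (act_up_mem _)
  by_cases hc : g.1 1 0 = 0
  · have hdet := g.2
    rw [Matrix.det_fin_two, hc, mul_zero, sub_zero] at hdet
    have hd : g.1 1 1 ≠ 0 := fun h => by rw [h, mul_zero] at hdet; exact zero_ne_one hdet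
    have h1 : (g * lo 1).1 1 0 ≠ 0 := by
      change (g.1 * !![1, 0; 1, 1] : Matrix (Fin 2) (Fin 2) K) 1 0 ≠ 0
      rw [Matrix.mul_apply, Fin.sum_univ_two]
      simpa [hc] using hd
    have h2 := key _ h1
    rw [map_mul] at h2
    have h3 := (TV F (K × K)).mul_mem h2 ((TV F (K × K)).inv_mem (act_lo_mem (F := F) (1 : K)))
    rwa [mul_inv_cancel_right] at h3
  · exact key g hc

/-- `SL₂(K) → TV F (K × K)`. -/
noncomputable def actT (F : Type u) (K : Type v) [Field F] [Field K] [Algebra F K] [FiniteDimensional F K] :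
    Matrix.SpecialLinearGroup (Fin 2) K →* TV F (K × K) :=
  (act F K).codRestrict (TV F (K × K)) act_mem

end Act

end Cfsg.Agent.H917.FP
end

private theorem dce_3d2538a1ebf9 : _root_.True := by
  try have : _root_.True := by simp only [_root_.Cfsg.Agent.H917.FP.wy.eq_1]
  try have : _root_.True := by simp only [_root_.Cfsg.Agent.H917.FP.lo.eq_1]
  try have : _root_.True := by simp only [_root_.Cfsg.Agent.H917.FP.up.eq_1]
  try have : _root_.True := by simp only [_root_.Cfsg.Agent.H917.FP.dg.eq_1]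
  exact _root_.True.intro
end

-- part: H917/FP/Steps
section
prune_inst 0x357065416d62020010000500920004e57a000592004004006c470d060dc9c6628002a821bbb005175aa29084403c002813dc0030c20000c00a000400011c058110801204b1480100220096000000000000000000000000000000000000030000200000000
set_option linter.all false
open scoped Cfsg.Agent.FastGrp

/-!
The inequalities of the doubling steps (S5717).
-/

set_option autoImplicit false

namespace Cfsg.Agent.H917.FP

open Module
open LinearEquiv (transvection)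

universe u v w x

theorem card_SL2 {F : Type u} [Field F] [Finite F] : Nat.card (Matrix.SpecialLinearGroup (Fin 2) F) =
    Nat.card F * (Nat.card F ^ 2 - 1) := by
  have : Fintype F := Fintype.ofFinite F
  have h1 := Cfsg.Agent.S0242.result (F := F) rfl 2 (by norm_num)
  have hq : 2 ≤ Fintype.card F := Fintype.one_lt_card
  rw [Fin.prod_univ_two] at h1
  have h3 : Fintype.card F ^ 2 - Fintype.card F ^ 1 = (Fintype.card F - 1) * Fintype.card F := by
    rw [Nat.sub_mul, one_mul, pow_one, pow_two]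
  simp only [Fin.val_zero, Fin.val_one, pow_zero] at h1
  rw [h3] at h1
  have h4 : (Fintype.card F - 1) * Nat.card (Matrix.SpecialLinearGroup (Fin 2) F) =
      (Fintype.card F - 1) * (Fintype.card F * (Fintype.card F ^ 2 - 1)) := by rw [h1]; ring
  rw [Nat.card_eq_fintype_card (α := F)]
  exact Nat.eq_of_mul_eq_mul_left (by omega) h4

section KK

variable {F : Type u} {K : Type v} [Field F] [Field K] [Algebra F K]
variable (Ω : Type x)

theorem fpr_univ_of_closure {G : Type*} [Group G] [MulAction G Ω] {A : Set G}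
    (h : Subgroup.closure A = ⊤) : fpr Ω A = fpr Ω (Set.univ : Set G) := by
  rw [← fpr_closure, h]; rfl

theorem fn_ker (f : Dual F K) (u : LinearMap.ker f) : fn f 0 (u.1, (0 : K)) = 0 := by
  have h : f u.1 = 0 := u.2
  simp [h]

/-- the homomorphism `u ↦ t_{(u, 0), f ∘ fst}`. -/
def shF (f : Dual F K) : Multiplicative (LinearMap.ker f) →* TV F (K × K) where
  toFun u := tt (fn_ker f (Multiplicative.toAdd u))
  map_one' := by
    apply Subtype.ext
    refine LinearEquiv.ext fun x => ?_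
    change transvection (fn_ker f 0) x = x
    rw [tv_apply]
    simp
  map_mul' a b := by
    apply Subtype.ext
    refine LinearEquiv.ext fun x => ?_
    have hb : f (Multiplicative.toAdd b : LinearMap.ker f).1 = 0 := (Multiplicative.toAdd b).2
    change transvection (fn_ker f (Multiplicative.toAdd a + Multiplicative.toAdd b)) x =
      transvection (fn_ker f (Multiplicative.toAdd a)) (transvection (fn_ker f (Multiplicative.toAdd b)) x)
    rw [tv_apply, tv_apply, tv_apply]
    simp only [map_add, map_smul, fn_apply, hb, LinearMap.zero_apply, add_zero, smul_zero,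
      Submodule.coe_add]
    ext
    · simp only [Prod.fst_add, Prod.smul_fst]
      module
    · simp only [_root_.Prod.smul_mk, _root_.smul_add, _root_.smul_zero, _root_.Prod.snd_add, _root_.add_zero]

/-- **Step 3.** -/
theorem step3 [Finite F] [Finite K] [FiniteDimensional F K] [MulAction (TV F (K × K)) Ω] [Finite Ω] :
    fpr Ω (Set.range (actT F K)) ^ 2 ≤
      fpr Ω (Set.univ : Set (TV F (K × K))) + 1 / (Nat.card F : ℝ) ^ (finrank F K - 1) := by
  obtain ⟨f, -, hf1⟩ := exists_dual (F := F) (u := (0 : K)) (w := (1 : K)) (by simp only [_root_.Submodule.span_zero_singleton, _root_.Submodule.mem_bot, _root_.one_ne_zero, _root_.not_false_eq_true])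
  have hf0 : f ≠ 0 := fun h => by rw [h] at hf1; exact zero_ne_one hf1
  have hcard : Nat.card (Multiplicative (LinearMap.ker f)) = Nat.card F ^ (finrank F K - 1) := by
    have h1 : finrank F (LinearMap.ker f) = finrank F K - 1 := by
      have h2 := LinearMap.finrank_range_add_finrank_ker f
      have h3 : LinearMap.range f = ⊤ := by
        rw [LinearMap.range_eq_top]
        intro c
        exact ⟨c • 1, by rw [map_smul, hf1, smul_eq_mul, mul_one]⟩
      rw [h3, finrank_top, finrank_self] at h2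
      omega
    rw [Nat.card_congr Multiplicative.toAdd, Module.natCard_eq_pow_finrank (K := F), h1]
  have h := cs_split_hom Ω (shF f) (Set.range (actT F K)) {1}
    (fpr Ω (Set.univ : Set (TV F (K × K)))) (fpr_nonneg _ _) ?_
  · refine h.trans ?_
    rw [hcard]
    simp only [_root_.Nat.card_eq_fintype_card, _root_.Fintype.card_unique, _root_.Nat.cast_one, _root_.Nat.cast_pow, _root_.one_div, _root_.Std.le_refl]
  · intro y hy
    apply le_of_eq
    apply fpr_univ_of_closure
    refine closure_eq_top_of_has fun p k => ?_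
    have hy0 : (Multiplicative.toAdd y : LinearMap.ker f).1 ≠ 0 := by
      intro h0
      apply hy
      have : Multiplicative.toAdd y = 0 := Subtype.ext h0
      exact this
    have hfy : f (Multiplicative.toAdd y : LinearMap.ker f).1 = 0 := (Multiplicative.toAdd y).2
    have hfu : fn f 0 ((Multiplicative.toAdd y : LinearMap.ker f).1, (0 : K)) = 0 := by simp [hfy]
    refine has_all_field hy0 hf0 hfu (fun g => ?_) (fun g => ?_) p k
    · exact ⟨actT F K g, Subgroup.subset_closure (Or.inl ⟨g, rfl⟩), rfl⟩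
    · exact ⟨shF f y * actT F K g * (shF f y)⁻¹,
        Subgroup.subset_closure (Or.inr ⟨actT F K g, ⟨g, rfl⟩, rfl⟩), rfl⟩

/-- the transvections of the left block. -/
def leftT (F : Type u) (K : Type v) [Field F] [Field K] [Algebra F K] : Set (TV F (K × K)) :=
  {t | ∃ (u : K) (f : Dual F K) (h : fn f 0 (u, (0 : K)) = 0), t = tt h}

theorem card_bad [Finite K] :
    Nat.card {g : Matrix.SpecialLinearGroup (Fin 2) K | ∃ i j, g.1 i j = 0} ≤
      4 * (Nat.card K * (Nat.card K - 1)) := by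
  classical
  have := Fintype.ofFinite K
  -- each of the four sets injects into `K × {x // x ≠ 0}`
  have key : ∀ i j : Fin 2, Nat.card {g : Matrix.SpecialLinearGroup (Fin 2) K | g.1 i j = 0} ≤
      Nat.card K * (Nat.card K - 1) := by
    intro i j
    have hc : Nat.card (K × {x : K // x ≠ 0}) = Nat.card K * (Nat.card K - 1) := by
      rw [Nat.card_prod]
      congr 1
      rw [Nat.card_eq_fintype_card, Nat.card_eq_fintype_card, Fintype.card_subtype_compl]
      simp
    rw [← hc]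
    -- the entries
    have h0 : ∀ g : Matrix.SpecialLinearGroup (Fin 2) K,
        g.1 0 0 * g.1 1 1 - g.1 0 1 * g.1 1 0 = 1 := fun g => by
      have := g.2; rwa [Matrix.det_fin_two] at this
    have hext : ∀ g h : Matrix.SpecialLinearGroup (Fin 2) K, g.1 0 0 = h.1 0 0 → g.1 0 1 = h.1 0 1 →
        g.1 1 0 = h.1 1 0 → g.1 1 1 = h.1 1 1 → g = h := by
      intro g h h1 h2 h3 h4
      apply Subtype.ext
      ext a b
      fin_cases a <;> fin_cases b <;> assumption
    fin_cases i <;> fin_cases j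
    · -- `a = 0`: `(d, b)`, `b ≠ 0`
      refine Nat.card_le_card_of_injective (fun g => (g.1.1 1 1, (⟨g.1.1 0 1, fun hb => by
        have h1 := h0 g.1
        have h2 : g.1.1 0 0 = 0 := g.2
        rw [h2, hb, zero_mul, zero_mul, sub_zero] at h1
        exact zero_ne_one h1⟩ : {x : K // x ≠ 0}))) ?_
      intro g h hgh
      simp only [Prod.mk.injEq, Subtype.mk.injEq] at hgh
      have g0 : g.1.1 0 0 = 0 := g.2
      have k0 : h.1.1 0 0 = 0 := h.2
      have g1 := h0 g.1
      have k1 := h0 h.1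
      rw [g0] at g1
      rw [k0] at k1
      have hb : g.1.1 0 1 ≠ 0 := by
        intro hb; rw [hb] at g1; simp only [_root_.Fin.zero_eta, _root_.Fin.isValue, _root_.Set.mem_ofPred_eq, _root_.MulZeroClass.zero_mul, _root_.sub_self, _root_.zero_ne_one] at g1
      apply Subtype.ext
      refine hext _ _ (by rw [g0, k0]) hgh.2 ?_ hgh.1
      rw [← hgh.2] at k1
      have : g.1.1 0 1 * (g.1.1 1 0 - h.1.1 1 0) = 0 := by linear_combination k1 - g1
      exact sub_eq_zero.mp ((mul_eq_zero.mp this).resolve_left hb)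
    · -- `b = 0`: `(c, a)`
      refine Nat.card_le_card_of_injective (fun g => (g.1.1 1 0, (⟨g.1.1 0 0, fun hb => by
        have h1 := h0 g.1
        have h2 : g.1.1 0 1 = 0 := g.2
        rw [h2, hb, zero_mul, zero_mul, sub_zero] at h1
        exact zero_ne_one h1⟩ : {x : K // x ≠ 0}))) ?_
      intro g h hgh
      simp only [Prod.mk.injEq, Subtype.mk.injEq] at hgh
      have g0 : g.1.1 0 1 = 0 := g.2
      have k0 : h.1.1 0 1 = 0 := h.2
      have g1 := h0 g.1
      have k1 := h0 h.1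
      rw [g0] at g1
      rw [k0] at k1
      have hb : g.1.1 0 0 ≠ 0 := by
        intro hb; rw [hb] at g1; simp only [_root_.Fin.zero_eta, _root_.Fin.isValue, _root_.Fin.mk_one, _root_.Set.mem_ofPred_eq, _root_.MulZeroClass.zero_mul, _root_.sub_self, _root_.zero_ne_one] at g1
      apply Subtype.ext
      refine hext _ _ hgh.2 (by rw [g0, k0]) hgh.1 ?_
      rw [← hgh.2] at k1
      have : g.1.1 0 0 * (g.1.1 1 1 - h.1.1 1 1) = 0 := by linear_combination g1 - k1
      exact sub_eq_zero.mp ((mul_eq_zero.mp this).resolve_left hb)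
    · -- `c = 0`: `(b, a)`
      refine Nat.card_le_card_of_injective (fun g => (g.1.1 0 1, (⟨g.1.1 0 0, fun hb => by
        have h1 := h0 g.1
        have h2 : g.1.1 1 0 = 0 := g.2
        rw [h2, hb, zero_mul, mul_zero, sub_zero] at h1
        exact zero_ne_one h1⟩ : {x : K // x ≠ 0}))) ?_
      intro g h hgh
      simp only [Prod.mk.injEq, Subtype.mk.injEq] at hgh
      have g0 : g.1.1 1 0 = 0 := g.2
      have k0 : h.1.1 1 0 = 0 := h.2
      have g1 := h0 g.1
      have k1 := h0 h.1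
      rw [g0] at g1
      rw [k0] at k1
      have hb : g.1.1 0 0 ≠ 0 := by
        intro hb; rw [hb] at g1; simp only [_root_.Fin.mk_one, _root_.Fin.isValue, _root_.Fin.zero_eta, _root_.Set.mem_ofPred_eq, _root_.MulZeroClass.zero_mul, _root_.MulZeroClass.mul_zero, _root_.sub_self, _root_.zero_ne_one] at g1
      apply Subtype.ext
      refine hext _ _ hgh.2 hgh.1 (by rw [g0, k0]) ?_
      rw [← hgh.2] at k1
      have : g.1.1 0 0 * (g.1.1 1 1 - h.1.1 1 1) = 0 := by linear_combination g1 - k1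
      exact sub_eq_zero.mp ((mul_eq_zero.mp this).resolve_left hb)
    · -- `d = 0`: `(a, b)`
      refine Nat.card_le_card_of_injective (fun g => (g.1.1 0 0, (⟨g.1.1 0 1, fun hb => by
        have h1 := h0 g.1
        have h2 : g.1.1 1 1 = 0 := g.2
        rw [h2, hb, mul_zero, zero_mul, sub_zero] at h1
        exact zero_ne_one h1⟩ : {x : K // x ≠ 0}))) ?_
      intro g h hgh
      simp only [Prod.mk.injEq, Subtype.mk.injEq] at hgh
      have g0 : g.1.1 1 1 = 0 := g.2
      have k0 : h.1.1 1 1 = 0 := h.2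
      have g1 := h0 g.1
      have k1 := h0 h.1
      rw [g0] at g1
      rw [k0] at k1
      have hb : g.1.1 0 1 ≠ 0 := by
        intro hb; rw [hb] at g1; simp at g1
      apply Subtype.ext
      refine hext _ _ hgh.1 hgh.2 ?_ (by rw [g0, k0])
      rw [← hgh.2] at k1
      have : g.1.1 0 1 * (g.1.1 1 0 - h.1.1 1 0) = 0 := by linear_combination k1 - g1
      exact sub_eq_zero.mp ((mul_eq_zero.mp this).resolve_left hb)
  have hsub : {g : Matrix.SpecialLinearGroup (Fin 2) K | ∃ i j, g.1 i j = 0} =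
      (({g | g.1 0 0 = 0} ∪ {g | g.1 0 1 = 0}) ∪ {g | g.1 1 0 = 0}) ∪ {g | g.1 1 1 = 0} := by
    ext g
    simp only [Set.mem_ofPred_eq, Set.mem_union, Fin.exists_fin_two, or_assoc]
  rw [hsub, Nat.card_coe_set_eq]
  refine (Set.ncard_union_le _ _).trans ?_
  have e1 := Set.ncard_union_le (({g : Matrix.SpecialLinearGroup (Fin 2) K | g.1 0 0 = 0} ∪
    {g | g.1 0 1 = 0})) {g | g.1 1 0 = 0}
  have e2 := Set.ncard_union_le ({g : Matrix.SpecialLinearGroup (Fin 2) K | g.1 0 0 = 0})
    {g | g.1 0 1 = 0}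
  have f1 := key 0 0
  have f2 := key 0 1
  have f3 := key 1 0
  have f4 := key 1 1
  rw [Nat.card_coe_set_eq] at f1 f2 f3 f4
  omega

/-- **Step 4.** -/
theorem step4 [Finite F] [Finite K] [FiniteDimensional F K] (h3 : 3 ≤ finrank F K)
    [MulAction (TV F (K × K)) Ω] [Finite Ω] :
    fpr Ω (leftT F K) ^ 2 ≤
      fpr Ω (Set.univ : Set (TV F (K × K))) + 4 / (Nat.card K : ℝ) := by
  have h := cs_split_hom Ω (actT F K) (leftT F K)
    {g : Matrix.SpecialLinearGroup (Fin 2) K | ∃ i j, g.1 i j = 0}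
    (fpr Ω (Set.univ : Set (TV F (K × K)))) (fpr_nonneg _ _) ?_
  · refine h.trans ?_
    have hQ : 2 ≤ Nat.card K := Finite.one_lt_card
    have h1 : (Nat.card {g : Matrix.SpecialLinearGroup (Fin 2) K | ∃ i j, g.1 i j = 0} : ℝ) ≤
        4 * (Nat.card K * ((Nat.card K : ℝ) - 1)) := by
      have := card_bad (K := K)
      have h2 : ((Nat.card {g : Matrix.SpecialLinearGroup (Fin 2) K | ∃ i j, g.1 i j = 0} : ℕ) : ℝ) ≤
          ((4 * (Nat.card K * (Nat.card K - 1)) : ℕ) : ℝ) := by exact_mod_cast this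
      rw [Nat.cast_mul, Nat.cast_mul, Nat.cast_sub (by omega)] at h2
      simpa only [_root_.Fin.exists_fin_two, _root_.Fin.isValue, _root_.Nat.card_coe_set_eq, _root_.ge_iff_le, _root_.Nat.cast_ofNat, _root_.Nat.cast_one] using h2
    have h2 : (Nat.card (Matrix.SpecialLinearGroup (Fin 2) K) : ℝ) =
        Nat.card K * ((Nat.card K : ℝ) ^ 2 - 1) := by
      rw [card_SL2, Nat.cast_mul, Nat.cast_sub (Nat.one_le_pow _ _ (by omega))]
      simp only [_root_.Nat.cast_pow, _root_.Nat.cast_one]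
    have hQ' : (2 : ℝ) ≤ Nat.card K := by exact_mod_cast hQ
    rw [h2]
    have h4 : (Nat.card {g : Matrix.SpecialLinearGroup (Fin 2) K | ∃ i j, g.1 i j = 0} : ℝ) /
        (Nat.card K * ((Nat.card K : ℝ) ^ 2 - 1)) ≤ 4 / (Nat.card K : ℝ) := by
      rw [div_le_div_iff₀ (by nlinarith only [hQ']) (by linarith only [hQ'])]
      nlinarith only [h1]
    linarith only [h4]
  · intro g hg
    apply le_of_eq
    apply fpr_univ_of_closure
    refine closure_eq_top_of_has fun p k => ?_
    have hg' : ∀ i j, g.1 i j ≠ 0 := fun i j h0 => hg ⟨i, j, h0⟩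
    refine has_all_act h3 g hg' (fun u f h => ?_) (fun u f h => ?_) p k
    · exact ⟨tt h, Subgroup.subset_closure (Or.inl ⟨u, f, h, rfl⟩), rfl⟩
    · have h1 : fn f 0 (u, (0 : K)) = 0 := by simpa only [_root_.Cfsg.Agent.H917.FP.fn_apply, _root_.LinearMap.zero_apply, _root_.add_zero, _root_.LinearMap.coe_comp, _root_.LinearEquiv.coe_coe, _root_.Function.comp_apply, _root_.LinearEquiv.symm_apply_apply] using h
      refine ⟨actT F K g * tt h1 * (actT F K g)⁻¹,
        Subgroup.subset_closure (Or.inr ⟨tt h1, ⟨u, f, h1, rfl⟩, rfl⟩), ?_⟩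
      change act F K g * transvection h1 * (act F K g)⁻¹ = _
      refine LinearEquiv.ext fun x => ?_
      have e : (act F K g)⁻¹ x = (act F K g).symm x := rfl
      simp only [tv_apply, LinearEquiv.mul_apply, e, map_add, map_smul,
        LinearEquiv.apply_symm_apply, LinearMap.comp_apply, LinearEquiv.coe_coe]

end KK

end Cfsg.Agent.H917.FP
end

-- part: H920/FP/G7_mg
section
prune_inst 0x355045007d62000010000586930004247e00009200600400cc030d46058947224042a960bfa034075a2aa204083d002002dc00b0c04000c00e000400011c05811080020421400100200096000080000000000000000000000000000000030004200000000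
set_option linter.all false
open scoped Cfsg.Agent.FastGrp

-- part: H920/FP/G7
section
/-!
# From `x` to non-central elements of `SL₂(K)` (helper920, S5717)
-/

set_option autoImplicit false
set_option linter.unusedSectionVars false

namespace Cfsg.Agent.H920.FP

open Cfsg.Agent.H917.FP

section

variable {K : Type*} [Field K]

/-- lower unitriangular matrices as a homomorphism -/
def loH (K : Type*) [Field K] : Multiplicative K →* Matrix.SpecialLinearGroup (Fin 2) K where
  toFun c := lo (Multiplicative.toAdd c)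
  map_one' := by
    apply Subtype.ext
    show !![1, 0; (0 : K), 1] = (1 : Matrix (Fin 2) (Fin 2) K)
    rw [Matrix.one_fin_two]
  map_mul' a b := by
    apply Subtype.ext
    show !![1, 0; Multiplicative.toAdd a + Multiplicative.toAdd b, 1] =
      !![1, 0; Multiplicative.toAdd a, 1] * !![1, 0; Multiplicative.toAdd b, 1]
    rw [Matrix.mul_fin_two]
    simp

theorem lo_inv (c : K) : (lo c)⁻¹ = lo (-c) := by
  have h := map_inv (loH K) (Multiplicative.ofAdd c)
  exact h.symm

/-- the commutator of `lo c` with `y` is central only when `y` is lower triangular -/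
theorem comm_central {c : K} (hc : c ≠ 0) (y : Matrix.SpecialLinearGroup (Fin 2) K)
    (h : (lo c)⁻¹ * y * lo c * y⁻¹ ∈ Subgroup.center (Matrix.SpecialLinearGroup (Fin 2) K)) : y.1 0 1 = 0 := by
  have h1 : ∀ z : Matrix.SpecialLinearGroup (Fin 2) K, (lo c)⁻¹ * y * lo c * y⁻¹ * z = z * ((lo c)⁻¹ * y * lo c * y⁻¹) :=
    fun z => (Subgroup.mem_center_iff.1 h z).symm
  have h2 := h1 (lo c)⁻¹
  have h3 := h1 y
  -- `[c⁻¹, y] = z` central: `y c y⁻¹ = c z`; compare with the entries
  set z := (lo c)⁻¹ * y * lo c * y⁻¹ with hz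
  have hyz : y * lo c = lo c * z * y := by rw [hz]; group
  have hz01 : z.1 0 1 = 0 := by
    have h4 := h1 (lo 1)
    have h5 := congrArg (fun g => g.1 0 0) h4
    simp only [Matrix.SpecialLinearGroup.coe_mul, Matrix.mul_apply, Fin.sum_univ_two] at h5
    simp [lo] at h5
    exact h5
  have hz10 : z.1 1 0 = 0 := by
    have h4 := h1 (up 1)
    have h5 := congrArg (fun g => g.1 0 0) h4
    simp only [Matrix.SpecialLinearGroup.coe_mul, Matrix.mul_apply, Fin.sum_univ_two] at h5
    simp [up] at h5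
    exact h5
  have hzz : z.1 0 0 = z.1 1 1 := by
    have h4 := h1 (up 1)
    have h5 := congrArg (fun g => g.1 0 1) h4
    simp only [Matrix.SpecialLinearGroup.coe_mul, Matrix.mul_apply, Fin.sum_univ_two] at h5
    simp only [up, _root_.Fin.isValue, _root_.Matrix.of_apply, _root_.Matrix.cons_val', _root_.Matrix.cons_val_one, _root_.Matrix.cons_val_fin_one, _root_.Matrix.cons_val_zero, _root_.mul_one, _root_.one_mul] at h5
    linear_combination h5
  have e00 := congrArg (fun g => g.1 0 0) hyz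
  have e01 := congrArg (fun g => g.1 0 1) hyz
  have e10 := congrArg (fun g => g.1 1 0) hyz
  have e11 := congrArg (fun g => g.1 1 1) hyz
  simp only [Matrix.SpecialLinearGroup.coe_mul, Matrix.mul_apply, Fin.sum_univ_two] at e00 e01 e10 e11
  simp only [lo, hz01, hz10, _root_.Fin.isValue, _root_.Matrix.of_apply, _root_.Matrix.cons_val', _root_.Matrix.cons_val_zero, _root_.Matrix.cons_val_fin_one, _root_.mul_one, _root_.Matrix.cons_val_one, _root_.one_mul, _root_.MulZeroClass.mul_zero, _root_.add_zero, _root_.MulZeroClass.zero_mul, _root_.zero_add] at e00 e01 e10 e11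
  have hy := y.2
  have hzd := z.2
  rw [Matrix.det_fin_two] at hy hzd
  by_contra hq
  have hz1 : z.1 0 0 = 1 := by
    have : (z.1 0 0 - 1) * y.1 0 1 = 0 := by linear_combination -e01
    exact sub_eq_zero.1 ((mul_eq_zero.1 this).resolve_right hq)
  rw [hz1, one_mul] at e00
  have : y.1 0 1 * c = 0 := by linear_combination e00
  exact hq ((mul_eq_zero.1 this).resolve_right hc)

/-- **from `x` to non-central elements of `SL₂(K)`** -/
theorem fpr_of_commute [Finite K] {G : Type*} [Group G] (Ω : Type*) [MulAction G Ω] [Finite Ω]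
    (φ : Matrix.SpecialLinearGroup (Fin 2) K →* G) (x : G) (hx : ∀ c y, Commute (x * φ (lo c) * x⁻¹) (φ y)) {δ : ℝ}
    (hδ : 0 ≤ δ)
    (hz : ∀ z, z ∉ Subgroup.center (Matrix.SpecialLinearGroup (Fin 2) K) → fpr Ω {φ z} ≤ δ) :
    fpr Ω {x} ^ 4 ≤ 2 * δ + 10 / (Nat.card K : ℝ) := by
  have hQ : 2 ≤ Nat.card K := Finite.one_lt_card
  have hQ' : (2 : ℝ) ≤ Nat.card K := by exact_mod_cast hQ
  -- the second commutator
  have hb : ∀ c : K, c ≠ 0 → fpr Ω {x * (φ (lo c) * x⁻¹ * (φ (lo c))⁻¹)} ^ 2 ≤ δ + 4 / (Nat.card K : ℝ) := by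
    intro c hc
    set A := x * φ (lo c) * x⁻¹ with hA
    have hAc : ∀ y, A * φ y = φ y * A := fun y => hx c y
    have e1 : x * (φ (lo c) * x⁻¹ * (φ (lo c))⁻¹) = A * (φ (lo c))⁻¹ := by rw [hA]; group
    rw [e1]
    have h := cs_comm_hom Ω φ (A * (φ (lo c))⁻¹)
      {g : Matrix.SpecialLinearGroup (Fin 2) K | ∃ i j, g.1 i j = 0} δ hδ ?_
    · refine h.trans ?_
      have h1 : (Nat.card {g : Matrix.SpecialLinearGroup (Fin 2) K | ∃ i j, g.1 i j = 0} : ℝ) ≤
          4 * (Nat.card K * ((Nat.card K : ℝ) - 1)) := by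
        have := card_bad (K := K)
        have h2 : ((Nat.card {g : Matrix.SpecialLinearGroup (Fin 2) K | ∃ i j, g.1 i j = 0} : ℕ) : ℝ) ≤
            ((4 * (Nat.card K * (Nat.card K - 1)) : ℕ) : ℝ) := by exact_mod_cast this
        rw [Nat.cast_mul, Nat.cast_mul, Nat.cast_sub (by omega)] at h2
        simpa only [_root_.Fin.exists_fin_two, _root_.Fin.isValue, _root_.Nat.card_coe_set_eq, _root_.ge_iff_le, _root_.Nat.cast_ofNat, _root_.Nat.cast_one] using h2
      have h2 : (Nat.card (Matrix.SpecialLinearGroup (Fin 2) K) : ℝ) =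
          Nat.card K * ((Nat.card K : ℝ) ^ 2 - 1) := by
        rw [card_SL2, Nat.cast_mul, Nat.cast_sub (Nat.one_le_pow _ _ (by omega))]
        simp only [_root_.Nat.cast_pow, _root_.Nat.cast_one]
      rw [h2]
      have h4 : (Nat.card {g : Matrix.SpecialLinearGroup (Fin 2) K | ∃ i j, g.1 i j = 0} : ℝ) /
          (Nat.card K * ((Nat.card K : ℝ) ^ 2 - 1)) ≤ 4 / (Nat.card K : ℝ) := by
        rw [div_le_div_iff₀ (by nlinarith only [hQ']) (by linarith only [hQ'])]
        nlinarith only [h1]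
      linarith only [h4]
    · intro y hy
      have e2 : A * (φ (lo c))⁻¹ * (φ y * (A * (φ (lo c))⁻¹)⁻¹ * (φ y)⁻¹) = φ ((lo c)⁻¹ * y * lo c * y⁻¹) := by
        rw [map_mul, map_mul, map_mul, map_inv, map_inv]
        have h1 : A * (φ (lo c))⁻¹ * (φ y * (A * (φ (lo c))⁻¹)⁻¹ * (φ y)⁻¹) =
            A * ((φ (lo c))⁻¹ * φ y * φ (lo c)) * A⁻¹ * (φ y)⁻¹ := by group
        have h2 : (φ (lo c))⁻¹ * φ y * φ (lo c) = φ ((lo c)⁻¹ * y * lo c) := by
          rw [map_mul, map_mul, map_inv]
        rw [h1, h2, hAc, mul_inv_cancel_right]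
      rw [e2]
      apply hz
      intro hcen
      exact hy ⟨0, 1, comm_central hc y hcen⟩
  -- the first commutator
  have hd : 0 ≤ δ + 4 / (Nat.card K : ℝ) := by positivity
  have ha := cs_comm_hom Ω (φ.comp (loH K)) x {1} (√(δ + 4 / (Nat.card K : ℝ))) (Real.sqrt_nonneg _) (by
    intro c hc
    have hc0 : Multiplicative.toAdd c ≠ 0 := fun h => hc h
    exact Real.le_sqrt_of_sq_le (hb _ hc0))
  have hcard : (Nat.card (Multiplicative K) : ℝ) = Nat.card K := by
    rw [Nat.card_congr Multiplicative.toAdd]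
  rw [hcard] at ha
  have h1 : (Nat.card ({1} : Set (Multiplicative K)) : ℝ) = 1 := by simp
  rw [h1] at ha
  set r := √(δ + 4 / (Nat.card K : ℝ)) with hr
  have hr2 : r ^ 2 = δ + 4 / (Nat.card K : ℝ) := Real.sq_sqrt hd
  have hr0 : 0 ≤ r := Real.sqrt_nonneg _
  have hQi : 0 ≤ 1 / (Nat.card K : ℝ) := by positivity
  have hQi1 : 1 / (Nat.card K : ℝ) ≤ 1 := by
    rw [div_le_one (by linarith only [hQ'])]; linarith only [hQ']
  have hx2 : 0 ≤ fpr Ω {x} ^ 2 := by positivity
  calc fpr Ω {x} ^ 4 = (fpr Ω {x} ^ 2) ^ 2 := by ring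
    _ ≤ (r + 1 / (Nat.card K : ℝ)) ^ 2 := by gcongr
    _ ≤ 2 * r ^ 2 + 2 * (1 / (Nat.card K : ℝ)) ^ 2 := by linarith only [_root_.sq_nonneg (1 * r - 1 * (1 / ↑(Nat.card K)) : ℝ)]
    _ ≤ 2 * r ^ 2 + 2 * (1 / (Nat.card K : ℝ)) := by nlinarith only [hQi, hQi1]
    _ = 2 * δ + 10 / (Nat.card K : ℝ) := by rw [hr2]; ring

end

end Cfsg.Agent.H920.FP
end

-- part: H917/FP/SLTwo
section
/-!
STEP 2 of S5717: the noncentral elements of `SL₂(K)`.
-/

set_option autoImplicit false

namespace Cfsg.Agent.H917.FP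

open Cfsg Cfsg.Agent.H514.DP Matrix

universe u v

section

variable {K : Type u} [Field K] [Fintype K]

theorem minDeg_sl2 (h4 : 4 ≤ Fintype.card K) :
    MinDeg (_root_.Matrix.SpecialLinearGroup (Fin 2) K) ((Fintype.card K - 1) / 2) := by
  intro k ρ hρ hk
  rcases Nat.even_or_odd (Fintype.card K) with he | ho
  · have : CharP K 2 := by
      obtain ⟨p, hp⟩ := CharP.exists K
      have hpp : p.Prime := CharP.char_is_prime K p
      have h1 : 2 ∣ Fintype.card K := he.two_dvd
      obtain ⟨n, -, hn⟩ := FiniteField.card K p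
      rw [hn] at h1
      have h2 := (Nat.prime_dvd_prime_iff_eq Nat.prime_two hpp).mp (Nat.prime_two.dvd_of_dvd_pow h1)
      rw [h2]; exact hp
    have h1 := (S2300.result (F := K)).1 ρ.character ⟨k, ρ, hρ, rfl⟩
    have h2 : ρ.character 1 = (k : ℂ) := by
      rw [Representation.char_one, Module.finrank_fin_fun]
    rw [h2] at h1
    rcases h1 with h | h | h | h
    · have : k = 1 := by exact_mod_cast h
      omega
    · have h' : ((k + 1 : ℕ) : ℂ) = (Fintype.card K : ℂ) := by
        push_cast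
        rw [h]; ring
      have : k + 1 = Fintype.card K := by exact_mod_cast h'
      omega
    · have : k = Fintype.card K := by exact_mod_cast h
      omega
    · have : k = Fintype.card K + 1 := by exact_mod_cast h
      omega
  · have h1 := (S2299.result ho).1 ρ.character ⟨k, ρ, hρ, rfl⟩
    have h2 : ρ.character 1 = (k : ℂ) := by
      rw [Representation.char_one, Module.finrank_fin_fun]
    rw [h2] at h1
    rcases h1 with h | h | h | h | h | h
    · have : k = 1 := by exact_mod_cast h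
      omega
    · have : k = Fintype.card K := by exact_mod_cast h
      omega
    · have : k = Fintype.card K + 1 := by exact_mod_cast h
      omega
    · have h' : ((k + 1 : ℕ) : ℂ) = (Fintype.card K : ℂ) := by
        push_cast
        rw [h]; ring
      have : k + 1 = Fintype.card K := by exact_mod_cast h'
      omega
    · have : k = (Fintype.card K + 1) / 2 := by exact_mod_cast h
      omega
    · have : k = (Fintype.card K - 1) / 2 := by exact_mod_cast h
      omega

/-- the centralizer of a noncentral element. -/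
theorem card_centralizer_sl2 {z : _root_.Matrix.SpecialLinearGroup (Fin 2) K}
    (hz : z ∉ Subgroup.center (_root_.Matrix.SpecialLinearGroup (Fin 2) K)) :
    Nat.card (Subgroup.centralizer ({z} : Set (_root_.Matrix.SpecialLinearGroup (Fin 2) K))) ≤
      2 * Fintype.card K := by
  classical
  -- every commuting matrix is `a + b z`
  have key : ∀ g : _root_.Matrix.SpecialLinearGroup (Fin 2) K, g * z = z * g →
      ∃ a b : K, g.1 = a • (1 : Matrix (Fin 2) (Fin 2) K) + b • z.1 := by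
    intro g hg
    have hm : g.1 * z.1 = z.1 * g.1 := congrArg Subtype.val hg
    have e00 := congrFun (congrFun hm 0) 0
    have e01 := congrFun (congrFun hm 0) 1
    have e10 := congrFun (congrFun hm 1) 0
    simp only [Matrix.mul_apply, Fin.sum_univ_two] at e00 e01 e10
    by_cases h01 : z.1 0 1 = 0
    · by_cases h10 : z.1 1 0 = 0
      · -- diagonal, not scalar
        have hd : z.1 0 0 ≠ z.1 1 1 := by
          intro hd
          apply hz
          rw [Subgroup.mem_center_iff]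
          intro y
          apply Subtype.ext
          change y.1 * z.1 = z.1 * y.1
          ext i j
          fin_cases i <;> fin_cases j <;> simp only [Matrix.mul_apply, Fin.sum_univ_two, h01, h10, hd, mul_comm, _root_.Fin.zero_eta, _root_.Fin.isValue, _root_.MulZeroClass.zero_mul, _root_.add_zero, _root_.Fin.mk_one, _root_.zero_add]
        have hd' : z.1 0 0 - z.1 1 1 ≠ 0 := sub_ne_zero.mpr hd
        have g01 : g.1 0 1 = 0 := by
          rw [h01] at e01
          have : (z.1 0 0 - z.1 1 1) * g.1 0 1 = 0 := by linear_combination -e01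
          exact (mul_eq_zero.mp this).resolve_left hd'
        have g10 : g.1 1 0 = 0 := by
          rw [h10] at e10
          have : (z.1 0 0 - z.1 1 1) * g.1 1 0 = 0 := by linear_combination e10
          exact (mul_eq_zero.mp this).resolve_left hd'
        refine ⟨g.1 0 0 - (g.1 0 0 - g.1 1 1) / (z.1 0 0 - z.1 1 1) * z.1 0 0,
          (g.1 0 0 - g.1 1 1) / (z.1 0 0 - z.1 1 1), ?_⟩
        ext i j
        fin_cases i <;> fin_cases j
        · simp only [_root_.Fin.zero_eta, _root_.Fin.isValue, _root_.Matrix.add_apply, _root_.Matrix.smul_apply, _root_.Matrix.one_apply_eq, _root_.smul_eq_mul, _root_.mul_one, _root_.sub_add_cancel]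
        · simp only [g01, h01, _root_.Fin.zero_eta, _root_.Fin.isValue, _root_.Fin.mk_one, _root_.Matrix.add_apply, _root_.Matrix.smul_apply, _root_.Nat.reduceAdd, _root_.ne_eq, _root_.zero_ne_one, _root_.not_false_eq_true, _root_.Matrix.one_apply_ne, _root_.smul_eq_mul, _root_.MulZeroClass.mul_zero, _root_.add_zero]
        · simp only [g10, h10, _root_.Fin.mk_one, _root_.Fin.isValue, _root_.Fin.zero_eta, _root_.Matrix.add_apply, _root_.Matrix.smul_apply, _root_.Nat.reduceAdd, _root_.ne_eq, _root_.one_ne_zero, _root_.not_false_eq_true, _root_.Matrix.one_apply_ne, _root_.smul_eq_mul, _root_.MulZeroClass.mul_zero, _root_.add_zero]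
        · simp only [Fin.mk_one, Matrix.add_apply, Matrix.smul_apply, Matrix.one_apply_eq, smul_eq_mul, mul_one]
          field_simp
          ring
      · -- `z 1 0 ≠ 0`
        refine ⟨g.1 0 0 - g.1 1 0 / z.1 1 0 * z.1 0 0, g.1 1 0 / z.1 1 0, ?_⟩
        have g01 : g.1 0 1 = 0 := by
          rw [h01] at e00
          have : z.1 1 0 * g.1 0 1 = 0 := by linear_combination e00
          exact (mul_eq_zero.mp this).resolve_left h10
        ext i j
        fin_cases i <;> fin_cases j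
        · simp only [_root_.Fin.zero_eta, _root_.Fin.isValue, _root_.Matrix.add_apply, _root_.Matrix.smul_apply, _root_.Matrix.one_apply_eq, _root_.smul_eq_mul, _root_.mul_one, _root_.sub_add_cancel]
        · simp [g01, h01]
        · simp only [Fin.mk_one, Fin.zero_eta, Matrix.add_apply, Matrix.smul_apply, smul_eq_mul]
          field_simp
          simp
        · simp only [Fin.mk_one, Matrix.add_apply, Matrix.smul_apply, Matrix.one_apply_eq, smul_eq_mul, mul_one]
          field_simp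
          linear_combination e10
    · -- `z 0 1 ≠ 0`
      refine ⟨g.1 0 0 - g.1 0 1 / z.1 0 1 * z.1 0 0, g.1 0 1 / z.1 0 1, ?_⟩
      ext i j
      fin_cases i <;> fin_cases j
      · simp only [_root_.Fin.zero_eta, _root_.Fin.isValue, _root_.Matrix.add_apply, _root_.Matrix.smul_apply, _root_.Matrix.one_apply_eq, _root_.smul_eq_mul, _root_.mul_one, _root_.sub_add_cancel]
      · simp only [Fin.mk_one, Fin.zero_eta, Matrix.add_apply, Matrix.smul_apply, smul_eq_mul]
        field_simp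
        simp
      · simp only [Fin.mk_one, Fin.zero_eta, Matrix.add_apply, Matrix.smul_apply, smul_eq_mul]
        field_simp
        simp only [_root_.Fin.isValue, _root_.Nat.reduceAdd, _root_.ne_eq, _root_.one_ne_zero, _root_.not_false_eq_true, _root_.Matrix.one_apply_ne, _root_.MulZeroClass.mul_zero, _root_.zero_add]
        linear_combination -e00
      · simp only [Fin.mk_one, Matrix.add_apply, Matrix.smul_apply, Matrix.one_apply_eq, smul_eq_mul, mul_one]
        field_simp
        linear_combination -e01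
  -- the determinant is a monic quadratic in `a`
  set C := Subgroup.centralizer ({z} : Set (_root_.Matrix.SpecialLinearGroup (Fin 2) K)) with hC
  have hcomm : ∀ g : C, g.1 * z = z * g.1 := fun g => (Subgroup.mem_centralizer_singleton_iff.mp g.2)
  choose a b hab using fun g : C => key g.1 (hcomm g)
  -- the map to `b` has fibres of size at most two
  have hfib : ∀ t : K, Nat.card {g : C // b g = t} ≤ 2 := by
    intro t
    have hinj : Function.Injective (fun g : {g : C // b g = t} => a g.1) := by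
      intro g h hgh
      apply Subtype.ext
      apply Subtype.ext
      apply Subtype.ext
      have hgh' : a g.1 = a h.1 := hgh
      rw [hab g.1, hab h.1, g.2, h.2, hgh']
    let P : Polynomial K := Polynomial.X ^ 2 + Polynomial.C (t * (z.1 0 0 + z.1 1 1)) * Polynomial.X +
      Polynomial.C (t ^ 2 - 1)
    have hP : P.natDegree = 2 := by
      change (Polynomial.X ^ 2 + Polynomial.C (t * (z.1 0 0 + z.1 1 1)) * Polynomial.X +
        Polynomial.C (t ^ 2 - 1)).natDegree = 2
      compute_degree!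
    have hP0 : P ≠ 0 := fun h => by rw [h] at hP; simp at hP
    have hroot : ∀ g : {g : C // b g = t}, a g.1 ∈ P.roots.toFinset := by
      intro g
      rw [Multiset.mem_toFinset, Polynomial.mem_roots hP0, Polynomial.IsRoot.def]
      have h1 := g.1.1.2
      rw [hab g.1, g.2, Matrix.det_fin_two] at h1
      have h2 := z.2
      rw [Matrix.det_fin_two] at h2
      simp only [Matrix.add_apply, Matrix.smul_apply, smul_eq_mul, Matrix.one_apply_eq, mul_one,
        Matrix.one_apply_ne (show (0 : Fin 2) ≠ 1 by decide),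
        Matrix.one_apply_ne (show (1 : Fin 2) ≠ 0 by decide), mul_zero, zero_add] at h1
      simp only [P, Polynomial.eval_add, Polynomial.eval_mul, Polynomial.eval_pow, Polynomial.eval_X,
        Polynomial.eval_C]
      linear_combination h1 - t ^ 2 * h2
    calc Nat.card {g : C // b g = t} ≤ Nat.card P.roots.toFinset :=
          Nat.card_le_card_of_injective (fun g => (⟨a g.1, hroot g⟩ : P.roots.toFinset))
            (fun g h hgh => hinj (congrArg Subtype.val hgh))
      _ = P.roots.toFinset.card := by rw [Nat.card_eq_fintype_card, Fintype.card_coe]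
      _ ≤ P.natDegree := (Multiset.toFinset_card_le _).trans (Polynomial.card_roots' _)
      _ = 2 := hP
  have hsum : Nat.card C = ∑ t : K, Nat.card {g : C // b g = t} := by
    have := Fintype.ofFinite C
    rw [Nat.card_eq_fintype_card, ← Finset.card_univ,
      Finset.card_eq_sum_card_fiberwise (f := b) (t := Finset.univ) (fun _ _ => Finset.mem_univ _)]
    refine Finset.sum_congr rfl fun t _ => ?_
    rw [Nat.card_eq_fintype_card, Fintype.card_subtype]
  rw [hsum]
  calc ∑ t : K, Nat.card {g : C // b g = t} ≤ ∑ _t : K, 2 := Finset.sum_le_sum fun t _ => hfib t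
    _ = 2 * Fintype.card K := by rw [Finset.sum_const, Finset.card_univ, smul_eq_mul, mul_comm]

/-- **STEP 2.** -/
theorem fpr_sl2 (h4 : 4 ≤ Fintype.card K) {Ω : Type*} [MulAction (_root_.Matrix.SpecialLinearGroup (Fin 2) K) Ω] [Finite Ω]
    {z : _root_.Matrix.SpecialLinearGroup (Fin 2) K}
    (hz : z ∉ Subgroup.center (_root_.Matrix.SpecialLinearGroup (Fin 2) K)) :
    fpr Ω {z} ≤ fpr Ω (Set.univ : Set (_root_.Matrix.SpecialLinearGroup (Fin 2) K)) + 7 / √(Fintype.card K : ℝ) := by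
  set Q := Fintype.card K with hQ
  have hd0 : 0 < (Q - 1) / 2 := by omega
  have h1 := fpr_le_char (Ω := Ω) (Cfsg.Agent.H259.NatMod.commutator_eq_top (by omega)) hd0
    (minDeg_sl2 h4) z
  have hQR : (4 : ℝ) ≤ (Q : ℝ) := by exact_mod_cast h4
  have hdR : ((Q : ℝ) - 2) / 2 ≤ (((Q - 1) / 2 : ℕ) : ℝ) := by
    have h2 : Q ≤ 2 * ((Q - 1) / 2) + 2 := by omega
    have h3 : (Q : ℝ) ≤ 2 * (((Q - 1) / 2 : ℕ) : ℝ) + 2 := by exact_mod_cast h2
    linarith only [h3]
  set s := √(Q : ℝ) with hs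
  have hs2 : s ^ 2 = Q := Real.sq_sqrt (by linarith only [hQR])
  have hs0 : 2 ≤ s := by
    rw [hs]
    exact Real.le_sqrt_of_sq_le (by linarith only [hQR])
  have hd' : (Q : ℝ) / 4 ≤ (((Q - 1) / 2 : ℕ) : ℝ) := by linarith only [hQR, hdR]
  -- first term
  have t1 : 1 / ((((Q - 1) / 2 : ℕ) : ℝ) + 1) ≤ 1 / s := by
    apply one_div_le_one_div_of_le (by linarith only [hs0])
    nlinarith only [hdR, hs2, hs0]
  -- second term
  have t2 : √(Nat.card (Subgroup.centralizer ({z} : Set (_root_.Matrix.SpecialLinearGroup (Fin 2) K))) : ℝ) /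
      (((Q - 1) / 2 : ℕ) : ℝ) ≤ 6 / s := by
    have h2 : √(Nat.card (Subgroup.centralizer ({z} : Set (_root_.Matrix.SpecialLinearGroup (Fin 2) K))) : ℝ) ≤ 3 / 2 * s := by
      apply Real.sqrt_le_iff.mpr
      refine ⟨by linarith only [hs0], ?_⟩
      have h3 : (Nat.card (Subgroup.centralizer ({z} : Set (_root_.Matrix.SpecialLinearGroup (Fin 2) K))) : ℝ) ≤ 2 * Q := by
        exact_mod_cast card_centralizer_sl2 hz
      linarith only [hs2, h3]
    have hpos : 0 < (((Q - 1) / 2 : ℕ) : ℝ) := by exact_mod_cast hd0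
    rw [div_le_div_iff₀ hpos (by linarith only [hs0])]
    have h5 : √(Nat.card (Subgroup.centralizer ({z} : Set (_root_.Matrix.SpecialLinearGroup (Fin 2) K))) : ℝ) * s ≤
        3 / 2 * s * s := mul_le_mul_of_nonneg_right h2 (by linarith only [hs0])
    linarith only [hQR, hdR, hs2, h5]
  have t3 : 7 / s = 1 / s + 6 / s := by ring
  rw [t3]
  linarith only [h1, t1, t2]

/-- STEP 2 for a homomorphism. -/
theorem fpr_sl2_hom (h4 : 4 ≤ Fintype.card K) {G : Type*} [Group G] {Ω : Type*} [MulAction G Ω] [Finite Ω]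
    (φ : _root_.Matrix.SpecialLinearGroup (Fin 2) K →* G) {z : _root_.Matrix.SpecialLinearGroup (Fin 2) K}
    (hz : z ∉ Subgroup.center (_root_.Matrix.SpecialLinearGroup (Fin 2) K)) :
    fpr Ω {φ z} ≤ fpr Ω (Set.range φ) + 7 / √(Fintype.card K : ℝ) := by
  let _ : MulAction (_root_.Matrix.SpecialLinearGroup (Fin 2) K) Ω := MulAction.compHom Ω φ
  have h := fpr_sl2 h4 (Ω := Ω) hz
  rw [fpr_comp φ, fpr_comp φ, Set.image_singleton, Set.image_univ] at h
  exact h

end

end Cfsg.Agent.H917.FP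
end
end

-- part: H830/B57/RootB
section
prune_inst 0xf57045417d40000010000586910020a50400059200600400cc070546000943624042a1400f0034175a28aa000005002002dc00c0c04000c00e000400000405011088020421400000000096000080000000000000000000000000000000030004200000000
set_option linter.all false
open scoped Cfsg.Agent.FastGrp

/-!
# S5717, bounded rank: fixed point ratios of root groups (helper830)

`root_bound`: `A` a root group of the finite group `M` such that for almost all `u : M` the groups `A`, `u A u⁻¹` are the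
two root groups of an image of `SL₂(K)`. If the normal closure of `A` is `M` then `A` fixes at most
`2 k |Ω| / |K|` points of every finite `M`-set `Ω` without global fixed points, `k = log₂ |M| + 1`.
-/

set_option autoImplicit false

open Subgroup Finset

namespace Cfsg.Agent.H830.B57.RootB

open Cfsg.Agent.H917.FP

section Group

variable {M : Type*} [Group M]

/-- the elements moving `A` into `H` -/
def SS (A : Set M) (H : Subgroup M) : Set M := {g | ∀ a ∈ A, g * a * g⁻¹ ∈ H}

theorem SS_mul {A : Set M} {H : Subgroup M} {g y : M} : g * y ∈ SS A H ↔ g ∈ SS (cj y A) H := by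
  constructor
  · rintro h _ ⟨a, ha, rfl⟩
    have := h a ha
    rw [mul_inv_rev] at this
    simpa only [mul_assoc] using this
  · intro h a ha
    have := h (y * a * y⁻¹) ⟨a, ha, rfl⟩
    rw [mul_inv_rev]
    simpa only [mul_assoc] using this

variable [Finite M]

/-- from the subgroups to the `M`-sets -/
theorem fpr_le_of_SS (A : Set M) (δ : ℝ)
    (h : ∀ H : Subgroup M, H ≠ ⊤ → (Nat.card (SS A H) : ℝ) ≤ δ * Nat.card M)
    (Ω : Type*) [Finite Ω] [MulAction M Ω] (hΩ : ∀ ω : Ω, ∃ g : M, g • ω ≠ ω) : fpr Ω A ≤ δ ∨ IsEmpty Ω := by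
  classical
  have := Fintype.ofFinite M
  have := Fintype.ofFinite Ω
  rcases isEmpty_or_nonempty Ω with hE | hE
  · exact Or.inr hE
  left
  have hMpos : (0 : ℝ) < Nat.card M := by exact_mod_cast Nat.card_pos
  have hΩpos : (0 : ℝ) < Nat.card Ω := by exact_mod_cast Nat.card_pos
  have e0 : ∀ (g : M) (w : Ω), (∀ a ∈ A, a • (g⁻¹ • w) = g⁻¹ • w) ↔ g ∈ SS A (MulAction.stabilizer M w) := by
    intro g w
    refine forall_congr' fun a => forall_congr' fun _ => ?_
    rw [MulAction.mem_stabilizer_iff, mul_smul, mul_smul, smul_eq_iff_eq_inv_smul g]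
  have h1 : ∑ g : M, ∑ w : Ω, (if ∀ a ∈ A, a • (g⁻¹ • w) = g⁻¹ • w then (1 : ℝ) else 0) =
      Nat.card M * (fpr Ω A * Nat.card Ω) := by
    have : ∀ g : M, ∑ w : Ω, (if ∀ a ∈ A, a • (g⁻¹ • w) = g⁻¹ • w then (1 : ℝ) else 0) = fpr Ω A * Nat.card Ω := by
      intro g
      rw [← sum_ind]
      exact Fintype.sum_equiv (MulAction.toPerm (g⁻¹)) _ _ (fun w => by
        unfold ind
        simp only [MulAction.toPerm_apply])
    rw [Finset.sum_congr rfl fun g _ => this g, Finset.sum_const, nsmul_eq_mul, Finset.card_univ,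
      Nat.card_eq_fintype_card (α := M)]
  have h2 : ∑ g : M, ∑ w : Ω, (if ∀ a ∈ A, a • (g⁻¹ • w) = g⁻¹ • w then (1 : ℝ) else 0) ≤
      ∑ _w : Ω, δ * Nat.card M := by
    rw [Finset.sum_comm]
    refine Finset.sum_le_sum fun w _ => ?_
    have h3 : ∑ g : M, (if ∀ a ∈ A, a • (g⁻¹ • w) = g⁻¹ • w then (1 : ℝ) else 0) =
        Nat.card (SS A (MulAction.stabilizer M w)) := by
      rw [Finset.sum_boole, Nat.card_eq_fintype_card, ← Set.toFinset_card]
      congr 2
      ext g
      rw [Finset.mem_filter, Set.mem_toFinset]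
      simp only [Finset.mem_univ, true_and]
      exact e0 g w
    rw [h3]
    apply h
    intro htop
    obtain ⟨g, hg⟩ := hΩ w
    apply hg
    have : g ∈ MulAction.stabilizer M w := by rw [htop]; trivial
    exact this
  rw [h1, Finset.sum_const, nsmul_eq_mul, Finset.card_univ, ← Nat.card_eq_fintype_card (α := Ω)] at h2
  have h3 : (Nat.card M * Nat.card Ω : ℝ) * fpr Ω A ≤ (Nat.card M * Nat.card Ω : ℝ) * δ := by linarith only [h2]
  exact le_of_mul_le_mul_left h3 (by positivity)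

/-- `k = log₂ |M| + 1` conjugates of `A` generate `M` -/
theorem exists_conj (A : Set M) (hA : normalClosure A = ⊤) :
    ∃ B : Finset M, B.card ≤ Nat.log 2 (Nat.card M) + 1 ∧ _root_.Subgroup.closure (⋃ g ∈ B, cj g A) = ⊤ := by
  classical
  have step : ∀ j : ℕ, ∃ B : Finset M, B.card ≤ j ∧ (_root_.Subgroup.closure (⋃ g ∈ B, cj g A) = ⊤ ∨
      2 ^ j ≤ Nat.card (closure (⋃ g ∈ B, cj g A))) := by
    intro j
    induction j with
    | zero => exact ⟨∅, le_rfl, Or.inr (by rw [pow_zero]; exact Nat.card_pos)⟩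
    | succ j ih =>
      obtain ⟨B, hB, h⟩ := ih
      rcases h with h | h
      · exact ⟨B, by omega, Or.inl h⟩
      by_cases ht : _root_.Subgroup.closure (⋃ g ∈ B, cj g A) = ⊤
      · exact ⟨B, by omega, Or.inl ht⟩
      obtain ⟨g, hg⟩ : ∃ g : M, ¬ cj g A ⊆ (closure (⋃ g ∈ B, cj g A) : Set M) := by
        by_contra hcon
        push Not at hcon
        apply ht
        rw [eq_top_iff, ← hA, normalClosure, closure_le]
        intro x hx
        obtain ⟨a, ha, hax⟩ := Group.mem_conjugatesOfSet_iff.1 hx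
        obtain ⟨g, rfl⟩ := isConj_iff.1 hax
        exact hcon g ⟨a, ha, rfl⟩
      refine ⟨insert g B, (Finset.card_insert_le _ _).trans (by omega), Or.inr ?_⟩
      have hle : _root_.Subgroup.closure (⋃ b ∈ B, cj b A) ≤ closure (⋃ b ∈ insert g B, cj b A) := by
        apply Subgroup.closure_mono
        intro x hx
        simp only [Set.mem_iUnion] at hx ⊢
        obtain ⟨i, hi, hx⟩ := hx
        exact ⟨i, Finset.mem_insert_of_mem hi, hx⟩
      have hne : _root_.Subgroup.closure (⋃ b ∈ B, cj b A) ≠ closure (⋃ b ∈ insert g B, cj b A) := by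
        intro he
        apply hg
        rw [he]
        intro x hx
        apply Subgroup.subset_closure
        simp only [Set.mem_iUnion]
        exact ⟨g, Finset.mem_insert_self _ _, hx⟩
      obtain ⟨c, hc⟩ := card_dvd_of_le hle
      rw [hc, pow_succ]
      apply Nat.mul_le_mul h
      by_contra hc2
      have hc1 : c ≤ 1 := by omega
      apply hne
      apply eq_of_le_of_card_ge hle
      rw [hc]
      calc Nat.card (closure (⋃ g ∈ B, cj g A)) * c ≤ Nat.card (closure (⋃ g ∈ B, cj g A)) * 1 :=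
            Nat.mul_le_mul_left _ hc1
        _ = _ := mul_one _
  obtain ⟨B, hB, h⟩ := step (Nat.log 2 (Nat.card M) + 1)
  refine ⟨B, hB, ?_⟩
  rcases h with h | h
  · exact h
  exfalso
  have h1 := Nat.lt_pow_succ_log_self (b := 2) (by norm_num) (Nat.card M)
  have h2 : Nat.card (closure (⋃ g ∈ B, cj g A)) ≤ Nat.card M :=
    Nat.le_of_dvd Nat.card_pos (card_subgroup_dvd_card _)
  omega

theorem card_SS_le {A : Set M} {B : Finset M} (hB : _root_.Subgroup.closure (⋃ g ∈ B, cj g A) = ⊤) {H : Subgroup M} (hH : H ≠ ⊤) :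
    Nat.card M ≤ B.card * Nat.card ((SS A H)ᶜ : Set M) := by
  classical
  have := Fintype.ofFinite M
  have h1 : (Finset.univ : Finset M) ⊆ B.biUnion fun b => Finset.univ.filter fun g => g * b ∉ SS A H := by
    intro g _
    rw [Finset.mem_biUnion]
    by_contra hcon
    push Not at hcon
    apply hH
    rw [eq_top_iff]
    have h2 : (⊤ : Subgroup M) ≤ H.comap (MulAut.conj g).toMonoidHom := by
      rw [← hB, closure_le]
      intro x hx
      simp only [Set.mem_iUnion] at hx
      obtain ⟨b, hb, hx⟩ := hx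
      have h3 : g * b ∈ SS A H := by
        by_contra h4
        exact hcon b hb (Finset.mem_filter.2 ⟨Finset.mem_univ _, h4⟩)
      exact SS_mul.1 h3 x hx
    intro x _
    have h3 := h2 (mem_top (g⁻¹ * x * g))
    have h4 : g * (g⁻¹ * x * g) * g⁻¹ = x := by group
    rw [mem_comap] at h3
    change g * (g⁻¹ * x * g) * g⁻¹ ∈ H at h3
    rwa [h4] at h3
  have h5 := Finset.card_le_card h1
  rw [Finset.card_univ, ← Nat.card_eq_fintype_card] at h5
  refine h5.trans (Finset.card_biUnion_le.trans ?_)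
  have h6 : ∀ b ∈ B, (Finset.univ.filter fun g => g * b ∉ SS A H).card ≤ Nat.card ((SS A H)ᶜ : Set M) := by
    intro b _
    rw [Nat.card_eq_fintype_card, ← Set.toFinset_card]
    refine Finset.card_le_card_of_injOn (fun g => g * b) ?_ ?_
    · intro g hg
      rw [Finset.mem_coe, Set.mem_toFinset]
      exact (Finset.mem_filter.1 hg).2
    · intro g _ g' _ he
      exact mul_right_cancel he
  calc ∑ b ∈ B, (Finset.univ.filter fun g => g * b ∉ SS A H).card ≤ ∑ _b ∈ B, Nat.card ((SS A H)ᶜ : Set M) :=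
        Finset.sum_le_sum h6
    _ = _ := by rw [Finset.sum_const, smul_eq_mul]

/-- pairs -/
theorem sum_SS (A : Set M) (H : Subgroup M) [Fintype M] :
    ∑ u : M, Nat.card (SS (A ∪ cj u A) H) = Nat.card (SS A H) ^ 2 := by
  classical
  have h1 : ∀ u : M, Nat.card (SS (A ∪ cj u A) H) = Nat.card {g : SS A H // (g : M) * u ∈ SS A H} := by
    intro u
    refine Nat.card_congr
      { toFun := fun g => ⟨⟨g.1, fun a ha => g.2 a (Or.inl ha)⟩, SS_mul.2 fun a ha => g.2 a (Or.inr ha)⟩
        invFun := fun g => ⟨g.1.1, ?_⟩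
        left_inv := fun g => rfl
        right_inv := fun g => rfl }
    rintro a (ha | ha)
    · exact g.1.2 a ha
    · exact SS_mul.1 g.2 a ha
  rw [Finset.sum_congr rfl fun u _ => h1 u]
  have h2 : ∑ u : M, Nat.card {g : SS A H // (g : M) * u ∈ SS A H} =
      Nat.card (Σ u : M, {g : SS A H // (g : M) * u ∈ SS A H}) := by
    rw [Nat.card_sigma]
  rw [h2, sq, ← Nat.card_prod]
  refine Nat.card_congr
    { toFun := fun x => (x.2.1, ⟨(x.2.1 : M) * x.1, x.2.2⟩)
      invFun := fun y => ⟨(y.1 : M)⁻¹ * y.2, ⟨y.1, by rw [mul_inv_cancel_left]; exact y.2.2⟩⟩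
      left_inv := ?_
      right_inv := ?_ }
  · rintro ⟨u, g, hg⟩
    simp only [Sigma.mk.injEq]
    have e : ((g : SS A H) : M)⁻¹ * (g * u) = u := inv_mul_cancel_left _ _
    refine ⟨e, ?_⟩
    congr 1
    · simp only [e]
    · exact proof_irrel_heq _ _
  · rintro ⟨a, b⟩
    simp

end Group

section SL

variable {K : Type*} [Field K]

theorem up_mem {c : K} (hc : c ≠ 0) (b : K) (N : Subgroup (Matrix.SpecialLinearGroup (Fin 2) K))
    (h1 : ∀ a, lo a ∈ N) (h2 : ∀ a, up c * lo a * (up c)⁻¹ ∈ N) : up b ∈ N := by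
  have h3 := h2 (-b / c ^ 2)
  have h4 := N.mul_mem (N.mul_mem (h1 (-1 / c)) h3) (N.inv_mem (h1 (-1 / c)))
  have h6 : ∀ x : K, ((up x)⁻¹).1 = !![1, -x; 0, 1] := by
    intro x
    rw [Matrix.SpecialLinearGroup.coe_inv]
    simp [up, Matrix.adjugate_fin_two]
  have h5 : lo (-1 / c) * (up c * lo (-b / c ^ 2) * (up c)⁻¹) * (lo (-1 / c))⁻¹ = up b := by
    rw [mul_inv_eq_iff_eq_mul]
    apply Subtype.ext
    simp only [Matrix.SpecialLinearGroup.coe_mul, h6]
    simp only [up, lo]
    ext i j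
    (revert i j; simp only [Matrix.mul_apply, Fin.sum_univ_two, _root_.Fin.forall_fin_succ, _root_.Matrix.cons_mul, _root_.Nat.succ_eq_add_one, Nat.reduceAdd, _root_.Matrix.vecMul_cons, _root_.Matrix.head_cons, _root_.one_smul, _root_.Matrix.tail_cons, _root_.Matrix.smul_cons, _root_.smul_eq_mul, _root_.mul_one, _root_.Matrix.smul_empty, _root_.Matrix.empty_vecMul, _root_.add_zero, _root_.Matrix.add_cons, _root_.zero_add, _root_.Matrix.empty_add_empty, _root_.zero_smul, _root_.Matrix.empty_mul, _root_.Equiv.symm_apply_apply, _root_.mul_neg, _root_.MulZeroClass.mul_zero, _root_.Matrix.of_apply, _root_.Matrix.cons_val', _root_.Matrix.cons_val_fin_one, Fin.isValue, _root_.Matrix.cons_val_zero, _root_.Matrix.cons_val_one, _root_.Matrix.cons_val_succ, _root_.forall_const, _root_.one_mul, _root_.MulZeroClass.zero_mul, _root_.add_right_inj]) <;> (repeat' with_reducible apply And.intro) <;> field_simp <;> ring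
  rwa [h5] at h4

variable {M : Type*} [Group M] [Finite M]

/-- one `SL₂`: `q |S| ≤ q |S₂| + |M|` -/
theorem card_SS_pair [Finite K] (A : Set M) (u : M) (H : Subgroup M)
    (φ : Matrix.SpecialLinearGroup (Fin 2) K →* M) (h1 : ∀ x, x ∈ A ↔ ∃ c, φ (lo c) = x)
    (h2 : ∀ x, x ∈ cj u A ↔ ∃ c, φ (up c) = x) :
    Nat.card K * Nat.card (SS A H) ≤ Nat.card K * Nat.card (SS (A ∪ cj u A) H) + Nat.card M := by
  classical
  have := Fintype.ofFinite M
  have := Fintype.ofFinite K
  have e1 : ∀ c : K, (Finset.univ.filter fun g : M => g * φ (up c) ∈ SS A H).card = Nat.card (SS A H) := by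
    intro c
    rw [Nat.card_eq_fintype_card, ← Set.toFinset_card]
    refine Finset.card_bij (fun g _ => g * φ (up c)) ?_ ?_ ?_
    · intro g hg
      rw [Set.mem_toFinset]
      exact (Finset.mem_filter.1 hg).2
    · intro g _ g' _ he
      exact mul_right_cancel he
    · intro g hg
      rw [Set.mem_toFinset] at hg
      exact ⟨g * (φ (up c))⁻¹, Finset.mem_filter.2 ⟨Finset.mem_univ _, by rwa [inv_mul_cancel_right]⟩,
        inv_mul_cancel_right _ _⟩
  have e2 : ∑ c : K, (Finset.univ.filter fun g : M => g * φ (up c) ∈ SS A H).card =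
      ∑ g : M, (Finset.univ.filter fun c : K => g * φ (up c) ∈ SS A H).card := by
    simp only [Finset.card_filter]
    rw [Finset.sum_comm]
  have e3 : ∀ g : M, (Finset.univ.filter fun c : K => g * φ (up c) ∈ SS A H).card ≤
      (if g ∈ SS (A ∪ cj u A) H then Fintype.card K else 0) + 1 := by
    intro g
    by_cases hg : g ∈ SS (A ∪ cj u A) H
    · rw [if_pos hg]
      exact (Finset.card_le_univ _).trans (Nat.le_succ _)
    · rw [if_neg hg, zero_add, Finset.card_le_one]
      intro a ha b hb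
      by_contra hab
      apply hg
      have ha := (Finset.mem_filter.1 ha).2
      have hb := (Finset.mem_filter.1 hb).2
      -- `N = φ⁻¹ (y⁻¹ g⁻¹ H g y)`, `y = φ (up a)`
      let N : Subgroup (Matrix.SpecialLinearGroup (Fin 2) K) :=
        (H.comap (MulAut.conj (g * φ (up a))).toMonoidHom).comap φ
      have hN : ∀ x, x ∈ N ↔ g * φ (up a) * φ x * (g * φ (up a))⁻¹ ∈ H := fun x => Iff.rfl
      have n1 : ∀ c, lo c ∈ N := fun c => (hN _).2 (ha _ ((h1 _).2 ⟨c, rfl⟩))
      have hup : up (K := K) b = up a * up (b - a) := by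
        apply Subtype.ext
        simp only [Matrix.SpecialLinearGroup.coe_mul]
        simp only [up]
        ext i j
        (revert i j; simp only [Matrix.mul_apply, Fin.sum_univ_two, _root_.Fin.forall_fin_succ, _root_.Matrix.of_apply, _root_.Matrix.cons_val', _root_.Matrix.cons_val_fin_one, Fin.isValue, _root_.Matrix.cons_val_zero, _root_.Matrix.cons_val_one, _root_.mul_one, _root_.MulZeroClass.mul_zero, _root_.add_zero, _root_.Matrix.cons_val_succ, _root_.forall_const, _root_.true_and, _root_.one_mul, _root_.sub_add_cancel, _root_.MulZeroClass.zero_mul, _root_.zero_add, _root_.implies_true, _root_.and_self])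
      have n2 : ∀ c, up (b - a) * lo c * (up (b - a))⁻¹ ∈ N := by
        intro c
        rw [hN]
        have := hb _ ((h1 _).2 ⟨c, rfl⟩)
        rw [hup, map_mul] at this
        rw [map_mul, map_mul, map_inv]
        simpa only [mul_assoc, _root_.mul_inv_rev] using this
      have n3 : ∀ c, up c ∈ N := fun c => up_mem (sub_ne_zero.2 (Ne.symm hab)) c N n1 n2
      have n4 : ∀ x ∈ N, g * φ x * g⁻¹ ∈ H := by
        intro x hx
        have h3 := (hN _).1 (N.mul_mem (N.mul_mem (N.inv_mem (n3 a)) hx) (n3 a))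
        rw [map_mul, map_mul, map_inv] at h3
        have h4 : g * φ (up a) * ((φ (up a))⁻¹ * φ x * φ (up a)) * (g * φ (up a))⁻¹ = g * φ x * g⁻¹ := by group
        rwa [h4] at h3
      rintro x (hx | hx)
      · obtain ⟨c, rfl⟩ := (h1 x).1 hx
        exact n4 _ (n1 c)
      · obtain ⟨c, rfl⟩ := (h2 x).1 hx
        exact n4 _ (n3 c)
  calc Nat.card K * Nat.card (SS A H) = ∑ c : K, (Finset.univ.filter fun g : M => g * φ (up c) ∈ SS A H).card := by
        rw [Finset.sum_congr rfl fun c _ => e1 c, Finset.sum_const, smul_eq_mul, Finset.card_univ,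
          Nat.card_eq_fintype_card]
    _ = _ := e2
    _ ≤ ∑ g : M, ((if g ∈ SS (A ∪ cj u A) H then Fintype.card K else 0) + 1) := Finset.sum_le_sum fun g _ => e3 g
    _ = Nat.card K * Nat.card (SS (A ∪ cj u A) H) + Nat.card M := by
        rw [Finset.sum_add_distrib, Finset.sum_const, smul_eq_mul, mul_one, Finset.card_univ,
          Nat.card_eq_fintype_card (α := M), ← Finset.sum_filter, Finset.sum_const, smul_eq_mul,
          Nat.card_eq_fintype_card (α := K), Nat.card_eq_fintype_card (α := SS (A ∪ cj u A) H), ← Set.toFinset_card,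
          mul_comm]
        congr 3
        ext g
        simp

/-- **root groups have small fixed point ratio** -/
theorem root_bound [Finite K] (A : Set M) (hA : normalClosure A = ⊤) (D : Set M)
    (hD : 2 * (Nat.log 2 (Nat.card M) + 1) * Nat.card (Dᶜ : Set M) ≤ Nat.card M)
    (h : ∀ u ∈ D, ∃ φ : Matrix.SpecialLinearGroup (Fin 2) K →* M, (∀ x, x ∈ A ↔ ∃ c, φ (lo c) = x) ∧
      ∀ x, x ∈ cj u A ↔ ∃ c, φ (up c) = x)
    (Ω : Type*) [Finite Ω] [MulAction M Ω] (hΩ : ∀ ω : Ω, ∃ g : M, g • ω ≠ ω) :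
    fpr Ω A ≤ 2 * ((Nat.log 2 (Nat.card M) + 1 : ℕ) : ℝ) / Nat.card K := by
  classical
  have := Fintype.ofFinite M
  have := Fintype.ofFinite K
  have hKpos : (0 : ℝ) < Nat.card K := by exact_mod_cast Nat.card_pos
  have hMpos : (0 : ℝ) < Nat.card M := by exact_mod_cast Nat.card_pos
  suffices key : ∀ H : Subgroup M, H ≠ ⊤ →
      (Nat.card (SS A H) : ℝ) ≤ 2 * ((Nat.log 2 (Nat.card M) + 1 : ℕ) : ℝ) / Nat.card K * Nat.card M by
    rcases fpr_le_of_SS A (2 * ((Nat.log 2 (Nat.card M) + 1 : ℕ) : ℝ) / Nat.card K) key Ω hΩ with h1 | h1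
    · exact h1
    · unfold fpr
      rw [Nat.card_of_isEmpty, Nat.cast_zero, zero_div]
      (clear * - hKpos; positivity)
  intro H hH
  obtain ⟨B, hB1, hB2⟩ := exists_conj A hA
  set k := Nat.log 2 (Nat.card M) + 1 with hk
  have h2 := card_SS_le hB2 hH
  have h3 := sum_SS A H
  have hcompl : Nat.card (SS A H) + Nat.card ((SS A H)ᶜ : Set M) = Nat.card M := by
    rw [Nat.card_eq_fintype_card, Nat.card_eq_fintype_card, Nat.card_eq_fintype_card, ← Set.toFinset_card,
      ← Set.toFinset_card, Set.toFinset_compl]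
    exact Finset.card_add_card_compl _
  have hcomplD : Nat.card D + Nat.card (Dᶜ : Set M) = Nat.card M := by
    rw [Nat.card_eq_fintype_card, Nat.card_eq_fintype_card, Nat.card_eq_fintype_card, ← Set.toFinset_card,
      ← Set.toFinset_card, Set.toFinset_compl]
    exact Finset.card_add_card_compl _
  set s : ℝ := ((Nat.card (SS A H) : ℕ) : ℝ) with hs
  set m : ℝ := ((Nat.card M : ℕ) : ℝ) with hm
  set q : ℝ := ((Nat.card K : ℕ) : ℝ) with hq
  set d : ℝ := ((Nat.card (Dᶜ : Set M) : ℕ) : ℝ) with hd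
  have hs0 : 0 ≤ s := by (clear * -; positivity)
  have hd0 : 0 ≤ d := by (clear * -; positivity)
  have hk1 : (1 : ℝ) ≤ (k : ℝ) := by exact_mod_cast (by omega : 1 ≤ k)
  -- (a) `m ≤ k (m - s)`
  have ha : m ≤ k * (m - s) := by
    have h4 : (m : ℝ) ≤ (B.card : ℝ) * Nat.card ((SS A H)ᶜ : Set M) := by rw [hm]; exact_mod_cast h2
    have h5 : (Nat.card ((SS A H)ᶜ : Set M) : ℝ) = m - s := by
      rw [hm, hs, ← hcompl]; push_cast; ring
    rw [h5] at h4
    have h6 : 0 ≤ m - s := by rw [← h5]; (clear * -; positivity)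
    have h7 : (B.card : ℝ) ≤ k := by exact_mod_cast hB1
    calc m ≤ B.card * (m - s) := h4
      _ ≤ k * (m - s) := by gcongr
  -- (b) `2 k d ≤ m`
  have hb : 2 * k * d ≤ m := by
    rw [hm, hd]; exact_mod_cast hD
  -- (c) `(m - d) (q s - m) ≤ q s²`
  have hc : (m - d) * (q * s - m) ≤ q * s ^ 2 := by
    have h4 : ∀ u ∈ D, q * s - m ≤ q * Nat.card (SS (A ∪ cj u A) H) := by
      intro u hu
      obtain ⟨φ, p1, p2⟩ := h u hu
      have h5 := card_SS_pair A u H φ p1 p2
      have h6 : (Nat.card K : ℝ) * Nat.card (SS A H) ≤ Nat.card K * Nat.card (SS (A ∪ cj u A) H) + Nat.card M := by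
        exact_mod_cast h5
      rw [hq, hs, hm]
      linarith only [h6]
    have h5 : ∑ u ∈ D.toFinset, (q * s - m) ≤ ∑ u ∈ D.toFinset, q * (Nat.card (SS (A ∪ cj u A) H) : ℝ) :=
      Finset.sum_le_sum fun u hu => h4 u (Set.mem_toFinset.1 hu)
    have h6 : ∑ u ∈ D.toFinset, q * (Nat.card (SS (A ∪ cj u A) H) : ℝ) ≤
        ∑ u : M, q * (Nat.card (SS (A ∪ cj u A) H) : ℝ) :=
      Finset.sum_le_sum_of_subset_of_nonneg (Finset.subset_univ _) fun u _ _ => by (clear * -; positivity)
    have h7 : ∑ u : M, q * (Nat.card (SS (A ∪ cj u A) H) : ℝ) = q * s ^ 2 := by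
      rw [← Finset.mul_sum, hs, ← Nat.cast_sum, h3]
      push_cast
      rfl
    rw [Finset.sum_const, nsmul_eq_mul, Set.toFinset_card, ← Nat.card_eq_fintype_card] at h5
    have h8 : (Nat.card D : ℝ) = m - d := by
      rw [hm, hd, ← hcomplD]; push_cast; ring
    rw [h8] at h5
    linarith only [h5, h6, h7]
  -- conclusion: `s ≤ (2 k / q) m`
  rw [div_mul_eq_mul_div, le_div_iff₀ hKpos, mul_comm s q]
  by_contra hcon
  push Not at hcon
  -- `q s > 2 k m`
  have h1 : 0 < s := by
    by_contra h0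
    have h0' : s = 0 := le_antisymm (not_lt.1 h0) hs0
    rw [h0', mul_zero] at hcon
    have : 0 ≤ 2 * (k : ℝ) * m := by (clear * - hMpos; positivity)
    linarith only [hcon, this]
  -- multiply (c) by `2k`
  have h4 : 2 * k * ((m - d) * (q * s - m)) ≤ 2 * k * (q * s ^ 2) := by
    have : (0 : ℝ) ≤ 2 * k := by (clear * -; positivity)
    exact mul_le_mul_of_nonneg_left hc this
  have h5 : 0 < q * s - m := by nlinarith only [hMpos, ha, hcon, _root_.Nat.cast_nonneg (α := ℝ) (k), _root_.Nat.cast_nonneg (α := ℝ) (Nat.card ↑(SS A H))]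
  have h6 : (2 * k - 1) * m ≤ 2 * k * (m - d) := by linarith only [hb]
  have h7 : (2 * k - 1) * m * (q * s - m) ≤ 2 * k * (q * s ^ 2) := by
    calc (2 * k - 1) * m * (q * s - m) ≤ 2 * k * (m - d) * (q * s - m) := by
          apply mul_le_mul_of_nonneg_right h6 h5.le
      _ = 2 * k * ((m - d) * (q * s - m)) := by ring
      _ ≤ _ := h4
  -- `k s ≤ (k - 1) m`
  have h8 : k * s ≤ (k - 1) * m := by linarith only [ha]
  have h9 : 2 * k * (q * s ^ 2) ≤ 2 * (k - 1) * m * (q * s) := by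
    have : 0 ≤ q * s := by (clear * -; positivity)
    nlinarith only [hMpos, ha, h5]
  -- so `(2k-1) m (q s - m) ≤ (2k - 2) m q s`, i.e. `m q s ≤ (2k-1) m²`
  have h10 : m * (q * s) ≤ (2 * k - 1) * m * m := by linarith only [h7, h9]
  have h11 : q * s ≤ (2 * k - 1) * m := by
    have : m * (q * s) ≤ m * ((2 * k - 1) * m) := by linarith only [h7, h9]
    exact le_of_mul_le_mul_left this hMpos
  linarith only [hMpos, hcon, h11]

end SL

theorem log_aux (l : ℕ) : (l + 1) ^ 2 ≤ 4 * 2 ^ l := by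
  induction l with
  | zero => norm_num
  | succ l ih =>
    rcases Nat.lt_or_ge l 3 with h | h
    · interval_cases l <;> norm_num
    · have h2 : 2 ^ (l + 1) = 2 * 2 ^ l := by ring
      rw [h2]
      nlinarith

/-- numerical part of the bounded rank estimates -/
theorem num (e n : ℕ) : ∃ C : ℕ, 0 < C ∧ ∀ (q m : ℕ) (f : ℝ), 1 ≤ q → 0 < m → m ≤ q ^ e → 0 ≤ f → f ≤ 1 →
    (4 ≤ q → 2 * (Nat.log 2 m + 1) * n ≤ q →
      f ^ 4 ≤ 2 * (2 * ((Nat.log 2 m + 1 : ℕ) : ℝ) / q + 7 / √(q : ℝ)) + 10 / (q : ℝ)) →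
    f ^ C * (q : ℝ) ^ 2 ≤ C := by
  set c := 2 * (e + 1) with hc
  refine ⟨16 + (4 * c + 24) ^ 4 + (4 + 4 * c ^ 2 * n ^ 2) ^ 2, by positivity, ?_⟩
  intro q m f hq hm hmq hf0 hf1 h
  set C := 16 + (4 * c + 24) ^ 4 + (4 + 4 * c ^ 2 * n ^ 2) ^ 2 with hC
  set k := Nat.log 2 m + 1 with hk
  -- `k ≤ c √q`
  have hqR : (1 : ℝ) ≤ q := by exact_mod_cast hq
  have hk1 : k ≤ (e + 1) * (Nat.log 2 q + 1) := by
    have h1 : q ≤ 2 ^ (Nat.log 2 q + 1) := (Nat.lt_pow_succ_log_self (by norm_num) q).le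
    have h2 : m ≤ 2 ^ ((Nat.log 2 q + 1) * e) := by
      calc m ≤ q ^ e := hmq
        _ ≤ (2 ^ (Nat.log 2 q + 1)) ^ e := Nat.pow_le_pow_left h1 e
        _ = _ := by rw [← pow_mul]
    have h3 : Nat.log 2 m ≤ (Nat.log 2 q + 1) * e := by
      calc Nat.log 2 m ≤ Nat.log 2 (2 ^ ((Nat.log 2 q + 1) * e)) := Nat.log_mono_right h2
        _ = _ := Nat.log_pow (by norm_num) _
    rw [hk]
    linarith only [h3]
  have hs0 : 0 ≤ √(q : ℝ) := Real.sqrt_nonneg _
  have hs2 : √(q : ℝ) ^ 2 = q := Real.sq_sqrt (by linarith only [hqR])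
  have hs1 : 1 ≤ √(q : ℝ) := by
    rw [← Real.sqrt_one]
    exact Real.sqrt_le_sqrt hqR
  set s := √(q : ℝ) with hs
  have hks : (k : ℝ) ≤ c * s := by
    have h1 : (Nat.log 2 q + 1) ^ 2 ≤ 4 * q := (log_aux _).trans (Nat.mul_le_mul_left 4 (Nat.pow_log_le_self 2 (by omega)))
    have h2 : k ^ 2 ≤ c ^ 2 * q := by
      calc k ^ 2 ≤ ((e + 1) * (Nat.log 2 q + 1)) ^ 2 := Nat.pow_le_pow_left hk1 2
        _ = (e + 1) ^ 2 * (Nat.log 2 q + 1) ^ 2 := by ring
        _ ≤ (e + 1) ^ 2 * (4 * q) := Nat.mul_le_mul_left _ h1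
        _ = c ^ 2 * q := by rw [hc]; ring
    have h3 : (k : ℝ) ^ 2 ≤ (c * s) ^ 2 := by
      rw [mul_pow, hs2]
      exact_mod_cast h2
    exact le_of_sq_le_sq h3 (by positivity)
  have hC16 : 16 ≤ C := by omega
  have hCD : (4 * c + 24) ^ 4 ≤ C := by omega
  have hCq : (4 + 4 * c ^ 2 * n ^ 2) ^ 2 ≤ C := by omega
  by_cases h4 : 4 ≤ q ∧ 2 * k * n ≤ q
  · have h1 := h h4.1 h4.2
    have hspos : 0 < s := by linarith only [hs1]
    have h2 : f ^ 4 ≤ (4 * c + 24) / s := by
      refine h1.trans ?_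
      have e1 : 2 * (k : ℝ) / q ≤ 2 * c / s := by
        rw [div_le_div_iff₀ (by linarith only [hqR]) hspos, ← hs2]
        calc 2 * (k : ℝ) * s ≤ 2 * (c * s) * s := by gcongr
          _ = 2 * c * s ^ 2 := by ring
      have e2 : 10 / (q : ℝ) ≤ 10 / s := by
        apply div_le_div_of_nonneg_left (by norm_num) hspos
        rw [← hs2]
        nlinarith only [hs0, hs1]
      calc 2 * (2 * (k : ℝ) / q + 7 / s) + 10 / (q : ℝ) ≤ 2 * (2 * c / s + 7 / s) + 10 / s := by gcongr
        _ = (4 * c + 24) / s := by ring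
    have h3 : f ^ 16 * (q : ℝ) ^ 2 ≤ (4 * c + 24) ^ 4 := by
      have e1 : (f ^ 4) ^ 4 ≤ ((4 * c + 24) / s) ^ 4 := by gcongr
      have e2 : (q : ℝ) ^ 2 = s ^ 4 := by rw [← hs2]; ring
      rw [e2]
      calc f ^ 16 * s ^ 4 = (f ^ 4) ^ 4 * s ^ 4 := by ring
        _ ≤ ((4 * c + 24) / s) ^ 4 * s ^ 4 := by gcongr
        _ = (4 * c + 24) ^ 4 := by
          rw [div_pow]
          field_simp
    calc f ^ C * (q : ℝ) ^ 2 ≤ f ^ 16 * (q : ℝ) ^ 2 := by
          gcongr ?_ * _
          exact pow_le_pow_of_le_one hf0 hf1 hC16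
      _ ≤ (4 * (c : ℝ) + 24) ^ 4 := h3
      _ ≤ (C : ℝ) := by exact_mod_cast hCD
  · have hq2 : (q : ℝ) ≤ 4 + 4 * c ^ 2 * n ^ 2 := by
      rw [not_and_or] at h4
      rcases h4 with h4 | h4
      · have : (q : ℝ) ≤ 4 := by exact_mod_cast (by omega : q ≤ 4)
        have : 0 ≤ 4 * (c : ℝ) ^ 2 * n ^ 2 := by (clear * -; positivity)
        linarith
      · have h5 : (q : ℝ) ≤ 2 * k * n := by exact_mod_cast (by omega : q ≤ 2 * k * n)
        have h6 : s * s ≤ 2 * c * n * s := by
          calc s * s = q := by rw [← hs2]; ring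
            _ ≤ 2 * k * n := h5
            _ ≤ 2 * (c * s) * n := by gcongr
            _ = 2 * c * n * s := by ring
        have h7 : s ≤ 2 * c * n := le_of_mul_le_mul_right h6 (by linarith only [hs1])
        have h8 : (q : ℝ) ≤ (2 * c * n) ^ 2 := by
          rw [← hs2]
          gcongr
        calc (q : ℝ) ≤ (2 * c * n) ^ 2 := h8
          _ = 4 * c ^ 2 * n ^ 2 := by ring
          _ ≤ _ := by linarith only []
    calc f ^ C * (q : ℝ) ^ 2 ≤ 1 * (4 + 4 * (c : ℝ) ^ 2 * n ^ 2) ^ 2 := by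
          gcongr
          exact pow_le_one₀ hf0 hf1
      _ = (4 + 4 * (c : ℝ) ^ 2 * n ^ 2) ^ 2 := one_mul _
      _ ≤ (C : ℝ) := by exact_mod_cast hCq

end Cfsg.Agent.H830.B57.RootB
end

-- part: H254/BS/PartI
section
set_option linter.all false

/-!
# S5717, PART I: fixed point ratios of the simple groups of Lie type.  Exact targets (helper254).
`fpr` is `Cfsg.Agent.H917.FP.fpr`, `TBase` is `Cfsg.Agent.H830.B57.TBase` (interface to Part II).
Each `def X : Prop` is to be proved as `theorem x : X` in a file of your own.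
-/

set_option autoImplicit false

namespace Cfsg.Agent.H254.BS.PI

open scoped MatrixGroups
open Cfsg.Agent.H917.FP Cfsg.Agent.H830.B57

/-- the support: least rank of `A - μ`, `μ` in the ground field -/
noncomputable def supp {ι : Type} [Fintype ι] [DecidableEq ι] {F : Type} [Field F] (A : Matrix ι ι F) : ℕ :=
  sInf (Set.range fun μ : F => (A - Matrix.scalar ι μ).rank)

/-- `x` has fixed point ratio at most `δ` on every finite `M`-set without global fixed points -/
def FixLE (M : Type) [Group M] (x : M) (δ : ℝ) : Prop :=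
  ∀ (Ω : Type) [Finite Ω] [MulAction M Ω], (∀ ω : Ω, ∃ g : M, g • ω ≠ ω) → fpr Ω {x} ≤ δ

/-- the strong bound for a matrix group `M` -/
structure Strong (C : ℕ) (M : Type) [Group M] {ι : Type} [Fintype ι] [DecidableEq ι] {F : Type} [Field F] [Fintype F]
    (m : M → Matrix ι ι F) : Prop where
  fix : ∀ x : M, x ∉ Subgroup.center M → ∀ (Ω : Type) [Finite Ω] [MulAction M Ω],
    (∀ ω : Ω, ∃ g : M, g • ω ≠ ω) → fpr Ω {x} ^ C * (Fintype.card F : ℝ) ^ supp (m x) ≤ C
  triv : ∀ x : M, x ∉ Subgroup.center M → FixLE M x (1 - 1 / C)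

/-- the weak bound (bounded rank) -/
def WeakM (C : ℕ) (M : Type) [Group M] (q : ℕ) : Prop :=
  ∀ x : M, x ∉ Subgroup.center M → ∀ (Ω : Type) [Finite Ω] [MulAction M Ω],
    (∀ ω : Ω, ∃ g : M, g • ω ≠ ω) → fpr Ω {x} ^ C * (q : ℝ) ≤ C

/-- the matrix of an element of `Omega F Q` -/
def omMat {ι : Type} [Fintype ι] [DecidableEq ι] {F : Type} [Field F] (Q : (ι → F) → F)
    (x : Cfsg.Omega F Q) : Matrix ι ι F := (x.1.1 : GL ι F).1

/-! ### main theorems for the classical groups -/

def T_SL : Prop := ∃ C : ℕ, 0 < C ∧ ∀ (F : Type) [Field F] [Fintype F] (n : ℕ), 2 ≤ n →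
  (n = 2 → 4 ≤ Fintype.card F) → Strong C SL(n, F) (fun x => (x : Matrix (Fin n) (Fin n) F))

def T_Sp : Prop := ∃ C : ℕ, 0 < C ∧ ∀ (F : Type) [Field F] [Fintype F] (m : ℕ), 2 ≤ m →
  (m = 2 → 3 ≤ Fintype.card F) →
  Strong C (Matrix.symplecticGroup (Fin m) F) (fun x => (x : Matrix (Fin m ⊕ Fin m) (Fin m ⊕ Fin m) F))

def T_SU : Prop := ∃ C : ℕ, 0 < C ∧ ∀ (F : Type) [Field F] [Fintype F] (n q : ℕ), Fintype.card F = q ^ 2 → 3 ≤ n →
  ¬ (n = 3 ∧ q = 2) → Strong C (Cfsg.SU n F q)
    (fun x => ((x : Matrix.SpecialLinearGroup (Fin n) F) : Matrix (Fin n) (Fin n) F))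

def T_OOdd : Prop := ∃ C : ℕ, 0 < C ∧ ∀ (F : Type) [Field F] [Fintype F] (m : ℕ), 3 ≤ m → Odd (Fintype.card F) →
  Strong C (Cfsg.Omega F (Cfsg.quadFormOdd m F)) (omMat (Cfsg.quadFormOdd m F))

def T_OPlus : Prop := ∃ C : ℕ, 0 < C ∧ ∀ (F : Type) [Field F] [Fintype F] (m : ℕ), 4 ≤ m →
  Strong C (Cfsg.Omega F (Cfsg.quadFormPlus m F)) (omMat (Cfsg.quadFormPlus m F))

def T_OMinus : Prop := ∃ C : ℕ, 0 < C ∧ ∀ (F : Type) [Field F] [Fintype F] (m : ℕ) (a b : F), 4 ≤ m →
  (∀ z₁ z₂ : F, z₁ ^ 2 + a * z₁ * z₂ + b * z₂ ^ 2 = 0 → z₁ = 0 ∧ z₂ = 0) →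
  Strong C (Cfsg.Omega F (Cfsg.quadFormMinus (m - 1) F a b)) (omMat (Cfsg.quadFormMinus (m - 1) F a b))

/-! ### bounded dimension (`BR`), every `n₀` -/

def BR_SL : Prop := ∀ n₀ : ℕ, ∃ C : ℕ, 0 < C ∧ ∀ (F : Type) [Field F] [Fintype F] (n : ℕ), 2 ≤ n → n ≤ n₀ →
  (n = 2 → 4 ≤ Fintype.card F) → WeakM C SL(n, F) (Fintype.card F)

def BR_Sp : Prop := ∀ n₀ : ℕ, ∃ C : ℕ, 0 < C ∧ ∀ (F : Type) [Field F] [Fintype F] (m : ℕ), 2 ≤ m → m ≤ n₀ →
  (m = 2 → 3 ≤ Fintype.card F) → WeakM C (Matrix.symplecticGroup (Fin m) F) (Fintype.card F)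

def BR_SU : Prop := ∀ n₀ : ℕ, ∃ C : ℕ, 0 < C ∧ ∀ (F : Type) [Field F] [Fintype F] (n q : ℕ),
  Fintype.card F = q ^ 2 → 3 ≤ n → n ≤ n₀ → ¬ (n = 3 ∧ q = 2) → WeakM C (Cfsg.SU n F q) (Fintype.card F)

def BR_OOdd : Prop := ∀ n₀ : ℕ, ∃ C : ℕ, 0 < C ∧ ∀ (F : Type) [Field F] [Fintype F] (m : ℕ), 3 ≤ m → m ≤ n₀ →
  Odd (Fintype.card F) → WeakM C (Cfsg.Omega F (Cfsg.quadFormOdd m F)) (Fintype.card F)

def BR_OPlus : Prop := ∀ n₀ : ℕ, ∃ C : ℕ, 0 < C ∧ ∀ (F : Type) [Field F] [Fintype F] (m : ℕ), 4 ≤ m → m ≤ n₀ →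
  WeakM C (Cfsg.Omega F (Cfsg.quadFormPlus m F)) (Fintype.card F)

def BR_OMinus : Prop := ∀ n₀ : ℕ, ∃ C : ℕ, 0 < C ∧ ∀ (F : Type) [Field F] [Fintype F] (m : ℕ) (a b : F), 4 ≤ m →
  m ≤ n₀ → (∀ z₁ z₂ : F, z₁ ^ 2 + a * z₁ * z₂ + b * z₂ ^ 2 = 0 → z₁ = 0 ∧ z₂ = 0) →
  WeakM C (Cfsg.Omega F (Cfsg.quadFormMinus (m - 1) F a b)) (Fintype.card F)

/-- exceptional groups -/
def T_Exc : Prop := ∃ C : ℕ, 0 < C ∧ ∀ (T : Type) [Group T] [Finite T] [IsSimpleGroup T],
  Cfsg.IsExceptionalLieType T → ∃ q : ℕ, 2 ≤ q ∧ Nat.card T ≤ q ^ C ∧ WeakM C T q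

/-! ### from the bounds to `TBase` -/

/-- N1: union bound for the inner elements, then the 2-generation trick (S3948) for the automorphisms.
`N` = dimension, `ν` = support. -/
def T_tbase_of_strong : Prop :=
  ∀ C : ℕ, ∃ c : ℕ, ∀ (q N : ℕ), 2 ≤ q → 1 ≤ N → ∀ (T : Type) [Group T] [Finite T] [IsSimpleGroup T],
    (∃ a b : T, a * b ≠ b * a) → ∀ (ν : T → ℕ), (∀ x, x ≠ 1 → 1 ≤ ν x) →
    (∀ s, Nat.card {x : T // ν x = s} ≤ q ^ (C * N * (s + 1))) →
    (∀ x : T, x ≠ 1 → ∀ (Ω : Type) [Finite Ω] [MulAction T Ω], (∀ ω : Ω, ∃ g : T, g • ω ≠ ω) →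
      fpr Ω {x} ^ C * (q : ℝ) ^ ν x ≤ C) →
    (∀ x : T, x ≠ 1 → FixLE T x (1 - 1 / C)) → TBase T (c * N)

/-- N2: bounded order -/
def T_tbase_small : Prop := ∀ n : ℕ, ∃ c : ℕ, ∀ (T : Type) [Group T] [Finite T] [IsSimpleGroup T],
  (∃ a b : T, a * b ≠ b * a) → Nat.card T ≤ n → TBase T c

/-- monotonicity of `TBase` in `k` -/
def T_tbase_mono : Prop := ∀ (T : Type) [Group T] (k l : ℕ), k ≤ l → 0 < k → TBase T k → TBase T l

/-- N3: number of matrices of support `s` -/
def T_count : Prop := ∀ (F : Type) [Field F] [Fintype F] (ι : Type) [Fintype ι] [DecidableEq ι] (s : ℕ),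
  Nat.card {A : Matrix ι ι F // supp A = s} ≤ (Fintype.card F) ^ (2 * Fintype.card ι * s + 1)

/-- N4: a non-central element has positive support (scalar matrices are central) -/
def T_supp_pos : Prop := ∀ (F : Type) [Field F] [Fintype F] (ι : Type) [Fintype ι] [DecidableEq ι]
  (A : Matrix ι ι F), supp A = 0 → ∃ μ : F, A = Matrix.scalar ι μ

/-! ### N5: alternating sections -/

def A_PSL : Prop := ∃ C : ℕ, ∀ (F : Type) [Field F] [Fintype F] (n d : ℕ), 5 ≤ d → 2 ≤ n →
  ¬ Cfsg.Involves (alternatingGroup (Fin d)) (Matrix.ProjectiveSpecialLinearGroup (Fin n) F) → n ≤ C * d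
def A_PSp : Prop := ∃ C : ℕ, ∀ (F : Type) [Field F] [Fintype F] (m d : ℕ), 5 ≤ d →
  ¬ Cfsg.Involves (alternatingGroup (Fin d)) (Cfsg.PSp m F) → m ≤ C * d
def A_PSU : Prop := ∃ C : ℕ, ∀ (F : Type) [Field F] [Fintype F] (n q d : ℕ), Fintype.card F = q ^ 2 → 5 ≤ d →
  ¬ Cfsg.Involves (alternatingGroup (Fin d)) (Cfsg.PSU n F q) → n ≤ C * d
def A_POdd : Prop := ∃ C : ℕ, ∀ (F : Type) [Field F] [Fintype F] (m d : ℕ), 5 ≤ d → Odd (Fintype.card F) →
  ¬ Cfsg.Involves (alternatingGroup (Fin d)) (Cfsg.POmega F (Cfsg.quadFormOdd m F)) → m ≤ C * d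
def A_PPlus : Prop := ∃ C : ℕ, ∀ (F : Type) [Field F] [Fintype F] (m d : ℕ), 5 ≤ d →
  ¬ Cfsg.Involves (alternatingGroup (Fin d)) (Cfsg.POmega F (Cfsg.quadFormPlus m F)) → m ≤ C * d
def A_PMinus : Prop := ∃ C : ℕ, ∀ (F : Type) [Field F] [Fintype F] (m d : ℕ) (a b : F), 5 ≤ d →
  ¬ Cfsg.Involves (alternatingGroup (Fin d)) (Cfsg.POmega F (Cfsg.quadFormMinus m F a b)) → m ≤ C * d

/-! ### assemblies -/

/-- all rows of Lie type: `TBase T (c d)` -/
def Rows (P : ∀ (T : Type) [Group T], Prop) : Prop :=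
  ∃ c : ℕ, 0 < c ∧ ∀ d : ℕ, 5 ≤ d → ∀ (T : Type) [Group T] [Finite T] [IsSimpleGroup T], P T →
    ¬ Cfsg.Involves (alternatingGroup (Fin d)) T → TBase T (c * d)

def Asm_PSL : Prop := T_SL → T_tbase_of_strong → T_count → T_supp_pos → A_PSL → T_tbase_mono →
  Rows (fun T _ => Cfsg.IsPSL T)
def Asm_PSp : Prop := T_Sp → T_tbase_of_strong → T_count → T_supp_pos → A_PSp → T_tbase_mono →
  Rows (fun T _ => Cfsg.IsPSp T)
def Asm_PSU : Prop := T_SU → T_tbase_of_strong → T_count → T_supp_pos → A_PSU → T_tbase_mono →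
  Rows (fun T _ => Cfsg.IsPSU T)
def Asm_POdd : Prop := T_OOdd → T_tbase_of_strong → T_count → T_supp_pos → A_POdd → T_tbase_mono →
  Rows (fun T _ => Cfsg.IsPOmegaOdd T)
def Asm_PPlus : Prop := T_OPlus → T_tbase_of_strong → T_count → T_supp_pos → A_PPlus → T_tbase_mono →
  Rows (fun T _ => Cfsg.IsPOmegaPlus T)
def Asm_PMinus : Prop := T_OMinus → T_tbase_of_strong → T_count → T_supp_pos → A_PMinus → T_tbase_mono →
  Rows (fun T _ => Cfsg.IsPOmegaMinus T)
def Asm_Exc : Prop := T_Exc → T_tbase_of_strong → T_tbase_mono → Rows (fun T _ => Cfsg.IsExceptionalLieType T)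
def Asm_Spor : Prop := T_tbase_small → T_tbase_mono → Rows (fun T _ => Cfsg.IsSporadicGroup T)

end Cfsg.Agent.H254.BS.PI
end

-- part: H917/FP/Strong
section
prune_inst 0xf57011017d22000010000506800000a1680004020040840004070b020b490040404280000b002413580080800805000002dc00a0804000c004000400000405011080020001400000000086000000000000000000000000000000000000030000200000000
set_option linter.all false
open scoped Cfsg.Agent.FastGrp

-- part: H917/FP/Supp
section
/-!
Doubling of the support (S5717): for `x` of support `s` and most `y` the commutator `[x, y]` has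
support `2 s`.
-/

set_option autoImplicit false
set_option linter.unusedSectionVars false

namespace Cfsg.Agent.H917.FP

open Module Matrix
open Cfsg.Agent.H254.BS.PI (supp)

section Count

variable {M : Type*} [Group M] [Finite M] {X : Type*} [MulAction M X]

theorem card_move_le (a b : X) (D : ℕ) (hD : D ≤ Nat.card (MulAction.orbit M a)) :
    Nat.card {y : M // y • a = b} * D ≤ Nat.card M := by
  by_cases h : ∃ y0 : M, y0 • a = b
  · obtain ⟨y0, hy0⟩ := h
    have e : {y : M // y • a = b} ≃ MulAction.stabilizer M a :=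
      ⟨fun y => ⟨y0⁻¹ * y.1, by
        rw [MulAction.mem_stabilizer_iff, mul_smul, y.2, ← hy0, inv_smul_smul]⟩,
       fun g => ⟨y0 * g.1, by
        rw [mul_smul, MulAction.mem_stabilizer_iff.mp g.2, hy0]⟩,
       fun y => by simp, fun g => by simp⟩
    rw [Nat.card_congr e]
    have h1 := Subgroup.card_mul_index (MulAction.stabilizer M a)
    rw [MulAction.index_stabilizer] at h1
    calc _ ≤ Nat.card (MulAction.stabilizer M a) * Nat.card (MulAction.orbit M a) :=
          Nat.mul_le_mul_left _ hD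
      _ = Nat.card M := h1
  · have : IsEmpty {y : M // y • a = b} := ⟨fun y => h ⟨y.1, y.2⟩⟩
    simp

theorem count_meet (S : Set X) [Finite S] (D : ℕ)
    (hD : ∀ a ∈ S, D ≤ Nat.card (MulAction.orbit M a)) :
    Nat.card {y : M // ∃ a ∈ S, y • a ∈ S} * D ≤ Nat.card S ^ 2 * Nat.card M := by
  classical
  have := Fintype.ofFinite S
  have := Fintype.ofFinite M
  have h1 : Nat.card {y : M // ∃ a ∈ S, y • a ∈ S} ≤
      Nat.card (Σ p : S × S, {y : M // y • (p.1 : X) = p.2}) := by
    refine Nat.card_le_card_of_injective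
      (fun y => ⟨(⟨y.2.choose, y.2.choose_spec.1⟩, ⟨y.1 • y.2.choose, y.2.choose_spec.2⟩),
        ⟨y.1, rfl⟩⟩) ?_
    intro y z h
    apply Subtype.ext
    have h2 := congrArg (fun t : (Σ p : S × S, {y : M // y • (p.1 : X) = p.2}) => (t.2.1 : M)) h
    exact h2
  have h2 : Nat.card (Σ p : S × S, {y : M // y • (p.1 : X) = p.2}) =
      ∑ p : S × S, Nat.card {y : M // y • (p.1 : X) = p.2} := Nat.card_sigma
  calc Nat.card {y : M // ∃ a ∈ S, y • a ∈ S} * D
      ≤ (∑ p : S × S, Nat.card {y : M // y • (p.1 : X) = p.2}) * D :=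
        Nat.mul_le_mul_right _ (h1.trans_eq h2)
    _ = ∑ p : S × S, Nat.card {y : M // y • (p.1 : X) = p.2} * D := by rw [Finset.sum_mul]
    _ ≤ ∑ _p : S × S, Nat.card M :=
        Finset.sum_le_sum fun p _ => card_move_le _ _ _ (hD _ p.1.2)
    _ = Nat.card S ^ 2 * Nat.card M := by
        rw [Finset.sum_const, smul_eq_mul, Finset.card_univ, Fintype.card_prod,
          ← Nat.card_eq_fintype_card, sq]

end Count

section Lin

variable {F : Type*} [Field F] {V : Type*} [AddCommGroup V] [Module F V] [FiniteDimensional F V]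

theorem range_sub_of_good {P R : Module.End F V}
    (h2 : LinearMap.ker P ⊔ LinearMap.ker R = ⊤) :
    LinearMap.range (P - R) = LinearMap.range P ⊔ LinearMap.range R := by
  apply le_antisymm
  · rintro _ ⟨v, rfl⟩
    rw [LinearMap.sub_apply, sub_eq_add_neg, ← map_neg]
    exact Submodule.add_mem_sup ⟨v, rfl⟩ ⟨-v, rfl⟩
  · rw [sup_le_iff]
    constructor
    · rintro _ ⟨v, rfl⟩
      obtain ⟨a, ha, b, hb, rfl⟩ := Submodule.mem_sup.mp (h2 ▸ Submodule.mem_top : v ∈ _)
      refine ⟨b, ?_⟩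
      rw [LinearMap.sub_apply, LinearMap.mem_ker.mp hb, map_add, LinearMap.mem_ker.mp ha]
      simp
    · rintro _ ⟨v, rfl⟩
      obtain ⟨a, ha, b, hb, rfl⟩ := Submodule.mem_sup.mp (h2 ▸ Submodule.mem_top : v ∈ _)
      refine ⟨-a, ?_⟩
      rw [LinearMap.sub_apply, map_neg, map_neg, LinearMap.mem_ker.mp ha, map_add,
        LinearMap.mem_ker.mp hb]
      simp

theorem rank_sub_of_good {P R : Module.End F V}
    (h1 : Disjoint (LinearMap.range P) (LinearMap.range R))
    (h2 : LinearMap.ker P ⊔ LinearMap.ker R = ⊤) :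
    finrank F (LinearMap.range (P - R)) =
      finrank F (LinearMap.range P) + finrank F (LinearMap.range R) := by
  rw [range_sub_of_good h2]
  have h := Submodule.finrank_sup_add_finrank_inf_eq (LinearMap.range P) (LinearMap.range R)
  rw [h1.eq_bot, finrank_bot] at h
  omega

theorem rank_add_rank_ge (C : Module.End F V) {μ : F} (hμ : μ ≠ 1) :
    finrank F V ≤ finrank F (LinearMap.range (C - 1)) +
      finrank F (LinearMap.range (C - μ • (1 : Module.End F V))) := by
  have h1 := LinearMap.finrank_range_add_finrank_ker (C - 1)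
  have h2 := LinearMap.finrank_range_add_finrank_ker (C - μ • (1 : Module.End F V))
  have h3 : LinearMap.ker (C - 1) ⊓ LinearMap.ker (C - μ • (1 : Module.End F V)) = ⊥ := by
    rw [eq_bot_iff]
    rintro v ⟨ha, hb⟩
    have ha := LinearMap.mem_ker.mp ha
    have hb := LinearMap.mem_ker.mp hb
    rw [LinearMap.sub_apply, Module.End.one_apply, sub_eq_zero] at ha
    rw [LinearMap.sub_apply, LinearMap.smul_apply, Module.End.one_apply, sub_eq_zero, ha] at hb
    have : (1 - μ) • v = 0 := by rw [sub_smul, one_smul, ← hb, sub_self]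
    exact (smul_eq_zero.mp this).resolve_left (sub_ne_zero.mpr hμ.symm)
  have h4 := Submodule.finrank_sup_add_finrank_inf_eq (LinearMap.ker (C - 1))
    (LinearMap.ker (C - μ • (1 : Module.End F V)))
  rw [h3, finrank_bot] at h4
  have h5 := Submodule.finrank_le (LinearMap.ker (C - 1) ⊔ LinearMap.ker (C - μ • (1 : Module.End F V)))
  omega

variable {M : Type*} [Group M]

/-- for good `y` the commutator `x (y x⁻¹ y⁻¹)` has `rank (· - 1) = 2 s`. -/
theorem rank_comm (ρ : M →* Module.End F V) (x y : M) (μ : F)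
    (h1 : ∀ w ∈ LinearMap.range (ρ x - μ • (1 : Module.End F V)), w ≠ 0 →
      ρ y w ∉ LinearMap.range (ρ x - μ • (1 : Module.End F V)))
    (h2 : ∀ f ∈ (LinearMap.ker (ρ x - μ • (1 : Module.End F V))).dualAnnihilator, f ≠ 0 →
      f ∘ₗ ρ y⁻¹ ∉ (LinearMap.ker (ρ x - μ • (1 : Module.End F V))).dualAnnihilator) :
    finrank F (LinearMap.range (ρ (x * (y * x⁻¹ * y⁻¹)) - 1)) =
      2 * finrank F (LinearMap.range (ρ x - μ • (1 : Module.End F V))) := by
  set P := ρ x - μ • (1 : Module.End F V) with hP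
  set R := ρ y * P * ρ y⁻¹ with hR
  have hyy : ρ y * ρ y⁻¹ = 1 := by rw [← map_mul, mul_inv_cancel, map_one]
  have hyy' : ρ y⁻¹ * ρ y = 1 := by rw [← map_mul, inv_mul_cancel, map_one]
  have ey : ∀ v, ρ y (ρ y⁻¹ v) = v := fun v => by
    rw [← Module.End.mul_apply, hyy, Module.End.one_apply]
  have ey' : ∀ v, ρ y⁻¹ (ρ y v) = v := fun v => by
    rw [← Module.End.mul_apply, hyy', Module.End.one_apply]
  have hR2 : R = ρ (y * x * y⁻¹) - μ • (1 : Module.End F V) := by
    rw [hR, hP, mul_sub, sub_mul, map_mul, map_mul, mul_smul_comm, mul_one, smul_mul_assoc, hyy]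
  -- the range of `ρ z - 1`
  have hz : (ρ (x * (y * x⁻¹ * y⁻¹)) - 1) * ρ (y * x * y⁻¹) = P - R := by
    rw [sub_mul, one_mul, ← map_mul, hR2, hP]
    have : x * (y * x⁻¹ * y⁻¹) * (y * x * y⁻¹) = x := by group
    rw [this]; abel
  have hsurj : Function.Surjective (ρ (y * x * y⁻¹)) := by
    intro v
    refine ⟨ρ (y * x * y⁻¹)⁻¹ v, ?_⟩
    rw [← Module.End.mul_apply, ← map_mul, mul_inv_cancel, map_one, Module.End.one_apply]
  have hrange : LinearMap.range (ρ (x * (y * x⁻¹ * y⁻¹)) - 1) = LinearMap.range (P - R) := by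
    rw [← hz]
    have : (ρ (x * (y * x⁻¹ * y⁻¹)) - 1) * ρ (y * x * y⁻¹) =
      (ρ (x * (y * x⁻¹ * y⁻¹)) - 1) ∘ₗ ρ (y * x * y⁻¹) := rfl
    rw [this, LinearMap.range_comp, LinearMap.range_eq_top.mpr hsurj, Submodule.map_top]
  rw [hrange]
  have hRrank : finrank F (LinearMap.range R) = finrank F (LinearMap.range P) := by
    have e : LinearMap.range R = (LinearMap.range P).map (ρ y) := by
      have : R = (ρ y ∘ₗ P) ∘ₗ ρ y⁻¹ := rfl
      rw [this, LinearMap.range_comp, LinearMap.range_eq_top.mpr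
        (fun v => ⟨ρ y v, ey' v⟩), Submodule.map_top, LinearMap.range_comp]
    rw [e]
    exact (Submodule.equivMapOfInjective (ρ y)
      (Function.LeftInverse.injective ey') (LinearMap.range P)).finrank_eq.symm
  rw [rank_sub_of_good ?_ ?_, hRrank]
  · ring
  · -- disjoint ranges
    rw [Submodule.disjoint_def]
    rintro u hu ⟨v, hv⟩
    by_contra hu0
    refine h1 (P (ρ y⁻¹ v)) ⟨_, rfl⟩ ?_ ?_
    · intro h0
      apply hu0
      rw [← hv]
      change ρ y (P (ρ y⁻¹ v)) = 0
      rw [h0, map_zero]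
    · have : ρ y (P (ρ y⁻¹ v)) = u := hv
      rw [this]; exact hu
  · -- kernels
    by_contra hne
    obtain ⟨f, hf0, hf⟩ := Submodule.exists_le_ker_of_lt_top _ (lt_top_iff_ne_top.mpr hne)
    refine h2 (f ∘ₗ ρ y) ?_ ?_ ?_
    · rw [Submodule.mem_dualAnnihilator]
      intro w hw
      have : ρ y w ∈ LinearMap.ker R := by
        rw [LinearMap.mem_ker]
        change ρ y (P (ρ y⁻¹ (ρ y w))) = 0
        rw [ey', LinearMap.mem_ker.mp hw, map_zero]
      exact LinearMap.mem_ker.mp (hf (Submodule.mem_sup_right this))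
    · intro h0
      apply hf0
      ext v
      have := LinearMap.congr_fun h0 (ρ y⁻¹ v)
      rw [LinearMap.comp_apply, ey] at this
      simpa only [_root_.LinearMap.zero_apply] using this
    · have : (f ∘ₗ ρ y) ∘ₗ ρ y⁻¹ = f := by
        ext v
        rw [LinearMap.comp_apply, LinearMap.comp_apply, ey]
      rw [this, Submodule.mem_dualAnnihilator]
      intro w hw
      exact LinearMap.mem_ker.mp (hf (Submodule.mem_sup_left hw))

end Lin

end Cfsg.Agent.H917.FP
end

-- part: H917/FP/Small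
section
/-!
Small support from large support (S5717): iteration of the doubling of the support.
-/

set_option autoImplicit false
set_option linter.unusedSectionVars false

namespace Cfsg.Agent.H917.FP

open Module Matrix
open Cfsg.Agent.H254.BS.PI (supp FixLE Strong WeakM)

section Mat

variable {F : Type} [Field F] {ι : Type} [Fintype ι] [DecidableEq ι]

theorem rank_scalar (A : Matrix ι ι F) (μ : F) :
    (A - Matrix.scalar ι μ).rank =
      finrank F (LinearMap.range (Matrix.toLin' A - μ • (1 : Module.End F (ι → F)))) := by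
  have : Matrix.toLin' A - μ • (1 : Module.End F (ι → F)) =
      Matrix.toLin' (A - Matrix.scalar ι μ) := by
    rw [map_sub]
    congr 1
    ext v i
    by_cases h : i = v
    · subst h; simp only [Matrix.toLin'_apply, Matrix.scalar_apply, _root_.LinearMap.coe_comp, _root_.LinearMap.coe_smul, _root_.LinearMap.coe_single, _root_.Function.comp_apply, _root_.Pi.smul_apply, _root_.Module.End.one_apply, _root_.Pi.single_eq_same, _root_.smul_eq_mul, _root_.mul_one, _root_.Matrix.mulVec_single, _root_.MulOpposite.op_one, _root_.Matrix.col_diagonal, _root_.one_smul]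
    · simp only [Matrix.toLin'_apply, Matrix.scalar_apply, h, _root_.LinearMap.coe_comp, _root_.LinearMap.coe_smul, _root_.LinearMap.coe_single, _root_.Function.comp_apply, _root_.Pi.smul_apply, _root_.Module.End.one_apply, _root_.ne_eq, _root_.not_false_eq_true, _root_.Pi.single_eq_of_ne, _root_.smul_eq_mul, _root_.MulZeroClass.mul_zero, _root_.Matrix.mulVec_single, _root_.MulOpposite.op_one, _root_.Matrix.col_diagonal, _root_.smul_zero]
  rw [this]
  rfl

theorem supp_le (A : Matrix ι ι F) (μ : F) : supp A ≤ (A - Matrix.scalar ι μ).rank :=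
  Nat.sInf_le ⟨μ, rfl⟩

theorem exists_supp (A : Matrix ι ι F) : ∃ μ : F, (A - Matrix.scalar ι μ).rank = supp A := by
  have h : (Set.range fun μ : F => (A - Matrix.scalar ι μ).rank).Nonempty := ⟨_, ⟨0, rfl⟩⟩
  exact Nat.sInf_mem h

theorem supp_eq_of_rank {A : Matrix ι ι F} {t : ℕ}
    (h : finrank F (LinearMap.range (Matrix.toLin' A - 1)) = t) (ht : 2 * t ≤ Fintype.card ι) :
    supp A = t := by
  have h1 : (A - Matrix.scalar ι 1).rank = t := by rw [rank_scalar, one_smul]; exact h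
  apply le_antisymm
  · rw [← h1]; exact supp_le A 1
  · obtain ⟨μ, hμ⟩ := exists_supp A
    rw [← hμ]
    by_cases hμ1 : μ = 1
    · rw [hμ1, h1]
    · have h2 := rank_add_rank_ge (Matrix.toLin' A) hμ1
      rw [h, ← rank_scalar, Module.finrank_fintype_fun_eq_card] at h2
      omega

theorem supp_le_card (A : Matrix ι ι F) : supp A ≤ Fintype.card ι :=
  (supp_le A 0).trans (Matrix.rank_le_card_width _)

variable {M : Type} [Group M]

/-- the orbits on nonzero columns and rows have length at least `D`. -/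
structure LongOrb (D : ℕ) (m : M →* Matrix ι ι F) : Prop where
  col : ∀ v : ι → F, v ≠ 0 → D ≤ Nat.card (Set.range fun y : M => m y *ᵥ v)
  row : ∀ v : ι → F, v ≠ 0 → D ≤ Nat.card (Set.range fun y : M => v ᵥ* m y)

variable [Finite M] [Fintype F]

theorem card_supp_double (m : M →* Matrix ι ι F) {D : ℕ} (hD : LongOrb D m) (x : M)
    (h4 : 4 * supp (m x) ≤ Fintype.card ι) :
    Nat.card {y : M // supp (m (x * (y * x⁻¹ * y⁻¹))) ≠ 2 * supp (m x)} * D ≤
      2 * Fintype.card F ^ (2 * supp (m x)) * Nat.card M := by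
  classical
  obtain ⟨μ, hμ⟩ := exists_supp (m x)
  set s := supp (m x) with hs
  let ρ : M →* Module.End F (ι → F) :=
    ((Matrix.toLinAlgEquiv' : Matrix ι ι F ≃ₐ[F] _) : Matrix ι ι F →* _).comp m
  have hρ : ∀ y, ρ y = Matrix.toLin' (m y) := fun y => rfl
  set P := ρ x - μ • (1 : Module.End F (ι → F)) with hP
  have hPr : finrank F (LinearMap.range P) = s := by rw [← hμ, rank_scalar]; rfl
  -- the action on columns
  let aV : MulAction M (ι → F) :=
    { smul := fun y v => ρ y v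
      one_smul := fun v => by change ρ 1 v = v; rw [map_one]; rfl
      mul_smul := fun y z v => by change ρ (y * z) v = ρ y (ρ z v); rw [map_mul]; rfl }
  let aD : MulAction M (Dual F (ι → F)) :=
    { smul := fun y f => f ∘ₗ ρ y⁻¹
      one_smul := fun f => by change f ∘ₗ ρ 1⁻¹ = f; rw [inv_one, map_one]; rfl
      mul_smul := fun y z f => by
        change f ∘ₗ ρ (y * z)⁻¹ = (f ∘ₗ ρ z⁻¹) ∘ₗ ρ y⁻¹
        rw [_root_.mul_inv_rev, map_mul]; rfl }
  let S : Set (ι → F) := {w | w ∈ LinearMap.range P ∧ w ≠ 0}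
  let T : Set (Dual F (ι → F)) := {f | f ∈ (LinearMap.ker P).dualAnnihilator ∧ f ≠ 0}
  have hdualfin : Finite (Dual F (ι → F)) :=
    Module.finite_of_finite F
  have hScard : Nat.card S ≤ Fintype.card F ^ s := by
    have h1 : Nat.card S ≤ Nat.card (LinearMap.range P) :=
      Nat.card_le_card_of_injective (fun w : S => (⟨w.1, w.2.1⟩ : LinearMap.range P))
        (fun a b h => Subtype.ext (by simpa using h))
    rw [Module.natCard_eq_pow_finrank (K := F) (V := LinearMap.range P), hPr,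
      Nat.card_eq_fintype_card (α := F)] at h1
    exact h1
  have hTcard : Nat.card T ≤ Fintype.card F ^ s := by
    have h1 : Nat.card T ≤ Nat.card (LinearMap.ker P).dualAnnihilator :=
      Nat.card_le_card_of_injective
        (fun w : T => (⟨w.1, w.2.1⟩ : (LinearMap.ker P).dualAnnihilator))
        (fun a b h => Subtype.ext (by simpa using h))
    have h2 : finrank F (LinearMap.ker P).dualAnnihilator = s := by
      have h3 := Subspace.finrank_add_finrank_dualAnnihilator_eq (LinearMap.ker P)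
      have h4 := LinearMap.finrank_range_add_finrank_ker P
      omega
    rw [Module.natCard_eq_pow_finrank (K := F) (V := (LinearMap.ker P).dualAnnihilator), h2,
      Nat.card_eq_fintype_card (α := F)] at h1
    exact h1
  have c1 := count_meet (M := M) S D (fun a ha => by
    have h1 := hD.col a ha.2
    exact h1)
  have c2 := count_meet (M := M) T D (fun f hf => by
    -- the row of `f`
    set r : ι → F := fun i => f (Pi.single i 1) with hr
    have hfr : ∀ v, f v = r ⬝ᵥ v := by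
      intro v
      conv_lhs => rw [← Finset.univ_sum_single v, map_sum]
      refine Finset.sum_congr rfl fun i _ => ?_
      rw [hr]
      have : (Pi.single i (v i) : ι → F) = v i • Pi.single i 1 := by
        ext j
        by_cases hj : j = i
        · subst hj; simp
        · simp [hj]
      rw [this, map_smul, smul_eq_mul, mul_comm]
    have hr0 : r ≠ 0 := by
      intro h0
      apply hf.2
      ext i
      simp only [hfr, h0, _root_.LinearMap.coe_comp, _root_.LinearMap.coe_single, _root_.Function.comp_apply, _root_.dotProduct_single, _root_.Pi.zero_apply, _root_.mul_one, _root_.LinearMap.zero_comp, _root_.LinearMap.zero_apply]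
    have h1 := hD.row r hr0
    refine h1.trans ?_
    have hfin : Finite (MulAction.orbit M f) := Set.toFinite _
    refine Nat.card_le_card_of_injective
      (fun w : Set.range (fun y : M => r ᵥ* m y) =>
        (⟨f ∘ₗ ρ w.2.choose, ⟨(w.2.choose)⁻¹, by
          change f ∘ₗ ρ ((w.2.choose)⁻¹)⁻¹ = _; rw [inv_inv]⟩⟩ : MulAction.orbit M f)) ?_
    intro a b hab
    have h2 : f ∘ₗ ρ a.2.choose = f ∘ₗ ρ b.2.choose := congrArg Subtype.val hab
    apply Subtype.ext
    rw [← a.2.choose_spec, ← b.2.choose_spec]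
    change r ᵥ* m a.2.choose = r ᵥ* m b.2.choose
    ext i
    have h3 := LinearMap.congr_fun h2 (Pi.single i 1)
    rw [LinearMap.comp_apply, LinearMap.comp_apply, hfr, hfr, hρ, hρ, Matrix.toLin'_apply,
      Matrix.toLin'_apply, Matrix.dotProduct_mulVec, Matrix.dotProduct_mulVec] at h3
    simpa only [_root_.dotProduct_single, _root_.mul_one] using h3)
  -- bad elements
  have hbad : Nat.card {y : M // supp (m (x * (y * x⁻¹ * y⁻¹))) ≠ 2 * s} ≤
      Nat.card {y : M // ∃ a ∈ S, y • a ∈ S} + Nat.card {y : M // ∃ f ∈ T, y • f ∈ T} := by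
    have h1 : ∀ y : M, supp (m (x * (y * x⁻¹ * y⁻¹))) ≠ 2 * s →
        (∃ a ∈ S, y • a ∈ S) ∨ (∃ f ∈ T, y • f ∈ T) := by
      intro y hy
      by_contra hcon
      rw [not_or] at hcon
      obtain ⟨hn1, hn2⟩ := hcon
      apply hy
      apply supp_eq_of_rank _ (by omega)
      have h5 := rank_comm ρ x y μ
        (fun w hw hw0 hcon => hn1 ⟨w, ⟨hw, hw0⟩, hcon, fun h0 => hw0 (by
          have h6 : ρ y⁻¹ (ρ y w) = w := by
            rw [← Module.End.mul_apply, ← map_mul, inv_mul_cancel, map_one, Module.End.one_apply]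
          have h7 : ρ y w = 0 := h0
          rw [← h6, h7, map_zero])⟩)
        (fun f hf hf0 hcon => hn2 ⟨f, ⟨hf, hf0⟩, hcon, fun h0 => hf0 (by
          ext1 i
          have h6 : ρ y⁻¹ (ρ y (Pi.single i 1)) = Pi.single i 1 := by
            rw [← Module.End.mul_apply, ← map_mul, inv_mul_cancel, map_one, Module.End.one_apply]
          have h7 : f ∘ₗ ρ y⁻¹ = 0 := h0
          have h8 := LinearMap.congr_fun h7 (ρ y (Pi.single i 1))
          rw [LinearMap.comp_apply, h6] at h8
          ext; simpa only [_root_.LinearMap.coe_comp, _root_.LinearMap.coe_single, _root_.Function.comp_apply, _root_.LinearMap.zero_comp, _root_.LinearMap.zero_apply] using h8)⟩)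
      rw [← hP, hPr] at h5
      exact h5
    have h2 : Nat.card {y : M // supp (m (x * (y * x⁻¹ * y⁻¹))) ≠ 2 * s} ≤
        Nat.card ({y : M // ∃ a ∈ S, y • a ∈ S} ⊕ {y : M // ∃ f ∈ T, y • f ∈ T}) := by
      refine Nat.card_le_card_of_injective
        (fun y => if h : ∃ a ∈ S, y.1 • a ∈ S then Sum.inl ⟨y.1, h⟩ else
          Sum.inr ⟨y.1, (h1 y.1 y.2).resolve_left h⟩) ?_
      intro y z hyz
      dsimp only at hyz
      apply Subtype.ext
      by_cases hy : ∃ a ∈ S, y.1 • a ∈ S
      · by_cases hz : ∃ a ∈ S, z.1 • a ∈ S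
        · rw [dif_pos hy, dif_pos hz] at hyz
          simpa using hyz
        · rw [dif_pos hy, dif_neg hz] at hyz
          cases hyz
      · by_cases hz : ∃ a ∈ S, z.1 • a ∈ S
        · rw [dif_neg hy, dif_pos hz] at hyz
          cases hyz
        · rw [dif_neg hy, dif_neg hz] at hyz
          simpa using hyz
    rw [Nat.card_sum] at h2
    exact h2
  have c1' : Nat.card {y : M // ∃ a ∈ S, y • a ∈ S} * D ≤
      Fintype.card F ^ (2 * s) * Nat.card M := by
    refine c1.trans (Nat.mul_le_mul_right _ ?_)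
    calc Nat.card S ^ 2 ≤ (Fintype.card F ^ s) ^ 2 := Nat.pow_le_pow_left hScard 2
      _ = Fintype.card F ^ (2 * s) := by rw [← pow_mul, mul_comm]
  have c2' : Nat.card {y : M // ∃ f ∈ T, y • f ∈ T} * D ≤
      Fintype.card F ^ (2 * s) * Nat.card M := by
    refine c2.trans (Nat.mul_le_mul_right _ ?_)
    calc Nat.card T ^ 2 ≤ (Fintype.card F ^ s) ^ 2 := Nat.pow_le_pow_left hTcard 2
      _ = Fintype.card F ^ (2 * s) := by rw [← pow_mul, mul_comm]
  calc _ ≤ (Nat.card {y : M // ∃ a ∈ S, y • a ∈ S} + Nat.card {y : M // ∃ f ∈ T, y • f ∈ T}) * D :=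
        Nat.mul_le_mul_right _ hbad
    _ ≤ Fintype.card F ^ (2 * s) * Nat.card M + Fintype.card F ^ (2 * s) * Nat.card M := by
        rw [add_mul]; exact Nat.add_le_add c1' c2'
    _ = 2 * Fintype.card F ^ (2 * s) * Nat.card M := by ring

theorem fpr_double {Ω : Type} [Finite Ω] [MulAction M Ω] (m : M →* Matrix ι ι F) {D : ℕ}
    (hD0 : 0 < D) (hD : LongOrb D m) (x : M) (h4 : 4 * supp (m x) ≤ Fintype.card ι) {δ : ℝ}
    (hδ : 0 ≤ δ) (h : ∀ z : M, supp (m z) = 2 * supp (m x) → fpr Ω {z} ≤ δ) :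
    fpr Ω {x} ^ 2 ≤ δ + 2 * (Fintype.card F : ℝ) ^ (2 * supp (m x)) / D := by
  have h1 := cs_comm_hom Ω (MonoidHom.id M) x
    {y : M | supp (m (x * (y * x⁻¹ * y⁻¹))) ≠ 2 * supp (m x)} δ hδ (fun y hy => by
      refine h _ ?_
      by_contra hne
      exact hy hne)
  refine h1.trans ?_
  have h2 := card_supp_double m hD x h4
  have hM : (0 : ℝ) < Nat.card M := by exact_mod_cast Nat.card_pos
  have hD' : (0 : ℝ) < D := by exact_mod_cast hD0
  have h3 : (Nat.card {y : M | supp (m (x * (y * x⁻¹ * y⁻¹))) ≠ 2 * supp (m x)} : ℝ) /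
      Nat.card M ≤ 2 * (Fintype.card F : ℝ) ^ (2 * supp (m x)) / D := by
    rw [div_le_div_iff₀ hM hD']
    exact_mod_cast h2
  linarith only [h3]

end Mat

/-- the constants of the iteration. -/
def cc : ℕ → ℕ
  | 0 => 0
  | (i + 1) => (cc i + 1) ^ 2

theorem cc_mono : Monotone cc := by
  refine monotone_nat_of_le_succ fun i => ?_
  change cc i ≤ (cc i + 1) ^ 2
  nlinarith

section Iter

variable {F : Type} [Field F] [Fintype F] {ι : Type} [Fintype ι] [DecidableEq ι]
  {M : Type} [Group M] [Finite M]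

theorem fpr_iter {Ω : Type} [Finite Ω] [MulAction M Ω] (m : M →* Matrix ι ι F) {D : ℕ}
    (hD0 : 0 < D) (hD : LongOrb D m) {ε : ℝ} (hε0 : 0 ≤ ε) (hε1 : ε ≤ 1) (i : ℕ) (x : M)
    (h4 : 2 * (2 ^ i * supp (m x)) ≤ Fintype.card ι)
    (hε : 2 * (Fintype.card F : ℝ) ^ (2 * (2 ^ i * supp (m x))) / D ≤ ε) :
    ∀ δ : ℝ, 0 ≤ δ → (∀ z : M, supp (m z) = 2 ^ i * supp (m x) → fpr Ω {z} ≤ δ) →
    fpr Ω {x} ^ (2 ^ i) ≤ cc i * ε + δ := by
  have hq : (1 : ℝ) ≤ Fintype.card F := by exact_mod_cast Fintype.card_pos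
  have hD' : (0 : ℝ) < D := by exact_mod_cast hD0
  induction i with
  | zero =>
    intro δ hδ h
    have := h x (by simp)
    simpa [cc] using this
  | succ i ih =>
    intro δ hδ h
    have e1 : 2 ^ (i + 1) * supp (m x) = 2 * (2 ^ i * supp (m x)) := by ring
    have h5 : 2 ^ i * supp (m x) ≤ 2 ^ (i + 1) * supp (m x) := by
      rw [e1]; omega
    have hεi : 2 * (Fintype.card F : ℝ) ^ (2 * (2 ^ i * supp (m x))) / D ≤ ε := by
      refine le_trans ?_ hε
      gcongr
    have key : ∀ z : M, supp (m z) = 2 ^ i * supp (m x) → fpr Ω {z} ≤ min 1 √(δ + ε) := by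
      intro z hz
      refine le_min (fpr_le_one Ω _) (Real.le_sqrt_of_sq_le ?_)
      have h6 := fpr_double (Ω := Ω) m hD0 hD z (by rw [hz]; omega) hδ
        (fun w hw => h w (by rw [hw, hz, e1]))
      rw [hz] at h6
      linarith only [hεi, h6]
    have h7 := ih (by omega) hεi (min 1 √(δ + ε)) (by (clear * -; positivity)) key
    set a := min 1 √(δ + ε) with ha
    have ha0 : 0 ≤ a := by (clear * -; positivity)
    have ha1 : a ≤ 1 := min_le_left _ _
    have ha2 : a ^ 2 ≤ δ + ε := by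
      calc a ^ 2 ≤ √(δ + ε) ^ 2 := by gcongr; exact min_le_right _ _
        _ = δ + ε := Real.sq_sqrt (by positivity)
    have hx0 : 0 ≤ fpr Ω ({x} : Set M) ^ 2 ^ i := pow_nonneg (fpr_nonneg Ω _) _
    have hc0 : (0 : ℝ) ≤ cc i := by positivity
    calc fpr Ω {x} ^ (2 ^ (i + 1)) = (fpr Ω {x} ^ (2 ^ i)) ^ 2 := by rw [← pow_mul, pow_succ]
      _ ≤ (cc i * ε + a) ^ 2 := by gcongr
      _ = (cc i) ^ 2 * (ε * ε) + 2 * (cc i * ε) * a + a ^ 2 := by ring
      _ ≤ (cc i) ^ 2 * (ε * 1) + 2 * (cc i * ε) * 1 + (δ + ε) := by gcongr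
      _ = (cc (i + 1) : ℕ) * ε + δ := by simp only [cc]; push_cast; ring

/-- the large support bound. -/
def LargeFix (s0 C1 : ℕ) (m : M →* Matrix ι ι F) : Prop :=
  ∀ x : M, s0 ≤ supp (m x) → ∀ (Ω : Type) [Finite Ω] [MulAction M Ω],
    (∀ ω : Ω, ∃ g : M, g • ω ≠ ω) → fpr Ω {x} ^ C1 * (Fintype.card F : ℝ) ^ supp (m x) ≤ C1

end Iter

/-- number of doublings -/
theorem exists_doubling (s0 s : ℕ) (hs : 1 ≤ s) (h : s < s0) :
    ∃ i : ℕ, i ≤ s0 ∧ s0 ≤ 2 ^ i * s ∧ 2 ^ i * s < 2 * s0 := by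
  have hex : ∃ i : ℕ, s0 ≤ 2 ^ i * s := ⟨s0, by
    calc s0 ≤ 2 ^ s0 * 1 := by rw [mul_one]; exact Nat.lt_two_pow_self.le
      _ ≤ 2 ^ s0 * s := Nat.mul_le_mul_left _ hs⟩
  classical
  refine ⟨Nat.find hex, ?_, Nat.find_spec hex, ?_⟩
  · refine Nat.find_min' hex ?_
    calc s0 ≤ 2 ^ s0 * 1 := by rw [mul_one]; exact Nat.lt_two_pow_self.le
      _ ≤ 2 ^ s0 * s := Nat.mul_le_mul_left _ hs
  · rcases Nat.eq_zero_or_pos (Nat.find hex) with h0 | h0
    · rw [h0]; omega
    · have h1 := Nat.find_min hex (m := Nat.find hex - 1) (by omega)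
      have h2 : 2 ^ (Nat.find hex) * s = 2 * (2 ^ (Nat.find hex - 1) * s) := by
        conv_lhs => rw [show Nat.find hex = (Nat.find hex - 1) + 1 by omega]
        rw [pow_succ]; ring
      rw [h2]
      omega

/-- **Small support, ratio bound.** -/
theorem strong_fix (s0 C1 : ℕ) (hC1 : 0 < C1) : ∃ C : ℕ, 0 < C ∧
    ∀ (F : Type) [Field F] [Fintype F] (ι : Type) [Fintype ι] [DecidableEq ι]
      (M : Type) [Group M] [Finite M] (m : M →* Matrix ι ι F) (D : ℕ),
      24 * s0 ≤ Fintype.card ι → 0 < D → LongOrb D m →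
      (Fintype.card F) ^ (Fintype.card ι) ≤ D ^ 4 → LargeFix s0 C1 m →
      ∀ x : M, 1 ≤ supp (m x) → ∀ (Ω : Type) [Finite Ω] [MulAction M Ω],
        (∀ ω : Ω, ∃ g : M, g • ω ≠ ω) →
        fpr Ω {x} ^ C * (Fintype.card F : ℝ) ^ supp (m x) ≤ C := by
  refine ⟨2 ^ s0 * C1 + 2 ^ C1 * ((2 * cc s0) ^ C1 + C1), by positivity, ?_⟩
  intro F _ _ ι _ _ M _ _ m D hN hD0 hD hDq hL x hx Ω _ _ hΩ
  set C : ℕ := 2 ^ s0 * C1 + 2 ^ C1 * ((2 * cc s0) ^ C1 + C1) with hC
  have hq2 : (2 : ℝ) ≤ Fintype.card F := by exact_mod_cast Fintype.one_lt_card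
  have hq0 : (0 : ℝ) < Fintype.card F := by linarith only [hq2]
  have hq1 : (1 : ℝ) ≤ Fintype.card F := by linarith only [hq2]
  have hf0 := fpr_nonneg Ω ({x} : Set M)
  have hf1 := fpr_le_one Ω ({x} : Set M)
  have hp : 1 ≤ 2 ^ s0 := Nat.one_le_two_pow
  have hp' : 1 ≤ 2 ^ C1 := Nat.one_le_two_pow
  by_cases hs : s0 ≤ supp (m x)
  · have h1 := hL x hs Ω hΩ
    have hC1C : C1 ≤ C := by
      rw [hC]
      calc C1 = 1 * C1 := (one_mul _).symm
        _ ≤ 2 ^ s0 * C1 := Nat.mul_le_mul_right _ hp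
        _ ≤ _ := Nat.le_add_right _ _
    calc fpr Ω {x} ^ C * (Fintype.card F : ℝ) ^ supp (m x)
        ≤ fpr Ω {x} ^ C1 * (Fintype.card F : ℝ) ^ supp (m x) := by
          gcongr ?_ * _
          exact pow_le_pow_of_le_one hf0 hf1 hC1C
      _ ≤ C1 := h1
      _ ≤ C := by exact_mod_cast hC1C
  · rw [not_le] at hs
    obtain ⟨i, hi1, hi2, hi3⟩ := exists_doubling s0 (supp (m x)) hx hs
    set t := 2 ^ i * supp (m x) with ht
    have hD' : (0 : ℝ) < D := by exact_mod_cast hD0
    -- `D ≥ q^(3t)`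
    have hD3 : (Fintype.card F : ℝ) ^ (3 * t) ≤ D := by
      have h1 : (Fintype.card F) ^ (4 * (3 * t)) ≤ D ^ 4 :=
        (Nat.pow_le_pow_right Fintype.card_pos (by omega)).trans hDq
      rw [mul_comm 4, pow_mul] at h1
      exact_mod_cast (Nat.pow_le_pow_iff_left (by norm_num)).mp h1
    have hε : 2 * (Fintype.card F : ℝ) ^ (2 * t) / D ≤ 2 / (Fintype.card F : ℝ) ^ t := by
      rw [div_le_div_iff₀ hD' (by positivity)]
      calc 2 * (Fintype.card F : ℝ) ^ (2 * t) * (Fintype.card F : ℝ) ^ t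
          = 2 * (Fintype.card F : ℝ) ^ (3 * t) := by rw [mul_assoc, ← pow_add]; congr 2; ring
        _ ≤ 2 * D := by gcongr
    have ht1 : 1 ≤ t := by omega
    have hε1 : 2 / (Fintype.card F : ℝ) ^ t ≤ 1 := by
      rw [div_le_one (by positivity)]
      calc (2 : ℝ) ≤ Fintype.card F := hq2
        _ = (Fintype.card F : ℝ) ^ 1 := (pow_one _).symm
        _ ≤ (Fintype.card F : ℝ) ^ t := pow_le_pow_right₀ hq1 ht1
    -- the bound at support `t`
    set δ : ℝ := ((C1 : ℝ) / (Fintype.card F : ℝ) ^ t) ^ ((1 : ℝ) / C1) with hδ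
    have hbase : (0 : ℝ) ≤ (C1 : ℝ) / (Fintype.card F : ℝ) ^ t := by positivity
    have hδ0 : 0 ≤ δ := Real.rpow_nonneg hbase _
    have hC1' : (C1 : ℝ) ≠ 0 := by exact_mod_cast hC1.ne'
    have hδC : δ ^ C1 = (C1 : ℝ) / (Fintype.card F : ℝ) ^ t := by
      rw [hδ, ← Real.rpow_natCast, ← Real.rpow_mul hbase, one_div_mul_cancel hC1', Real.rpow_one]
    have h1 := fpr_iter (Ω := Ω) m hD0 hD (ε := 2 / (Fintype.card F : ℝ) ^ t) (by positivity)
      hε1 i x (by rw [← ht]; omega) (by rw [← ht]; exact hε) δ hδ0 (fun z hz => by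
        have h2 := hL z (by rw [hz, ← ht]; exact hi2) Ω hΩ
        rw [hz, ← ht, ← le_div_iff₀ (by positivity), ← hδC] at h2
        exact (pow_le_pow_iff_left₀ (fpr_nonneg Ω _) hδ0 hC1.ne').mp h2)
    have hcc : (cc i : ℝ) ≤ cc s0 := by exact_mod_cast cc_mono hi1
    set Q : ℝ := (Fintype.card F : ℝ) ^ t with hQ
    have hQ1 : 1 ≤ Q := one_le_pow₀ hq1
    have hQ0 : 0 < Q := by linarith only [hQ1]
    -- take the `C1`-th power
    have h3 : fpr Ω {x} ^ (2 ^ i * C1) * Q ≤ 2 ^ C1 * ((2 * cc s0) ^ C1 + C1) := by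
      rw [pow_mul]
      have h4 : (cc i * (2 / Q) + δ) ^ C1 ≤ 2 ^ C1 * ((cc i * (2 / Q)) ^ C1 + δ ^ C1) := by
        have ha : (0 : ℝ) ≤ cc i * (2 / Q) := by (clear * -; positivity)
        have h5 := add_pow_le ha hδ0 C1
        refine h5.trans ?_
        gcongr
        · norm_num
        · omega
      have h6 : (cc i * (2 / Q)) ^ C1 ≤ (2 * cc s0) ^ C1 / Q := by
        have e : (cc i : ℝ) * (2 / Q) = (2 * cc i) / Q := by ring
        rw [e, div_pow]
        have : Q ≤ Q ^ C1 := by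
          calc Q = Q ^ 1 := (pow_one _).symm
            _ ≤ Q ^ C1 := pow_le_pow_right₀ hQ1 hC1
        gcongr
      calc (fpr Ω {x} ^ 2 ^ i) ^ C1 * Q ≤ (cc i * (2 / Q) + δ) ^ C1 * Q := by
            gcongr
        _ ≤ (2 ^ C1 * ((cc i * (2 / Q)) ^ C1 + δ ^ C1)) * Q := by gcongr
        _ ≤ (2 ^ C1 * ((2 * cc s0) ^ C1 / Q + C1 / Q)) * Q := by rw [hδC]; gcongr
        _ = 2 ^ C1 * ((2 * cc s0) ^ C1 + C1) := by field_simp
    have hCle : 2 ^ i * C1 ≤ C := by
      rw [hC]
      calc 2 ^ i * C1 ≤ 2 ^ s0 * C1 := Nat.mul_le_mul_right _ (Nat.pow_le_pow_right (by norm_num) hi1)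
        _ ≤ _ := Nat.le_add_right _ _
    have hst : supp (m x) ≤ t := by
      rw [ht]
      calc supp (m x) = 1 * supp (m x) := (one_mul _).symm
        _ ≤ 2 ^ i * supp (m x) := Nat.mul_le_mul_right _ Nat.one_le_two_pow
    calc fpr Ω {x} ^ C * (Fintype.card F : ℝ) ^ supp (m x)
        ≤ fpr Ω {x} ^ (2 ^ i * C1) * Q := by
          gcongr ?_ * ?_
          · exact pow_le_pow_of_le_one hf0 hf1 hCle
          · exact pow_le_pow_right₀ hq1 hst
      _ ≤ 2 ^ C1 * ((2 * cc s0) ^ C1 + C1) := h3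
      _ ≤ C := by
          rw [hC]
          push_cast
          have : (0 : ℝ) ≤ 2 ^ s0 * C1 := by positivity
          linarith only [this]

/-- **Small support, nontrivial bound.** -/
theorem strong_triv (C : ℕ) (hC : 0 < C) : ∃ N0 C' : ℕ, 0 < C' ∧
    ∀ (F : Type) [Field F] [Fintype F] (ι : Type) [Fintype ι] [DecidableEq ι]
      (M : Type) [Group M] [Finite M] (m : M →* Matrix ι ι F) (D : ℕ),
      N0 ≤ Fintype.card ι → 0 < D → LongOrb D m →
      (Fintype.card F) ^ (Fintype.card ι) ≤ D ^ 4 →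
      ∀ (Ω : Type) [Finite Ω] [MulAction M Ω],
      (∀ x : M, 1 ≤ supp (m x) → fpr Ω {x} ^ C * (Fintype.card F : ℝ) ^ supp (m x) ≤ C) →
      ∀ x : M, 1 ≤ supp (m x) → fpr Ω {x} ≤ 1 - 1 / C' := by
  set s2 := 2 * C with hs2
  set K := 8 * cc s2 with hK
  refine ⟨4 * (4 * s2 + K), 4 * 2 ^ s2, by positivity, ?_⟩
  intro F _ _ ι _ _ M _ _ m D hN hD0 hD hDq Ω _ _ hL x hx
  have hq2 : (2 : ℝ) ≤ Fintype.card F := by exact_mod_cast Fintype.one_lt_card
  have hq0 : (0 : ℝ) < Fintype.card F := by linarith only [hq2]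
  have hq1 : (1 : ℝ) ≤ Fintype.card F := by linarith only [hq2]
  have hf0 := fpr_nonneg Ω ({x} : Set M)
  have hf1 := fpr_le_one Ω ({x} : Set M)
  have hD' : (0 : ℝ) < D := by exact_mod_cast hD0
  -- large support: at most one half
  have hhalf : ∀ z : M, s2 ≤ supp (m z) → fpr Ω {z} ≤ 1 / 2 := by
    intro z hz
    have h1 := hL z (by omega)
    have h2 : (2 : ℝ) ^ s2 ≤ (Fintype.card F : ℝ) ^ supp (m z) := by
      calc (2 : ℝ) ^ s2 ≤ (Fintype.card F : ℝ) ^ s2 := by gcongr
        _ ≤ (Fintype.card F : ℝ) ^ supp (m z) := pow_le_pow_right₀ hq1 hz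
    have hz0 := fpr_nonneg Ω ({z} : Set M)
    have h3 : fpr Ω {z} ^ C * 2 ^ s2 ≤ C := le_trans (by gcongr) h1
    have h4 : (C : ℝ) ≤ 2 ^ C := by exact_mod_cast Nat.lt_two_pow_self.le
    have h5 : (2 : ℝ) ^ s2 = 2 ^ C * 2 ^ C := by rw [hs2, two_mul, pow_add]
    have h6 : fpr Ω {z} ^ C * 2 ^ C ≤ 1 := by
      have hp : (0 : ℝ) < 2 ^ C := by positivity
      rw [h5, ← mul_assoc] at h3
      by_contra hcon
      rw [not_le] at hcon
      have : (2 : ℝ) ^ C < fpr Ω {z} ^ C * 2 ^ C * 2 ^ C := by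
        calc (2 : ℝ) ^ C = 1 * 2 ^ C := (one_mul _).symm
          _ < fpr Ω {z} ^ C * 2 ^ C * 2 ^ C := by gcongr
      linarith only [h3, h4, this]
    rw [← mul_pow] at h6
    have h7 : fpr Ω {z} * 2 ≤ 1 := by
      by_contra hcon
      rw [not_le] at hcon
      exact absurd h6 (not_le.mpr (one_lt_pow₀ hcon hC.ne'))
    linarith only [h7]
  have hC'1 : (1 : ℝ) ≤ 4 * 2 ^ s2 := by
    have : (1 : ℝ) ≤ 2 ^ s2 := one_le_pow₀ (by norm_num)
    linarith only [this]
  by_cases hs : s2 ≤ supp (m x)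
  · have h1 := hhalf x hs
    have h2 : (1 : ℝ) / ((4 * 2 ^ s2 : ℕ) : ℝ) ≤ 1 / 2 := by
      push_cast
      have : (1 : ℝ) ≤ 2 ^ s2 := one_le_pow₀ (by norm_num)
      gcongr
      linarith only [this]
    linarith only [h1, h2]
  · rw [not_le] at hs
    obtain ⟨i, hi1, hi2, hi3⟩ := exists_doubling s2 (supp (m x)) hx hs
    set t := 2 ^ i * supp (m x) with ht
    have hDK : (Fintype.card F : ℝ) ^ (2 * t) * 2 ^ K ≤ D := by
      have h1 : (Fintype.card F) ^ (4 * (2 * t + K)) ≤ D ^ 4 :=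
        (Nat.pow_le_pow_right Fintype.card_pos (by omega)).trans hDq
      rw [mul_comm 4, pow_mul] at h1
      have h2 : (Fintype.card F : ℝ) ^ (2 * t + K) ≤ D := by
        exact_mod_cast (Nat.pow_le_pow_iff_left (by norm_num)).mp h1
      rw [pow_add] at h2
      refine le_trans ?_ h2
      gcongr
    have hε : 2 * (Fintype.card F : ℝ) ^ (2 * t) / D ≤ 2 / 2 ^ K := by
      rw [div_le_div_iff₀ hD' (by positivity)]
      linarith only [hDK]
    by_cases hc0 : cc s2 = 0
    · -- impossible : `s2 ≥ 1`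
      exfalso
      have : cc 1 ≤ cc s2 := cc_mono (by omega)
      rw [hc0] at this
      exact absurd this (by norm_num [cc])
    have hcpos : (1 : ℝ) ≤ cc s2 := by exact_mod_cast Nat.one_le_iff_ne_zero.mpr hc0
    have hKle : (8 : ℝ) * cc s2 ≤ 2 ^ K := by
      have : K ≤ 2 ^ K := Nat.lt_two_pow_self.le
      calc (8 : ℝ) * cc s2 = (K : ℕ) := by rw [hK]; push_cast; ring
        _ ≤ ((2 ^ K : ℕ) : ℝ) := by exact_mod_cast this
        _ = 2 ^ K := by push_cast; rfl
    have hε1 : (2 : ℝ) / 2 ^ K ≤ 1 := by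
      rw [div_le_one (by positivity)]
      linarith only [hcpos, hKle]
    have h1 := fpr_iter (Ω := Ω) m hD0 hD (ε := 2 / 2 ^ K) (by positivity) hε1 i x
      (by rw [← ht]; omega) (by rw [← ht]; exact hε) (1 / 2) (by norm_num)
      (fun z hz => hhalf z (by rw [hz, ← ht]; exact hi2))
    have hcc : (cc i : ℝ) ≤ cc s2 := by exact_mod_cast cc_mono hi1
    have h2 : (cc i : ℝ) * (2 / 2 ^ K) ≤ 1 / 4 := by
      have hp : (0 : ℝ) < 2 ^ K := by positivity
      calc (cc i : ℝ) * (2 / 2 ^ K) ≤ cc s2 * (2 / 2 ^ K) := by gcongr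
        _ = (8 * cc s2) / 2 ^ K / 4 := by ring
        _ ≤ 1 / 4 := by
            gcongr
            rw [div_le_one hp]
            exact hKle
    have h3 : fpr Ω {x} ^ 2 ^ i ≤ 3 / 4 := by linarith only [h1, h2]
    by_contra hcon
    rw [not_le] at hcon
    set c : ℝ := 1 / ((4 * 2 ^ s2 : ℕ) : ℝ) with hc
    have hcle : c ≤ 1 := by
      rw [hc]
      push_cast
      rw [div_le_one (by positivity)]
      exact hC'1
    have hc0' : 0 < c := by rw [hc]; positivity
    have h4 : (1 - c) ^ 2 ^ i < fpr Ω {x} ^ 2 ^ i :=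
      pow_lt_pow_left₀ hcon (by linarith only [hcle]) (by positivity)
    have h5 := one_add_mul_le_pow (a := -c) (by linarith only [hcle]) (2 ^ i)
    have h6 : ((2 ^ i : ℕ) : ℝ) * c ≤ 1 / 4 := by
      rw [hc]
      push_cast
      have h7 : (2 : ℝ) ^ i ≤ 2 ^ s2 := pow_le_pow_right₀ (by norm_num) hi1
      have h8 : (0 : ℝ) < 2 ^ s2 := by positivity
      rw [mul_one_div, div_le_div_iff₀ (by positivity) (by norm_num)]
      linarith only [h7]
    have h9 : (1 : ℝ) + -c = 1 - c := by ring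
    rw [h9] at h5
    linarith only [h1, h2, h4, h5, h6]

end Cfsg.Agent.H917.FP
end

-- part: H917/FP/Strong
section
/-!
From the large support bound and the bounded rank bound to `Strong` (S5717).
-/

set_option autoImplicit false
set_option linter.unusedSectionVars false

namespace Cfsg.Agent.H917.FP

open Module Matrix
open Cfsg.Agent.H254.BS.PI (supp FixLE Strong WeakM)

section Quasi

variable {M : Type} [Group M] [Finite M]

/-- a quasisimple group acts nontrivially enough. -/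
theorem fpr_le_of_normal (hq : ∀ N : Subgroup M, N.Normal → ¬ N ≤ Subgroup.center M → N = ⊤)
    (x : M) (hx : x ∉ Subgroup.center M) {Ω : Type} [Finite Ω] [MulAction M Ω]
    (hΩ : ∀ ω : Ω, ∃ g : M, g • ω ≠ ω) : fpr Ω {x} ≤ 1 - 1 / Nat.card M := by
  classical
  have := Fintype.ofFinite Ω
  have := Fintype.ofFinite M
  have hM : (0 : ℝ) < Nat.card M := by exact_mod_cast Nat.card_pos
  rcases Nat.eq_zero_or_pos (Nat.card Ω) with h0 | h0
  · have h1 : fpr Ω ({x} : Set M) = 0 := by unfold fpr; rw [h0]; simp only [_root_.Set.mem_singleton_iff, _root_.forall_eq, _root_.Nat.card_eq_fintype_card, _root_.CharP.cast_eq_zero, _root_.div_zero]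
    rw [h1]
    have : (1 : ℝ) / Nat.card M ≤ 1 := by
      rw [div_le_one hM]; exact_mod_cast Nat.card_pos
    linarith only [this]
  have hN : (0 : ℝ) < Nat.card Ω := by exact_mod_cast h0
  -- every point is moved by a conjugate
  have key : ∀ w : Ω, (1 : ℝ) ≤ ∑ g : M, (1 - ind Ω ((fun a => g * a * g⁻¹) '' {x}) w) := by
    intro w
    have hnc : Subgroup.normalClosure ({x} : Set M) = ⊤ := by
      apply hq _ inferInstance
      intro h
      exact hx (h (Subgroup.subset_normalClosure rfl))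
    obtain ⟨g, hg⟩ : ∃ g : M, (g * x * g⁻¹) • w ≠ w := by
      by_contra hcon
      push Not at hcon
      have h1 : Subgroup.normalClosure ({x} : Set M) ≤ MulAction.stabilizer M w := by
        rw [Subgroup.normalClosure, Subgroup.closure_le]
        intro y hy
        obtain ⟨z, hz, hc⟩ := Group.mem_conjugatesOfSet_iff.mp hy
        rw [Set.mem_singleton_iff] at hz
        subst hz
        obtain ⟨c, rfl⟩ := isConj_iff.mp hc
        exact hcon c
      obtain ⟨y, hy⟩ := hΩ w
      exact hy (h1 (hnc ▸ Subgroup.mem_top y))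
    have hle : ∀ h : M, 0 ≤ 1 - ind Ω ((fun a => h * a * h⁻¹) '' {x}) w := by
      intro h
      unfold ind
      split_ifs <;> norm_num
    have h2 : (1 : ℝ) - ind Ω ((fun a => g * a * g⁻¹) '' {x}) w = 1 := by
      unfold ind
      rw [if_neg, sub_zero]
      intro h
      exact hg (h _ ⟨x, rfl, rfl⟩)
    calc (1 : ℝ) = 1 - ind Ω ((fun a => g * a * g⁻¹) '' {x}) w := h2.symm
      _ ≤ _ := Finset.single_le_sum (f := fun g : M =>
          1 - ind Ω ((fun a => g * a * g⁻¹) '' {x}) w) (fun h _ => hle h) (Finset.mem_univ g)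
  have hsum : (Nat.card Ω : ℝ) ≤ Nat.card M * (Nat.card Ω - fpr Ω {x} * Nat.card Ω) := by
    calc (Nat.card Ω : ℝ) = ∑ _w : Ω, (1 : ℝ) := by
          rw [Finset.sum_const, nsmul_eq_mul, mul_one, Finset.card_univ,
            Nat.card_eq_fintype_card]
      _ ≤ ∑ w : Ω, ∑ g : M, (1 - ind Ω ((fun a => g * a * g⁻¹) '' {x}) w) :=
          Finset.sum_le_sum fun w _ => key w
      _ = ∑ g : M, ∑ w : Ω, (1 - ind Ω ((fun a => g * a * g⁻¹) '' {x}) w) :=
          Finset.sum_comm
      _ = ∑ _g : M, (Nat.card Ω - fpr Ω {x} * Nat.card Ω) := by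
          refine Finset.sum_congr rfl fun g _ => ?_
          rw [Finset.sum_sub_distrib, sum_ind, fpr_conj, Finset.sum_const, nsmul_eq_mul, mul_one,
            Finset.card_univ, Nat.card_eq_fintype_card (α := Ω)]
      _ = _ := by
          rw [Finset.sum_const, nsmul_eq_mul, Finset.card_univ, Nat.card_eq_fintype_card (α := M)]
  have h3 : (1 : ℝ) ≤ Nat.card M * (1 - fpr Ω {x}) := by
    have : (Nat.card Ω : ℝ) * 1 ≤ Nat.card Ω * (Nat.card M * (1 - fpr Ω {x})) := by
      calc (Nat.card Ω : ℝ) * 1 = Nat.card Ω := mul_one _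
        _ ≤ Nat.card M * (Nat.card Ω - fpr Ω {x} * Nat.card Ω) := hsum
        _ = _ := by ring
    exact le_of_mul_le_mul_left this hN
  have h4 : 1 / (Nat.card M : ℝ) ≤ 1 - fpr Ω {x} := by
    rw [div_le_iff₀ hM]; linarith
  linarith only [h4]

end Quasi

section Str

variable {F : Type} [Field F] [Fintype F] {ι : Type} [Fintype ι] [DecidableEq ι]
  {M : Type} [Group M]

theorem strong_mono {C C' : ℕ} (h0 : 0 < C) (h : C ≤ C') {m : M → Matrix ι ι F}
    (hs : Strong C M m) : Strong C' M m := by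
  have hC : (0 : ℝ) < C := by exact_mod_cast h0
  have hCC : (C : ℝ) ≤ C' := by exact_mod_cast h
  constructor
  · intro x hx Ω _ _ hΩ
    have h1 := hs.fix x hx Ω hΩ
    calc fpr Ω {x} ^ C' * (Fintype.card F : ℝ) ^ supp (m x)
        ≤ fpr Ω {x} ^ C * (Fintype.card F : ℝ) ^ supp (m x) := by
          gcongr ?_ * _
          exact pow_le_pow_of_le_one (fpr_nonneg Ω _) (fpr_le_one Ω _) h
      _ ≤ C := h1
      _ ≤ C' := hCC
  · intro x hx Ω _ _ hΩ
    have h1 := hs.triv x hx Ω hΩ
    have : (1 : ℝ) / C' ≤ 1 / C := by gcongr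
    linarith only [h1, this]

end Str

/-- **Strong bound, large dimension.** -/
theorem strong_large (s0 C1 : ℕ) (hC1 : 0 < C1) : ∃ N0 C : ℕ, 0 < C ∧
    ∀ (F : Type) [Field F] [Fintype F] (ι : Type) [Fintype ι] [DecidableEq ι]
      (M : Type) [Group M] [Finite M] (m : M →* Matrix ι ι F) (D : ℕ),
      N0 ≤ Fintype.card ι → 0 < D → LongOrb D m →
      (Fintype.card F) ^ (Fintype.card ι) ≤ D ^ 4 → LargeFix s0 C1 m →
      (∀ x : M, x ∉ Subgroup.center M → supp (m x) ≠ 0) → Strong C M m := by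
  obtain ⟨Ca, hCa, hA⟩ := strong_fix s0 C1 hC1
  obtain ⟨Nb, Cb, hCb, hB⟩ := strong_triv Ca hCa
  refine ⟨24 * s0 + Nb, Ca + Cb, by omega, ?_⟩
  intro F _ _ ι _ _ M _ _ m D hN hD0 hD hDq hL hsupp
  constructor
  · intro x hx Ω _ _ hΩ
    have h1 := hA F ι M m D (by omega) hD0 hD hDq hL x
      (Nat.one_le_iff_ne_zero.mpr (hsupp x hx)) Ω hΩ
    calc fpr Ω {x} ^ (Ca + Cb) * (Fintype.card F : ℝ) ^ supp (m x)
        ≤ fpr Ω {x} ^ Ca * (Fintype.card F : ℝ) ^ supp (m x) := by
          gcongr ?_ * _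
          exact pow_le_pow_of_le_one (fpr_nonneg Ω _) (fpr_le_one Ω _) (by omega)
      _ ≤ Ca := h1
      _ ≤ ((Ca + Cb : ℕ) : ℝ) := by exact_mod_cast Nat.le_add_right _ _
  · intro x hx Ω _ _ hΩ
    have h1 := hB F ι M m D (by omega) hD0 hD hDq Ω
      (fun z hz => hA F ι M m D (by omega) hD0 hD hDq hL z hz Ω hΩ) x
      (Nat.one_le_iff_ne_zero.mpr (hsupp x hx))
    have hCb' : (0 : ℝ) < Cb := by exact_mod_cast hCb
    have : (1 : ℝ) / ((Ca + Cb : ℕ) : ℝ) ≤ 1 / Cb := by
      gcongr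
      omega
    linarith only [h1, this]

/-- **Strong bound, bounded dimension.** -/
theorem strong_small (N0 C2 : ℕ) (hC2 : 0 < C2) : ∃ C : ℕ, 0 < C ∧
    ∀ (F : Type) [Field F] [Fintype F] (ι : Type) [Fintype ι] [DecidableEq ι]
      (M : Type) [Group M] [Finite M] (m : M → Matrix ι ι F),
      Fintype.card ι ≤ N0 → Function.Injective m → WeakM C2 M (Fintype.card F) →
      (∀ N : Subgroup M, N.Normal → ¬ N ≤ Subgroup.center M → N = ⊤) → Strong C M m := by
  refine ⟨C2 * N0 + C2 ^ N0 + (C2 * 2 ^ C2) ^ (N0 ^ 2) + 2, by omega, ?_⟩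
  intro F _ _ ι _ _ M _ _ m hN hm hW hqs
  set C : ℕ := C2 * N0 + C2 ^ N0 + (C2 * 2 ^ C2) ^ (N0 ^ 2) + 2 with hC
  have hq2 : (2 : ℝ) ≤ Fintype.card F := by exact_mod_cast Fintype.one_lt_card
  have hq0 : (0 : ℝ) < Fintype.card F := by linarith only [hq2]
  have hq1 : (1 : ℝ) ≤ Fintype.card F := by linarith only [hq2]
  have hC2' : (0 : ℝ) < C2 := by exact_mod_cast hC2
  constructor
  · intro x hx Ω _ _ hΩ
    have h1 := hW x hx Ω hΩ
    have hf0 := fpr_nonneg Ω ({x} : Set M)
    have hf1 := fpr_le_one Ω ({x} : Set M)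
    calc fpr Ω {x} ^ C * (Fintype.card F : ℝ) ^ supp (m x)
        ≤ fpr Ω {x} ^ (C2 * N0) * (Fintype.card F : ℝ) ^ N0 := by
          gcongr ?_ * ?_
          · exact pow_le_pow_of_le_one hf0 hf1 (by omega)
          · exact pow_le_pow_right₀ hq1 ((supp_le_card _).trans hN)
      _ = (fpr Ω {x} ^ C2 * Fintype.card F) ^ N0 := by rw [pow_mul, mul_pow]
      _ ≤ (C2 : ℝ) ^ N0 := by gcongr
      _ = ((C2 ^ N0 : ℕ) : ℝ) := by push_cast; rfl
      _ ≤ C := by exact_mod_cast (show C2 ^ N0 ≤ C by omega)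
  · intro x hx Ω _ _ hΩ
    have h1 := hW x hx Ω hΩ
    have hf0 := fpr_nonneg Ω ({x} : Set M)
    have hC0 : (0 : ℝ) < C := by exact_mod_cast (show 0 < C by omega)
    have hCge2 : (2 : ℝ) ≤ C := by exact_mod_cast (show 2 ≤ C by omega)
    by_cases hq : C2 * 2 ^ C2 ≤ Fintype.card F
    · have hq' : (C2 : ℝ) * 2 ^ C2 ≤ Fintype.card F := by exact_mod_cast hq
      have h2 : fpr Ω {x} ^ C2 * 2 ^ C2 ≤ 1 := by
        have h3 : fpr Ω {x} ^ C2 * (C2 * 2 ^ C2) ≤ C2 := le_trans (by gcongr) h1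
        have h4 : (C2 : ℝ) * (fpr Ω {x} ^ C2 * 2 ^ C2) ≤ C2 * 1 := by linarith only [h3]
        exact le_of_mul_le_mul_left h4 hC2'
      rw [← mul_pow] at h2
      have h7 : fpr Ω {x} * 2 ≤ 1 := by
        by_contra hcon
        rw [not_le] at hcon
        exact absurd h2 (not_le.mpr (one_lt_pow₀ hcon hC2.ne'))
      have h8 : (1 : ℝ) / C ≤ 1 / 2 := by gcongr
      linarith only [h7, h8]
    · rw [not_le] at hq
      have h2 := fpr_le_of_normal hqs x hx hΩ
      have hMle : Nat.card M ≤ C := by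
        have h3 : Nat.card M ≤ Nat.card (Matrix ι ι F) := Nat.card_le_card_of_injective m hm
        have h4 : Nat.card (Matrix ι ι F) = Fintype.card F ^ (Fintype.card ι ^ 2) := by
          have e : Nat.card (Matrix ι ι F) = Nat.card (ι → ι → F) := rfl
          rw [e, Nat.card_fun, Nat.card_fun, Nat.card_eq_fintype_card, Nat.card_eq_fintype_card,
            ← pow_mul, sq]
        have h5 : Fintype.card F ^ (Fintype.card ι ^ 2) ≤ (C2 * 2 ^ C2) ^ (N0 ^ 2) := by
          calc Fintype.card F ^ (Fintype.card ι ^ 2)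
              ≤ Fintype.card F ^ (N0 ^ 2) :=
                Nat.pow_le_pow_right Fintype.card_pos (Nat.pow_le_pow_left hN 2)
            _ ≤ _ := Nat.pow_le_pow_left hq.le _
        omega
      have hMpos : (0 : ℝ) < Nat.card M := by exact_mod_cast Nat.card_pos
      have h6 : (1 : ℝ) / C ≤ 1 / Nat.card M := by
        gcongr
      linarith only [h2, h6]

/-- **Assembly of the strong bound**: large support, bounded rank, long orbits. -/
theorem strong_all (s0 C1 : ℕ) (hC1 : 0 < C1) : ∃ N0 : ℕ, 100 ≤ N0 ∧ ∀ C2 : ℕ, 0 < C2 →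
    ∃ C : ℕ, 0 < C ∧
    ∀ (F : Type) [Field F] [Fintype F] (ι : Type) [Fintype ι] [DecidableEq ι]
      (M : Type) [Group M] [Finite M] (m : M →* Matrix ι ι F),
      Function.Injective m → LargeFix s0 C1 m →
      (∀ x : M, x ∉ Subgroup.center M → supp (m x) ≠ 0) →
      (∀ N : Subgroup M, N.Normal → ¬ N ≤ Subgroup.center M → N = ⊤) →
      (N0 < Fintype.card ι → ∃ D : ℕ, 0 < D ∧ LongOrb D m ∧
        (Fintype.card F) ^ (Fintype.card ι) ≤ D ^ 4) →
      (Fintype.card ι ≤ N0 → WeakM C2 M (Fintype.card F)) → Strong C M m := by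
  obtain ⟨N0, Ca, hCa, hA⟩ := strong_large s0 C1 hC1
  refine ⟨N0 + 100, by omega, fun C2 hC2 => ?_⟩
  obtain ⟨Cb, hCb, hB⟩ := strong_small (N0 + 100) C2 hC2
  refine ⟨Ca + Cb, by omega, ?_⟩
  intro F _ _ ι _ _ M _ _ m hm hL hsupp hqs hD hW
  by_cases hN : Fintype.card ι ≤ N0 + 100
  · exact strong_mono hCb (by omega) (hB F ι M m hN hm (hW hN) hqs)
  · rw [not_le] at hN
    obtain ⟨D, hD0, hDo, hDq⟩ := hD hN
    exact strong_mono hCa (by omega) (hA F ι M m D (by omega) hD0 hDo hDq hL hsupp)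

end Cfsg.Agent.H917.FP
end

private theorem dce_b0529591524e : _root_.True := by
  try have : _root_.True := by simp only [_root_.Cfsg.Agent.H917.FP.cc.eq_1]
  try have : _root_.True := by simp only [_root_.Cfsg.Agent.H917.FP.cc.eq_2]
  try have : _root_.True := by simp only [_root_.Cfsg.Agent.H254.BS.PI.supp.congr_simp]
  try have : _root_.True := by simp only [_root_.Cfsg.Agent.H917.FP.cc.eq_def]
  exact _root_.True.intro
end

-- part: H847/BSF/Facts
section
prune_inst 0xf11035056440020010000582d10000a53c00049000008400cc070844094980624000a8400700210f5a2000800005002813cc0020c20000c00a0004000005040110800000a148010002009e000000000000000000000000000000000000030000200000000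
set_option linter.all false
open scoped Cfsg.Agent.FastGrp

/-!
# S5717: the facts (a) normal subgroups, (b) least orbit lengths, (c) `supp = 0` for Sp, SU, Omega (helper847)

`facts_sp`, `facts_su`, `facts_oodd`, `facts_oplus`, `facts_ominus : Facts M m`; `Facts.long`, `Facts.norm'`, `Facts.supp_ne`
give them in the shape of `H917.FP.strong_all`; `spHom`, `suHom`, `omHom` are the monoid homomorphisms.
-/

set_option autoImplicit false

namespace Cfsg.Agent.H847.BSF

section Gen

open Matrix Subgroup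
open scoped commutatorElement
open Cfsg.Agent.H254.BS.PI (supp)

/-- (a), (b), (c) for a matrix group -/
structure Facts (M : Type) [Group M] {ι : Type} [Fintype ι] [DecidableEq ι] {F : Type} [Field F] [Fintype F]
    (m : M → Matrix ι ι F) : Prop where
  norm : ∀ N : Subgroup M, N.Normal → N ≤ Subgroup.center M ∨ N = ⊤
  col : ∀ v : ι → F, v ≠ 0 →
    (Fintype.card F) ^ (Fintype.card ι) ≤ (Nat.card {w : ι → F // ∃ x : M, m x *ᵥ v = w}) ^ 4
  row : ∀ v : ι → F, v ≠ 0 →
    (Fintype.card F) ^ (Fintype.card ι) ≤ (Nat.card {w : ι → F // ∃ x : M, v ᵥ* m x = w}) ^ 4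
  cen : ∀ x : M, supp (m x) = 0 → x ∈ Subgroup.center M

theorem norm_of_simple {M : Type} [Group M] (hp : commutator M = ⊤) (hs : IsSimpleGroup (M ⧸ Subgroup.center M))
    (N : Subgroup M) (hN : N.Normal) : N ≤ Subgroup.center M ∨ N = ⊤ := by
  have h1 : (N.map (QuotientGroup.mk' (Subgroup.center M))).Normal :=
    hN.map _ (QuotientGroup.mk'_surjective _)
  rcases h1.eq_bot_or_eq_top with h | h
  · left
    rw [Subgroup.map_eq_bot_iff, QuotientGroup.ker_mk'] at h
    exact h
  · right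
    have h2 : ∀ x : M, ∃ n ∈ N, ∃ z ∈ Subgroup.center M, x = n * z := by
      intro x
      have h3 : QuotientGroup.mk' (Subgroup.center M) x ∈ N.map (QuotientGroup.mk' (Subgroup.center M)) := by
        rw [h]; trivial
      obtain ⟨n, hn, hnx⟩ := h3
      refine ⟨n, hn, n⁻¹ * x, ?_, by group⟩
      exact QuotientGroup.eq.1 hnx
    rw [eq_top_iff, ← hp, commutator_def, Subgroup.commutator_le]
    intro a _ b _
    obtain ⟨n, hn, z, hz, rfl⟩ := h2 a
    obtain ⟨n', hn', z', hz', rfl⟩ := h2 b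
    have hz1 := Subgroup.mem_center_iff.1 hz
    have hz2 := Subgroup.mem_center_iff.1 hz'
    have h4 : ⁅n * z, n' * z'⁆ = ⁅n, n'⁆ := by
      rw [commutatorElement_def, commutatorElement_def, _root_.mul_inv_rev, _root_.mul_inv_rev]
      calc n * z * (n' * z') * (z⁻¹ * n⁻¹) * (z'⁻¹ * n'⁻¹)
          = n * (z * (n' * z')) * z⁻¹ * n⁻¹ * z'⁻¹ * n'⁻¹ := by group
        _ = n * ((n' * z') * z) * z⁻¹ * n⁻¹ * z'⁻¹ * n'⁻¹ := by rw [← hz1]
        _ = n * n' * (z' * n⁻¹) * z'⁻¹ * n'⁻¹ := by group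
        _ = n * n' * (n⁻¹ * z') * z'⁻¹ * n'⁻¹ := by rw [← hz2]
        _ = n * n' * n⁻¹ * n'⁻¹ := by group
    rw [h4]
    exact N.mul_mem (N.mul_mem (N.mul_mem hn hn') (N.inv_mem hn)) (N.inv_mem hn')

theorem scalar_of_supp {ι : Type} [Fintype ι] [DecidableEq ι] {F : Type} [Field F] (A : Matrix ι ι F)
    (h : supp A = 0) : ∃ μ : F, A = Matrix.scalar ι μ := by
  have h1 : supp A ∈ Set.range fun μ : F => (A - Matrix.scalar ι μ).rank := Nat.sInf_mem ⟨_, ⟨0, rfl⟩⟩
  rw [h] at h1
  obtain ⟨μ, hμ⟩ := h1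
  refine ⟨μ, sub_eq_zero.1 ?_⟩
  have hμ' : (A - Matrix.scalar ι μ).rank = 0 := hμ
  rw [Matrix.rank, Submodule.finrank_eq_zero, LinearMap.range_eq_bot] at hμ'
  ext i j
  have h2 := congrFun (LinearMap.congr_fun hμ' (Pi.single j 1)) i
  rw [Matrix.mulVecLin_apply, Matrix.mulVec_single_one] at h2
  exact h2

theorem cen_of_inj {M : Type} [Group M] {ι : Type} [Fintype ι] [DecidableEq ι] {F : Type} [Field F]
    {m : M → Matrix ι ι F} (hinj : Function.Injective m) (hmul : ∀ x y, m (x * y) = m x * m y) (x : M)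
    (hx : supp (m x) = 0) : x ∈ Subgroup.center M := by
  obtain ⟨μ, hμ⟩ := scalar_of_supp _ hx
  rw [Subgroup.mem_center_iff]
  intro g
  apply hinj
  rw [hmul, hmul, hμ]
  exact (Matrix.scalar_commute μ (fun r => Commute.all _ _) (m g)).symm.eq

/-- row orbits from column orbits -/
theorem row_of_col {M : Type} [Group M] {ι : Type} [Fintype ι] [DecidableEq ι] {F : Type} [Field F] [Fintype F]
    {m : M → Matrix ι ι F} (Θ : (ι → F) → (ι → F)) (hb : Function.Bijective Θ) (h0 : Θ 0 = 0)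
    (hΘ : ∀ (x : M) (v : ι → F), Θ v ᵥ* m x = Θ (m x⁻¹ *ᵥ v)) {k : ℕ}
    (hcol : ∀ v : ι → F, v ≠ 0 → k ≤ (Nat.card {w : ι → F // ∃ x : M, m x *ᵥ v = w}) ^ 4) (v : ι → F) (hv : v ≠ 0) :
    k ≤ (Nat.card {w : ι → F // ∃ x : M, v ᵥ* m x = w}) ^ 4 := by
  obtain ⟨u, rfl⟩ := hb.2 v
  have hu : u ≠ 0 := by rintro rfl; exact hv h0
  refine (hcol u hu).trans (Nat.pow_le_pow_left ?_ 4)
  refine Nat.card_le_card_of_injective
    (fun w : {w : ι → F // ∃ x : M, m x *ᵥ u = w} =>
      (⟨Θ w.1, by obtain ⟨x, hx⟩ := w.2; exact ⟨x⁻¹, by rw [hΘ, inv_inv, hx]⟩⟩ :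
        {w : ι → F // ∃ x : M, Θ u ᵥ* m x = w})) ?_
  intro a b hab
  exact Subtype.ext (hb.1 (congrArg Subtype.val hab))

end Gen

section Sp

open Matrix Subgroup
open Cfsg.Agent.H254.BS.PI (supp)

theorem pow_four_ge {x : ℕ} (hx : 3 ≤ x) : x ≤ (x - 1) ^ 4 := by
  obtain ⟨y, rfl⟩ := Nat.exists_eq_add_of_le hx
  have h1 : 3 + y - 1 = y + 2 := by omega
  rw [h1]
  have h2 : (y + 2) ^ 1 ≤ (y + 2) ^ 4 := Nat.pow_le_pow_right (by omega) (by omega)
  have h3 : (y + 2) ^ 2 ≤ (y + 2) ^ 4 := Nat.pow_le_pow_right (by omega) (by omega)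
  nlinarith only [h3]

/-- all nonzero vectors in the orbit -/
theorem card_of_all {ι : Type} [Fintype ι] [DecidableEq ι] {F : Type} [Field F] [Fintype F] {P : (ι → F) → Prop}
    (hι : 2 ≤ Fintype.card ι) (hP : ∀ w, w ≠ 0 → P w) :
    (Fintype.card F) ^ (Fintype.card ι) ≤ (Nat.card {w : ι → F // P w}) ^ 4 := by
  classical
  have hF2 : 2 ≤ Fintype.card F := Fintype.one_lt_card
  have h1 : Nat.card {w : ι → F // w ≠ 0} = (Fintype.card F) ^ (Fintype.card ι) - 1 := by
    rw [Nat.card_eq_fintype_card, Fintype.card_subtype_compl, Fintype.card_fun]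
    simp only [_root_.Fintype.card_unique]
  have h2 : Nat.card {w : ι → F // w ≠ 0} ≤ Nat.card {w : ι → F // P w} :=
    Nat.card_le_card_of_injective (fun w => ⟨w.1, hP w.1 w.2⟩)
      (fun a b hab => Subtype.ext (congrArg (fun w : {w : ι → F // P w} => w.1) hab))
  have h3 : 3 ≤ (Fintype.card F) ^ (Fintype.card ι) := by
    calc 3 ≤ 2 ^ 2 := by norm_num
      _ ≤ (Fintype.card F) ^ 2 := Nat.pow_le_pow_left hF2 2
      _ ≤ _ := Nat.pow_le_pow_right (by omega) hι
  calc (Fintype.card F) ^ (Fintype.card ι) ≤ ((Fintype.card F) ^ (Fintype.card ι) - 1) ^ 4 := pow_four_ge h3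
    _ ≤ _ := Nat.pow_le_pow_left (h1 ▸ h2) 4

theorem facts_sp (F : Type) [Field F] [Fintype F] (m : ℕ) (hm : 2 ≤ m) (h : m = 2 → 3 ≤ Fintype.card F) :
    Facts (Matrix.symplecticGroup (Fin m) F) (fun x => (x : Matrix (Fin m ⊕ Fin m) (Fin m ⊕ Fin m) F)) where
  norm := by
    refine norm_of_simple ?_ (S0270.result m hm h)
    refine S0269.result m ?_
    rcases Nat.lt_or_ge 2 m with h1 | h1
    · exact Or.inl h1
    · exact Or.inr (Or.inl ⟨le_antisymm h1 hm, h (le_antisymm h1 hm)⟩)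
  col := by
    intro v hv
    refine card_of_all (by rw [Fintype.card_sum, Fintype.card_fin]; omega) fun w hw => ?_
    exact S0271.result m v w hv hw
  row := by
    intro v hv
    refine card_of_all (by rw [Fintype.card_sum, Fintype.card_fin]; omega) fun w hw => ?_
    obtain ⟨g, hg⟩ := S0271.result m v w hv hw
    refine ⟨⟨(g : Matrix (Fin m ⊕ Fin m) (Fin m ⊕ Fin m) F)ᵀ, SymplecticGroup.transpose_mem g.2⟩, ?_⟩
    change v ᵥ* (g : Matrix (Fin m ⊕ Fin m) (Fin m ⊕ Fin m) F)ᵀ = w
    rw [Matrix.vecMul_transpose]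
    exact hg
  cen := by
    intro x hx
    exact cen_of_inj (m := fun x : Matrix.symplecticGroup (Fin m) F => (x : Matrix (Fin m ⊕ Fin m) (Fin m ⊕ Fin m) F))
      Subtype.val_injective (fun _ _ => rfl) x hx

end Sp

section Orth

open Matrix Subgroup QuadraticMap
open Cfsg.Agent.H254.BS.PI (supp omMat)
open Cfsg.Agent.LieClassical.OrthCore Cfsg.Agent.LieClassical.OrthTrans Cfsg.Agent.LieClassical.OrthFinite
  Cfsg.Agent.LieClassical.OrthForms

section

variable {ι : Type} [Fintype ι] [DecidableEq ι] {F : Type} [Field F]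

/-- `Ω(Q)` is perfect -/
theorem omega_perfect {Q : QuadraticForm F (ι → F)} (hG : Good Q) : commutator ↥(Cfsg.Omega F ⇑Q) = ⊤ := by
  have h1 := hG.E_perfect
  rw [← hG.commutator_eq_E, ← map_Omega, ← Subgroup.map_commutator] at h1
  have h2 : ⁅Cfsg.Omega F ⇑Q, Cfsg.Omega F ⇑Q⁆ = Cfsg.Omega F ⇑Q :=
    Subgroup.map_injective (isometryHom_injective Q) h1
  rw [commutator_def]
  apply Subgroup.map_injective (Subgroup.subtype_injective (Cfsg.Omega F ⇑Q))
  rw [Subgroup.map_commutator, ← MonoidHom.range_eq_map, Subgroup.range_subtype]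
  exact h2

theorem omMat_mul (Q : (ι → F) → F) (x y : Cfsg.Omega F Q) : omMat Q (x * y) = omMat Q x * omMat Q y := rfl

theorem omMat_inj (Q : (ι → F) → F) : Function.Injective (omMat Q) := by
  intro x y h
  exact Subtype.ext (Subtype.ext (Units.ext h))

theorem omMat_inv (Q : (ι → F) → F) (x : Cfsg.Omega F Q) (v : ι → F) :
    omMat Q x *ᵥ (omMat Q x⁻¹ *ᵥ v) = v := by
  rw [Matrix.mulVec_mulVec, ← omMat_mul, mul_inv_cancel]
  exact Matrix.one_mulVec v

theorem omMat_O (Q : QuadraticForm F (ι → F)) (x : Cfsg.Omega F ⇑Q) (v : ι → F) : Q (omMat (⇑Q) x *ᵥ v) = Q v :=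
  mem_isometryGroup_iff.1 x.1.2 v

theorem omMat_polar (Q : QuadraticForm F (ι → F)) (x : Cfsg.Omega F ⇑Q) (u v : ι → F) :
    polar Q (omMat (⇑Q) x *ᵥ u) (omMat (⇑Q) x *ᵥ v) = polar Q u v := by
  rw [QuadraticMap.polar, QuadraticMap.polar, ← Matrix.mulVec_add, omMat_O, omMat_O, omMat_O]

theorem exists_omega {Q : QuadraticForm F (ι → F)} (hG : Good Q) {v w : ι → F} (hv : v ≠ 0) (hw : w ≠ 0)
    (h : Q v = Q w) : ∃ x : Cfsg.Omega F ⇑Q, omMat (⇑Q) x *ᵥ v = w := by
  obtain ⟨g, hg, hgv⟩ := hG.trans_norm hv hw h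
  rw [← hG.commutator_eq_E] at hg
  refine ⟨(omegaEquiv Q).symm ⟨g, hg⟩, ?_⟩
  have h1 := omegaEquiv_apply Q ((omegaEquiv Q).symm ⟨g, hg⟩) v
  rw [MulEquiv.apply_symm_apply] at h1
  rw [← hgv]
  exact h1.symm

/-- the covector of `v` -/
def cov (Q : QuadraticForm F (ι → F)) (v : ι → F) : ι → F := fun i => polar Q v (Pi.single i 1)

theorem polar_eq_sum (Q : QuadraticForm F (ι → F)) (v u : ι → F) : polar Q v u = ∑ i, cov Q v i * u i := by
  have h1 := LinearMap.pi_apply_eq_sum_univ (polarBilin Q v) u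
  rw [polarBilin_apply_apply] at h1
  rw [h1]
  refine Finset.sum_congr rfl fun i _ => ?_
  rw [smul_eq_mul, mul_comm, polarBilin_apply_apply, cov]
  congr 2
  funext j
  rw [Pi.single_apply]
  simp only [eq_comm]

theorem cov_vecMul (Q : QuadraticForm F (ι → F)) (x : Cfsg.Omega F ⇑Q) (v : ι → F) :
    cov Q v ᵥ* omMat (⇑Q) x = cov Q (omMat (⇑Q) x⁻¹ *ᵥ v) := by
  funext j
  have h1 : (cov Q v ᵥ* omMat (⇑Q) x) j = polar Q v (omMat (⇑Q) x *ᵥ Pi.single j 1) := by
    rw [polar_eq_sum]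
    simp only [Matrix.vecMul, dotProduct]
    refine Finset.sum_congr rfl fun i _ => ?_
    rw [Matrix.mulVec_single_one]
    rfl
  rw [h1, cov]
  conv_lhs => rw [← omMat_inv (⇑Q) x v]
  rw [omMat_polar]

theorem cov_bij {Q : QuadraticForm F (ι → F)} (hQ : Nondeg Q) : Function.Bijective (cov Q) := by
  let L : (ι → F) →ₗ[F] (ι → F) :=
    { toFun := cov Q
      map_add' := fun u v => by funext i; simp only [cov, Pi.add_apply, polar_add_left]
      map_smul' := fun c u => by
        funext i; simp only [cov, Pi.smul_apply, polar_smul_left, RingHom.id_apply] }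
  have hL : Function.Injective L := by
    rw [← LinearMap.ker_eq_bot, LinearMap.ker_eq_bot']
    intro v hv
    apply hQ v
    intro y
    rw [polar_eq_sum]
    refine Finset.sum_eq_zero fun i _ => ?_
    have h1 : cov Q v i = 0 := congrFun hv i
    rw [h1, zero_mul]
  exact ⟨hL, LinearMap.injective_iff_surjective.1 hL⟩

theorem card_omega_orbit [Fintype F] {Q : QuadraticForm F (ι → F)} (hG : Good Q) (v : ι → F) (hv : v ≠ 0) :
    (Fintype.card F) ^ (Fintype.card ι) ≤
      (Nat.card {w : ι → F // ∃ x : Cfsg.Omega F ⇑Q, omMat (⇑Q) x *ᵥ v = w}) ^ 4 := by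
  classical
  obtain ⟨x, y, hxy⟩ := hG.exists_hyp
  let L : (ι → F) →ₗ[F] (F × F) := (polarBilin Q x).prod (polarBilin Q y)
  have hLx : ∀ w ∈ LinearMap.ker L, polar Q x w = 0 := fun w hw => congrArg Prod.fst (LinearMap.mem_ker.1 hw)
  have hLy : ∀ w ∈ LinearMap.ker L, polar Q y w = 0 := fun w hw => congrArg Prod.snd (LinearMap.mem_ker.1 hw)
  have hx0 : Q x = 0 := hxy.left
  have hy0 : Q y = 0 := hxy.right
  have hp : polar Q x y = 1 := hxy.pair
  have hp' : polar Q y x = 1 := hxy.pair'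
  have key : ∀ w ∈ LinearMap.ker L, Q (x + w + (Q v - Q w) • y) = Q v := by
    intro w hw
    have h1 := hLx w hw
    have h2 := hLy w hw
    rw [Q_add, Q_add, QuadraticMap.map_smul, polar_add_left, polar_smul_right, polar_smul_right, hx0, hy0, h1, hp,
      polar_comm Q w y, h2]
    simp
  have key0 : ∀ w ∈ LinearMap.ker L, x + w + (Q v - Q w) • y ≠ 0 := by
    intro w hw h
    have h1 : polar Q y (x + w + (Q v - Q w) • y) = 1 := by
      rw [polar_add_right, polar_add_right, polar_smul_right, hp', hLy w hw, polar_self_of_sing hy0]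
      simp
    rw [h, polar_zero_right] at h1
    exact zero_ne_one h1
  have hcard : Nat.card (LinearMap.ker L) ≤ Nat.card {w : ι → F // ∃ x : Cfsg.Omega F ⇑Q, omMat (⇑Q) x *ᵥ v = w} := by
    refine Nat.card_le_card_of_injective (fun w : LinearMap.ker L =>
      (⟨x + w.1 + (Q v - Q w.1) • y, exists_omega hG hv (key0 w.1 w.2) (key w.1 w.2).symm⟩ :
        {w : ι → F // ∃ x : Cfsg.Omega F ⇑Q, omMat (⇑Q) x *ᵥ v = w})) ?_
    intro a b hab
    have h1 : x + a.1 + (Q v - Q a.1) • y = x + b.1 + (Q v - Q b.1) • y := congrArg Subtype.val hab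
    have h2 := congrArg (polar Q x) h1
    rw [polar_add_right, polar_add_right, polar_smul_right, polar_add_right, polar_add_right, polar_smul_right,
      hLx a.1 a.2, hLx b.1 b.2, hp] at h2
    simp only [smul_eq_mul, mul_one] at h2
    have h3 := add_left_cancel h2
    rw [h3] at h1
    exact Subtype.ext (add_left_cancel (add_right_cancel h1))
  have hF1 : 1 ≤ Fintype.card F := Fintype.card_pos
  have hk : (Fintype.card F) ^ (Fintype.card ι) ≤ (Fintype.card F) ^ 2 * Nat.card (LinearMap.ker L) := by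
    have h1 := LinearMap.finrank_range_add_finrank_ker L
    have h2 : Module.finrank F (LinearMap.range L) ≤ 2 := by
      refine (Submodule.finrank_le _).trans ?_
      rw [Module.finrank_prod, Module.finrank_self]
    rw [Module.finrank_fintype_fun_eq_card] at h1
    rw [Module.natCard_eq_pow_finrank (K := F), Nat.card_eq_fintype_card, ← pow_add]
    exact Nat.pow_le_pow_right hF1 (by omega)
  have hN : 5 ≤ Fintype.card ι := by
    have := hG.dim
    rwa [Module.finrank_fintype_fun_eq_card] at this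
  obtain ⟨k, hk'⟩ := Nat.exists_eq_add_of_le hN
  have h4 : (Fintype.card F) ^ (k + 3) ≤ Nat.card (LinearMap.ker L) := by
    have h5 : (Fintype.card F) ^ 2 * (Fintype.card F) ^ (k + 3) ≤ (Fintype.card F) ^ 2 * Nat.card (LinearMap.ker L) := by
      rw [← pow_add, show 2 + (k + 3) = Fintype.card ι by omega]
      exact hk
    exact Nat.le_of_mul_le_mul_left h5 (by positivity)
  calc (Fintype.card F) ^ (Fintype.card ι) ≤ (Fintype.card F) ^ ((k + 3) * 4) := Nat.pow_le_pow_right hF1 (by omega)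
    _ = ((Fintype.card F) ^ (k + 3)) ^ 4 := pow_mul _ _ _
    _ ≤ _ := Nat.pow_le_pow_left (h4.trans hcard) 4

theorem facts_omega [Fintype F] {Q : QuadraticForm F (ι → F)} (hG : Good Q) :
    Facts (Cfsg.Omega F ⇑Q) (omMat ⇑Q) where
  norm := norm_of_simple (omega_perfect hG) (isSimpleGroup_POmega_of_good hG)
  col := card_omega_orbit hG
  row := fun v hv => row_of_col (cov Q) (cov_bij hG.nondeg)
    (by funext i; simp only [cov, polar_zero_left, Pi.zero_apply]) (cov_vecMul Q) (card_omega_orbit hG) v hv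
  cen := fun x hx => cen_of_inj (omMat_inj ⇑Q) (omMat_mul ⇑Q) x hx

end

variable (F : Type) [Field F] [Fintype F]

theorem two_ne_zero_of_odd (ho : Odd (Fintype.card F)) : (2 : F) ≠ 0 := by
  intro h2
  have h3' : CharP F 2 := by
    refine (CharP.charP_iff_prime_eq_zero Nat.prime_two).2 ?_
    exact_mod_cast h2
  have h3 : ringChar F = 2 := ringChar.eq_iff.2 h3'
  have h4 := FiniteField.even_card_iff_char_two.1 h3
  have := Nat.odd_iff.1 ho
  omega

theorem facts_oodd (m : ℕ) (hm : 3 ≤ m) (ho : Odd (Fintype.card F)) :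
    Facts (Cfsg.Omega F (Cfsg.quadFormOdd m F)) (omMat (Cfsg.quadFormOdd m F)) := by
  have hG : Good (oddForm m F) := good_of_finite (nondeg_oddForm m F (two_ne_zero_of_odd F ho)) (by
    rw [Module.finrank_fintype_fun_eq_card, Fintype.card_sum, Fintype.card_sum, Fintype.card_fin, Fintype.card_unit]
    omega)
  have h := facts_omega hG
  rwa [coe_oddForm] at h

theorem facts_oplus (m : ℕ) (hm : 3 ≤ m) :
    Facts (Cfsg.Omega F (Cfsg.quadFormPlus m F)) (omMat (Cfsg.quadFormPlus m F)) := by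
  have hG : Good (plusForm m F) := good_of_finite (nondeg_plusForm m F) (by
    rw [Module.finrank_fintype_fun_eq_card, Fintype.card_sum, Fintype.card_fin]
    omega)
  have h := facts_omega hG
  rwa [coe_plusForm] at h

theorem facts_ominus (m : ℕ) (hm : 3 ≤ m) (a b : F)
    (hab : ∀ z₁ z₂ : F, z₁ ^ 2 + a * z₁ * z₂ + b * z₂ ^ 2 = 0 → z₁ = 0 ∧ z₂ = 0) :
    Facts (Cfsg.Omega F (Cfsg.quadFormMinus (m - 1) F a b)) (omMat (Cfsg.quadFormMinus (m - 1) F a b)) := by
  have hG : Good (minusForm (m - 1) F a b) := good_of_finite (nondeg_minusForm (m - 1) F a b hab) (by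
    rw [Module.finrank_fintype_fun_eq_card, Fintype.card_sum, Fintype.card_sum, Fintype.card_fin, Fintype.card_fin]
    omega)
  have h := facts_omega hG
  rwa [coe_minusForm] at h

end Orth

section SU

open Matrix Subgroup Cfsg
open Cfsg.Agent.H254.BS.PI (supp)
open Cfsg.Agent.LieClassical.HermBasic Cfsg.Agent.LieClassical.HermSiegel Cfsg.Agent.LieClassical.HermGen

variable {F : Type} [Field F] [Fintype F] {q n : ℕ}

theorem card_norm_one_ge (hF : Fintype.card F = q ^ 2) (hn : 3 ≤ n) :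
    q ^ (2 * n - 2) ≤ Nat.card {v : Fin n → F // hermForm n F q v v = 1} := by
  have hq := two_le hF
  rw [Cfsg.Agent.LieClassical.HermCount.card_norm_one hF n]
  obtain ⟨k, rfl⟩ := Nat.exists_eq_add_of_le hn
  have h1 : q ^ (3 + k) = q ^ (2 + k) * q := by rw [show 3 + k = (2 + k) + 1 by ring, pow_succ]
  have h0 : 1 ≤ q ^ (2 + k) := Nat.one_le_pow _ _ (by omega)
  have h2 : q ^ (2 + k) ≤ q ^ (3 + k) - 1 := by
    rw [h1]
    have : q ^ (2 + k) * 2 ≤ q ^ (2 + k) * q := Nat.mul_le_mul_left _ hq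
    omega
  have h3 : 2 * (3 + k) - 2 = (2 + k) + (2 + k) := by omega
  rw [h3, pow_add, show 3 + k - 1 = 2 + k by omega]
  split_ifs with he
  · exact Nat.mul_le_mul_left _ h2
  · exact Nat.mul_le_mul_left _ (by omega)

theorem card_isotropic_ge (hF : Fintype.card F = q ^ 2) (hn : 3 ≤ n) :
    q ^ (2 * n - 2) ≤ Nat.card {v : Fin n → F // v ≠ 0 ∧ hermForm n F q v v = 0} := by
  classical
  have hq := two_le hF
  have h := Cfsg.Agent.LieClassical.HermCount.card_isotropic hF n
  have h00 : hermForm n F q 0 0 = 0 := herm_zero_left 0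
  have h5 : Nat.card {v : Fin n → F // hermForm n F q v v = 0} =
      Nat.card {v : Fin n → F // v ≠ 0 ∧ hermForm n F q v v = 0} + 1 := by
    rw [Nat.card_eq_fintype_card, Nat.card_eq_fintype_card, Fintype.card_subtype, Fintype.card_subtype]
    have h6 : (Finset.univ.filter fun v : Fin n → F => hermForm n F q v v = 0) =
        insert 0 (Finset.univ.filter fun v : Fin n → F => v ≠ 0 ∧ hermForm n F q v v = 0) := by
      ext v
      simp only [Finset.mem_filter, Finset.mem_univ, true_and, Finset.mem_insert]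
      constructor
      · intro hv
        by_cases h0 : v = 0
        · exact Or.inl h0
        · exact Or.inr ⟨h0, hv⟩
      · rintro (rfl | h)
        · exact h00
        · exact h.2
    rw [h6, Finset.card_insert_of_notMem (by simp only [_root_.ne_eq, _root_.Finset.mem_filter, _root_.Finset.mem_univ, _root_.not_true_eq_false, _root_.false_and, _root_.and_false, _root_.not_false_eq_true])]
  rw [h5] at h
  have h7 := Nat.add_right_cancel h
  rw [h7]
  obtain ⟨k, rfl⟩ := Nat.exists_eq_add_of_le hn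
  have h1 : q ^ (3 + k) = q ^ (2 + k) * q := by rw [show 3 + k = (2 + k) + 1 by ring, pow_succ]
  have h0 : 1 ≤ q ^ (2 + k) := Nat.one_le_pow _ _ (by omega)
  have h2 : q ^ (2 + k) ≤ q ^ (3 + k) - 1 := by
    rw [h1]
    have : q ^ (2 + k) * 2 ≤ q ^ (2 + k) * q := Nat.mul_le_mul_left _ hq
    omega
  have h1' : q ^ (2 + k) = q ^ (1 + k) * q := by rw [show 2 + k = (1 + k) + 1 by ring, pow_succ]
  have h0' : 1 ≤ q ^ (1 + k) := Nat.one_le_pow _ _ (by omega)
  have h2' : q ^ (1 + k) ≤ q ^ (2 + k) - 1 := by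
    rw [h1']
    have : q ^ (1 + k) * 2 ≤ q ^ (1 + k) * q := Nat.mul_le_mul_left _ hq
    omega
  rw [show 3 + k - 1 = 2 + k by omega]
  split_ifs with he
  · calc q ^ (2 * (3 + k) - 2) = q ^ (2 + k) * q ^ (2 + k) := by rw [← pow_add]; congr 1; omega
      _ ≤ _ := Nat.mul_le_mul h2 (Nat.le_succ _)
  · calc q ^ (2 * (3 + k) - 2) = q ^ (3 + k) * q ^ (1 + k) := by rw [← pow_add]; congr 1; omega
      _ ≤ _ := Nat.mul_le_mul (Nat.le_succ _) h2'

theorem su_orbit_iso (hF : Fintype.card F = q ^ 2) (hn : 3 ≤ n) (v : Fin n → F) (hv : v ≠ 0)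
    (h0 : hermForm n F q v v = 0) :
    q ^ (2 * n - 2) ≤ Nat.card {w : Fin n → F // ∃ x : SU n F q, act x v = w} := by
  refine (card_isotropic_ge hF hn).trans ?_
  refine Nat.card_le_card_of_injective
    (fun w : {v : Fin n → F // v ≠ 0 ∧ hermForm n F q v v = 0} =>
      (⟨w.1, ?_⟩ : {w : Fin n → F // ∃ x : SU n F q, act x v = w})) ?_
  · obtain ⟨g, -, hg⟩ := exists_map_iso hF hn le_rfl (mem_coordSub_top v) (mem_coordSub_top w.1) hv w.2.1 h0 w.2.2
    exact ⟨g, hg⟩
  · intro a b hab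
    exact Subtype.ext (congrArg (fun w : {w : Fin n → F // ∃ x : SU n F q, act x v = w} => w.1) hab)

open Cfsg.Agent.LieClassical.GUOrder (detGU card_ker_pow range_detGU exists_gu_map finite_GU kerEquiv coe_detGU) in
theorem su_orbit_one (hF : Fintype.card F = q ^ 2) (hn : 3 ≤ n) (v : Fin n → F) (h1 : hermForm n F q v v = 1) :
    q ^ (2 * n - 2) ≤ (q + 1) * Nat.card {w : Fin n → F // ∃ x : SU n F q, act x v = w} := by
  classical
  refine (card_norm_one_ge hF hn).trans ?_
  -- representatives of the determinants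
  have hs : ∀ r : (detGU n F q).range, ∃ g : GU n F q, detGU n F q g = r.1 := fun r => r.2
  choose h hh using hs
  have ht : ∀ y : {v : Fin n → F // hermForm n F q v v = 1},
      ∃ g : GU n F q, ((g : GL (Fin n) F) : Matrix (Fin n) (Fin n) F) *ᵥ v = y.1 :=
    fun y => exists_gu_map hF h1 y.2
  choose g hg using ht
  let r : {v : Fin n → F // hermForm n F q v v = 1} → (detGU n F q).range := fun y => ⟨detGU n F q (g y), ⟨_, rfl⟩⟩
  have hker : ∀ y, (h (r y))⁻¹ * g y ∈ (detGU n F q).ker := by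
    intro y
    rw [MonoidHom.mem_ker, map_mul, map_inv, hh]
    exact inv_mul_cancel _
  have hcard : Nat.card (detGU n F q).range = q + 1 := by
    rw [range_detGU hF (by omega), card_ker_pow hF]
  rw [← hcard, ← Nat.card_prod]
  have hf : Finite (detGU n F q).range := inferInstance
  refine Nat.card_le_card_of_injective
    (fun y : {v : Fin n → F // hermForm n F q v v = 1} =>
      ((r y, ⟨((((h (r y))⁻¹ * g y : GU n F q) : GL (Fin n) F) : Matrix (Fin n) (Fin n) F) *ᵥ v,
        ⟨kerEquiv n ⟨_, hker y⟩, rfl⟩⟩) :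
        (detGU n F q).range × {w : Fin n → F // ∃ x : SU n F q, act x v = w})) ?_
  intro a b hab
  have e1 : r a = r b := congrArg Prod.fst hab
  have e2 : ((((h (r a))⁻¹ * g a : GU n F q) : GL (Fin n) F) : Matrix (Fin n) (Fin n) F) *ᵥ v =
      ((((h (r b))⁻¹ * g b : GU n F q) : GL (Fin n) F) : Matrix (Fin n) (Fin n) F) *ᵥ v :=
    congrArg (fun z : (detGU n F q).range × {w : Fin n → F // ∃ x : SU n F q, act x v = w} => z.2.1) hab
  rw [Subgroup.coe_mul, Subgroup.coe_mul, Units.val_mul, Units.val_mul, ← Matrix.mulVec_mulVec,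
    ← Matrix.mulVec_mulVec, hg, hg, e1] at e2
  have e3 := congrArg (fun w => (((h (r b) : GU n F q) : GL (Fin n) F) : Matrix (Fin n) (Fin n) F) *ᵥ w) e2
  simp only [Matrix.mulVec_mulVec] at e3
  rw [← Units.val_mul, ← Subgroup.coe_mul, mul_inv_cancel, Subgroup.coe_one, Units.val_one, Matrix.one_mulVec,
    Matrix.one_mulVec] at e3
  exact Subtype.ext e3

theorem su_orbit (hF : Fintype.card F = q ^ 2) (hn : 3 ≤ n) (v : Fin n → F) (hv : v ≠ 0) :
    (Fintype.card F) ^ (Fintype.card (Fin n)) ≤ (Nat.card {w : Fin n → F // ∃ x : SU n F q, act x v = w}) ^ 4 := by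
  have hq := two_le hF
  have key : q ^ (2 * n - 4) ≤ Nat.card {w : Fin n → F // ∃ x : SU n F q, act x v = w} := by
    by_cases h0 : hermForm n F q v v = 0
    · exact (Nat.pow_le_pow_right (by omega) (by omega)).trans (su_orbit_iso hF hn v hv h0)
    · obtain ⟨c, hc0, hc⟩ := exists_norm_eq_ne hF (c := (hermForm n F q v v)⁻¹)
        (by rw [inv_pow, herm_self_pow hF]) (inv_ne_zero h0)
      have h1 : hermForm n F q (c • v) (c • v) = 1 := by
        rw [herm_smul_left, herm_smul_right, ← mul_assoc, hc, inv_mul_cancel₀ h0]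
      have h2 := su_orbit_one hF hn (c • v) h1
      have h3 : Nat.card {w : Fin n → F // ∃ x : SU n F q, act x (c • v) = w} ≤
          Nat.card {w : Fin n → F // ∃ x : SU n F q, act x v = w} := by
        refine Nat.card_le_card_of_injective
          (fun w : {w : Fin n → F // ∃ x : SU n F q, act x (c • v) = w} =>
            (⟨c⁻¹ • w.1, by
              obtain ⟨x, hx⟩ := w.2
              exact ⟨x, by rw [← hx, act_smul, smul_smul, inv_mul_cancel₀ hc0, one_smul]⟩⟩ :
              {w : Fin n → F // ∃ x : SU n F q, act x v = w})) ?_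
        intro a b hab
        have e : c⁻¹ • a.1 = c⁻¹ • b.1 := congrArg Subtype.val hab
        exact Subtype.ext (smul_right_injective _ (inv_ne_zero hc0) e)
      have h4 : (q + 1) * q ^ (2 * n - 4) ≤ (q + 1) * Nat.card {w : Fin n → F // ∃ x : SU n F q, act x v = w} := by
        calc (q + 1) * q ^ (2 * n - 4) ≤ q ^ 2 * q ^ (2 * n - 4) := by
              apply Nat.mul_le_mul_right
              nlinarith only [hq]
          _ = q ^ (2 * n - 2) := by rw [← pow_add]; congr 1; omega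
          _ ≤ _ := h2.trans (Nat.mul_le_mul_left _ h3)
      exact Nat.le_of_mul_le_mul_left h4 (by omega)
  calc (Fintype.card F) ^ (Fintype.card (Fin n)) = q ^ (2 * n) := by rw [hF, Fintype.card_fin, ← pow_mul]
    _ ≤ q ^ ((2 * n - 4) * 4) := Nat.pow_le_pow_right (by omega) (by omega)
    _ = (q ^ (2 * n - 4)) ^ 4 := pow_mul _ _ _
    _ ≤ _ := Nat.pow_le_pow_left key 4

theorem su_row (_hF : Fintype.card F = q ^ 2) (x : SU n F q) (v : Fin n → F) :
    (fun i => v i ^ q) ᵥ* mat x = fun i => (act x⁻¹ v) i ^ q := by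
  funext j
  have h1 : ((fun i => v i ^ q) ᵥ* mat x) j = hermForm n F q (act x (Pi.single j 1)) v := by
    rw [herm_def]
    simp only [Matrix.vecMul, dotProduct]
    refine Finset.sum_congr rfl fun i _ => ?_
    rw [act_single, mul_comm]
  rw [h1, herm_act_left, herm_single_left, one_mul]

theorem facts_su (F : Type) [Field F] [Fintype F] (n q : ℕ) (hF : Fintype.card F = q ^ 2) (hn : 3 ≤ n)
    (h : ¬ (n = 3 ∧ q = 2)) : Facts (Cfsg.SU n F q)
      (fun x => ((x : Matrix.SpecialLinearGroup (Fin n) F) : Matrix (Fin n) (Fin n) F)) where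
  norm := fun N hN => by
    by_cases h1 : N ≤ Subgroup.center (Cfsg.SU n F q)
    · exact Or.inl h1
    · exact Or.inr (Cfsg.Agent.LieClassical.HermPerfect.normal_eq_top hF hn h h1)
  col := su_orbit hF hn
  row := fun v hv => row_of_col (M := Cfsg.SU n F q) (m := mat) (fun v i => v i ^ q)
    ⟨fun a b hab => by
        funext i
        exact (pow_q_inj hF).1 (congrFun hab i),
      fun b => ⟨fun i => b i ^ q, by funext i; exact pow_q_pow_q hF (b i)⟩⟩
    (by funext i; exact zero_pow_q hF) (su_row hF) (su_orbit hF hn) v hv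
  cen := fun x hx => cen_of_inj (M := Cfsg.SU n F q) (m := mat) mat_injective mat_mul x hx

end SU

section Final

open Matrix
open Cfsg.Agent.H254.BS.PI (supp omMat)
open Cfsg.Agent.H917.FP (LongOrb)

variable {M : Type} [Group M] {ι : Type} [Fintype ι] [DecidableEq ι] {F : Type} [Field F] [Fintype F]
  {m : M →* Matrix ι ι F}

theorem Facts.norm' (h : Facts M m) (N : Subgroup M) (hN : N.Normal) (hc : ¬ N ≤ Subgroup.center M) : N = ⊤ :=
  (h.norm N hN).resolve_left hc

theorem Facts.long (h : Facts M m) : ∃ D : ℕ, 0 < D ∧ LongOrb D m ∧ (Fintype.card F) ^ (Fintype.card ι) ≤ D ^ 4 := by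
  classical
  have hex : ∃ D : ℕ, (Fintype.card F) ^ (Fintype.card ι) ≤ D ^ 4 :=
    ⟨(Fintype.card F) ^ (Fintype.card ι), Nat.le_self_pow (by norm_num) _⟩
  refine ⟨Nat.find hex, ?_, ⟨?_, ?_⟩, Nat.find_spec hex⟩
  · rw [Nat.pos_iff_ne_zero]
    intro h0
    have h1 := Nat.find_spec hex
    rw [h0] at h1
    have h2 : 1 ≤ (Fintype.card F) ^ (Fintype.card ι) := Nat.one_le_pow _ _ Fintype.card_pos
    omega
  · intro v hv
    exact Nat.find_min' hex (h.col v hv)
  · intro v hv
    exact Nat.find_min' hex (h.row v hv)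

end Final

end Cfsg.Agent.H847.BSF

private theorem dce_6b03adaeb4e5 : _root_.True := by
  try have : _root_.True := by simp only [_root_.Cfsg.Agent.H847.BSF.cov.congr_simp]
  try have : _root_.True := by simp only [_root_.Cfsg.Agent.H847.BSF.cov.eq_1]
  exact _root_.True.intro
end

-- part: H457/Bs/HgDec_mg
section
prune_inst 0xc46030450940020000000506c0000085180004020040800008050f06024002624002a0400c00241e4a2200000005000813cc0030804000c00400040000010521908050043200010406008f000000000000000000000000000000000000030000200000000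
set_option linter.all false
open scoped Cfsg.Agent.FastGrp

-- part: H830/B57/Str
section
/-!
# S5717, primitive linear groups: `HomDec`, `Str`
-/

set_option autoImplicit false

open Subgroup

namespace Cfsg.Agent.H830.B57

variable {p : ℕ} [Fact p.Prime] {V : Type} [AddCommGroup V] [Module (ZMod p) V]

/-- `V` restricted to `E` is the sum of `M` copies of an irreducible module. -/
structure HomDec (E : Subgroup (V ≃ₗ[ZMod p] V)) {U : Type} [AddCommGroup U] [Module (ZMod p) U]
    (M : ℕ) (ρ : E →* (U ≃ₗ[ZMod p] U)) (φ : V ≃ₗ[ZMod p] (Fin M → U)) : Prop where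
  eq : ∀ (e : E) (v : V) (j : Fin M), φ ((e : V ≃ₗ[ZMod p] V) v) j = ρ e (φ v j)
  irr : ∀ W : Submodule (ZMod p) U, (∀ (e : E), ∀ w ∈ W, ρ e w ∈ W) → W = ⊥ ∨ W = ⊤
  nt : ∃ u : U, u ≠ 0

/-- The structure of a primitive linear group. -/
structure Str (X A C R : Subgroup (V ≃ₗ[ZMod p] V)) (t : ℕ)
    (E : Fin t → Subgroup (V ≃ₗ[ZMod p] V)) : Prop where
  AR : A ≤ R
  RC : R ≤ C
  CX : C ≤ X
  Acomm : ∀ x ∈ A, ∀ y ∈ A, x * y = y * x
  Anorm : ∀ x ∈ X, ∀ y ∈ A, x * y * x⁻¹ ∈ A
  Ceq : ∀ x, x ∈ C ↔ x ∈ X ∧ ∀ a ∈ A, x * a = a * x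
  Rnorm : ∀ x ∈ X, ∀ y ∈ R, x * y * x⁻¹ ∈ R
  Rcomm : ∀ x ∈ R, ∀ y ∈ R, x * y * x⁻¹ * y⁻¹ ∈ A
  Rcent : ∀ x ∈ R, (∀ y ∈ R, x * y = y * x) → x ∈ A
  EC : ∀ i, E i ≤ C
  Einj : Function.Injective E
  Eperf : ∀ i, commutator (E i) = ⊤
  Esimp : ∀ i, IsSimpleGroup (E i ⧸ center (E i))
  Enab : ∀ i, ∃ x y : E i ⧸ center (E i), x * y ≠ y * x
  Ecomm : ∀ i j, i ≠ j → ∀ x ∈ E i, ∀ y ∈ E j, x * y = y * x
  ER : ∀ i, ∀ x ∈ E i, ∀ y ∈ R, x * y = y * x
  Eperm : ∀ x ∈ X, ∀ i, ∃ j, ∀ y, y ∈ E i ↔ x * y * x⁻¹ ∈ E j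
  cent : ∀ x ∈ C, (∀ r ∈ R, x * r = r * x) → (∀ i, ∀ e ∈ E i, x * e = e * x) → x ∈ A

end Cfsg.Agent.H830.B57
end

-- part: H457/Bs/Ann
section
/-!
# S5717, linear groups: points of the components

For a subgroup `E` of `GL(V)`: the ring `RR E` generated by `E`, pure vectors (vectors of irreducible `E`-submodules),
the annihilator of a pure vector (a maximal left ideal of `RR E`) = a point of the projective space of the irreducible
module. `comp_points` : `TBase` gives `k + 1` pure vectors such that every `x` normalising `E` and fixing their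
annihilators centralises `E`; `common` : for commuting groups `E i` and pure vectors `u i` there is one vector having
the annihilators of all the `u i`.
-/

set_option autoImplicit false

open Subgroup

namespace Cfsg.Agent.H457.Bs

open Cfsg.Agent.H830.B57

variable {p : ℕ} [Fact p.Prime] {V : Type} [AddCommGroup V] [Module (ZMod p) V]

/-- the ring generated by `E` in `End V` -/
def RR (E : Subgroup (V ≃ₗ[ZMod p] V)) : Subalgebra (ZMod p) (Module.End (ZMod p) V) :=
  Algebra.adjoin (ZMod p) {f | ∃ e ∈ E, f = (e : V →ₗ[ZMod p] V)}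

/-- the subspace `W` is stable under `E` -/
def Stb (E : Subgroup (V ≃ₗ[ZMod p] V)) (W : Submodule (ZMod p) V) : Prop := ∀ e ∈ E, ∀ w ∈ W, e w ∈ W

/-- `u` is a non-zero vector of an irreducible `E`-submodule -/
def Pure (E : Subgroup (V ≃ₗ[ZMod p] V)) (u : V) : Prop :=
  u ≠ 0 ∧ ∀ a ∈ RR E, a u ≠ 0 → ∃ b ∈ RR E, b (a u) = u

/-- `u` and `w` have the same annihilator in the ring generated by `E` -/
def SameAnn (E : Subgroup (V ≃ₗ[ZMod p] V)) (u w : V) : Prop := ∀ a ∈ RR E, a u = 0 ↔ a w = 0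

/-- conjugation by `x` fixes the annihilator of `u` -/
def FixAnn (E : Subgroup (V ≃ₗ[ZMod p] V)) (x : V ≃ₗ[ZMod p] V) (u : V) : Prop :=
  ∀ a ∈ RR E, a u = 0 ↔ x (a (x⁻¹ u)) = 0

/-- homogeneity -/
structure Hg (E : Subgroup (V ≃ₗ[ZMod p] V)) : Prop where
  ex : ∃ u : V, Pure E u
  copy : ∀ u : V, Pure E u → ∀ W : Submodule (ZMod p) V, Stb E W → W ≠ ⊥ → ∃ w ∈ W, w ≠ 0 ∧ SameAnn E u w
  faithful : ∀ u : V, Pure E u → ∀ a ∈ RR E, (∀ b ∈ RR E, a (b u) = 0) → a = 0

theorem mem_RR {E : Subgroup (V ≃ₗ[ZMod p] V)} {e : V ≃ₗ[ZMod p] V} (he : e ∈ E) :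
    (e : V →ₗ[ZMod p] V) ∈ RR E := Algebra.subset_adjoin ⟨e, he, rfl⟩

theorem mul_coe (x y : V ≃ₗ[ZMod p] V) : ((x * y : V ≃ₗ[ZMod p] V) : V →ₗ[ZMod p] V) =
    (x : V →ₗ[ZMod p] V) * (y : V →ₗ[ZMod p] V) := rfl

/-- the conjugate endomorphism -/
def cj (x : V ≃ₗ[ZMod p] V) (a : Module.End (ZMod p) V) : Module.End (ZMod p) V :=
  (x : V →ₗ[ZMod p] V) * a * ((x⁻¹ : V ≃ₗ[ZMod p] V) : V →ₗ[ZMod p] V)

theorem cj_apply (x : V ≃ₗ[ZMod p] V) (a : Module.End (ZMod p) V) (v : V) : cj x a v = x (a (x⁻¹ v)) := rfl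

theorem inv_app (x : V ≃ₗ[ZMod p] V) (v : V) : x⁻¹ (x v) = v := x.symm_apply_apply v

theorem app_inv (x : V ≃ₗ[ZMod p] V) (v : V) : x (x⁻¹ v) = v := x.apply_symm_apply v

theorem cj_mem {E : Subgroup (V ≃ₗ[ZMod p] V)} {x : V ≃ₗ[ZMod p] V} (hx : ∀ y ∈ E, x * y * x⁻¹ ∈ E)
    {a : Module.End (ZMod p) V} (ha : a ∈ RR E) : cj x a ∈ RR E := by
  induction ha using Algebra.adjoin_induction with
  | mem a ha =>
    obtain ⟨e, he, rfl⟩ := ha
    exact mem_RR (hx e he)
  | algebraMap r =>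
    have : cj x (algebraMap (ZMod p) (Module.End (ZMod p) V) r) = algebraMap (ZMod p) (Module.End (ZMod p) V) r := by
      ext v
      simp only [cj_apply, Module.algebraMap_end_apply, map_smul, app_inv]
    rw [this]
    exact (RR E).algebraMap_mem r
  | add a b _ _ ha hb =>
    have : cj x (a + b) = cj x a + cj x b := by
      ext v
      simp only [cj_apply, LinearMap.add_apply, map_add]
    rw [this]
    exact add_mem ha hb
  | mul a b _ _ ha hb =>
    have : cj x (a * b) = cj x a * cj x b := by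
      ext v
      simp only [cj_apply, Module.End.mul_apply, inv_app]
    rw [this]
    exact mul_mem ha hb

theorem comm_RR {E F : Subgroup (V ≃ₗ[ZMod p] V)} (h : ∀ x ∈ E, ∀ y ∈ F, x * y = y * x)
    {a b : Module.End (ZMod p) V} (ha : a ∈ RR E) (hb : b ∈ RR F) : a * b = b * a := by
  have h1 : ∀ e ∈ E, ∀ b ∈ RR F, (e : V →ₗ[ZMod p] V) * b = b * (e : V →ₗ[ZMod p] V) := by
    intro e he b hb
    induction hb using Algebra.adjoin_induction with
    | mem b hb =>
      obtain ⟨f, hf, rfl⟩ := hb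
      rw [← mul_coe, ← mul_coe, h e he f hf]
    | algebraMap r => exact (Algebra.commutes r _).symm
    | add a b _ _ ha hb => rw [mul_add, add_mul, ha, hb]
    | mul a b _ _ ha hb => rw [← mul_assoc, ha, mul_assoc, hb, mul_assoc]
  induction ha using Algebra.adjoin_induction with
  | mem a ha =>
    obtain ⟨e, he, rfl⟩ := ha
    exact h1 e he b hb
  | algebraMap r => exact Algebra.commutes r _
  | add a c _ _ ha hc => rw [mul_add, add_mul, ha, hc]
  | mul a c _ _ ha hc => rw [mul_assoc, hc, ← mul_assoc, ha, mul_assoc]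

theorem RR_stb {E : Subgroup (V ≃ₗ[ZMod p] V)} {W : Submodule (ZMod p) V} (hW : Stb E W)
    {a : Module.End (ZMod p) V} (ha : a ∈ RR E) : ∀ w ∈ W, a w ∈ W := by
  induction ha using Algebra.adjoin_induction with
  | mem a ha =>
    obtain ⟨e, he, rfl⟩ := ha
    exact hW e he
  | algebraMap r =>
    intro w hw
    rw [Module.algebraMap_end_apply]
    exact W.smul_mem r hw
  | add a b _ _ ha hb =>
    intro w hw
    exact W.add_mem (ha w hw) (hb w hw)
  | mul a b _ _ ha hb =>
    intro w hw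
    exact ha _ (hb w hw)

/-- **common vector** -/
theorem common {t : ℕ} (E : Fin t → Subgroup (V ≃ₗ[ZMod p] V)) (hE : ∀ i, Hg (E i))
    (hcomm : ∀ i j, i ≠ j → ∀ x ∈ E i, ∀ y ∈ E j, x * y = y * x) (u : Fin t → V) (hu : ∀ i, Pure (E i) (u i))
    (hV : ∃ v : V, v ≠ 0) : ∃ v : V, v ≠ 0 ∧ ∀ i, SameAnn (E i) (u i) v := by
  classical
  have key : ∀ S : Finset (Fin t), ∃ W : Submodule (ZMod p) V, W ≠ ⊥ ∧ (∀ j ∉ S, Stb (E j) W) ∧
      ∀ w ∈ W, ∀ i ∈ S, ∀ a ∈ RR (E i), a (u i) = 0 → a w = 0 := by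
    intro S
    induction S using Finset.induction with
    | empty =>
      obtain ⟨v, hv⟩ := hV
      refine ⟨⊤, fun h => hv ?_, fun j _ e _ w _ => Submodule.mem_top, fun w _ i hi => by simp at hi⟩
      have : v ∈ (⊤ : Submodule (ZMod p) V) := Submodule.mem_top
      rw [h] at this
      exact (Submodule.mem_bot _).1 this
    | insert i S hi ih =>
      obtain ⟨W, hW, hst, hann⟩ := ih
      refine ⟨{ carrier := {w | w ∈ W ∧ ∀ a ∈ RR (E i), a (u i) = 0 → a w = 0}
                add_mem' := fun {x y} hx hy => ⟨W.add_mem hx.1 hy.1, fun a ha h0 => by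
                  rw [map_add, hx.2 a ha h0, hy.2 a ha h0, add_zero]⟩
                zero_mem' := ⟨W.zero_mem, fun a _ _ => map_zero a⟩
                smul_mem' := fun c x hx => ⟨W.smul_mem c hx.1, fun a ha h0 => by
                  rw [map_smul, hx.2 a ha h0, smul_zero]⟩ }, ?_, ?_, ?_⟩
      · obtain ⟨w, hw, hw0, hsame⟩ := (hE i).copy (u i) (hu i) W (hst i hi) hW
        intro hbot
        have : w ∈ (⊥ : Submodule (ZMod p) V) := by
          rw [← hbot]
          exact ⟨hw, fun a ha h0 => (hsame a ha).1 h0⟩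
        exact hw0 ((Submodule.mem_bot _).1 this)
      · intro j hj e he w hw
        have hji : i ≠ j := fun h => hj (by rw [h]; exact Finset.mem_insert_self _ _)
        refine ⟨hst j (fun h => hj (Finset.mem_insert_of_mem h)) e he w hw.1, fun a ha h0 => ?_⟩
        have h1 : a * (e : V →ₗ[ZMod p] V) = (e : V →ₗ[ZMod p] V) * a := comm_RR (hcomm i j hji) ha (mem_RR he)
        have h2 : a (e w) = e (a w) := LinearMap.congr_fun h1 w
        rw [h2, hw.2 a ha h0, map_zero]
      · intro w hw j hj a ha h0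
        rcases Finset.mem_insert.1 hj with rfl | hj
        · exact hw.2 a ha h0
        · exact hann w hw.1 j hj a ha h0
  obtain ⟨W, hW, -, hann⟩ := key Finset.univ
  obtain ⟨w, hw, hw0⟩ := (Submodule.ne_bot_iff _).1 hW
  refine ⟨w, hw0, fun i a ha => ⟨hann w hw i (Finset.mem_univ i) a ha, fun h0 => ?_⟩⟩
  by_contra hne
  obtain ⟨b, hb, hbu⟩ := (hu i).2 a ha hne
  have h1 := hann w hw i (Finset.mem_univ i) (b * a - 1) (sub_mem (mul_mem hb ha) (one_mem _)) (by
    rw [LinearMap.sub_apply, Module.End.mul_apply, Module.End.one_apply, hbu, sub_self])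
  rw [LinearMap.sub_apply, Module.End.mul_apply, Module.End.one_apply, h0, map_zero, zero_sub, neg_eq_zero] at h1
  exact hw0 h1

/-- a vector having the annihilator of `u` and fixed by `x` : conjugation by `x` fixes the annihilator -/
theorem fixAnn_of {E : Subgroup (V ≃ₗ[ZMod p] V)} {x : V ≃ₗ[ZMod p] V} (hx : ∀ y ∈ E, x * y * x⁻¹ ∈ E) {u v : V}
    (h : SameAnn E u v) (hv : x v = v) : FixAnn E x u := by
  intro a ha
  have h1 := h _ (cj_mem hx ha)
  rw [cj_apply, cj_apply] at h1
  have h2 : x⁻¹ v = v := by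
    conv_lhs => rw [← hv]
    exact inv_app x v
  rw [h2] at h1
  rw [h a ha, h1]
  exact ⟨fun h => by rw [h, map_zero], fun h => (map_eq_zero_iff x x.injective).1 h⟩

end Cfsg.Agent.H457.Bs
end

-- part: H457/Bs/Pts
section
/-!
# S5717, linear groups: the points given by `TBase`
-/

set_option autoImplicit false

open Subgroup

namespace Cfsg.Agent.H457.Bs

open Cfsg.Agent.H830.B57

variable {p : ℕ} [Fact p.Prime] {V : Type} [AddCommGroup V] [Module (ZMod p) V]

theorem mul_app (x y : V ≃ₗ[ZMod p] V) (v : V) : (x * y) v = x (y v) := rfl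

/-- the elements of `E` fixing the annihilator of `u` -/
def StA (E : Subgroup (V ≃ₗ[ZMod p] V)) (u : V) : Subgroup E where
  carrier := {e | SameAnn E u ((e : V ≃ₗ[ZMod p] V) u)}
  one_mem' := fun _ _ => Iff.rfl
  mul_mem' := by
    intro e f he hf a ha
    have h1 := he a ha
    have h2 := hf (a * ((e : V ≃ₗ[ZMod p] V) : V →ₗ[ZMod p] V)) (mul_mem ha (mem_RR e.2))
    exact h1.trans h2
  inv_mem' := by
    intro e he a ha
    have h1 := he (a * (((e⁻¹ : E) : V ≃ₗ[ZMod p] V) : V →ₗ[ZMod p] V)) (mul_mem ha (mem_RR (e⁻¹).2))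
    rw [Module.End.mul_apply, Module.End.mul_apply] at h1
    have h2 : ((((e⁻¹ : E) : V ≃ₗ[ZMod p] V) : V →ₗ[ZMod p] V)) ((e : V ≃ₗ[ZMod p] V) u) = u := inv_app _ u
    rw [h2] at h1
    exact h1.symm

theorem pure_smul {E : Subgroup (V ≃ₗ[ZMod p] V)} {u : V} (hu : Pure E u) (e : E) :
    Pure E ((e : V ≃ₗ[ZMod p] V) u) := by
  refine ⟨fun h => hu.1 (((e : V ≃ₗ[ZMod p] V).map_eq_zero_iff).1 h), fun a ha hne => ?_⟩
  obtain ⟨b, hb, h⟩ := hu.2 (a * ((e : V ≃ₗ[ZMod p] V) : V →ₗ[ZMod p] V)) (mul_mem ha (mem_RR e.2)) hne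
  refine ⟨((e : V ≃ₗ[ZMod p] V) : V →ₗ[ZMod p] V) * b, mul_mem (mem_RR e.2) hb, ?_⟩
  rw [Module.End.mul_apply]
  exact congrArg (e : V ≃ₗ[ZMod p] V) h

theorem center_le_StA {E : Subgroup (V ≃ₗ[ZMod p] V)} {u : V} : center E ≤ StA E u := by
  intro z hz a ha
  have hzc : ∀ x ∈ E, ∀ y ∈ Subgroup.zpowers (z : V ≃ₗ[ZMod p] V), x * y = y * x := by
    intro x hx y hy
    obtain ⟨n, rfl⟩ := Subgroup.mem_zpowers_iff.1 hy
    have h1 : Commute (x : V ≃ₗ[ZMod p] V) (z : V ≃ₗ[ZMod p] V) :=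
      congrArg Subtype.val (Subgroup.mem_center_iff.1 hz ⟨x, hx⟩)
    exact h1.zpow_right n
  have h1 : a * ((z : V ≃ₗ[ZMod p] V) : V →ₗ[ZMod p] V) = ((z : V ≃ₗ[ZMod p] V) : V →ₗ[ZMod p] V) * a :=
    comm_RR hzc ha (mem_RR (Subgroup.mem_zpowers _))
  have h2 : a ((z : V ≃ₗ[ZMod p] V) u) = (z : V ≃ₗ[ZMod p] V) (a u) := LinearMap.congr_fun h1 u
  rw [h2]
  exact ⟨fun h => by rw [h, map_zero], fun h => ((z : V ≃ₗ[ZMod p] V).map_eq_zero_iff).1 h⟩

/-- a group without fixed annihilator is not commutative -/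
theorem comm_of_StA [Finite V] {E : Subgroup (V ≃ₗ[ZMod p] V)} (hE : Hg E) {u : V} (hu : Pure E u)
    (h : StA E u = ⊤) : ∀ x ∈ E, ∀ y ∈ E, x * y = y * x := by
  have h1 : ∀ b ∈ RR E, ∀ a ∈ RR E, a u = 0 → a (b u) = 0 := by
    intro b hb
    induction hb using Algebra.adjoin_induction with
    | mem b hb =>
      obtain ⟨e, he, rfl⟩ := hb
      intro a ha h0
      have : (⟨e, he⟩ : E) ∈ StA E u := by rw [h]; exact Subgroup.mem_top _
      exact (this a ha).1 h0
    | algebraMap r =>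
      intro a ha h0
      rw [Module.algebraMap_end_apply, map_smul, h0, smul_zero]
    | add b c _ _ hb hc =>
      intro a ha h0
      rw [LinearMap.add_apply, map_add, hb a ha h0, hc a ha h0, add_zero]
    | mul b c hb' _ hb hc =>
      intro a ha h0
      have := hc (a * b) (mul_mem ha hb') (hb a ha h0)
      exact this
  have h2 : ∀ a ∈ RR E, a u = 0 → a = 0 := fun a ha h0 => hE.faithful u hu a ha fun b hb => h1 b hb a ha h0
  have hinv : ∀ a : RR E, a ≠ 0 → ∃ b : RR E, b * a = 1 := by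
    intro a ha
    have h3 : (a : Module.End (ZMod p) V) u ≠ 0 := fun h0 => ha (Subtype.ext (h2 a a.2 h0))
    obtain ⟨b, hb, hbu⟩ := hu.2 a a.2 h3
    refine ⟨⟨b, hb⟩, Subtype.ext ?_⟩
    have := h2 (b * a - 1) (sub_mem (mul_mem hb a.2) (one_mem _)) (by
      rw [LinearMap.sub_apply, Module.End.mul_apply, Module.End.one_apply, hbu, sub_self])
    exact sub_eq_zero.1 this
  have hfin : Finite (Module.End (ZMod p) V) :=
    Finite.of_injective (fun f : Module.End (ZMod p) V => (f : V → V)) DFunLike.coe_injective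
  have hnt : Nontrivial (RR E) := by
    refine ⟨⟨1, 0, fun h => hu.1 ?_⟩⟩
    have h3 : (1 : Module.End (ZMod p) V) = 0 := congrArg Subtype.val h
    have := LinearMap.congr_fun h3 u
    simpa using this
  have hnz : NoZeroDivisors (RR E) := by
    refine ⟨fun {a b} hab => ?_⟩
    by_cases ha : a = 0
    · exact Or.inl ha
    · obtain ⟨c, hc⟩ := hinv a ha
      right
      calc b = (c * a) * b := by rw [hc, one_mul]
        _ = c * (a * b) := mul_assoc _ _ _
        _ = 0 := by rw [hab, mul_zero]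
  have hdom : IsDomain (RR E) := NoZeroDivisors.to_isDomain _
  have hfield := Finite.isDomain_to_isField (RR E)
  intro x hx y hy
  have := hfield.mul_comm ⟨_, mem_RR hx⟩ ⟨_, mem_RR hy⟩
  have h4 : (x : V →ₗ[ZMod p] V) * (y : V →ₗ[ZMod p] V) = (y : V →ₗ[ZMod p] V) * (x : V →ₗ[ZMod p] V) :=
    congrArg Subtype.val this
  ext v
  exact LinearMap.congr_fun h4 v

section conj

variable {E : Subgroup (V ≃ₗ[ZMod p] V)} {x : V ≃ₗ[ZMod p] V}

/-- conjugation by an element normalising `E` -/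
def cjE (hx : ∀ y, y ∈ E ↔ x * y * x⁻¹ ∈ E) : MulAut E where
  toFun e := ⟨x * e * x⁻¹, (hx e).1 e.2⟩
  invFun e := ⟨x⁻¹ * e * x, (hx _).2 (by
    have : x * (x⁻¹ * (e : V ≃ₗ[ZMod p] V) * x) * x⁻¹ = e := by group
    rw [this]; exact e.2)⟩
  left_inv e := Subtype.ext (by show x⁻¹ * (x * (e : V ≃ₗ[ZMod p] V) * x⁻¹) * x = e; group)
  right_inv e := Subtype.ext (by show x * (x⁻¹ * (e : V ≃ₗ[ZMod p] V) * x) * x⁻¹ = e; group)
  map_mul' e f := Subtype.ext (by
    show x * ((e : V ≃ₗ[ZMod p] V) * f) * x⁻¹ = (x * e * x⁻¹) * (x * f * x⁻¹); group)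

theorem map_center (α : MulAut E) : (center E).map (α : E →* E) = center E := by
  refine le_antisymm ?_ ?_
  · rintro _ ⟨z, hz, rfl⟩
    rw [Subgroup.mem_center_iff]
    intro g
    have := Subgroup.mem_center_iff.1 hz (α.symm g)
    have h2 := congrArg α this
    rw [map_mul, map_mul, MulEquiv.apply_symm_apply] at h2
    exact h2
  · intro z hz
    refine ⟨α.symm z, Subgroup.mem_center_iff.2 fun g => ?_, MulEquiv.apply_symm_apply _ _⟩
    have := Subgroup.mem_center_iff.1 hz (α g)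
    have h2 := congrArg α.symm this
    rw [map_mul, map_mul, MulEquiv.symm_apply_apply] at h2
    exact h2

/-- the automorphism of `E / Z(E)` induced by an automorphism of `E` -/
noncomputable def ind (α : MulAut E) : MulAut (E ⧸ center E) :=
  QuotientGroup.congr (center E) (center E) α (map_center α)

theorem ind_mk (α : MulAut E) (e : E) : ind α (e : E ⧸ center E) = (α e : E) := rfl

/-- an automorphism of a perfect group which is trivial modulo the centre is trivial -/
theorem eq_one_of_ind (hperf : commutator E = ⊤) {α : MulAut E} (h : ind α = 1) : α = 1 := by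
  have h1 : ∀ e : E, ∃ z ∈ center E, α e = e * z := by
    intro e
    have h2 : ind α (e : E ⧸ center E) = (e : E ⧸ center E) := by rw [h]; rfl
    rw [ind_mk] at h2
    exact ⟨e⁻¹ * α e, QuotientGroup.eq.1 h2.symm, by group⟩
  have h2 : commutator E ≤ (α : E →* E).eqLocus (MonoidHom.id E) := by
    rw [commutator_eq_closure, Subgroup.closure_le]
    rintro _ ⟨e, f, rfl⟩
    obtain ⟨y, hy, hey⟩ := h1 e
    obtain ⟨z, hz, hfz⟩ := h1 f
    have hyc := fun g => (Subgroup.mem_center_iff.1 hy g)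
    have hzc := fun g => (Subgroup.mem_center_iff.1 hz g)
    show α (e * f * e⁻¹ * f⁻¹) = e * f * e⁻¹ * f⁻¹
    rw [map_mul, map_mul, map_mul, map_inv, map_inv, hey, hfz]
    calc e * y * (f * z) * (e * y)⁻¹ * (f * z)⁻¹
        = e * (y * (f * z * y⁻¹)) * e⁻¹ * (f * z)⁻¹ := by group
      _ = e * (f * z * y⁻¹ * y) * e⁻¹ * (f * z)⁻¹ := by rw [hyc (f * z * y⁻¹)]
      _ = e * f * (z * e⁻¹) * z⁻¹ * f⁻¹ := by group
      _ = e * f * (e⁻¹ * z) * z⁻¹ * f⁻¹ := by rw [hzc e⁻¹]
      _ = e * f * e⁻¹ * f⁻¹ := by group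
  rw [hperf] at h2
  refine MulEquiv.ext fun e => ?_
  exact h2 (Subgroup.mem_top e)

end conj

/-- **The points of a component.** -/
theorem comp_points [Finite V] (E : Subgroup (V ≃ₗ[ZMod p] V)) (hE : Hg E) (hperf : commutator E = ⊤)
    (hna : ∃ x y : E ⧸ center E, x * y ≠ y * x) (k : ℕ) (hT : TBase (E ⧸ center E) k) :
    ∃ u : Fin (k + 1) → V, (∀ j, Pure E (u j)) ∧ ∀ x : V ≃ₗ[ZMod p] V, (∀ y, y ∈ E ↔ x * y * x⁻¹ ∈ E) →
      (∀ j, FixAnn E x (u j)) → ∀ e ∈ E, x * e = e * x := by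
  obtain ⟨u0, hu0⟩ := hE.ex
  have hH : (StA E u0).map (QuotientGroup.mk' (center E)) ≠ ⊤ := by
    intro htop
    have h1 : StA E u0 = ⊤ := by
      rw [eq_top_iff]
      intro e _
      have h2 : (e : E ⧸ center E) ∈ (StA E u0).map (QuotientGroup.mk' (center E)) := by
        rw [htop]; exact Subgroup.mem_top _
      obtain ⟨f, hf, hfe⟩ := h2
      have h3 := QuotientGroup.eq.1 hfe
      have : e = f * (f⁻¹ * e) := by group
      rw [this]
      exact mul_mem hf (center_le_StA h3)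
    have h2 := comm_of_StA hE hu0 h1
    obtain ⟨a, b, hab⟩ := hna
    obtain ⟨a, rfl⟩ := QuotientGroup.mk_surjective a
    obtain ⟨b, rfl⟩ := QuotientGroup.mk_surjective b
    apply hab
    rw [← QuotientGroup.mk_mul, ← QuotientGroup.mk_mul]
    congr 1
    exact Subtype.ext (h2 a a.2 b b.2)
  obtain ⟨t, ht⟩ := hT _ hH
  choose e he using fun j => QuotientGroup.mk_surjective (t j)
  refine ⟨Fin.cons u0 fun j => (e j : V ≃ₗ[ZMod p] V) u0, ?_, ?_⟩
  · intro j
    refine Fin.cases ?_ (fun j => ?_) j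
    · exact hu0
    · exact pure_smul hu0 _
  · intro x hx hfix
    have hf0 : FixAnn E x u0 := hfix 0
    have hf1 : ∀ j, FixAnn E x ((e j : V ≃ₗ[ZMod p] V) u0) := fun j => hfix j.succ
    have hxE : ∀ y ∈ E, x * y * x⁻¹ ∈ E := fun y hy => (hx y).1 hy
    have hxi : ∀ y ∈ E, x⁻¹ * y * x⁻¹⁻¹ ∈ E := by
      intro y hy
      rw [inv_inv]
      refine (hx _).2 ?_
      have : x * (x⁻¹ * y * x) * x⁻¹ = y := by group
      rwa [this]
    -- membership in the stabiliser of the annihilator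
    have hst : ∀ f : E, f ∈ StA E u0 ↔ cjE hx f ∈ StA E u0 := by
      intro f
      have key : ∀ a ∈ RR E, (a u0 = 0 ↔ (cj x⁻¹ a) u0 = 0) ∧
          ((cj x⁻¹ a) ((f : V ≃ₗ[ZMod p] V) u0) = 0 ↔ a ((cjE hx f : V ≃ₗ[ZMod p] V) u0) = 0) := by
        intro a ha
        have hb := cj_mem hxi ha
        refine ⟨?_, ?_⟩
        · rw [hf0 _ hb, cj_apply, inv_inv, app_inv, app_inv]
        · have h1 := hf0 (cj x⁻¹ a * ((f : V ≃ₗ[ZMod p] V) : V →ₗ[ZMod p] V)) (mul_mem hb (mem_RR f.2))
          have h2 : (cj x⁻¹ a * ((f : V ≃ₗ[ZMod p] V) : V →ₗ[ZMod p] V)) u0 = (cj x⁻¹ a) ((f : V ≃ₗ[ZMod p] V) u0) := rfl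
          rw [h2] at h1
          rw [h1]
          have h3 : x ((cj x⁻¹ a * ((f : V ≃ₗ[ZMod p] V) : V →ₗ[ZMod p] V)) (x⁻¹ u0)) =
              a ((cjE hx f : V ≃ₗ[ZMod p] V) u0) := by
            rw [Module.End.mul_apply, cj_apply, app_inv, inv_inv]
            rfl
          rw [h3]
      constructor
      · intro hf a ha
        obtain ⟨h1, h2⟩ := key a ha
        exact h1.trans ((hf _ (cj_mem hxi ha)).trans h2)
      · intro hf a ha
        have hb := cj_mem hxE ha
        obtain ⟨h1, h2⟩ := key _ hb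
        have h3 : cj x⁻¹ (cj x a) = a := by
          ext v
          rw [cj_apply, cj_apply, inv_app, inv_inv, inv_app]
        rw [h3] at h1 h2
        exact h1.symm.trans ((hf _ hb).trans h2.symm)
    have hH1 : ∀ f : E, (f : E ⧸ center E) ∈ (StA E u0).map (QuotientGroup.mk' (center E)) ↔ f ∈ StA E u0 := by
      intro f
      constructor
      · rintro ⟨g, hg, hgf⟩
        have h3 := QuotientGroup.eq.1 hgf
        have : f = g * (g⁻¹ * f) := by group
        rw [this]
        exact mul_mem hg (center_le_StA h3)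
      · exact fun hf => ⟨f, hf, rfl⟩
    have hone : ind (cjE hx) = 1 := by
      refine ht _ (fun h => ?_) (fun j => ?_)
      · obtain ⟨f, rfl⟩ := QuotientGroup.mk_surjective h
        rw [ind_mk, hH1, hH1]
        exact hst f
      · rw [← he j, ind_mk, ← QuotientGroup.mk_inv, ← QuotientGroup.mk_mul, hH1]
        intro a ha
        -- `c = a e⁻¹`
        have hc : a * (((e j)⁻¹ : E) : V ≃ₗ[ZMod p] V) ∈ RR E := mul_mem ha (mem_RR ((e j)⁻¹).2)
        have hd := cj_mem hxi hc
        have h1 := hf1 j _ hd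
        have h2 := hf0 (cj x⁻¹ (a * (((e j)⁻¹ : E) : V ≃ₗ[ZMod p] V)) * ((e j : V ≃ₗ[ZMod p] V) : V →ₗ[ZMod p] V))
          (mul_mem hd (mem_RR (e j).2))
        have e1 : x ((cj x⁻¹ (a * (((e j)⁻¹ : E) : V ≃ₗ[ZMod p] V))) (x⁻¹ ((e j : V ≃ₗ[ZMod p] V) u0))) = a u0 := by
          rw [cj_apply, app_inv, inv_inv, app_inv, Module.End.mul_apply]
          congr 1
          exact inv_app _ _
        have e2 : x ((cj x⁻¹ (a * (((e j)⁻¹ : E) : V ≃ₗ[ZMod p] V)) *
            ((e j : V ≃ₗ[ZMod p] V) : V →ₗ[ZMod p] V)) (x⁻¹ u0)) =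
            a ((((e j)⁻¹ * cjE hx (e j) : E) : V ≃ₗ[ZMod p] V) u0) := by
          rw [Module.End.mul_apply, cj_apply, app_inv, inv_inv, Module.End.mul_apply]
          rfl
        rw [e1] at h1
        rw [e2] at h2
        rw [← h1, ← h2]
        rfl
    have h2 := eq_one_of_ind hperf hone
    intro f hf
    have h3 : cjE hx ⟨f, hf⟩ = ⟨f, hf⟩ := by rw [h2]; rfl
    have h4 : x * f * x⁻¹ = f := congrArg Subtype.val h3
    calc x * f = (x * f * x⁻¹) * x := by group
      _ = f * x := by rw [h4]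

/-- **The vectors for the components.** -/
theorem comp_vecs [Finite V] {t : ℕ} (E : Fin t → Subgroup (V ≃ₗ[ZMod p] V)) (hE : ∀ i, Hg (E i))
    (hcomm : ∀ i j, i ≠ j → ∀ x ∈ E i, ∀ y ∈ E j, x * y = y * x) (hperf : ∀ i, commutator (E i) = ⊤)
    (hna : ∀ i, ∃ x y : E i ⧸ center (E i), x * y ≠ y * x) (k : ℕ) (hT : ∀ i, TBase (E i ⧸ center (E i)) k)
    (hV : ∃ v : V, v ≠ 0) :
    ∃ v : Fin (k + 1) → V, (∀ j, v j ≠ 0) ∧ ∀ x : V ≃ₗ[ZMod p] V, (∀ i, ∀ y, y ∈ E i ↔ x * y * x⁻¹ ∈ E i) →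
      (∀ j, x (v j) = v j) → ∀ i, ∀ e ∈ E i, x * e = e * x := by
  choose u hu hfix using fun i => comp_points (E i) (hE i) (hperf i) (hna i) k (hT i)
  choose v hv hsame using fun j => common E hE hcomm (fun i => u i j) (fun i => hu i j) hV
  exact ⟨v, hv, fun x hx hxv i e he => hfix i x (hx i) (fun j =>
    fixAnn_of (fun y hy => (hx i y).1 hy) (hsame j i) (hxv j)) e he⟩

end Cfsg.Agent.H457.Bs
end

-- part: H457/Bs/HgDec
section
/-!
# S5717, linear groups: homogeneous modules satisfy `Hg`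
-/

set_option autoImplicit false

open Subgroup

namespace Cfsg.Agent.H457.Bs

open Cfsg.Agent.H830.B57

variable {p : ℕ} [Fact p.Prime] {V : Type} [AddCommGroup V] [Module (ZMod p) V]
  {U : Type} [AddCommGroup U] [Module (ZMod p) U] {M : ℕ}
  {E : Subgroup (V ≃ₗ[ZMod p] V)} {ρ : E →* (U ≃ₗ[ZMod p] U)} {φ : V ≃ₗ[ZMod p] (Fin M → U)}

/-- the coordinates determine the coordinates of the images -/
theorem coord_indep (h : HomDec E M ρ φ) {a : Module.End (ZMod p) V} (ha : a ∈ RR E) :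
    ∀ (v v' : V) (j j' : Fin M), φ v j = φ v' j' → φ (a v) j = φ (a v') j' := by
  induction ha using Algebra.adjoin_induction with
  | mem a ha =>
    obtain ⟨e, he, rfl⟩ := ha
    intro v v' j j' hvv
    have h1 := h.eq ⟨e, he⟩ v j
    have h2 := h.eq ⟨e, he⟩ v' j'
    calc φ (e v) j = ρ ⟨e, he⟩ (φ v j) := h1
      _ = ρ ⟨e, he⟩ (φ v' j') := by rw [hvv]
      _ = φ (e v') j' := h2.symm
  | algebraMap r =>
    intro v v' j j' hvv
    rw [Module.algebraMap_end_apply, Module.algebraMap_end_apply, map_smul, map_smul, Pi.smul_apply, Pi.smul_apply,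
      hvv]
  | add a b _ _ ha hb =>
    intro v v' j j' hvv
    rw [LinearMap.add_apply, LinearMap.add_apply, map_add, map_add, Pi.add_apply, Pi.add_apply, ha v v' j j' hvv,
      hb v v' j j' hvv]
  | mul a b _ _ ha hb =>
    intro v v' j j' hvv
    exact ha _ _ j j' (hb v v' j j' hvv)

theorem coord_zero (h : HomDec E M ρ φ) {a : Module.End (ZMod p) V} (ha : a ∈ RR E) {v : V} {j : Fin M}
    (hv : φ v j = 0) : φ (a v) j = 0 := by
  have h1 := coord_indep h ha v 0 j j (by rw [hv, map_zero]; rfl)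
  rw [h1, map_zero, map_zero]
  rfl

/-- irreducibility of `U` -/
theorem coord_surj (h : HomDec E M ρ φ) {v : V} {j : Fin M} (hv : φ v j ≠ 0) (y : U) :
    ∃ b ∈ RR E, φ (b v) j = y := by
  let W : Submodule (ZMod p) U :=
    { carrier := {y | ∃ b ∈ RR E, φ (b v) j = y}
      add_mem' := by
        rintro _ _ ⟨a, ha, rfl⟩ ⟨b, hb, rfl⟩
        exact ⟨a + b, add_mem ha hb, by rw [LinearMap.add_apply, map_add, Pi.add_apply]⟩
      zero_mem' := ⟨0, zero_mem _, by rw [LinearMap.zero_apply, map_zero]; rfl⟩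
      smul_mem' := by
        rintro c _ ⟨a, ha, rfl⟩
        exact ⟨c • a, Subalgebra.smul_mem _ ha c, by rw [LinearMap.smul_apply, map_smul, Pi.smul_apply]⟩ }
  have hW : W = ⊤ := by
    refine (h.irr W ?_).resolve_left ?_
    · rintro e _ ⟨a, ha, rfl⟩
      refine ⟨((e : V ≃ₗ[ZMod p] V) : V →ₗ[ZMod p] V) * a, mul_mem (mem_RR e.2) ha, ?_⟩
      exact h.eq e (a v) j
    · intro hb
      have : φ v j ∈ W := ⟨1, one_mem _, rfl⟩
      rw [hb] at this
      exact hv ((Submodule.mem_bot _).1 this)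
  have : y ∈ W := by rw [hW]; exact Submodule.mem_top
  exact this

/-- **homogeneous modules** -/
theorem hg_of_homDec [Finite V] (h : HomDec E M ρ φ) (hV : ∃ v : V, v ≠ 0) : Hg E := by
  classical
  refine ⟨?_, ?_, ?_⟩
  · obtain ⟨v, hv⟩ := hV
    have hv' : φ v ≠ 0 := fun h0 => hv ((map_eq_zero_iff φ φ.injective).1 h0)
    obtain ⟨j, hj⟩ := Function.ne_iff.1 hv'
    have hj' : φ v j ≠ 0 := hj
    have hs : ∀ k, k ≠ j → φ (φ.symm (Pi.single j (φ v j))) k = 0 := by
      intro k hk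
      rw [LinearEquiv.apply_symm_apply, Pi.single_eq_of_ne hk]
    have hsj : φ (φ.symm (Pi.single j (φ v j))) j = φ v j := by
      rw [LinearEquiv.apply_symm_apply, Pi.single_eq_same]
    refine ⟨φ.symm (Pi.single j (φ v j)), fun h0 => ?_, fun a ha hne => ?_⟩
    · rw [h0, map_zero] at hsj
      exact hj' hsj.symm
    · have h1 : φ (a (φ.symm (Pi.single j (φ v j)))) j ≠ 0 := by
        intro h0
        apply hne
        apply (map_eq_zero_iff φ φ.injective).1
        funext k
        by_cases hk : k = j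
        · rw [hk, h0]; rfl
        · rw [coord_zero h ha (hs k hk)]; rfl
      obtain ⟨b, hb, hby⟩ := coord_surj h h1 (φ v j)
      refine ⟨b, hb, φ.injective ?_⟩
      funext k
      by_cases hk : k = j
      · rw [hk, hby, hsj]
      · rw [hs k hk, coord_zero h hb (coord_zero h ha (hs k hk))]
  · intro u hu W hW hWne
    -- the coordinates of a pure vector
    have hu' : φ u ≠ 0 := fun h0 => hu.1 ((map_eq_zero_iff φ φ.injective).1 h0)
    obtain ⟨j, hj⟩ := Function.ne_iff.1 hu'
    have hj' : φ u j ≠ 0 := hj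
    have hann : ∀ a ∈ RR E, a u = 0 ↔ φ (a u) j = 0 := by
      intro a ha
      constructor
      · intro h0
        rw [h0, map_zero]; rfl
      · intro h0
        by_contra hne
        obtain ⟨b, hb, hbu⟩ := hu.2 a ha hne
        have := coord_zero h hb h0
        rw [hbu] at this
        exact hj' this
    -- a minimal stable subspace
    have hfin : Finite (Submodule (ZMod p) V) := Finite.of_injective _ SetLike.coe_injective
    obtain ⟨W0, hW0⟩ := (Set.toFinite {W' : Submodule (ZMod p) V | Stb E W' ∧ W' ≠ ⊥ ∧ W' ≤ W}).exists_minimal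
      ⟨W, hW, hWne, le_rfl⟩
    obtain ⟨⟨hst, hne, hle⟩, hmin⟩ := hW0
    obtain ⟨w0, hw0, hw0ne⟩ := (Submodule.ne_bot_iff _).1 hne
    have hw0' : φ w0 ≠ 0 := fun h0 => hw0ne ((map_eq_zero_iff φ φ.injective).1 h0)
    obtain ⟨k, hk⟩ := Function.ne_iff.1 hw0'
    have hk' : φ w0 k ≠ 0 := hk
    obtain ⟨b, hb, hbk⟩ := coord_surj h hk' (φ u j)
    have hbW : b w0 ∈ W0 := RR_stb hst hb w0 hw0
    -- the coordinate `k` is injective on `W0`
    have hinj : ∀ w ∈ W0, φ w k = 0 → w = 0 := by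
      intro w hw hwk
      by_contra hwne
      let W1 : Submodule (ZMod p) V :=
        { carrier := {w | w ∈ W0 ∧ φ w k = 0}
          add_mem' := fun {x y} hx hy => ⟨W0.add_mem hx.1 hy.1, by rw [map_add, Pi.add_apply, hx.2, hy.2, add_zero]⟩
          zero_mem' := ⟨W0.zero_mem, by rw [map_zero]; rfl⟩
          smul_mem' := fun c x hx => ⟨W0.smul_mem c hx.1, by rw [map_smul, Pi.smul_apply, hx.2, smul_zero]⟩ }
      have h1 : W0 ≤ W1 := by
        refine hmin (y := W1) ⟨?_, ?_, ?_⟩ (fun x hx => hx.1)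
        · rintro e he x ⟨hx1, hx2⟩
          exact ⟨hst e he x hx1, coord_zero h (mem_RR he) hx2⟩
        · intro hb'
          have : w ∈ W1 := ⟨hw, hwk⟩
          rw [hb'] at this
          exact hwne ((Submodule.mem_bot _).1 this)
        · exact fun x hx => hle hx.1
      exact hk' (h1 hw0).2
    refine ⟨b w0, hle hbW, fun h0 => ?_, fun a ha => ?_⟩
    · rw [h0, map_zero] at hbk
      exact hj' hbk.symm
    · rw [hann a ha]
      have h1 : φ (a (b w0)) k = φ (a u) j := coord_indep h ha _ _ _ _ hbk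
      rw [← h1]
      exact ⟨fun h0 => hinj _ (RR_stb hst ha _ hbW) h0, fun h0 => by rw [h0, map_zero]; rfl⟩
  · intro u hu a ha hab
    have hu' : φ u ≠ 0 := fun h0 => hu.1 ((map_eq_zero_iff φ φ.injective).1 h0)
    obtain ⟨j, hj⟩ := Function.ne_iff.1 hu'
    have hj' : φ u j ≠ 0 := hj
    ext v
    rw [LinearMap.zero_apply]
    apply (map_eq_zero_iff φ φ.injective).1
    funext k
    obtain ⟨b, hb, hbk⟩ := coord_surj h hj' (φ v k)
    have h1 : φ (a (b u)) j = φ (a v) k := coord_indep h ha _ _ _ _ hbk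
    rw [← h1, hab b hb, map_zero]
    rfl

end Cfsg.Agent.H457.Bs
end

-- part: H131/B57/CompDec
section
/-!
# S5717, D5: the restriction to a component (helper131)

`comp_dec_of`: if the product of the components is homogeneous on `V`, then `V` restricted to a
component `E i` is the sum of at least `2 ^ (t - 1)` copies of an irreducible module.
-/

set_option autoImplicit false

open Subgroup

namespace Cfsg.Agent.H131.B57

open Cfsg.Agent.H830.B57

section Gen

variable {k : Type*} [Field k] {U V : Type*} [AddCommGroup U] [Module k U] [AddCommGroup V] [Module k V]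

/-- A nonzero subspace with a property contains a minimal one. -/
theorem exists_irr [FiniteDimensional k U] (I : Submodule k U → Prop) (W : Submodule k U) (hW : I W)
    (h0 : W ≠ ⊥) : ∃ S ≤ W, I S ∧ S ≠ ⊥ ∧ ∀ S' ≤ S, I S' → S' = ⊥ ∨ S' = S := by
  classical
  have hex : ∃ d : ℕ, ∃ S ≤ W, I S ∧ S ≠ ⊥ ∧ Module.finrank k S = d := ⟨_, W, le_rfl, hW, h0, rfl⟩
  obtain ⟨S, hSW, hIS, hS0, hd⟩ := Nat.find_spec hex
  refine ⟨S, hSW, hIS, hS0, fun S' hS' hI' => ?_⟩
  by_cases h : S' = ⊥
  · exact Or.inl h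
  · right
    have h1 : Nat.find hex ≤ Module.finrank k S' := Nat.find_min' hex ⟨S', hS'.trans hSW, hI', h, rfl⟩
    exact Submodule.eq_of_le_of_finrank_le hS' (by rw [hd]; exact h1)

/-- A module which is the sum of images of an irreducible one is a direct sum of copies. -/
theorem dec {G : Type*} [FiniteDimensional k V] [FiniteDimensional k U] [Nontrivial U] (a : G → V →ₗ[k] V)
    (b : G → U →ₗ[k] U) (hirr : ∀ W : Submodule k U, (∀ g, ∀ w ∈ W, b g w ∈ W) → W = ⊥ ∨ W = ⊤)
    {ι : Type*} (f : ι → U →ₗ[k] V) (hf : ∀ i g u, a g (f i u) = f i (b g u))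
    (hsup : ⨆ i, LinearMap.range (f i) = ⊤) :
    ∃ (M : ℕ) (φ : V ≃ₗ[k] (Fin M → U)), ∀ g v j, φ (a g v) j = b g (φ v j) := by
  classical
  by_contra hcon
  have key : ∀ n : ℕ, ∃ F : (Fin n → U) →ₗ[k] V, Function.Injective F ∧
      ∀ g s, a g (F s) = F (fun j => b g (s j)) := by
    intro n
    induction n with
    | zero =>
      refine ⟨0, fun x y _ => Subsingleton.elim _ _, fun g s => ?_⟩
      simp only [_root_.LinearMap.zero_apply, _root_.map_zero]
    | succ n ih =>
      obtain ⟨F, hF, hFc⟩ := ih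
      have hns : ¬ Function.Surjective F := by
        intro hs
        apply hcon
        refine ⟨n, (LinearEquiv.ofBijective F ⟨hF, hs⟩).symm, fun g v j => ?_⟩
        obtain ⟨s, rfl⟩ := hs v
        rw [hFc]
        have h1 : ∀ s, (LinearEquiv.ofBijective F ⟨hF, hs⟩).symm (F s) = s := fun s =>
          (LinearEquiv.ofBijective F ⟨hF, hs⟩).symm_apply_apply s
        rw [h1, h1]
      have hex : ∃ i, ¬ LinearMap.range (f i) ≤ LinearMap.range F := by
        by_contra h
        push Not at h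
        apply hns
        rw [← LinearMap.range_eq_top, eq_top_iff, ← hsup]
        exact iSup_le h
      obtain ⟨i, hi⟩ := hex
      have hK : (LinearMap.range F).comap (f i) = ⊥ := by
        rcases hirr ((LinearMap.range F).comap (f i)) (by
          intro g w hw
          obtain ⟨s, hs⟩ := hw
          refine ⟨fun j => b g (s j), ?_⟩
          rw [← hFc, hs, hf]) with h | h
        · exact h
        · exfalso
          apply hi
          rintro _ ⟨u, rfl⟩
          have : u ∈ (LinearMap.range F).comap (f i) := by rw [h]; trivial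
          exact this
      refine ⟨F ∘ₗ LinearMap.funLeft k U Fin.succ + f i ∘ₗ LinearMap.proj 0, ?_, ?_⟩
      · rw [← LinearMap.ker_eq_bot, eq_bot_iff]
        intro s hs
        rw [LinearMap.mem_ker] at hs
        have hs' : F (fun j => s j.succ) + f i (s 0) = 0 := hs
        have h0 : s 0 ∈ (LinearMap.range F).comap (f i) :=
          ⟨-(fun j => s j.succ), by rw [map_neg]; exact neg_eq_of_add_eq_zero_right hs'⟩
        rw [hK, Submodule.mem_bot] at h0
        rw [h0, map_zero, add_zero] at hs'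
        have h1 := hF (hs'.trans (map_zero F).symm)
        rw [Submodule.mem_bot]
        funext j
        refine Fin.cases h0 (fun j => ?_) j
        exact congrFun h1 j
      · intro g s
        show a g (F (fun j => s j.succ) + f i (s 0)) = F (fun j => b g (s j.succ)) + f i (b g (s 0))
        rw [map_add, hFc, hf]
  obtain ⟨F, hF, -⟩ := key (Module.finrank k V + 1)
  have h1 := LinearMap.finrank_le_finrank_of_injective hF
  rw [Module.finrank_pi_fintype] at h1
  simp only [Finset.sum_const, Finset.card_univ, Fintype.card_fin, smul_eq_mul] at h1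
  have h2 : 0 < Module.finrank k U := Module.finrank_pos
  nlinarith

/-- The action on an invariant subspace. -/
def subRep {G : Type*} [Group G] (ρ : G →* (U ≃ₗ[k] U)) (S : Submodule k U)
    (hS : ∀ g, ∀ s ∈ S, ρ g s ∈ S) : G →* (S ≃ₗ[k] S) where
  toFun g :=
    { toFun := fun s => ⟨ρ g s, hS g s s.2⟩
      map_add' := fun x y => Subtype.ext (map_add (ρ g) _ _)
      map_smul' := fun c x => Subtype.ext (map_smul (ρ g) _ _)
      invFun := fun s => ⟨ρ g⁻¹ s, hS g⁻¹ s s.2⟩
      left_inv := fun s => Subtype.ext (by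
        show ρ g⁻¹ (ρ g s) = s
        rw [← LinearEquiv.mul_apply, ← map_mul, inv_mul_cancel, map_one]; rfl)
      right_inv := fun s => Subtype.ext (by
        show ρ g (ρ g⁻¹ s) = s
        rw [← LinearEquiv.mul_apply, ← map_mul, mul_inv_cancel, map_one]; rfl) }
  map_one' := LinearEquiv.ext fun s => Subtype.ext (by
    show ρ 1 s = s
    rw [map_one]; rfl)
  map_mul' g h := LinearEquiv.ext fun s => Subtype.ext (by
    show ρ (g * h) s = ρ g (ρ h s)
    rw [map_mul]; rfl)

/-- Commuting elements of the commutant of an irreducible set of maps of a finite space. -/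
theorem comm_of_irr [Finite U] [Nontrivial U] (A : Set (Module.End k U))
    (hirr : ∀ W : Submodule k U, (∀ a ∈ A, ∀ w ∈ W, a w ∈ W) → W = ⊥ ∨ W = ⊤)
    {x y : Module.End k U} (hx : ∀ a ∈ A, a * x = x * a) (hy : ∀ a ∈ A, a * y = y * a) : x * y = y * x := by
  let D := Subring.centralizer A
  have hxD : x ∈ D := Subring.mem_centralizer_iff.mpr hx
  have hyD : y ∈ D := Subring.mem_centralizer_iff.mpr hy
  have : Finite (Module.End k U) := Finite.of_injective (fun f : Module.End k U => (f : U → U)) DFunLike.coe_injective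
  have : Finite D := inferInstance
  have : NoZeroDivisors D := by
    refine ⟨fun {a b} hab => ?_⟩
    by_cases ha : a = 0
    · exact Or.inl ha
    · right
      have hker : LinearMap.ker (a : Module.End k U) = ⊥ := by
        rcases hirr (LinearMap.ker (a : Module.End k U)) (by
          intro c hc w hw
          rw [LinearMap.mem_ker] at hw ⊢
          have h1 : (a : Module.End k U) (c w) = c ((a : Module.End k U) w) := by
            have := congrArg (fun f : Module.End k U => f w) (Subring.mem_centralizer_iff.mp a.2 c hc)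
            exact this.symm
          rw [h1, hw, map_zero]) with h | h
        · exact h
        · exact absurd (Subtype.ext (LinearMap.ker_eq_top.mp h)) ha
      apply Subtype.ext
      apply LinearMap.ext
      intro u
      have h1 : (a : Module.End k U) ((b : Module.End k U) u) = 0 := by
        have := congrArg (fun f : D => (f : Module.End k U) u) hab
        exact this
      have h2 : (b : Module.End k U) u ∈ LinearMap.ker (a : Module.End k U) := h1
      rw [hker, Submodule.mem_bot] at h2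
      exact h2
  have : Nontrivial D := ⟨⟨0, 1, fun h => by
    obtain ⟨u, hu⟩ := exists_ne (0 : U)
    apply hu
    have := congrArg (fun f : D => (f : Module.End k U) u) h
    exact this.symm⟩⟩
  have : IsDomain D := NoZeroDivisors.to_isDomain D
  have hF := Finite.isDomain_to_isField D
  have := hF.mul_comm ⟨x, hxD⟩ ⟨y, hyD⟩
  exact congrArg Subtype.val this

end Gen

section Lin

variable {p : ℕ} [Fact p.Prime] {V : Type} [AddCommGroup V] [Module (ZMod p) V]

/-- Elements of the product of the components normalise every component. -/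
theorem conj_mem {t : ℕ} (E : Fin t → Subgroup (V ≃ₗ[ZMod p] V))
    (hc : ∀ i j, i ≠ j → ∀ x ∈ E i, ∀ y ∈ E j, x * y = y * x) (s : Fin t) {y : V ≃ₗ[ZMod p] V}
    (hy : y ∈ ⨆ j, E j) : ∀ e ∈ E s, y * e * y⁻¹ ∈ E s := by
  refine Subgroup.iSup_induction E (C := fun y => ∀ e ∈ E s, y * e * y⁻¹ ∈ E s) hy ?_ ?_ ?_
  · intro j x hx e he
    by_cases h : j = s
    · subst h
      exact mul_mem (mul_mem hx he) (inv_mem hx)
    · rw [hc j s h x hx e he, mul_inv_cancel_right]
      exact he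
  · intro e he
    simpa using he
  · intro x y hx hy e he
    have h1 := hx _ (hy e he)
    have h2 : x * y * e * (x * y)⁻¹ = x * (y * e * y⁻¹) * x⁻¹ := by group
    rw [h2]
    exact h1

/-- The product of the components is normal. -/
theorem conj_iSup {X : Subgroup (V ≃ₗ[ZMod p] V)} {t : ℕ} (E : Fin t → Subgroup (V ≃ₗ[ZMod p] V))
    (hE : ∀ x ∈ X, ∀ i, ∃ j, ∀ y, y ∈ E i ↔ x * y * x⁻¹ ∈ E j) :
    ∀ x ∈ X, ∀ y ∈ ⨆ j, E j, x * y * x⁻¹ ∈ ⨆ j, E j := by
  intro x hx y hy
  refine Subgroup.iSup_induction E (C := fun y => x * y * x⁻¹ ∈ ⨆ j, E j) hy ?_ ?_ ?_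
  · intro i y hy
    obtain ⟨j, hj⟩ := hE x hx i
    exact Subgroup.mem_iSup_of_mem j ((hj y).mp hy)
  · rw [mul_one, mul_inv_cancel]
    exact one_mem _
  · intro a b ha hb
    have : x * (a * b) * x⁻¹ = (x * a * x⁻¹) * (x * b * x⁻¹) := by group
    rw [this]
    exact mul_mem ha hb

section Main

variable {X A C R : Subgroup (V ≃ₗ[ZMod p] V)} {t : ℕ} {E : Fin t → Subgroup (V ≃ₗ[ZMod p] V)}
  {U : Type} [AddCommGroup U] [Module (ZMod p) U] {M : ℕ}
  {ρ : (⨆ j, E j : Subgroup (V ≃ₗ[ZMod p] V)) →* (U ≃ₗ[ZMod p] U)} {φ : V ≃ₗ[ZMod p] (Fin M → U)}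

/-- A component has no fixed vectors. -/
theorem fix_zero (hS : Str X A C R t E) (h : HomDec (⨆ j, E j) M ρ φ) (s : Fin t) {v : V}
    (hv : ∀ e ∈ E s, e v = v) : v = 0 := by
  have hle : E s ≤ ⨆ j, E j := le_iSup E s
  let W : Submodule (ZMod p) U :=
    { carrier := {u | ∀ e (he : e ∈ E s), ρ ⟨e, hle he⟩ u = u}
      add_mem' := fun {a b} ha hb e he => by rw [map_add, ha e he, hb e he]
      zero_mem' := fun e he => map_zero _
      smul_mem' := fun c a ha e he => by rw [map_smul, ha e he] }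
  rcases h.irr W (by
    intro y w hw e he
    have h1 : y⁻¹.1 * e * y⁻¹.1⁻¹ ∈ E s := conj_mem E hS.Ecomm s (y⁻¹).2 e he
    have h2 : (⟨e, hle he⟩ : (⨆ j, E j : Subgroup (V ≃ₗ[ZMod p] V))) * y =
        y * ⟨y⁻¹.1 * e * y⁻¹.1⁻¹, hle h1⟩ := by
      apply Subtype.ext
      show e * y.1 = y.1 * (y.1⁻¹ * e * y.1⁻¹⁻¹)
      group
    calc ρ ⟨e, hle he⟩ (ρ y w) = ρ (⟨e, hle he⟩ * y) w := by rw [map_mul]; rfl
      _ = ρ y (ρ ⟨y⁻¹.1 * e * y⁻¹.1⁻¹, hle h1⟩ w) := by rw [h2, map_mul]; rfl
      _ = ρ y w := by rw [hw _ h1]) with hW | hW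
  · have h1 : φ v = 0 := by
      funext k
      have : φ v k ∈ W := fun e he => by
        rw [← h.eq ⟨e, hle he⟩ v k]
        show φ (e v) k = φ v k
        rw [hv e he]
      rw [hW, Submodule.mem_bot] at this
      exact this
    exact (LinearEquiv.map_eq_zero_iff φ).mp h1
  · exfalso
    have h1 : ∀ e ∈ E s, e = 1 := by
      intro e he
      apply LinearEquiv.ext
      intro w
      apply φ.injective
      funext k
      have h2 : φ w k ∈ W := by rw [hW]; trivial
      have h3 := h.eq ⟨e, hle he⟩ w k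
      rw [h2 e he] at h3
      exact h3
    obtain ⟨x, y, hxy⟩ := hS.Enab s
    apply hxy
    have hsub : Subsingleton (E s) := ⟨fun a b => Subtype.ext ((h1 a a.2).trans (h1 b b.2).symm)⟩
    exact Subsingleton.elim _ _

/-- `V` restricted to a component is homogeneous. -/
theorem comp_hom [Finite V] (hX : PrimLin X) (hS : Str X A C R t E) (h : HomDec (⨆ j, E j) M ρ φ)
    (i : Fin t) : ∃ (U' : Type) (_ : AddCommGroup U') (_ : Module (ZMod p) U') (M' : ℕ)
      (ρ' : E i →* (U' ≃ₗ[ZMod p] U')) (φ' : V ≃ₗ[ZMod p] (Fin M' → U')), HomDec (E i) M' ρ' φ' := by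
  classical
  have hle : E i ≤ ⨆ j, E j := le_iSup E i
  have hM : ∃ k : Fin M, True := by
    by_contra hcon
    push Not at hcon
    obtain ⟨v, hv⟩ := hX.nt
    apply hv
    apply φ.injective
    funext k
    exact (hcon k).elim
  obtain ⟨k0, -⟩ := hM
  have hfU : FiniteDimensional (ZMod p) U := by
    refine Module.Finite.of_injective (φ.symm.toLinearMap ∘ₗ LinearMap.single (ZMod p) (fun _ : Fin M => U) k0) ?_
    intro a b hab
    have h1 := φ.symm.injective hab
    have h2 := congrFun h1 k0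
    simpa using h2
  let τ : E i →* (U ≃ₗ[ZMod p] U) := ρ.comp (Subgroup.inclusion hle)
  obtain ⟨S, -, hIS, hS0, hmin⟩ := exists_irr (k := ZMod p) (U := U)
    (fun W => ∀ e : E i, ∀ w ∈ W, τ e w ∈ W) ⊤ (fun _ _ _ => trivial) (by
      obtain ⟨u, hu⟩ := h.nt
      intro hbt
      apply hu
      have : u ∈ (⊤ : Submodule (ZMod p) U) := trivial
      rw [hbt] at this
      exact this)
  have hnt : Nontrivial S := Submodule.nontrivial_iff_ne_bot.mpr hS0
  let σ := subRep τ S hIS
  have hirr : ∀ W : Submodule (ZMod p) S, (∀ e : E i, ∀ w ∈ W, σ e w ∈ W) → W = ⊥ ∨ W = ⊤ := by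
    intro W hW
    rcases hmin (W.map S.subtype) (Submodule.map_subtype_le S W) (by
      rintro e _ ⟨w, hw, rfl⟩
      exact ⟨σ e w, hW e w hw, rfl⟩) with h1 | h1
    · left
      rw [eq_bot_iff]
      intro w hw
      have : (w : U) ∈ W.map S.subtype := ⟨w, hw, rfl⟩
      rw [h1, Submodule.mem_bot] at this
      exact Subtype.ext this
    · right
      rw [eq_top_iff]
      rintro w -
      have : (w : U) ∈ W.map S.subtype := by rw [h1]; exact w.2
      obtain ⟨w', hw', he⟩ := this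
      have : w' = w := Subtype.ext he
      rw [← this]
      exact hw'
  -- the translates of `S` by elements of the product commuting with `E i` span `U`
  let Cc := {c : (⨆ j, E j : Subgroup (V ≃ₗ[ZMod p] V)) // ∀ e ∈ E i, c.1 * e = e * c.1}
  let T : Submodule (ZMod p) U := ⨆ c : Cc, S.map (ρ c.1).toLinearMap
  have hTinv : ∀ y (hy : y ∈ ⨆ j, E j), ∀ u ∈ T, ρ ⟨y, hy⟩ u ∈ T := by
    intro y hy
    refine Subgroup.iSup_induction' E (C := fun y hy => ∀ u ∈ T, ρ ⟨y, hy⟩ u ∈ T) ?_ ?_ ?_ hy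
    · intro j x hx u hu
      refine Submodule.iSup_induction (fun c : Cc => S.map (ρ c.1).toLinearMap)
        (motive := fun u => ρ ⟨x, Subgroup.mem_iSup_of_mem j hx⟩ u ∈ T) hu ?_ ?_ ?_
      · rintro c _ ⟨w, hw, rfl⟩
        by_cases hj : j = i
        · subst hj
          have h1 : ρ ⟨x, Subgroup.mem_iSup_of_mem j hx⟩ (ρ c.1 w) = ρ c.1 (τ ⟨x, hx⟩ w) := by
            have h2 : (⟨x, Subgroup.mem_iSup_of_mem j hx⟩ : (⨆ j, E j : Subgroup (V ≃ₗ[ZMod p] V))) * c.1 =
                c.1 * ⟨x, Subgroup.mem_iSup_of_mem j hx⟩ := Subtype.ext (c.2 x hx).symm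
            calc ρ ⟨x, Subgroup.mem_iSup_of_mem j hx⟩ (ρ c.1 w)
                = ρ (⟨x, Subgroup.mem_iSup_of_mem j hx⟩ * c.1) w := by rw [map_mul]; rfl
              _ = ρ c.1 (ρ ⟨x, Subgroup.mem_iSup_of_mem j hx⟩ w) := by rw [h2, map_mul]; rfl
          refine Submodule.mem_iSup_of_mem c ?_
          exact ⟨τ ⟨x, hx⟩ w, hIS _ _ hw, h1.symm⟩
        · refine Submodule.mem_iSup_of_mem (⟨⟨x, Subgroup.mem_iSup_of_mem j hx⟩ * c.1, ?_⟩ : Cc) ?_
          · intro e he
            show x * c.1.1 * e = e * (x * c.1.1)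
            rw [mul_assoc, c.2 e he, ← mul_assoc, ← mul_assoc, hS.Ecomm j i hj x hx e he]
          · refine ⟨w, hw, ?_⟩
            show ρ (⟨x, Subgroup.mem_iSup_of_mem j hx⟩ * c.1) w = _
            rw [map_mul]; rfl
      · rw [map_zero]
        exact zero_mem _
      · intro a b ha hb
        rw [map_add]
        exact add_mem ha hb
    · intro u hu
      have : (⟨1, one_mem _⟩ : (⨆ j, E j : Subgroup (V ≃ₗ[ZMod p] V))) = 1 := rfl
      rw [this, map_one]
      exact hu
    · intro x y hx hy ihx ihy u hu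
      have : (⟨x * y, mul_mem hx hy⟩ : (⨆ j, E j : Subgroup (V ≃ₗ[ZMod p] V))) = ⟨x, hx⟩ * ⟨y, hy⟩ := rfl
      rw [this, map_mul]
      exact ihx _ (ihy u hu)
  have hT : T = ⊤ := by
    rcases h.irr T (fun y w hw => hTinv y.1 y.2 w hw) with h1 | h1
    · exfalso
      apply hS0
      rw [eq_bot_iff, ← h1]
      intro s hs
      refine Submodule.mem_iSup_of_mem (⟨1, fun e he => by simp⟩ : Cc) ⟨s, hs, ?_⟩
      show ρ 1 s = s
      rw [map_one]; rfl
    · exact h1
  obtain ⟨M', φ', hφ'⟩ := dec (k := ZMod p) (U := S) (V := V) (G := E i)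
    (fun e => ((e : V ≃ₗ[ZMod p] V) : V →ₗ[ZMod p] V)) (fun e => ((σ e : S ≃ₗ[ZMod p] S) : S →ₗ[ZMod p] S))
    hirr (ι := Fin M × Cc)
    (fun q => φ.symm.toLinearMap ∘ₗ LinearMap.single (ZMod p) (fun _ : Fin M => U) q.1 ∘ₗ
      (ρ q.2.1).toLinearMap ∘ₗ S.subtype) (by
      rintro ⟨k, c⟩ e s
      apply φ.injective
      funext j
      have h1 := h.eq ⟨e, hle e.2⟩ (φ.symm (Pi.single k (ρ c.1 s))) j
      have h2 : ρ ⟨e, hle e.2⟩ (ρ c.1 (s : U)) = ρ c.1 ((σ e s : S) : U) := by
        have h3 : (⟨e, hle e.2⟩ : (⨆ j, E j : Subgroup (V ≃ₗ[ZMod p] V))) * c.1 = c.1 * ⟨e, hle e.2⟩ :=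
          Subtype.ext (c.2 e e.2).symm
        calc ρ ⟨e, hle e.2⟩ (ρ c.1 (s : U)) = ρ (⟨e, hle e.2⟩ * c.1) s := by rw [map_mul]; rfl
          _ = ρ c.1 (ρ ⟨e, hle e.2⟩ s) := by rw [h3, map_mul]; rfl
      show φ ((e : V ≃ₗ[ZMod p] V) (φ.symm (Pi.single k (ρ c.1 (s : U))))) j =
        φ (φ.symm (Pi.single k (ρ c.1 ((σ e s : S) : U)))) j
      rw [h1, LinearEquiv.apply_symm_apply, LinearEquiv.apply_symm_apply]
      by_cases hjk : j = k
      · subst hjk
        rw [Pi.single_eq_same, Pi.single_eq_same, h2]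
      · rw [Pi.single_eq_of_ne hjk, Pi.single_eq_of_ne hjk, map_zero]) (by
      rw [eq_top_iff]
      rintro v -
      have hv : v = ∑ k, φ.symm (Pi.single k (φ v k)) := by
        apply φ.injective
        rw [map_sum]
        simp only [LinearEquiv.apply_symm_apply]
        exact (Finset.univ_sum_single (φ v)).symm
      rw [hv]
      refine Submodule.sum_mem _ fun k _ => ?_
      have hu : φ v k ∈ T := by rw [hT]; trivial
      refine Submodule.iSup_induction (fun c : Cc => S.map (ρ c.1).toLinearMap)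
        (motive := fun u => φ.symm (Pi.single k u) ∈ ⨆ q : Fin M × Cc, LinearMap.range
          (φ.symm.toLinearMap ∘ₗ LinearMap.single (ZMod p) (fun _ : Fin M => U) q.1 ∘ₗ
            (ρ q.2.1).toLinearMap ∘ₗ S.subtype)) hu ?_ ?_ ?_
      · rintro c _ ⟨w, hw, rfl⟩
        exact Submodule.mem_iSup_of_mem (k, c) ⟨⟨w, hw⟩, rfl⟩
      · rw [Pi.single_zero, map_zero]
        exact zero_mem _
      · intro a b ha hb
        rw [Pi.single_add, map_add]
        exact add_mem ha hb)
  exact ⟨S, inferInstance, inferInstance, M', σ, φ',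
    ⟨fun e v j => hφ' e v j, hirr, (exists_ne (0 : S))⟩⟩

/-- `W` is invariant under the components in `S`. -/
def Inv (E : Fin t → Subgroup (V ≃ₗ[ZMod p] V)) (S : Finset (Fin t)) (W : Submodule (ZMod p) V) : Prop :=
  ∀ j ∈ S, ∀ e ∈ E j, ∀ w ∈ W, e w ∈ W

/-- A component does not act on an irreducible subspace of a product of other components. -/
theorem not_inv [Finite V] (hS : Str X A C R t E) (hfix : ∀ s v, (∀ e ∈ E s, e v = v) → v = 0)
    (S : Finset (Fin t)) (s : Fin t) (hs : s ∉ S) (W : Submodule (ZMod p) V) (h0 : W ≠ ⊥)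
    (hI : Inv E S W) (hmin : ∀ W' ≤ W, Inv E S W' → W' = ⊥ ∨ W' = W) :
    ∃ e ∈ E s, ∃ w ∈ W, e w ∉ W := by
  by_contra hcon
  push Not at hcon
  have hnt : Nontrivial W := Submodule.nontrivial_iff_ne_bot.mpr h0
  let r : ∀ e ∈ E s, Module.End (ZMod p) W := fun e he =>
    ((e : V ≃ₗ[ZMod p] V) : V →ₗ[ZMod p] V).restrict (fun w hw => hcon e he w hw)
  let Aset : Set (Module.End (ZMod p) W) := {a | ∃ j ∈ S, ∃ e ∈ E j, ∀ w : W, ((a w : W) : V) = e w}
  have hirr : ∀ W' : Submodule (ZMod p) W, (∀ a ∈ Aset, ∀ w ∈ W', a w ∈ W') → W' = ⊥ ∨ W' = ⊤ := by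
    intro W' hW'
    rcases hmin (W'.map W.subtype) (Submodule.map_subtype_le W W') (by
      rintro j hj e he _ ⟨w, hw, rfl⟩
      let a : Module.End (ZMod p) W :=
        ((e : V ≃ₗ[ZMod p] V) : V →ₗ[ZMod p] V).restrict (fun w hw => hI j hj e he w hw)
      exact ⟨a w, hW' a ⟨j, hj, e, he, fun _ => rfl⟩ w hw, rfl⟩) with h1 | h1
    · left
      rw [eq_bot_iff]
      intro w hw
      have : (w : V) ∈ W'.map W.subtype := ⟨w, hw, rfl⟩
      rw [h1, Submodule.mem_bot] at this
      exact Subtype.ext this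
    · right
      rw [eq_top_iff]
      rintro w -
      have : (w : V) ∈ W'.map W.subtype := by rw [h1]; exact w.2
      obtain ⟨w', hw', he⟩ := this
      have : w' = w := Subtype.ext he
      rw [← this]
      exact hw'
  have hcm : ∀ e (he : e ∈ E s), ∀ a ∈ Aset, a * r e he = r e he * a := by
    rintro e he a ⟨j, hj, e', he', ha⟩
    apply LinearMap.ext
    intro w
    apply Subtype.ext
    show ((a (r e he w) : W) : V) = e ((a w : W) : V)
    rw [ha, ha]
    show e' (e (w : V)) = e (e' (w : V))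
    have hjs : j ≠ s := fun h => hs (h ▸ hj)
    have := hS.Ecomm j s hjs e' he' e he
    exact congrArg (fun f : V ≃ₗ[ZMod p] V => f (w : V)) this
  have hxy : ∀ x ∈ E s, ∀ y ∈ E s, ∀ w ∈ W, x (y w) = y (x w) := by
    intro x hx y hy w hw
    have := comm_of_irr Aset hirr (hcm x hx) (hcm y hy)
    exact congrArg (fun f : Module.End (ZMod p) W => ((f ⟨w, hw⟩ : W) : V)) this
  have hK : ∀ g : E s, ∀ w ∈ W, (g : V ≃ₗ[ZMod p] V) w = w := by
    let K : Subgroup (E s) :=
      { carrier := {g | ∀ w ∈ W, (g : V ≃ₗ[ZMod p] V) w = w}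
        mul_mem' := fun {a b} ha hb w hw => by
          show (a : V ≃ₗ[ZMod p] V) ((b : V ≃ₗ[ZMod p] V) w) = w
          rw [hb w hw, ha w hw]
        one_mem' := fun w hw => rfl
        inv_mem' := fun {a} ha w hw => by
          show (a : V ≃ₗ[ZMod p] V)⁻¹ w = w
          have h1 := ha w hw
          conv_lhs => rw [← h1]
          show ((a : V ≃ₗ[ZMod p] V)⁻¹ * (a : V ≃ₗ[ZMod p] V)) w = w
          rw [inv_mul_cancel]; rfl }
    have h1 : commutator (E s) ≤ K := by
      rw [commutator_def, Subgroup.commutator_le]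
      intro x _ y _ w hw
      show ((x : V ≃ₗ[ZMod p] V) * y * (x : V ≃ₗ[ZMod p] V)⁻¹ * (y : V ≃ₗ[ZMod p] V)⁻¹) w = w
      have h2 := hcon _ (inv_mem y.2) w hw
      have h3 := hxy _ (inv_mem x.2) _ y.2 _ h2
      have h4 : (y : V ≃ₗ[ZMod p] V) ((y : V ≃ₗ[ZMod p] V)⁻¹ w) = w := by
        show ((y : V ≃ₗ[ZMod p] V) * (y : V ≃ₗ[ZMod p] V)⁻¹) w = w
        rw [mul_inv_cancel]; rfl
      show (x : V ≃ₗ[ZMod p] V) ((y : V ≃ₗ[ZMod p] V) ((x : V ≃ₗ[ZMod p] V)⁻¹ ((y : V ≃ₗ[ZMod p] V)⁻¹ w))) = w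
      rw [← h3, h4]
      show ((x : V ≃ₗ[ZMod p] V) * (x : V ≃ₗ[ZMod p] V)⁻¹) w = w
      rw [mul_inv_cancel]; rfl
    rw [hS.Eperf s] at h1
    exact fun g => h1 (Subgroup.mem_top g)
  apply h0
  rw [eq_bot_iff]
  intro w hw
  exact hfix s w fun e he => hK ⟨e, he⟩ w hw

/-- The dimension of an irreducible subspace of a product of components. -/
theorem count [Finite V] (hS : Str X A C R t E) (hfix : ∀ s v, (∀ e ∈ E s, e v = v) → v = 0)
    (i : Fin t) {U' : Type} [AddCommGroup U'] [Module (ZMod p) U'] {M' : ℕ}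
    {ρ' : E i →* (U' ≃ₗ[ZMod p] U')} {φ' : V ≃ₗ[ZMod p] (Fin M' → U')} (h : HomDec (E i) M' ρ' φ')
    (S : Finset (Fin t)) : i ∉ S → ∀ W : Submodule (ZMod p) V, W ≠ ⊥ → Inv E (insert i S) W →
      (∀ W' ≤ W, Inv E (insert i S) W' → W' = ⊥ ∨ W' = W) →
      2 ^ S.card * Module.finrank (ZMod p) U' ≤ Module.finrank (ZMod p) W := by
  classical
  induction S using Finset.induction_on with
  | empty =>
    intro _ W h0 hI hmin
    rw [Finset.card_empty, pow_zero, one_mul]
    obtain ⟨w, hw, hw0⟩ := W.ne_bot_iff.mp h0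
    have hk : ∃ k, φ' w k ≠ 0 := by
      by_contra hcon
      push Not at hcon
      exact hw0 ((LinearEquiv.map_eq_zero_iff φ').mp (funext hcon))
    obtain ⟨k, hk⟩ := hk
    let g : W →ₗ[ZMod p] U' := LinearMap.proj k ∘ₗ φ'.toLinearMap ∘ₗ W.subtype
    have hg : LinearMap.range g = ⊤ := by
      rcases h.irr (LinearMap.range g) (by
        rintro e _ ⟨w', rfl⟩
        refine ⟨⟨(e : V ≃ₗ[ZMod p] V) w', hI i (Finset.mem_insert_self _ _) e e.2 _ w'.2⟩, ?_⟩
        exact h.eq e w' k) with h1 | h1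
      · exfalso
        apply hk
        have : g ⟨w, hw⟩ ∈ LinearMap.range g := ⟨_, rfl⟩
        rw [h1, Submodule.mem_bot] at this
        exact this
      · exact h1
    have h1 := LinearMap.finrank_range_le g
    rw [hg, finrank_top] at h1
    exact h1
  | insert s S hsS ih =>
    intro hi W h0 hI hmin
    rw [Finset.mem_insert, not_or] at hi
    have hI' : Inv E (insert i S) W := fun j hj => hI j (by
      rw [Finset.mem_insert] at hj ⊢
      rcases hj with h1 | h1
      · exact Or.inl h1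
      · exact Or.inr (Finset.mem_insert_of_mem h1))
    obtain ⟨W', hW'W, hIW', hW'0, hmin'⟩ := exists_irr (k := ZMod p) (Inv E (insert i S)) W hI' h0
    have hs' : s ∉ insert i S := by
      rw [Finset.mem_insert, not_or]
      exact ⟨fun h1 => hi.1 h1.symm, hsS⟩
    have h1 := ih hi.2 W' hW'0 hIW' hmin'
    obtain ⟨e, he, w0, hw0, hew⟩ := not_inv hS hfix (insert i S) s hs' W' hW'0 hIW' hmin'
    let W2 := W'.map (e : V ≃ₗ[ZMod p] V).toLinearMap
    have hIW2 : Inv E (insert i S) W2 := by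
      rintro j hj e' he' _ ⟨w, hw, rfl⟩
      refine ⟨e' w, hIW' j hj e' he' w hw, ?_⟩
      have hjs : j ≠ s := fun h => hs' (h ▸ hj)
      exact congrArg (fun f : V ≃ₗ[ZMod p] V => f w) (hS.Ecomm j s hjs e' he' e he).symm
    have hd2 : Module.finrank (ZMod p) W2 = Module.finrank (ZMod p) W' := LinearEquiv.finrank_map_eq e W'
    have hinf : W' ⊓ W2 = ⊥ := by
      rcases hmin' (W' ⊓ W2) inf_le_left (fun j hj e' he' w hw =>
        ⟨hIW' j hj e' he' w hw.1, hIW2 j hj e' he' w hw.2⟩) with h2 | h2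
      · exact h2
      · exfalso
        have h3 : W' ≤ W2 := by rw [← h2]; exact inf_le_right
        have h4 : W' = W2 := Submodule.eq_of_le_of_finrank_le h3 hd2.le
        apply hew
        rw [h4]
        exact ⟨w0, hw0, rfl⟩
    have hW2W : W2 ≤ W := by
      rintro _ ⟨w, hw, rfl⟩
      exact hI s (Finset.mem_insert_of_mem (Finset.mem_insert_self _ _)) e he w (hW'W hw)
    have h3 := Submodule.finrank_sup_add_finrank_inf_eq W' W2
    rw [hinf, finrank_bot, add_zero, hd2] at h3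
    have h4 : Module.finrank (ZMod p) ↥(W' ⊔ W2) ≤ Module.finrank (ZMod p) W :=
      Submodule.finrank_mono (sup_le hW'W hW2W)
    rw [Finset.card_insert_of_notMem hsS, pow_succ]
    linarith only [h1, h3, h4]

/-- **D5** from the homogeneity of the product of the components. -/
theorem comp_dec_of [Finite V] (hX : PrimLin X) (hS : Str X A C R t E) (h : HomDec (⨆ j, E j) M ρ φ)
    (i : Fin t) : ∃ (U' : Type) (_ : AddCommGroup U') (_ : Module (ZMod p) U') (M' : ℕ)
      (ρ' : E i →* (U' ≃ₗ[ZMod p] U')) (φ' : V ≃ₗ[ZMod p] (Fin M' → U')), HomDec (E i) M' ρ' φ' ∧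
      2 ^ (t - 1) ≤ M' := by
  classical
  obtain ⟨U', i1, i2, M', ρ', φ', h'⟩ := comp_hom hX hS h i
  refine ⟨U', i1, i2, M', ρ', φ', h', ?_⟩
  have htop : (⊤ : Submodule (ZMod p) V) ≠ ⊥ := by
    obtain ⟨v, hv⟩ := hX.nt
    intro hbt
    apply hv
    have : v ∈ (⊤ : Submodule (ZMod p) V) := trivial
    rw [hbt] at this
    exact this
  obtain ⟨W, -, hIW, hW0, hmin⟩ := exists_irr (k := ZMod p) (Inv E (insert i (Finset.univ.erase i))) ⊤
    (fun _ _ _ _ _ _ => trivial) htop
  have h1 := count hS (fun s v hv => fix_zero hS h s hv) i h' (Finset.univ.erase i)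
    (Finset.notMem_erase i _) W hW0 hIW hmin
  rw [Finset.card_erase_of_mem (Finset.mem_univ i), Finset.card_univ, Fintype.card_fin] at h1
  have h2 : Module.finrank (ZMod p) W ≤ Module.finrank (ZMod p) V := Submodule.finrank_le W
  have hM' : ∃ k : Fin M', True := by
    by_contra hcon
    push Not at hcon
    obtain ⟨v, hv⟩ := hX.nt
    apply hv
    apply φ'.injective
    funext k
    exact (hcon k).elim
  obtain ⟨k0, -⟩ := hM'
  have hfU : FiniteDimensional (ZMod p) U' := by
    refine Module.Finite.of_injective (φ'.symm.toLinearMap ∘ₗ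
      LinearMap.single (ZMod p) (fun _ : Fin M' => U') k0) ?_
    intro a b hab
    have h1 := φ'.symm.injective hab
    have h2 := congrFun h1 k0
    simpa using h2
  have hntU : Nontrivial U' := by
    obtain ⟨u, hu⟩ := h'.nt
    exact ⟨⟨u, 0, hu⟩⟩
  have h3 : Module.finrank (ZMod p) V = M' * Module.finrank (ZMod p) U' := by
    rw [LinearEquiv.finrank_eq φ', Module.finrank_pi_fintype]
    simp only [_root_.Finset.sum_const, _root_.Finset.card_univ, _root_.Fintype.card_fin, _root_.smul_eq_mul]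
  have h4 : 0 < Module.finrank (ZMod p) U' := Module.finrank_pos
  exact Nat.le_of_mul_le_mul_right (by rw [← h3]; exact h1.trans h2) h4

end Main

/-- **D5** (`comp_dec`) from the statement of D1 (`homDec_of_normal`) for the group. -/
theorem comp_dec_of_D1 [Finite V] (X : Subgroup (V ≃ₗ[ZMod p] V)) (hX : PrimLin X)
    (D1 : ∀ (Y : Subgroup (V ≃ₗ[ZMod p] V)), Y ≤ X → (∀ x ∈ X, ∀ y ∈ Y, x * y * x⁻¹ ∈ Y) →
      ∃ (U : Type) (_ : AddCommGroup U) (_ : Module (ZMod p) U) (M : ℕ)
        (ρ : Y →* (U ≃ₗ[ZMod p] U)) (φ : V ≃ₗ[ZMod p] (Fin M → U)), HomDec Y M ρ φ)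
    (A C R : Subgroup (V ≃ₗ[ZMod p] V)) (t : ℕ) (E : Fin t → Subgroup (V ≃ₗ[ZMod p] V))
    (hS : Str X A C R t E) (i : Fin t) :
    ∃ (U : Type) (_ : AddCommGroup U) (_ : Module (ZMod p) U) (M : ℕ)
      (ρ : E i →* (U ≃ₗ[ZMod p] U)) (φ : V ≃ₗ[ZMod p] (Fin M → U)), HomDec (E i) M ρ φ ∧
      2 ^ (t - 1) ≤ M := by
  obtain ⟨U, i1, i2, M, ρ, φ, h⟩ := D1 (⨆ j, E j) (iSup_le fun j => (hS.EC j).trans hS.CX)
    (conj_iSup E hS.Eperm)
  exact comp_dec_of hX hS h i

end Lin

end Cfsg.Agent.H131.B57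
end

-- part: H86/B57/CardStab
section
/-!
# S5717, linear part, N4: `card_stab` (helper86)
-/

set_option autoImplicit false

open Subgroup

namespace Cfsg.Agent.H86.B57

/-! ### abstract lemmas -/

section

variable {R : Type*} [Group R] [Finite R]

/-- few generators modulo a subgroup -/
theorem exists_gens : ∀ (k : ℕ) (A : Subgroup R), A.index ≤ k → ∃ T : Finset R, 2 ^ T.card ≤ A.index ∧
    A ⊔ _root_.Subgroup.closure (T : Set R) = ⊤ := by
  classical
  intro k
  induction k with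
  | zero =>
    intro A h
    exact absurd (Nat.le_zero.1 h) A.index_ne_zero_of_finite
  | succ k ih =>
    intro A h
    by_cases hA : A = ⊤
    · refine ⟨∅, ?_, ?_⟩
      · rw [hA, index_top]; simp
      · rw [hA]; simp only [_root_.Finset.coe_empty, _root_.Subgroup.closure_empty, _root_.le_top, _root_.sup_of_le_left]
    · obtain ⟨x, hx⟩ : ∃ x, x ∉ A := by
        by_contra hc
        push Not at hc
        exact hA (eq_top_iff.2 fun y _ => hc y)
      set B := A ⊔ zpowers x with hB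
      have hAB : A ≤ B := le_sup_left
      have hxB : x ∈ B := (le_sup_right : zpowers x ≤ B) (mem_zpowers x)
      have h1 : A.relIndex B * B.index = A.index := relIndex_mul_index hAB
      have h2 : A.relIndex B ≠ 1 := by
        intro h3
        exact hx (relIndex_eq_one.1 h3 hxB)
      have h3 : A.relIndex B ≠ 0 := by
        intro h3
        rw [h3, zero_mul] at h1
        exact A.index_ne_zero_of_finite h1.symm
      have h4 : 2 * B.index ≤ A.index := by
        rw [← h1]
        exact Nat.mul_le_mul_right _ (by omega)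
      have h5 : B.index ≠ 0 := B.index_ne_zero_of_finite
      obtain ⟨T, hT, hT'⟩ := ih B (by omega)
      refine ⟨insert x T, ?_, ?_⟩
      · calc 2 ^ (insert x T).card ≤ 2 ^ (T.card + 1) := Nat.pow_le_pow_right (by norm_num) (Finset.card_insert_le _ _)
          _ = 2 * 2 ^ T.card := by rw [pow_succ, mul_comm]
          _ ≤ 2 * B.index := Nat.mul_le_mul_left _ hT
          _ ≤ A.index := h4
      · rw [eq_top_iff, ← hT', hB]
        refine sup_le (sup_le le_sup_left ?_) ?_
        · rw [zpowers_le]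
          exact (le_sup_right : Subgroup.closure _ ≤ _) (Subgroup.subset_closure (by simp))
        · refine le_trans (_root_.Subgroup.closure_mono ?_) le_sup_right
          intro y hy
          simp only [Finset.coe_insert, Set.mem_insert_iff]
          right; exact hy

/-- the number of solutions of `y ^ m = c`, `m` the index of a central cyclic subgroup -/
theorem card_roots (A : Subgroup R) (hc : ∀ a ∈ A, ∀ r : R, a * r = r * a) (hA : IsCyclic A) (c : R) :
    Nat.card {y : R // y ^ A.index = c} ≤ A.index * A.index := by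
  classical
  have : Fintype R := Fintype.ofFinite R
  have hm : 0 < A.index := Nat.pos_of_ne_zero A.index_ne_zero_of_finite
  have h1 : Nat.card {a : A // a ^ A.index = 1} ≤ A.index := by
    have : Fintype A := Fintype.ofFinite A
    have h2 := IsCyclic.card_pow_eq_one_le (α := A) hm
    rw [Nat.card_eq_fintype_card, Fintype.card_subtype]
    exact h2
  -- fibres over the cosets
  have h2 := Finset.card_le_mul_card_image (f := fun y : R => (QuotientGroup.mk y : R ⧸ A))
    (Finset.univ.filter fun y : R => y ^ A.index = c) A.index (by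
      intro b hb
      rw [Finset.mem_image] at hb
      obtain ⟨y₀, hy₀, rfl⟩ := hb
      rw [Finset.mem_filter] at hy₀
      refine le_trans ?_ h1
      rw [Nat.card_eq_fintype_card, ← Finset.card_univ]
      refine Finset.card_le_card_of_injOn (fun y => if h : y₀⁻¹ * y ∈ A ∧ (y₀⁻¹ * y) ^ A.index = 1 then
          ⟨⟨y₀⁻¹ * y, h.1⟩, Subtype.ext h.2⟩ else ⟨1, one_pow _⟩) (fun _ _ => Finset.mem_coe.2 (Finset.mem_univ _)) ?_
      have key : ∀ y ∈ (Finset.univ.filter fun y : R => y ^ A.index = c).filter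
          (fun y => (QuotientGroup.mk y : R ⧸ A) = QuotientGroup.mk y₀),
          y₀⁻¹ * y ∈ A ∧ (y₀⁻¹ * y) ^ A.index = 1 := by
        intro y hy
        rw [Finset.mem_filter, Finset.mem_filter] at hy
        obtain ⟨⟨-, hy1⟩, hy2⟩ := hy
        have h3 : y₀⁻¹ * y ∈ A := QuotientGroup.eq.1 hy2.symm
        refine ⟨h3, ?_⟩
        have h4 : y = y₀ * (y₀⁻¹ * y) := by group
        have h5 : Commute y₀ (y₀⁻¹ * y) := (hc _ h3 y₀).symm
        rw [h4, h5.mul_pow, hy₀.2] at hy1
        exact mul_eq_left.1 hy1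
      intro y hy z hz hyz
      have k1 := key y hy
      have k2 := key z hz
      simp only [dif_pos k1, dif_pos k2, Subtype.mk.injEq, mul_right_inj] at hyz
      exact hyz)
  rw [Nat.card_eq_fintype_card, Fintype.card_subtype]
  refine h2.trans (Nat.mul_le_mul_left _ ?_)
  rw [Subgroup.index, Nat.card_eq_fintype_card, ← Finset.card_univ]
  exact Finset.card_le_card (Finset.subset_univ _)

end

/-! ### arithmetic -/

theorem sq_le (L : ℕ) : (L + 1) ^ 2 ≤ 3 * 2 ^ L := by
  induction L with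
  | zero => norm_num
  | succ L ih =>
    rcases Nat.lt_or_ge L 2 with h | h
    · interval_cases L <;> norm_num
    · rw [pow_succ 2 L]
      have h1 : (L + 1 + 1) ^ 2 ≤ 2 * (L + 1) ^ 2 := by nlinarith
      omega

theorem arith {n m l t : ℕ} (hn : n ≠ 0) (hm : m ≤ n ^ 2) (hm0 : m ≠ 0) (hl : 2 ^ l ≤ m) (ht : 2 ^ (t - 1) ≤ n) :
    t ^ t * (m * m) ^ l ≤ 2 ^ (27 * n) := by
  set L := Nat.log 2 n with hL
  have h1 : 2 ^ L ≤ n := Nat.pow_log_le_self 2 hn
  have h2 : n < 2 ^ (L + 1) := Nat.lt_pow_succ_log_self (by norm_num) n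
  have h3 := sq_le L
  have h4 : m ≤ 2 ^ (2 * (L + 1)) := by
    calc m ≤ n ^ 2 := hm
      _ ≤ (2 ^ (L + 1)) ^ 2 := Nat.pow_le_pow_left h2.le 2
      _ = _ := by rw [← pow_mul, mul_comm]
  have h5 : l ≤ 2 * (L + 1) := (Nat.pow_le_pow_iff_right (by norm_num : 1 < 2)).1 (hl.trans h4)
  have h6 : t - 1 ≤ L := by
    have h7 : 2 ^ (t - 1) < 2 ^ (L + 1) := ht.trans_lt h2
    have := (Nat.pow_lt_pow_iff_right (by norm_num : 1 < 2)).1 h7
    omega
  have h7 : t ≤ L + 1 := by omega
  have h8 : t ^ t ≤ 2 ^ ((L + 1) ^ 2) := by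
    calc t ^ t ≤ (2 ^ t) ^ t := Nat.pow_le_pow_left Nat.lt_two_pow_self.le t
      _ = 2 ^ (t * t) := by rw [← pow_mul]
      _ ≤ 2 ^ ((L + 1) ^ 2) := Nat.pow_le_pow_right (by norm_num) (by nlinarith only [h7])
  have h9 : (m * m) ^ l ≤ 2 ^ (8 * (L + 1) ^ 2) := by
    calc (m * m) ^ l ≤ (2 ^ (2 * (L + 1)) * 2 ^ (2 * (L + 1))) ^ l :=
          Nat.pow_le_pow_left (Nat.mul_le_mul h4 h4) l
      _ ≤ (2 ^ (2 * (L + 1)) * 2 ^ (2 * (L + 1))) ^ (2 * (L + 1)) :=
          Nat.pow_le_pow_right (by positivity) h5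
      _ = 2 ^ (8 * (L + 1) ^ 2) := by rw [← pow_add, ← pow_mul]; congr 1; ring
  calc t ^ t * (m * m) ^ l ≤ 2 ^ ((L + 1) ^ 2) * 2 ^ (8 * (L + 1) ^ 2) := Nat.mul_le_mul h8 h9
    _ = 2 ^ (9 * (L + 1) ^ 2) := by rw [← pow_add]; congr 1; ring
    _ ≤ 2 ^ (27 * n) := Nat.pow_le_pow_right (by norm_num) (by omega)

/-! ### the theorem -/

section

variable {p : ℕ} [Fact p.Prime] {V : Type} [AddCommGroup V] [Module (ZMod p) V] [Finite V]

/-- the number of elements which normalise all components and centralise `A` -/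
theorem card_one {X A C R : Subgroup (V ≃ₗ[ZMod p] V)} {t : ℕ} {E : Fin t → Subgroup (V ≃ₗ[ZMod p] V)}
    (h : Cfsg.Agent.H830.B57.Str X A C R t E) (hA : IsCyclic A) {S : Subgroup (V ≃ₗ[ZMod p] V)} (hSC : S ≤ C)
    (hSA : S ⊓ A = ⊥) (hSE : ∀ x ∈ S, ∀ i, ∀ e ∈ E i, x * e = e * x) :
    ∃ l, 2 ^ l ≤ A.relIndex R ∧ Nat.card S ≤ (A.relIndex R * A.relIndex R) ^ l := by
  classical
  have hfin : Finite (V ≃ₗ[ZMod p] V) := Finite.of_injective (fun f : V ≃ₗ[ZMod p] V => (f : V → V)) DFunLike.coe_injective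
  have hAC : ∀ a ∈ A, ∀ x ∈ C, x * a = a * x := fun a ha x hx => ((h.Ceq x).1 hx).2 a ha
  set B : Subgroup ↥R := A.subgroupOf R with hB
  have hBA : B.index = A.relIndex R := rfl
  have hBc : ∀ a ∈ B, ∀ r : ↥R, a * r = r * a := by
    intro a ha r
    exact Subtype.ext (hAC _ (mem_subgroupOf.1 ha) _ (h.RC r.2)).symm
  have hBcyc : IsCyclic B := by
    have e := subgroupOfEquivOfLe h.AR
    exact isCyclic_of_surjective e.symm e.symm.surjective
  have hBn : B.Normal := ⟨fun a ha r => by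
    rw [← hBc a ha r, mul_inv_cancel_right]; exact ha⟩
  obtain ⟨T, hT, hT'⟩ := exists_gens B.index B le_rfl
  refine ⟨T.card, hT, ?_⟩
  -- conjugation
  have hRS : ∀ x ∈ S, ∀ y : ↥R, x * y * x⁻¹ ∈ R := fun x hx y => h.Rnorm x (h.CX (hSC hx)) y y.2
  let f : S → (∀ r : T, {y : ↥R // y ^ B.index = (r : ↥R) ^ B.index}) := fun x r =>
    ⟨⟨(x : V ≃ₗ[ZMod p] V) * ((r : ↥R) : V ≃ₗ[ZMod p] V) * (x : V ≃ₗ[ZMod p] V)⁻¹, hRS x x.2 r⟩, by
      apply Subtype.ext
      show ((x : V ≃ₗ[ZMod p] V) * ((r : ↥R) : V ≃ₗ[ZMod p] V) * (x : V ≃ₗ[ZMod p] V)⁻¹) ^ B.index =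
        ((r : ↥R) : V ≃ₗ[ZMod p] V) ^ B.index
      have h1 : ((r : ↥R) : V ≃ₗ[ZMod p] V) ^ B.index ∈ A := mem_subgroupOf.1 (B.pow_index_mem (r : ↥R))
      rw [conj_pow, hAC _ h1 _ (hSC x.2), mul_inv_cancel_right]⟩
  have hf : Function.Injective f := by
    intro x y hxy
    have h1 : ∀ r ∈ T, (x : V ≃ₗ[ZMod p] V) * (r : V ≃ₗ[ZMod p] V) * (x : V ≃ₗ[ZMod p] V)⁻¹ =
        (y : V ≃ₗ[ZMod p] V) * (r : V ≃ₗ[ZMod p] V) * (y : V ≃ₗ[ZMod p] V)⁻¹ := by
      intro r hr
      have h2 := congrFun hxy ⟨r, hr⟩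
      have h3 := congrArg (fun z : {y : ↥R // y ^ B.index = r ^ B.index} => ((z : ↥R) : V ≃ₗ[ZMod p] V)) h2
      exact h3
    set z : V ≃ₗ[ZMod p] V := (y : V ≃ₗ[ZMod p] V)⁻¹ * x with hz
    have hzS : z ∈ S := S.mul_mem (S.inv_mem y.2) x.2
    have h2 : (⊤ : Subgroup ↥R) ≤ (centralizer {z}).comap R.subtype := by
      rw [← hT']
      refine sup_le ?_ ?_
      · intro a ha
        rw [mem_comap, mem_centralizer_singleton_iff]
        exact (hAC _ (mem_subgroupOf.1 ha) _ (hSC hzS)).symm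
      · rw [closure_le]
        intro r hr
        show (R.subtype r) ∈ centralizer {z}
        rw [mem_centralizer_singleton_iff]
        have h3 := h1 r hr
        show (r : V ≃ₗ[ZMod p] V) * z = z * r
        rw [hz]
        have h4 : (x : V ≃ₗ[ZMod p] V) * (r : V ≃ₗ[ZMod p] V) =
            (y : V ≃ₗ[ZMod p] V) * (r : V ≃ₗ[ZMod p] V) * (y : V ≃ₗ[ZMod p] V)⁻¹ * x := by
          rw [← h3, inv_mul_cancel_right]
        rw [mul_assoc _ (x : V ≃ₗ[ZMod p] V), h4]
        group
    have h3 : z ∈ A := by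
      refine h.cent z (hSC hzS) (fun r hr => ?_) (fun i e he => hSE z hzS i e he)
      have h4 := h2 (mem_top (⟨r, hr⟩ : ↥R))
      rw [mem_comap, mem_centralizer_singleton_iff] at h4
      exact h4.symm
    have h4 : z ∈ S ⊓ A := ⟨hzS, h3⟩
    rw [hSA, mem_bot, hz, inv_mul_eq_one] at h4
    exact Subtype.ext h4.symm
  refine (Nat.card_le_card_of_injective f hf).trans ?_
  rw [Nat.card_pi]
  calc ∏ r : T, Nat.card {y : ↥R // y ^ B.index = (r : ↥R) ^ B.index} ≤ ∏ _r : T, (B.index * B.index) :=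
        Finset.prod_le_prod' fun r _ => card_roots B hBc hBcyc _
    _ = (A.relIndex R * A.relIndex R) ^ T.card := by
        rw [Finset.prod_const, Finset.card_univ, Fintype.card_coe, hBA]

/-- **S5717, linear part, N4** -/
theorem card_stab : ∃ K : ℕ, ∀ (p : ℕ) [Fact p.Prime] (V : Type) [AddCommGroup V] [Module (ZMod p) V] [Finite V]
    (X A C R : Subgroup (V ≃ₗ[ZMod p] V)) (t : ℕ) (E : Fin t → Subgroup (V ≃ₗ[ZMod p] V)),
    Cfsg.Agent.H830.B57.Str X A C R t E → IsCyclic A → 2 ^ (t - 1) ≤ Module.finrank (ZMod p) V →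
    A.relIndex R ≤ (Module.finrank (ZMod p) V) ^ 2 →
    ∀ S : Subgroup (V ≃ₗ[ZMod p] V), S ≤ C → S ⊓ A = ⊥ →
    (∀ x ∈ S, (∀ i, ∀ y, y ∈ E i ↔ x * y * x⁻¹ ∈ E i) → ∀ i, ∀ e ∈ E i, x * e = e * x) →
    Nat.card S ≤ Nat.card V ^ K := by
  classical
  refine ⟨27, ?_⟩
  intro p _ V _ _ _ X A C R t E h hA ht hm S hSC hSA hSE
  have hfin : Finite (V ≃ₗ[ZMod p] V) := Finite.of_injective (fun f : V ≃ₗ[ZMod p] V => (f : V → V)) DFunLike.coe_injective
  set n := Module.finrank (ZMod p) V with hn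
  have hn0 : n ≠ 0 := by
    intro h0
    rw [h0] at ht
    exact absurd ht (Nat.not_le.2 (by positivity))
  -- the subgroup normalising all components
  let S₁ : Subgroup (V ≃ₗ[ZMod p] V) :=
    { carrier := {x | x ∈ S ∧ ∀ i, ∀ y, y ∈ E i ↔ x * y * x⁻¹ ∈ E i}
      mul_mem' := by
        rintro a b ⟨ha, ha'⟩ ⟨hb, hb'⟩
        refine ⟨S.mul_mem ha hb, fun i y => ?_⟩
        rw [hb' i y, ha' i (b * y * b⁻¹)]
        have : a * (b * y * b⁻¹) * a⁻¹ = a * b * y * (a * b)⁻¹ := by group
        rw [this]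
      one_mem' := ⟨S.one_mem, fun i y => by simp⟩
      inv_mem' := by
        rintro a ⟨ha, ha'⟩
        refine ⟨S.inv_mem ha, fun i y => ?_⟩
        rw [ha' i (a⁻¹ * y * a⁻¹⁻¹)]
        have : a * (a⁻¹ * y * a⁻¹⁻¹) * a⁻¹ = y := by group
        rw [this] }
  have hS1 : S₁ ≤ S := fun x hx => hx.1
  obtain ⟨l, hl, hcard⟩ := card_one h hA (S := S₁) (hS1.trans hSC)
    (by rw [eq_bot_iff, ← hSA]; exact inf_le_inf_right _ hS1) (fun x hx i e he => hSE x hx.1 hx.2 i e he)
  -- the permutation action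
  have hperm : ∀ x : S, ∀ i, ∃ j, ∀ y, y ∈ E i ↔ (x : V ≃ₗ[ZMod p] V) * y * (x : V ≃ₗ[ZMod p] V)⁻¹ ∈ E j :=
    fun x i => h.Eperm x (h.CX (hSC x.2)) i
  choose π hπ using hperm
  have hSS : Nat.card S ≤ t ^ t * Nat.card S₁ := by
    have : Fintype S := Fintype.ofFinite S
    have h1 := Finset.card_le_mul_card_image (f := π) (Finset.univ : Finset S) (Nat.card S₁) (by
      intro b hb
      rw [Finset.mem_image] at hb
      obtain ⟨x₀, -, rfl⟩ := hb
      have key : ∀ x : S, π x = π x₀ → (x₀ : V ≃ₗ[ZMod p] V)⁻¹ * x ∈ S₁ := by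
        intro x hx
        refine ⟨S.mul_mem (S.inv_mem x₀.2) x.2, fun i y => ?_⟩
        rw [hπ x i y, hx, hπ x₀ i]
        have : (x₀ : V ≃ₗ[ZMod p] V) * ((x₀ : V ≃ₗ[ZMod p] V)⁻¹ * x * y * ((x₀ : V ≃ₗ[ZMod p] V)⁻¹ * x)⁻¹) *
            (x₀ : V ≃ₗ[ZMod p] V)⁻¹ = x * y * (x : V ≃ₗ[ZMod p] V)⁻¹ := by group
        rw [this]
      have : Fintype S₁ := Fintype.ofFinite S₁
      rw [Nat.card_eq_fintype_card, ← Finset.card_univ]
      refine Finset.card_le_card_of_injOn (fun x => if h : π x = π x₀ then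
          ⟨(x₀ : V ≃ₗ[ZMod p] V)⁻¹ * x, key x h⟩ else 1) (fun _ _ => Finset.mem_coe.2 (Finset.mem_univ _)) ?_
      intro x hx y hy hxy
      have hx' : π x = π x₀ := (Finset.mem_filter.1 hx).2
      have hy' : π y = π x₀ := (Finset.mem_filter.1 hy).2
      simp only [dif_pos hx', dif_pos hy', Subtype.mk.injEq, mul_right_inj] at hxy
      exact Subtype.ext hxy)
    rw [Finset.card_univ] at h1
    rw [Nat.card_eq_fintype_card, mul_comm]
    refine h1.trans (Nat.mul_le_mul_left _ ?_)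
    refine (Finset.card_le_card (Finset.subset_univ _)).trans ?_
    rw [Finset.card_univ, Fintype.card_fun, Fintype.card_fin]
  have hm0 : A.relIndex R ≠ 0 := (A.subgroupOf R).index_ne_zero_of_finite
  have hV : Nat.card V = p ^ n := by
    rw [Module.natCard_eq_pow_finrank (K := ZMod p), Nat.card_zmod]
  have h2p : 2 ≤ p := (Fact.out : p.Prime).two_le
  calc Nat.card S ≤ t ^ t * Nat.card S₁ := hSS
    _ ≤ t ^ t * (A.relIndex R * A.relIndex R) ^ l := Nat.mul_le_mul_left _ hcard
    _ ≤ 2 ^ (27 * n) := arith hn0 hm hm0 hl ht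
    _ ≤ p ^ (27 * n) := Nat.pow_le_pow_left h2p _
    _ = Nat.card V ^ 27 := by rw [hV, ← pow_mul, mul_comm]

end

end Cfsg.Agent.H86.B57
end
end

-- part: H830/B57/Inv
section
set_option linter.all false
open scoped Cfsg.Agent.FastGrp

/-!
# Sections: `Involves H G` and homomorphisms
-/

set_option autoImplicit false

open Subgroup

namespace Cfsg.Agent.H830.B57

universe u v w

theorem inv_iff {H : Type u} [Group H] {G : Type v} [Group G] :
    Cfsg.Involves H G ↔ ∃ (K : Subgroup G) (f : K →* H), Function.Surjective f := by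
  constructor
  · rintro ⟨K, R, hR, ⟨e⟩⟩
    exact ⟨K, e.toMonoidHom.comp (QuotientGroup.mk' (R.subgroupOf K)),
      e.surjective.comp (QuotientGroup.mk'_surjective _)⟩
  · rintro ⟨K, f, hf⟩
    refine ⟨K, f.ker.map K.subtype, ?_, ?_⟩
    · have h1 : (f.ker.map K.subtype).subgroupOf K = f.ker := by
        ext x
        simp [mem_subgroupOf]
      rw [h1]
      infer_instance
    · have h1 : (f.ker.map K.subtype).subgroupOf K = f.ker := by
        ext x
        simp [mem_subgroupOf]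
      have : ((f.ker.map K.subtype).subgroupOf K).Normal := by
        rw [h1]; infer_instance
      exact ⟨(QuotientGroup.quotientMulEquivOfEq h1).trans
        (QuotientGroup.quotientKerEquivOfSurjective f hf)⟩

/-- sections of a subgroup -/
theorem involves_of_injective {H : Type u} [Group H] {L : Type v} [Group L] {G : Type w} [Group G]
    (f : L →* G) (hf : Function.Injective f) (h : Cfsg.Involves H L) : Cfsg.Involves H G := by
  rw [inv_iff] at h ⊢
  obtain ⟨K, g, hg⟩ := h
  refine ⟨K.map f, g.comp (K.equivMapOfInjective f hf).symm.toMonoidHom, ?_⟩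
  exact hg.comp (K.equivMapOfInjective f hf).symm.surjective

/-- sections of a quotient -/
theorem involves_of_surjective {H : Type u} [Group H] {Q : Type v} [Group Q] {G : Type w} [Group G]
    (f : G →* Q) (hf : Function.Surjective f) (h : Cfsg.Involves H Q) : Cfsg.Involves H G := by
  rw [inv_iff] at h ⊢
  obtain ⟨K, g, hg⟩ := h
  refine ⟨K.comap f, g.comp (f.subgroupComap K), ?_⟩
  intro y
  obtain ⟨k, rfl⟩ := hg y
  obtain ⟨x, hx⟩ := hf k
  refine ⟨⟨x, ?_⟩, ?_⟩
  · rw [mem_comap, hx]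
    exact k.2
  · change g (f.subgroupComap K _) = g k
    congr 1
    exact Subtype.ext hx

theorem involves_of_equiv {H : Type u} [Group H] {Q : Type v} [Group Q] {G : Type w} [Group G]
    (e : G ≃* Q) (h : Cfsg.Involves H Q) : Cfsg.Involves H G :=
  involves_of_surjective e.toMonoidHom e.surjective h

theorem BaseLE.mono {G Ω : Type*} [Group G] [MulAction G Ω] {a b : ℕ} (h : BaseLE G Ω a)
    (hab : a ≤ b) : BaseLE G Ω b := by
  obtain ⟨B, h1, h2⟩ := h
  exact ⟨B, h1.trans hab, h2⟩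

end Cfsg.Agent.H830.B57
end

-- part: H457/Bs/LinPrim
section
prune_inst 0xc46010014940020010000006c000008558000402004080004045070602480460400288000c80251e422000000005000810800030804000c00400000000010521900040049208010406000f000000000000000000000000000000000000000000200000000
set_option linter.all false
open scoped Cfsg.Agent.FastGrp

-- part: H457/Bs/Union
section
/-!
# S5717, linear groups: union bound
-/

set_option autoImplicit false

namespace Cfsg.Agent.H457.Bs

variable {p : ℕ} [Fact p.Prime] {V : Type} [AddCommGroup V] [Module (ZMod p) V]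

/-- a small group all of whose elements have a large support has a bounded base -/
theorem exists_tuple [Finite V] (hV : ∃ v : V, v ≠ 0) (S : Subgroup (V ≃ₗ[ZMod p] V)) (K : ℕ)
    (hS : Nat.card S ≤ Nat.card V ^ K)
    (hfix : ∀ x ∈ S, x ≠ 1 → Nat.card {v : V // x v = v} ^ 6 ≤ Nat.card V ^ 5) :
    ∃ w : Fin (6 * (K + 1)) → V, ∀ x ∈ S, (∀ j, x (w j) = w j) → x = 1 := by
  classical
  have : Fintype V := Fintype.ofFinite V
  have hfinE : Finite (V ≃ₗ[ZMod p] V) :=
    Finite.of_injective (fun f : V ≃ₗ[ZMod p] V => (f : V → V)) DFunLike.coe_injective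
  have : Fintype S := Fintype.ofFinite S
  by_contra hcon
  push Not at hcon
  set m := 6 * (K + 1) with hm
  have hcard : 1 < Fintype.card V := by
    obtain ⟨v, hv⟩ := hV
    exact Fintype.one_lt_card_iff.2 ⟨v, 0, hv⟩
  -- every tuple is fixed by some element
  let F : S → Finset (Fin m → V) := fun x => Fintype.piFinset fun _ => Finset.univ.filter fun v => (x : V ≃ₗ[ZMod p] V) v = v
  have hcover : (Finset.univ : Finset (Fin m → V)) ⊆ (Finset.univ.filter fun x : S => x ≠ 1).biUnion F := by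
    intro w _
    obtain ⟨x, hx, hxw, hx1⟩ := hcon w
    refine Finset.mem_biUnion.2 ⟨⟨x, hx⟩, ?_, ?_⟩
    · rw [Finset.mem_filter]
      exact ⟨Finset.mem_univ _, fun h => hx1 (congrArg Subtype.val h)⟩
    · rw [Fintype.mem_piFinset]
      intro j
      rw [Finset.mem_filter]
      exact ⟨Finset.mem_univ _, hxw j⟩
  have hF : ∀ x ∈ (Finset.univ.filter fun x : S => x ≠ 1), (F x).card ≤ Fintype.card V ^ (5 * (K + 1)) := by
    intro x hx
    rw [Finset.mem_filter] at hx
    have h1 : (F x).card = Nat.card {v : V // (x : V ≃ₗ[ZMod p] V) v = v} ^ m := by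
      rw [Fintype.card_piFinset, Finset.prod_const, Finset.card_univ, Fintype.card_fin, Nat.card_eq_fintype_card,
        Fintype.card_subtype]
    rw [h1, hm, pow_mul]
    have h2 := hfix x x.2 (fun h => hx.2 (Subtype.ext h))
    calc (Nat.card {v : V // (x : V ≃ₗ[ZMod p] V) v = v} ^ 6) ^ (K + 1) ≤ (Nat.card V ^ 5) ^ (K + 1) :=
          Nat.pow_le_pow_left h2 _
      _ = Fintype.card V ^ (5 * (K + 1)) := by rw [← pow_mul, Nat.card_eq_fintype_card]
  have h1 := (Finset.card_le_card hcover).trans (Finset.card_biUnion_le)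
  have h2 := h1.trans (Finset.sum_le_card_nsmul _ _ _ hF)
  rw [Finset.card_univ, Fintype.card_fun, Fintype.card_fin, smul_eq_mul] at h2
  have h3 : (Finset.univ.filter fun x : S => x ≠ 1).card ≤ Fintype.card V ^ K := by
    refine (Finset.card_le_univ _).trans ?_
    rw [← Nat.card_eq_fintype_card, ← Nat.card_eq_fintype_card]
    exact hS
  have h4 : Fintype.card V ^ m ≤ Fintype.card V ^ K * Fintype.card V ^ (5 * (K + 1)) :=
    h2.trans (Nat.mul_le_mul_right _ h3)
  rw [← pow_add] at h4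
  have h5 := (Nat.pow_le_pow_iff_right hcard).1 h4
  omega

end Cfsg.Agent.H457.Bs
end

-- part: H594/B57/HomDecNormal
section
/-!
# S5717, task D1: normal subgroups of primitive linear groups are homogeneous (helper594)
-/

set_option autoImplicit false

open Subgroup

namespace Cfsg.Agent.H594.B57

open Cfsg.Agent.H830.B57 Cfsg.Agent.H69.Af Cfsg.Agent.H192.Af Cfsg.Agent.H717.FieldOf

variable {p : ℕ} [Fact p.Prime] {V : Type} [AddCommGroup V] [Module (ZMod p) V]

theorem p_smul {W : Type*} [AddCommGroup W] [Module (ZMod p) W] (w : W) : p • w = 0 := by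
  rw [← Nat.cast_smul_eq_nsmul (ZMod p), CharP.cast_eq_zero, zero_smul]

theorem exists_rho {G : Type*} [Group G] {U : Type*} [AddCommGroup U] [Module (ZMod p) U] (f : G → U → U)
    (h0 : ∀ g a b, f g (a + b) = f g a + f g b) (h1 : ∀ a, f 1 a = a) (hm : ∀ g h a, f (g * h) a = f g (f h a)) :
    ∃ ρ : G →* (U ≃ₗ[ZMod p] U), ∀ g a, ρ g a = f g a := by
  let F : G → (U ≃ₗ[ZMod p] U) := fun g =>
    { (AddMonoidHom.toZModLinearMap p (AddMonoidHom.mk' (f g) (h0 g)) : U →ₗ[ZMod p] U) with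
      invFun := f g⁻¹
      left_inv := fun s => by
        change f g⁻¹ (f g s) = s
        rw [← hm, inv_mul_cancel, h1]
      right_inv := fun s => by
        change f g (f g⁻¹ s) = s
        rw [← hm, mul_inv_cancel, h1] }
  have hF : ∀ g a, F g a = f g a := fun g a => rfl
  refine ⟨MonoidHom.mk' F fun a b => LinearEquiv.ext fun s => ?_, fun g a => rfl⟩
  rw [LinearEquiv.mul_apply, hF, hF, hF, hm]

theorem homDec_of_equiv (Y : Subgroup (V ≃ₗ[ZMod p] V)) {R : Type} [Ring R] [Module R V] {S : Type}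
    [AddCommGroup S] [Module R S] [Module (ZMod p) S] [IsSimpleModule R S] (M : ℕ) (e : V ≃ₗ[R] (Fin M → S))
    (r : Y →* R) (hr : ∀ (y : Y) (v : V), r y • v = (y : V ≃ₗ[ZMod p] V) v)
    (hsub : ∀ W : AddSubgroup S, (∀ (y : Y), ∀ w ∈ W, r y • w ∈ W) → ∀ (c : R), ∀ w ∈ W, c • w ∈ W) :
    ∃ (ρ : Y →* (S ≃ₗ[ZMod p] S)) (φ : V ≃ₗ[ZMod p] (Fin M → S)), HomDec Y M ρ φ := by
  obtain ⟨ρ, hρ⟩ := exists_rho (p := p) (G := Y) (U := S) (fun y s => r y • s) (fun y a b => smul_add (r y) a b)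
      (fun s => by rw [map_one, one_smul]) (fun a b s => by rw [map_mul, mul_smul])
  let φ : V ≃ₗ[ZMod p] (Fin M → S) :=
    { (AddMonoidHom.toZModLinearMap p (e : V →+ (Fin M → S)) : V →ₗ[ZMod p] (Fin M → S)) with
      invFun := e.symm
      left_inv := fun v => e.symm_apply_apply v
      right_inv := fun v => e.apply_symm_apply v }
  refine ⟨ρ, φ, ⟨?_, ?_, ?_⟩⟩
  · intro y v j
    rw [hρ]
    change e ((y : V ≃ₗ[ZMod p] V) v) j = r y • (e v j)
    rw [← hr, map_smul]
    rfl
  · intro W hW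
    let W' : Submodule R S :=
      { carrier := (W : Set S)
        zero_mem' := W.zero_mem
        add_mem' := fun ha hb => W.add_mem ha hb
        smul_mem' := fun c s hs => hsub W.toAddSubgroup (fun y w hw => by
          have := hW y w hw
          rwa [hρ] at this) c s hs }
    rcases eq_bot_or_eq_top W' with h | h
    · left
      rw [Submodule.eq_bot_iff] at h ⊢
      exact fun x hx => h x hx
    · right
      rw [Submodule.eq_top_iff'] at h ⊢
      exact fun x => h x
  · have : Nontrivial S := IsSimpleModule.nontrivial R S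
    exact exists_ne (0 : S)

/-- D1 (Clifford): normal subgroups of primitive linear groups are homogeneous -/
theorem homDec_of_normal [Finite V] (X : Subgroup (V ≃ₗ[ZMod p] V)) (hX : PrimLin X)
    (Y : Subgroup (V ≃ₗ[ZMod p] V)) (hYX : Y ≤ X) (hY : ∀ x ∈ X, ∀ y ∈ Y, x * y * x⁻¹ ∈ Y) :
    ∃ (U : Type) (_ : AddCommGroup U) (_ : Module (ZMod p) U) (M : ℕ)
      (ρ : Y →* (U ≃ₗ[ZMod p] U)) (φ : V ≃ₗ[ZMod p] (Fin M → U)), HomDec Y M ρ φ := by
  classical
  have : Nontrivial V := by
    obtain ⟨v, hv⟩ := hX.nt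
    exact ⟨v, 0, hv⟩
  have hfinE : Finite (V ≃ₗ[ZMod p] V) :=
    Finite.of_injective (fun g : V ≃ₗ[ZMod p] V => (g : V → V)) DFunLike.coe_injective
  let K : Subgroup X := Y.subgroupOf X
  have hK : K.Normal := ⟨fun k hk x => mem_subgroupOf.2 (hY x x.2 k (mem_subgroupOf.1 hk))⟩
  have hfaith : FaithfulSMul X V := ⟨fun {a b} h => Subtype.ext (LinearEquiv.ext fun v => h v)⟩
  have hirr : ∀ U : AddSubgroup V, (∀ (h : X), ∀ w ∈ U, h • w ∈ U) → U = ⊥ ∨ U = ⊤ := by
    intro U hU
    rcases hX.irr (AddSubgroup.toZModSubmodule p U) (fun g hg v hv => hU ⟨g, hg⟩ v hv) with h | h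
    · left
      exact (AddSubgroup.toZModSubmodule p (M := V)).injective (h.trans (OrderIso.map_bot _).symm)
    · right
      exact (AddSubgroup.toZModSubmodule p (M := V)).injective (h.trans (OrderIso.map_top _).symm)
  rcases homog_or_blocks (Fact.out : p.Prime) (fun w : V => p_smul (p := p) w) hirr with hh | ⟨k, U, hk, hind, htop, hne, hperm, -⟩
  · obtain ⟨hss, hiso⟩ := hh K hK
    have hfS : (Module.Finite (KA V K) V :) := Module.Finite.of_finite
    obtain ⟨S, hS⟩ := IsSemisimpleModule.exists_simple_submodule (KA V K) V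
    obtain ⟨M, ⟨e⟩⟩ := (hiso S).linearEquiv_fun
    have hpS : ∀ x : S, p • x = 0 := fun x => Subtype.ext (p_smul (p := p) (x : V))
    let iM : Module (ZMod p) S := AddCommGroup.zmodModule hpS
    have hyK : ∀ y : Y, (⟨y, hYX y.2⟩ : X) ∈ K := fun y => mem_subgroupOf.2 y.2
    let r : Y →* KA V K :=
      { toFun := fun y => ⟨dl V (⟨y, hYX y.2⟩ : X), dl_mem K (hyK y)⟩
        map_one' := Subtype.ext (map_one (dl V))
        map_mul' := fun a b => Subtype.ext (map_mul (dl V) (⟨a, hYX a.2⟩ : X) ⟨b, hYX b.2⟩) }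
    obtain ⟨ρ, φ, h⟩ := homDec_of_equiv (p := p) (R := KA V K) Y M e r (fun y v => rfl) (by
      intro W hW c
      obtain ⟨c, hc⟩ := c
      unfold KA at hc
      refine (Subring.closure_induction (p := fun c (hc : c ∈ Subring.closure (dl V '' (K : Set X))) =>
        ∀ s : S, s ∈ W → (⟨c, hc⟩ : KA V K) • s ∈ W) ?_ ?_ ?_ ?_ ?_ ?_ hc :)
      · rintro _ ⟨a, ha, rfl⟩ s hs
        exact hW ⟨(a : V ≃ₗ[ZMod p] V), mem_subgroupOf.1 ha⟩ s hs
      · intro s _
        have : (⟨0, zero_mem _⟩ : KA V K) • s = 0 := (zero_smul (KA V K) s :)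
        rw [this]
        exact W.zero_mem
      · intro s hs
        have : (⟨1, one_mem _⟩ : KA V K) • s = s := (one_smul (KA V K) s :)
        rw [this]
        exact hs
      · intro x y hx hy h1 h2 s hs
        have : (⟨x + y, add_mem hx hy⟩ : KA V K) • s = (⟨x, hx⟩ : KA V K) • s + (⟨y, hy⟩ : KA V K) • s :=
          (add_smul (⟨x, hx⟩ : KA V K) ⟨y, hy⟩ s :)
        rw [this]
        exact W.add_mem (h1 s hs) (h2 s hs)
      · intro x hx h1 s hs
        have : (⟨-x, neg_mem hx⟩ : KA V K) • s = -((⟨x, hx⟩ : KA V K) • s) := neg_smul (⟨x, hx⟩ : KA V K) s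
        rw [this]
        exact W.neg_mem (h1 s hs)
      · intro x y hx hy h1 h2 s hs
        have : (⟨x * y, mul_mem hx hy⟩ : KA V K) • s = (⟨x, hx⟩ : KA V K) • ((⟨y, hy⟩ : KA V K) • s) :=
          mul_smul (⟨x, hx⟩ : KA V K) ⟨y, hy⟩ s
        rw [this]
        exact h1 _ (h2 s hs))
    exact ⟨S, Submodule.addCommGroup S, iM, M, ρ, φ, h⟩
  · exfalso
    have hss := hX.prim (Fin k) (fun i => AddSubgroup.toZModSubmodule p (U i)) ?_ ?_ ?_ ?_
    · have h1 := Fin.subsingleton_iff_le_one.1 hss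
      omega
    · exact hind.map_orderIso (AddSubgroup.toZModSubmodule p)
    · have := congrArg (AddSubgroup.toZModSubmodule p) htop
      rw [OrderIso.map_iSup, OrderIso.map_top] at this
      exact this
    · intro i h
      exact hne i ((AddSubgroup.toZModSubmodule p (M := V)).injective (h.trans (OrderIso.map_bot _).symm))
    · intro g hg i
      obtain ⟨j, hj⟩ := hperm ⟨g, hg⟩ i
      obtain ⟨l, hl⟩ := hperm ⟨g, hg⟩⁻¹ j
      have hil : i = l := by
        by_contra hne'
        apply hne i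
        rw [eq_bot_iff]
        intro w hw
        have h1 : w ∈ U l := by
          have := hl _ (hj w hw)
          rwa [inv_smul_smul] at this
        have h2 := (hind i).mono_right (le_iSup₂_of_le (f := fun j (_ : j ≠ i) => U j) l (Ne.symm hne') le_rfl)
        exact AddSubgroup.disjoint_def.1 h2 hw h1
      subst hil
      refine ⟨j, fun v => ⟨fun hv => hj v hv, fun hv => ?_⟩⟩
      have := hl _ (show (⟨g, hg⟩ : X) • v ∈ U j from hv)
      rwa [inv_smul_smul] at this

end Cfsg.Agent.H594.B57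
end

-- part: H315/B57/Abelian
section
/-!
# S5717 [D2]: abelian normal subgroups of primitive linear groups (helper315)

`A ≤ X` abelian normal, `X` primitive linear: the algebra `E` generated by `A` is a finite commutative ring normalized
by `X`. It is reduced since `X` is irreducible (`isReduced_of_irr`), and the spaces annihilated by the maximal ideals of
`E` form a system of imprimitivity, so `E` is a field (`isField_of_prim`).
-/

set_option autoImplicit false

open Subgroup

namespace Cfsg.Agent.H315.B57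

open Cfsg.Agent.H830.B57

section Ring

variable {R V : Type} [CommRing R] [Finite R] [AddCommGroup V] [Module R V] {p : ℕ} [Fact p.Prime]
  [Module (ZMod p) V] [Algebra (ZMod p) R] [IsScalarTower (ZMod p) R V]

/-- the ring is reduced -/
theorem isReduced_of_irr (hf : ∀ r : R, (∀ v : V, r • v = 0) → r = 0) (X : Subgroup (V ≃ₗ[ZMod p] V))
    (hX : PrimLin X) (hσ : ∀ g ∈ X, ∃ σ : R ≃+* R, ∀ (r : R) (v : V), g (r • v) = σ r • g v) : IsReduced R := by
  obtain ⟨v0, hv0⟩ := hX.nt
  have key : ∀ k : ℕ, (nilradical R) • (⊤ : Submodule R V) = ⊤ → (nilradical R) ^ k • (⊤ : Submodule R V) = ⊤ := by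
    intro k h
    induction k with
    | zero => rw [pow_zero, Ideal.one_eq_top, Submodule.top_smul]
    | succ k ih => rw [pow_succ, Submodule.mul_smul, h, ih]
  have hst : ∀ g ∈ X, ∀ v ∈ ((nilradical R) • (⊤ : Submodule R V)).restrictScalars (ZMod p),
      g v ∈ ((nilradical R) • (⊤ : Submodule R V)).restrictScalars (ZMod p) := by
    intro g hg v hv
    rw [Submodule.restrictScalars_mem] at hv ⊢
    obtain ⟨σ, hσ⟩ := hσ g hg
    refine Submodule.smul_induction_on (p := fun v => g v ∈ (nilradical R) • (⊤ : Submodule R V)) hv ?_ ?_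
    · intro r hr n _
      rw [hσ]
      refine Submodule.smul_mem_smul ?_ (Submodule.mem_top)
      rw [mem_nilradical] at hr ⊢
      exact hr.map σ
    · intro x y hx hy
      rw [map_add]
      exact Submodule.add_mem _ hx hy
  rcases hX.irr _ hst with h | h
  · refine ⟨fun r hr => hf r fun v => ?_⟩
    have h1 : r • v ∈ (nilradical R) • (⊤ : Submodule R V) :=
      Submodule.smul_mem_smul (mem_nilradical.2 hr) Submodule.mem_top
    have h2 : r • v ∈ ((nilradical R) • (⊤ : Submodule R V)).restrictScalars (ZMod p) := h1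
    rw [h] at h2
    exact (Submodule.mem_bot _).1 h2
  · exfalso
    have h1 : (nilradical R) • (⊤ : Submodule R V) = ⊤ := by
      rw [eq_top_iff]
      intro v _
      have h2 : v ∈ ((nilradical R) • (⊤ : Submodule R V)).restrictScalars (ZMod p) := by
        rw [h]
        exact Submodule.mem_top
      exact h2
    obtain ⟨k, hk⟩ := IsArtinianRing.isNilpotent_nilradical (R := R)
    have h2 := key k h1
    rw [hk, Ideal.zero_eq_bot, Submodule.bot_smul] at h2
    have h3 : v0 ∈ (⊤ : Submodule R V) := Submodule.mem_top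
    rw [← h2] at h3
    exact hv0 ((Submodule.mem_bot _).1 h3)

/-- **the ring is a field** -/
theorem isField_of_prim (hf : ∀ r : R, (∀ v : V, r • v = 0) → r = 0) (X : Subgroup (V ≃ₗ[ZMod p] V))
    (hX : PrimLin X) (hσ : ∀ g ∈ X, ∃ σ : R ≃+* R, ∀ (r : R) (v : V), g (r • v) = σ r • g v) : IsField R := by
  classical
  have hred := isReduced_of_irr hf X hX hσ
  obtain ⟨v0, hv0⟩ := hX.nt
  have hnt : Nontrivial R := by
    refine ⟨1, 0, fun h => hv0 ?_⟩
    rw [← one_smul R v0, h, zero_smul]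
  have hfin : Finite (MaximalSpectrum R) := inferInstance
  have := Fintype.ofFinite (MaximalSpectrum R)
  let T : MaximalSpectrum R → Submodule R V := fun i => Submodule.torsionBySet R V (i.asIdeal : Set R)
  have hT : ∀ i v, v ∈ T i ↔ ∀ z ∈ i.asIdeal, z • v = 0 := by
    intro i v
    show v ∈ Submodule.torsionBySet R V (i.asIdeal : Set R) ↔ _
    rw [Submodule.mem_torsionBySet_iff]
    exact ⟨fun h z hz => h ⟨z, hz⟩, fun h z => h z z.2⟩
  have hpair : ((Finset.univ : Finset (MaximalSpectrum R)) : Set (MaximalSpectrum R)).Pairwise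
      fun i j => i.asIdeal ⊔ j.asIdeal = ⊤ := fun i _ j _ hij =>
    i.isMaximal.coprime_of_ne j.isMaximal fun h => hij (MaximalSpectrum.ext h)
  have hinf : (⨅ i ∈ (Finset.univ : Finset (MaximalSpectrum R)), i.asIdeal) = ⊥ := by
    have h1 := IsArtinianRing.jacobson_eq_radical (⊥ : Ideal R)
    have h2 : (⊥ : Ideal R).radical = ⊥ := nilradical_eq_zero R
    rw [h2] at h1
    refine le_antisymm ?_ bot_le
    calc _ ≤ (⊥ : Ideal R).jacobson := by
          refine le_sInf fun J hJ => ?_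
          exact (iInf₂_le (⟨J, hJ.2⟩ : MaximalSpectrum R) (Finset.mem_univ _))
      _ = ⊥ := h1
  have hint := Submodule.torsionBySet_isInternal (M := V) hpair (by
    rw [hinf]
    intro v z
    have h1 : (z : R) = 0 := z.2
    rw [h1, zero_smul])
  have hind := hint.submodule_iSupIndep
  have hsup := hint.submodule_iSup_eq_top
  -- the blocks
  let ι : Type := {i : MaximalSpectrum R // T i ≠ ⊥}
  let W : ι → Submodule (ZMod p) V := fun i => (T i.1).restrictScalars (ZMod p)
  have hW : ∀ (i : ι) v, v ∈ W i ↔ v ∈ T i.1 := fun i v => Iff.rfl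
  have hWind : iSupIndep W := by
    rw [iSupIndep_def]
    intro i
    rw [Submodule.disjoint_def]
    intro v hv hv'
    have h1 := (iSupIndep_def.1 hind) ⟨i.1, Finset.mem_univ _⟩
    rw [Submodule.disjoint_def] at h1
    refine h1 v hv ?_
    have h2 : (⨆ j, ⨆ (_ : j ≠ i), W j) ≤ (⨆ j, ⨆ (_ : j ≠ (⟨i.1, Finset.mem_univ _⟩ :
        ↥(Finset.univ : Finset (MaximalSpectrum R)))), Submodule.torsionBySet R V (j.1.asIdeal : Set R)).restrictScalars
          (ZMod p) := by
      refine iSup₂_le fun j hj => ?_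
      intro w hw
      rw [Submodule.restrictScalars_mem]
      exact Submodule.mem_iSup_of_mem ⟨j.1, Finset.mem_univ _⟩ (Submodule.mem_iSup_of_mem (fun h => hj (Subtype.ext
        (congrArg (fun x : ↥(Finset.univ : Finset (MaximalSpectrum R)) => x.1) h))) hw)
    exact h2 hv'
  have hWsup : iSup W = ⊤ := by
    rw [eq_top_iff]
    intro v _
    have h1 : v ∈ (⨆ i : ↥(Finset.univ : Finset (MaximalSpectrum R)),
        Submodule.torsionBySet R V (i.1.asIdeal : Set R)) := by
      rw [hsup]; exact Submodule.mem_top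
    refine Submodule.iSup_induction _ (motive := fun v => v ∈ iSup W) h1 (fun i x hx => ?_) (Submodule.zero_mem _)
      fun x y hx hy => Submodule.add_mem _ hx hy
    by_cases hb : T i.1 = ⊥
    · have h2 : x ∈ T i.1 := hx
      rw [hb] at h2
      rw [(Submodule.mem_bot _).1 h2]
      exact Submodule.zero_mem _
    · exact Submodule.mem_iSup_of_mem (⟨i.1, hb⟩ : ι) hx
  have hWne : ∀ i, W i ≠ ⊥ := by
    intro i h
    apply i.2
    rw [eq_bot_iff]
    intro v hv
    have h1 : v ∈ W i := hv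
    rw [h] at h1
    exact h1
  have hperm : ∀ g ∈ X, ∀ i, ∃ j, ∀ v, v ∈ W i ↔ g v ∈ W j := by
    intro g hg i
    obtain ⟨σ, hσ⟩ := hσ g hg
    let J : MaximalSpectrum R := ⟨Ideal.comap σ.symm i.1.asIdeal, by
      have := i.1.isMaximal
      exact Ideal.comap_isMaximal_of_equiv σ.symm⟩
    have hJ : ∀ v, v ∈ T i.1 ↔ g v ∈ T J := by
      intro v
      rw [hT, hT]
      constructor
      · intro h z hz
        have h1 : σ.symm z ∈ i.1.asIdeal := hz
        have h2 := hσ (σ.symm z) v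
        rw [h _ h1, map_zero, RingEquiv.apply_symm_apply] at h2
        exact h2.symm
      · intro h z hz
        have h1 : σ z ∈ J.asIdeal := by
          show σ.symm (σ z) ∈ i.1.asIdeal
          rw [RingEquiv.symm_apply_apply]
          exact hz
        have h2 := h _ h1
        rw [← hσ] at h2
        exact (map_eq_zero_iff g g.injective).1 h2
    refine ⟨⟨J, fun h => i.2 ?_⟩, hJ⟩
    rw [eq_bot_iff]
    intro v hv
    have h1 := (hJ v).1 hv
    rw [h] at h1
    rw [Submodule.mem_bot] at h1 ⊢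
    exact (map_eq_zero_iff g g.injective).1 h1
  have hfι : Finite ι := Subtype.finite
  have hsub := hX.prim ι W hWind hWsup hWne hperm
  have hne : Nonempty ι := by
    by_contra h
    rw [not_nonempty_iff] at h
    rw [iSup_of_empty] at hWsup
    have h1 : v0 ∈ (⊤ : Submodule (ZMod p) V) := Submodule.mem_top
    rw [← hWsup] at h1
    exact hv0 ((Submodule.mem_bot _).1 h1)
  obtain ⟨i⟩ := hne
  have hi : W i = ⊤ := by
    rw [← hWsup]
    refine le_antisymm (le_iSup W i) (iSup_le fun j => ?_)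
    rw [hsub.elim j i]
  have hbot : i.1.asIdeal = ⊥ := by
    rw [eq_bot_iff]
    intro z hz
    refine hf z fun v => ?_
    have h1 : v ∈ W i := by rw [hi]; exact Submodule.mem_top
    exact (hT _ _).1 h1 z hz
  by_contra hnf
  obtain ⟨I, h1, h2⟩ := Ring.not_isField_iff_exists_ideal_bot_lt_and_lt_top.1 hnf
  have h3 := i.1.isMaximal
  rw [hbot] at h3
  exact h2.ne (h3.out.2 I h1)

end Ring

section Main

variable {p : ℕ} [Fact p.Prime] {V : Type} [AddCommGroup V] [Module (ZMod p) V]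

/-- the algebra generated by a group of linear maps -/
noncomputable def alg (A : Subgroup (V ≃ₗ[ZMod p] V)) : Subalgebra (ZMod p) (Module.End (ZMod p) V) :=
  Algebra.adjoin (ZMod p) ((fun a : V ≃ₗ[ZMod p] V => (a : V →ₗ[ZMod p] V)) '' (A : Set (V ≃ₗ[ZMod p] V)))

theorem mem_alg {A : Subgroup (V ≃ₗ[ZMod p] V)} {a : V ≃ₗ[ZMod p] V} (ha : a ∈ A) :
    (a : V →ₗ[ZMod p] V) ∈ alg A := Algebra.subset_adjoin ⟨a, ha, rfl⟩

theorem comm_of {A : Subgroup (V ≃ₗ[ZMod p] V)} {f : Module.End (ZMod p) V}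
    (hf : ∀ a ∈ A, f * (a : V →ₗ[ZMod p] V) = (a : V →ₗ[ZMod p] V) * f) {z : Module.End (ZMod p) V} (hz : z ∈ alg A) :
    f * z = z * f := by
  have h1 : alg A ≤ Subalgebra.centralizer (ZMod p) ({f} : Set (Module.End (ZMod p) V)) := by
    refine Algebra.adjoin_le ?_
    rintro _ ⟨a, ha, rfl⟩
    rw [SetLike.mem_coe, Subalgebra.mem_centralizer_iff]
    intro g hg
    rw [Set.mem_singleton_iff] at hg
    subst hg
    exact hf a ha
  exact (Subalgebra.mem_centralizer_iff _).1 (h1 hz) f rfl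

theorem conj_alg {A : Subgroup (V ≃ₗ[ZMod p] V)} (g : V ≃ₗ[ZMod p] V) (hg : ∀ y ∈ A, g * y * g⁻¹ ∈ A)
    (hg' : ∀ y ∈ A, g⁻¹ * y * g ∈ A) :
    (alg A).map (g.conjAlgEquiv (ZMod p) : Module.End (ZMod p) V →ₐ[ZMod p] Module.End (ZMod p) V) = alg A := by
  have h1 : ∀ a : V ≃ₗ[ZMod p] V, g.conjAlgEquiv (ZMod p) (a : V →ₗ[ZMod p] V) =
      ((g * a * g⁻¹ : V ≃ₗ[ZMod p] V) : V →ₗ[ZMod p] V) := by
    intro a
    ext v
    rfl
  unfold alg
  rw [AlgHom.map_adjoin]
  congr 1
  ext z
  constructor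
  · rintro ⟨_, ⟨a, ha, rfl⟩, rfl⟩
    exact ⟨g * a * g⁻¹, hg a ha, (h1 a).symm⟩
  · rintro ⟨a, ha, rfl⟩
    refine ⟨_, ⟨g⁻¹ * a * g, hg' a ha, rfl⟩, ?_⟩
    refine (h1 _).trans ?_
    congr 1
    group

/-- **D2: abelian normal subgroups are cyclic and semiregular.** -/
theorem abelian_normal [Finite V] (X : Subgroup (V ≃ₗ[ZMod p] V)) (hX : PrimLin X)
    (A : Subgroup (V ≃ₗ[ZMod p] V)) (_hAX : A ≤ X) (hA : ∀ x ∈ X, ∀ y ∈ A, x * y * x⁻¹ ∈ A)
    (hab : ∀ x ∈ A, ∀ y ∈ A, x * y = y * x) :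
    IsCyclic A ∧ (∀ a ∈ A, a ≠ 1 → ∀ v : V, a v = v → v = 0) ∧
    -- the algebra generated by `A` is a field
    ∃ (E : Subalgebra (ZMod p) (Module.End (ZMod p) V)), IsField E ∧
      (∀ a ∈ A, ((a : V ≃ₗ[ZMod p] V) : V →ₗ[ZMod p] V) ∈ E) ∧
      ∀ x : V ≃ₗ[ZMod p] V, (∀ a ∈ A, x * a = a * x) → ∀ z ∈ E, (x : V →ₗ[ZMod p] V) * z = z * (x : V →ₗ[ZMod p] V) := by
  classical
  have hcomm : ∀ x : V ≃ₗ[ZMod p] V, (∀ a ∈ A, x * a = a * x) → ∀ z ∈ alg A,
      (x : V →ₗ[ZMod p] V) * z = z * (x : V →ₗ[ZMod p] V) := by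
    intro x hx z hz
    refine comm_of (fun a ha => ?_) hz
    have h1 := congrArg (fun y : V ≃ₗ[ZMod p] V => (y : V →ₗ[ZMod p] V)) (hx a ha)
    exact h1
  have hEc : ∀ x y : alg A, x * y = y * x := by
    rintro ⟨x, hx⟩ ⟨y, hy⟩
    apply Subtype.ext
    show x * y = y * x
    refine comm_of (fun a ha => ?_) hy
    exact (hcomm a (fun b hb => hab a ha b hb) x hx).symm
  have hfinEnd : Finite (Module.End (ZMod p) V) := DFunLike.finite _
  have hfinE : Finite (alg A) := Finite.of_injective _ Subtype.val_injective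
  have hfield : IsField (alg A) := by
    let _ : CommRing (alg A) := { (inferInstance : Ring (alg A)) with mul_comm := hEc }
    refine isField_of_prim (R := alg A) (V := V) (p := p) (fun r hr => ?_) X hX fun g hg => ?_
    · apply Subtype.ext
      apply LinearMap.ext
      intro v
      exact hr v
    · have h1 := conj_alg g (A := A) (fun y hy => hA g hg y hy) (fun y hy => by
        have := hA g⁻¹ (X.inv_mem hg) y hy
        rwa [inv_inv] at this)
      let σ : alg A ≃ₐ[ZMod p] alg A := ((g.conjAlgEquiv (ZMod p)).subalgebraMap (alg A)).trans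
        (Subalgebra.equivOfEq _ _ h1)
      refine ⟨σ.toRingEquiv, fun r v => ?_⟩
      show g ((r : Module.End (ZMod p) V) v) = g ((r : Module.End (ZMod p) V) (g.symm (g v)))
      rw [LinearEquiv.symm_apply_apply]
  refine ⟨?_, ?_, alg A, hfield, fun a ha => mem_alg ha, hcomm⟩
  · let _ : Field (alg A) := hfield.toField
    let f : A →* alg A :=
      { toFun := fun a => ⟨((a : V ≃ₗ[ZMod p] V) : V →ₗ[ZMod p] V), mem_alg a.2⟩
        map_one' := Subtype.ext rfl
        map_mul' := fun a b => Subtype.ext rfl }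
    have : Finite (V ≃ₗ[ZMod p] V) := DFunLike.finite _
    refine isCyclic_of_injective_ringHom (f :) fun a b h => Subtype.ext ?_
    exact LinearEquiv.toLinearMap_injective (congrArg Subtype.val h)
  · intro a ha ha1 v hv
    let z : alg A := ⟨(a : V →ₗ[ZMod p] V), mem_alg ha⟩ - 1
    have hz : z ≠ 0 := by
      intro h
      apply ha1
      have h1 : (⟨(a : V →ₗ[ZMod p] V), mem_alg ha⟩ : alg A) = 1 := sub_eq_zero.1 h
      exact LinearEquiv.toLinearMap_injective (congrArg Subtype.val h1)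
    obtain ⟨y, hy⟩ := hfield.mul_inv_cancel hz
    have h1 : (y * z : alg A) = 1 := by rw [hEc, hy]
    have h2 : ((y * z : alg A) : Module.End (ZMod p) V) v = v := by rw [h1]; rfl
    rw [← h2]
    show (y : Module.End (ZMod p) V) ((z : Module.End (ZMod p) V) v) = 0
    have h3 : (z : Module.End (ZMod p) V) v = 0 := by
      show (a : V →ₗ[ZMod p] V) v - v = 0
      rw [sub_eq_zero]
      exact hv
    rw [h3, map_zero]

end Main

end Cfsg.Agent.H315.B57
end

-- part: H680/B57/ExStr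
section
/-!
# S5717, D3: existence of the structure `Str` (helper680, task 4665)
-/

set_option autoImplicit false

namespace Cfsg.Agent.H680.B57.ExStr

open Subgroup Cfsg Cfsg.Agent.SignalizersComponents.Components Cfsg.Agent.Lib.Cores

universe u

section abs

variable {G : Type u} [Group G]

/-- the components of `G` in `C` -/
abbrev Cmp (C : Subgroup G) : Type u := {K : Subgroup G // IsComponent K ∧ K ≤ C}

theorem exists_max [Finite G] : ∃ A : Subgroup G, A.Normal ∧ (∀ x ∈ A, ∀ y ∈ A, x * y = y * x) ∧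
    ∀ B : Subgroup G, B.Normal → (∀ x ∈ B, ∀ y ∈ B, x * y = y * x) → A ≤ B → B ≤ A := by
  obtain ⟨A, hA⟩ := (Set.toFinite {B : Subgroup G | B.Normal ∧ ∀ x ∈ B, ∀ y ∈ B, x * y = y * x}).exists_maximal
    ⟨⊥, inferInstance, fun x hx y hy => by rw [Subgroup.mem_bot.1 hx, Subgroup.mem_bot.1 hy]⟩
  exact ⟨A, hA.prop.1, hA.prop.2, fun B h1 h2 h3 => hA.2 (⟨h1, h2⟩ : B.Normal ∧ _) h3⟩

/-- abelian normal subgroups centralising `A` are in `A` -/
theorem le_of_cent {A : Subgroup G} (hAn : A.Normal) (hA : ∀ x ∈ A, ∀ y ∈ A, x * y = y * x)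
    (hmax : ∀ B : Subgroup G, B.Normal → (∀ x ∈ B, ∀ y ∈ B, x * y = y * x) → A ≤ B → B ≤ A)
    {B : Subgroup G} (hBn : B.Normal) (hB : ∀ x ∈ B, ∀ y ∈ B, x * y = y * x)
    (hc : B ≤ centralizer (A : Set G)) : B ≤ A := by
  refine le_sup_right.trans (hmax (A ⊔ B) (Subgroup.sup_normal A B) ?_ le_sup_left)
  intro x hx y hy
  obtain ⟨a, ha, b, hb, rfl⟩ := Subgroup.mem_sup_of_normal_right.1 hx
  obtain ⟨a', ha', b', hb', rfl⟩ := Subgroup.mem_sup_of_normal_right.1 hy
  have h1 : b * a' = a' * b := (mem_centralizer_iff.1 (hc hb) a' ha').symm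
  have h2 : b' * a = a * b' := (mem_centralizer_iff.1 (hc hb') a ha).symm
  calc a * b * (a' * b') = a * (b * a') * b' := by group
    _ = (a * a') * (b * b') := by rw [h1]; group
    _ = (a' * a) * (b' * b) := by rw [hA a ha a' ha', hB b hb b' hb']
    _ = a' * (a * b') * b := by group
    _ = a' * b' * (a * b) := by rw [← h2]; group

/-- preimage of the centre of `F / A` -/
def RR (A F : Subgroup G) [A.Normal] : Subgroup G :=
  F ⊓ (centralizer ((F.map (QuotientGroup.mk' A) : Subgroup (G ⧸ A)) : Set (G ⧸ A))).comap (QuotientGroup.mk' A)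

theorem mem_RR {A F : Subgroup G} [A.Normal] {x : G} :
    x ∈ RR A F ↔ x ∈ F ∧ ∀ y ∈ F, x * y * x⁻¹ * y⁻¹ ∈ A := by
  rw [RR, mem_inf, mem_comap, mem_centralizer_iff]
  refine and_congr_right fun _ => ⟨fun h y hy => ?_, fun h z hz => ?_⟩
  · have h1 := h (QuotientGroup.mk' A y) (mem_map_of_mem _ hy)
    rw [← QuotientGroup.eq_one_iff]
    rw [QuotientGroup.mk_mul, QuotientGroup.mk_mul, QuotientGroup.mk_mul, QuotientGroup.mk_inv, QuotientGroup.mk_inv]
    rw [QuotientGroup.mk'_apply, QuotientGroup.mk'_apply] at h1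
    rw [← h1]
    group
  · obtain ⟨y, hy, rfl⟩ := hz
    have h1 := h y hy
    rw [← QuotientGroup.eq_one_iff] at h1
    rw [QuotientGroup.mk_mul, QuotientGroup.mk_mul, QuotientGroup.mk_mul, QuotientGroup.mk_inv,
      QuotientGroup.mk_inv] at h1
    rw [QuotientGroup.mk'_apply, QuotientGroup.mk'_apply]
    have h2 := mul_inv_eq_one.1 h1
    have h3 := mul_inv_eq_iff_eq_mul.1 h2
    exact h3.symm

theorem RR_normal {A F : Subgroup G} [A.Normal] [F.Normal] : (RR A F).Normal := by
  have h1 : (F.map (QuotientGroup.mk' A)).Normal := Subgroup.Normal.map inferInstance _ (QuotientGroup.mk'_surjective A)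
  unfold RR
  infer_instance

theorem conj_mem_cmp {C : Subgroup G} [C.Normal] {K : Subgroup G} (hK : IsComponent K) (hKC : K ≤ C) (g : G) :
    IsComponent (K.map (MulAut.conj g).toMonoidHom) ∧ K.map (MulAut.conj g).toMonoidHom ≤ C := by
  refine ⟨isComponent_conj g hK, ?_⟩
  rintro _ ⟨x, hx, rfl⟩
  exact (inferInstance : C.Normal).conj_mem x (hKC hx) g

/-- the join of the components in `C` -/
def LL (C : Subgroup G) : Subgroup G := ⨆ K : Cmp C, K.1

theorem le_LL {C : Subgroup G} (K : Cmp C) : K.1 ≤ LL C := le_iSup (fun K : Cmp C => K.1) K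

theorem LL_normal {C : Subgroup G} [C.Normal] : (LL C).Normal := by
  constructor
  intro x hx g
  have h1 : (LL C).map (MulAut.conj g).toMonoidHom ≤ LL C := by
    rw [LL, Subgroup.map_iSup]
    refine iSup_le fun K => ?_
    obtain ⟨h2, h3⟩ := conj_mem_cmp K.2.1 K.2.2 g
    exact le_LL ⟨_, h2, h3⟩
  exact h1 (mem_map_of_mem _ hx)

theorem cent [Finite G] {A : Subgroup G} (hAn : A.Normal) (hA : ∀ x ∈ A, ∀ y ∈ A, x * y = y * x)
    (hmax : ∀ B : Subgroup G, B.Normal → (∀ x ∈ B, ∀ y ∈ B, x * y = y * x) → A ≤ B → B ≤ A) {C F : Subgroup G}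
    (hC : C = centralizer (A : Set G)) (hF : F = C ⊓ fittingSubgroup G) {x : G} (hx : x ∈ C)
    (hxR : ∀ r ∈ RR A F, x * r = r * x) (hxE : ∀ K : Cmp C, ∀ e ∈ K.1, x * e = e * x) : x ∈ A := by
  have hCn : C.Normal := by rw [hC]; infer_instance
  have hFn : F.Normal := by rw [hF]; infer_instance
  have hRn : (RR A F).Normal := RR_normal
  have hLn : (LL C).Normal := LL_normal
  have hAC : A ≤ C := by
    rw [hC]
    intro a ha
    rw [mem_centralizer_iff]
    intro b hb
    exact hA b hb a ha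
  have hcommA : ∀ c ∈ C, ∀ a ∈ A, c * a = a * c := by
    intro c hc a ha
    rw [hC] at hc
    exact (mem_centralizer_iff.1 hc a ha).symm
  have hFnil : Group.IsNilpotent F := by
    have h1 : F ≤ fittingSubgroup G := by rw [hF]; exact inf_le_right
    exact (le_fittingSubgroup_iff hFn).1 h1
  set D : Subgroup G := C ⊓ centralizer (RR A F : Set G) ⊓ centralizer (LL C : Set G) with hD
  have hDn : D.Normal := by rw [hD]; infer_instance
  have hDC : D ≤ C := inf_le_left.trans inf_le_left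
  have hDR : D ≤ centralizer (RR A F : Set G) := inf_le_left.trans inf_le_right
  have hDL : D ≤ centralizer (LL C : Set G) := inf_le_right
  have hRC : RR A F ≤ C := fun y hy => by
    have h1 := (mem_RR.1 hy).1
    rw [hF] at h1
    exact h1.1
  -- `x ∈ D`
  have hxD : x ∈ D := by
    refine ⟨⟨hx, ?_⟩, ?_⟩
    · exact mem_centralizer_iff.2 fun r hr => (hxR r hr).symm
    · have h1 : LL C ≤ centralizer ({x} : Set G) := by
        refine iSup_le fun K => ?_
        intro e he
        rw [mem_centralizer_singleton_iff]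
        exact (hxE K e he).symm
      refine mem_centralizer_iff.2 fun e he => ?_
      exact mem_centralizer_singleton_iff.1 (h1 he)
  -- `D ∩ R ≤ A`
  have hDRA : D ⊓ RR A F ≤ A := by
    have h1 : RR A F ⊓ centralizer (RR A F : Set G) ≤ A := by
      refine le_of_cent hAn hA hmax inferInstance ?_ ?_
      · intro a ha b hb
        exact mem_centralizer_iff.1 hb.2 a ha.1
      · exact inf_le_left.trans (hRC.trans hC.le)
    exact (le_inf inf_le_right (inf_le_left.trans hDR)).trans h1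
  -- `D ∩ F ≤ A`
  have hDFA : D ⊓ F ≤ A := by
    by_contra hn
    have hAF : A ≤ F := by
      rw [hF]
      refine le_inf hAC ?_
      refine le_fittingSubgroup hAn ?_
      let _ : CommGroup A := { (inferInstance : Group A) with mul_comm := fun a b => Subtype.ext (hA a a.2 b b.2) }
      exact CommGroup.isNilpotent
    have : Group.IsNilpotent F := hFnil
    obtain ⟨z, hz, hzA, hzc⟩ := Cfsg.Agent.Lib.NormalAbelian.exists_mem_not_mem_central_mod (G := F)
      (A := A.subgroupOf F) (C := (D ⊓ F).subgroupOf F) (inferInstance) (inferInstance) (fun h => hn (by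
        intro y hy
        exact h (x := ⟨y, hy.2⟩) (mem_subgroupOf.2 hy)))
    apply hzA
    rw [mem_subgroupOf]
    apply hDRA
    refine ⟨(mem_subgroupOf.1 hz).1, mem_RR.2 ⟨z.2, fun y hy => ?_⟩⟩
    exact mem_subgroupOf.1 (hzc ⟨y, hy⟩)
  -- the layer of `D`
  have hlay : layer D = ⊥ := by
    rw [eq_bot_iff, layer_le_iff]
    intro K hK
    exfalso
    have h1 : IsComponent (K.map D.subtype) := isComponent_map_subtype hDn.isSubnormal hK
    have h2 : K.map D.subtype ≤ D := map_subtype_le K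
    have h3 : K.map D.subtype ≤ LL C := le_LL ⟨_, h1, h2.trans hDC⟩
    apply quasisimple_not_isMulCommutative hK.2
    refine ⟨⟨fun a b => ?_⟩⟩
    apply Subtype.ext
    apply Subtype.ext
    have h4 : ((a : D) : G) ∈ K.map D.subtype := mem_map_of_mem _ a.2
    have h5 : ((b : D) : G) ∈ K.map D.subtype := mem_map_of_mem _ b.2
    exact mem_centralizer_iff.1 (hDL (h2 h5)) _ (h3 h4)
  have hfit : (fittingSubgroup D).map D.subtype ≤ A := by
    rw [map_subtype_fittingSubgroup hDn]
    refine le_trans (le_inf inf_le_left ?_) hDFA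
    rw [hF]
    exact inf_le_inf_right _ hDC
  have hstar : generalizedFittingSubgroup D = fittingSubgroup D := by
    rw [Cfsg.Agent.Lib.GenFitting.genFitting_def, hlay, bot_sup_eq]
  have htop : (⊤ : Subgroup D) ≤ generalizedFittingSubgroup D := by
    refine le_trans ?_ (Cfsg.Agent.Lib.GenFitting.centralizer_genFitting_le (G := D))
    intro d _
    rw [mem_centralizer_iff]
    intro f hf
    have h1 : (f : G) ∈ A := by
      apply hfit
      rw [hstar] at hf
      exact mem_map_of_mem D.subtype hf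
    apply Subtype.ext
    exact (hcommA d (hDC d.2) f h1).symm
  apply hfit
  rw [hstar] at htop
  exact ⟨⟨x, hxD⟩, htop (mem_top _), rfl⟩

end abs

theorem enab {K : Type u} [Group K] (hq : IsQuasisimple K) : ∃ x y : K ⧸ center K, x * y ≠ y * x := by
  by_contra hn
  push Not at hn
  apply quasisimple_center_ne_top hq
  rw [eq_top_iff, ← hq.1.commutator_eq_top, commutator_def, commutator_le]
  intro x _ y _
  rw [← QuotientGroup.eq_one_iff]
  have h1 := hn (x : K ⧸ center K) (y : K ⧸ center K)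
  rw [← QuotientGroup.mk_mul, ← QuotientGroup.mk_mul] at h1
  rw [commutatorElement_def, mul_assoc, ← mul_inv_rev, QuotientGroup.mk_mul, QuotientGroup.mk_inv, h1, mul_inv_cancel]

theorem norm_map {H : Type u} [Group H] {X : Subgroup H} {R : Subgroup X} (hR : R.Normal) :
    ∀ x ∈ X, ∀ y ∈ R.map X.subtype, x * y * x⁻¹ ∈ R.map X.subtype := by
  rintro x hx _ ⟨y, hy, rfl⟩
  exact ⟨(⟨x, hx⟩ * y * ⟨x, hx⟩⁻¹ :), hR.conj_mem y hy _, rfl⟩

theorem comm_map {H : Type u} [Group H] {X : Subgroup H} {R A : Subgroup X}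
    (h : ∀ x ∈ R, ∀ y ∈ R, x * y * x⁻¹ * y⁻¹ ∈ A) :
    ∀ x ∈ R.map X.subtype, ∀ y ∈ R.map X.subtype, x * y * x⁻¹ * y⁻¹ ∈ A.map X.subtype := by
  rintro _ ⟨x, hx, rfl⟩ _ ⟨y, hy, rfl⟩
  exact ⟨x * y * x⁻¹ * y⁻¹, h x hx y hy, rfl⟩

theorem commute_map {H : Type u} [Group H] {X : Subgroup H} {R A : Subgroup X}
    (h : ∀ x ∈ R, ∀ y ∈ A, x * y = y * x) :
    ∀ x ∈ R.map X.subtype, ∀ y ∈ A.map X.subtype, x * y = y * x := by
  rintro _ ⟨x, hx, rfl⟩ _ ⟨y, hy, rfl⟩
  exact congrArg Subtype.val (h x hx y hy)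

theorem cent_map {H : Type u} [Group H] {X : Subgroup H} {R A : Subgroup X}
    (h : R ⊓ centralizer (R : Set X) ≤ A) :
    ∀ x ∈ R.map X.subtype, (∀ y ∈ R.map X.subtype, x * y = y * x) → x ∈ A.map X.subtype := by
  rintro _ ⟨x, hx, rfl⟩ h'
  refine ⟨x, h ⟨hx, mem_centralizer_iff.2 fun y hy => ?_⟩, rfl⟩
  exact Subtype.ext (h' y ⟨y, hy, rfl⟩).symm

theorem comm_of_map {H : Type u} [Group H] {X : Subgroup H} {R : Subgroup X} {x : X}
    (h : ∀ y ∈ R.map X.subtype, (x : H) * y = y * x) : ∀ y ∈ R, x * y = y * x :=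
  fun y hy => Subtype.ext (h y ⟨y, hy, rfl⟩)

open Cfsg.Agent.H830.B57 in
set_option maxHeartbeats 1000000 in
/-- (D3) existence of the structure of a primitive linear group -/
theorem exists_str {p : ℕ} [Fact p.Prime] {V : Type} [AddCommGroup V] [Module (ZMod p) V] [Finite V]
    (X : Subgroup (V ≃ₗ[ZMod p] V)) (hX : PrimLin X) :
    ∃ (A C R : Subgroup (V ≃ₗ[ZMod p] V)) (t : ℕ) (E : Fin t → Subgroup (V ≃ₗ[ZMod p] V)),
      Str X A C R t E := by
  have : Finite (V ≃ₗ[ZMod p] V) := DFunLike.finite _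
  obtain ⟨A, hAn, hA, hmax⟩ := exists_max (G := X)
  set C : Subgroup X := centralizer (A : Set X) with hC
  set F : Subgroup X := C ⊓ fittingSubgroup X with hF
  have hCn : C.Normal := by rw [hC]; infer_instance
  have hFn : F.Normal := by rw [hF]; infer_instance
  have hRn : (RR A F).Normal := RR_normal
  have hAC : A ≤ C := by
    rw [hC]
    intro a ha
    rw [mem_centralizer_iff]
    intro b hb
    exact hA b hb a ha
  have hAF : A ≤ F := by
    rw [hF]
    refine le_inf hAC ?_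
    refine le_fittingSubgroup hAn ?_
    let _ : CommGroup A := { (inferInstance : Group A) with mul_comm := fun a b => Subtype.ext (hA a a.2 b b.2) }
    exact CommGroup.isNilpotent
  have hRC : RR A F ≤ C := fun y hy => by
    have h1 := (mem_RR.1 hy).1
    rw [hF] at h1
    exact h1.1
  have hRF : RR A F ≤ F := fun y hy => (mem_RR.1 hy).1
  have hFnil : Group.IsNilpotent F := by
    have h1 : F ≤ fittingSubgroup X := by rw [hF]; exact inf_le_right
    exact (le_fittingSubgroup_iff hFn).1 h1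
  have : Finite (Cmp C) := inferInstance
  let e : Cmp C ≃ Fin (Nat.card (Cmp C)) := Finite.equivFin _
  let K : Fin (Nat.card (Cmp C)) → Subgroup X := fun i => (e.symm i).1
  have hKc : ∀ i, IsComponent (K i) := fun i => (e.symm i).2.1
  have hKC : ∀ i, K i ≤ C := fun i => (e.symm i).2.2
  have hq : ∀ i, IsQuasisimple ((K i).map X.subtype) := fun i =>
    isQuasisimple_of_mulEquiv ((K i).equivMapOfInjective X.subtype X.subtype_injective) (hKc i).2
  refine ⟨A.map X.subtype, C.map X.subtype, (RR A F).map X.subtype, Nat.card (Cmp C),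
    fun i => (K i).map X.subtype, ?_⟩
  constructor
  case AR =>
    refine map_mono fun a ha => mem_RR.2 ⟨hAF ha, fun y hy => ?_⟩
    have h1 : a * y * a⁻¹ * y⁻¹ = a * (y * a⁻¹ * y⁻¹) := by group
    rw [h1]
    exact A.mul_mem ha (hAn.conj_mem _ (A.inv_mem ha) y)
  case RC => exact map_mono hRC
  case CX => exact map_subtype_le C
  case Acomm =>
    rintro _ ⟨x, hx, rfl⟩ _ ⟨y, hy, rfl⟩
    exact congrArg Subtype.val (hA x hx y hy)
  case Anorm =>
    rintro x hx _ ⟨y, hy, rfl⟩
    exact ⟨(⟨x, hx⟩ * y * ⟨x, hx⟩⁻¹ :), (by exact hAn.conj_mem y hy _), rfl⟩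
  case Ceq =>
    intro x
    constructor
    · rintro ⟨y, hy, rfl⟩
      refine ⟨y.2, ?_⟩
      rintro _ ⟨a, ha, rfl⟩
      exact congrArg Subtype.val (mem_centralizer_iff.1 hy a ha).symm
    · rintro ⟨hx, h⟩
      refine ⟨⟨x, hx⟩, ?_, rfl⟩
      refine mem_centralizer_iff.2 fun a ha => ?_
      exact Subtype.ext (h a ⟨a, ha, rfl⟩).symm
  case Rnorm => exact norm_map hRn
  case Rcomm => exact comm_map fun x hx y hy => (mem_RR.1 hx).2 y (hRF hy)
  case Rcent =>
    apply cent_map
    refine le_of_cent hAn hA hmax inferInstance ?_ ?_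
    · intro a ha b hb
      exact mem_centralizer_iff.1 hb.2 a ha.1
    · exact inf_le_left.trans (hRC.trans hC.le)
  case EC => exact fun i => map_mono (hKC i)
  case Einj =>
    intro i j hij
    have h1 : K i = K j := map_injective X.subtype_injective hij
    exact e.symm.injective (Subtype.ext h1)
  case Eperf => exact fun i => (hq i).1.commutator_eq_top
  case Esimp => exact fun i => (hq i).2
  case Enab => exact fun i => enab (hq i)
  case Ecomm =>
    rintro i j hij _ ⟨x, hx, rfl⟩ _ ⟨y, hy, rfl⟩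
    have h1 : K i ≠ K j := fun h => hij (e.symm.injective (Subtype.ext h))
    have h2 := component_le_centralizer_of_ne (hKc i) (hKc j) h1
    exact congrArg Subtype.val (mem_centralizer_iff.1 (h2 hx) y hy).symm
  case ER =>
    intro i
    have hsol : Group.IsSolvable F := inferInstance
    have h1 := component_commutator_solvable (hKc i) (H := F) (by rw [normalizer_eq_top]; exact le_top) hsol
    have h2 := commutator_eq_bot_iff_le_centralizer.1 h1
    exact commute_map fun x hx y hy => (mem_centralizer_iff.1 (h2 hx) y (hRF hy)).symm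
  case Eperm =>
    intro x hx i
    obtain ⟨h1, h2⟩ := conj_mem_cmp (hKc i) (hKC i) (⟨x, hx⟩ : X)
    refine ⟨e ⟨_, h1, h2⟩, fun y => ?_⟩
    have h3 : K (e ⟨_, h1, h2⟩) = (K i).map (MulAut.conj (⟨x, hx⟩ : X)).toMonoidHom := by
      change (e.symm (e ⟨_, h1, h2⟩)).1 = _
      rw [e.symm_apply_apply]
    change y ∈ (K i).map X.subtype ↔ x * y * x⁻¹ ∈ (K (e ⟨_, h1, h2⟩)).map X.subtype
    rw [h3]
    constructor
    · rintro ⟨z, hz, rfl⟩
      exact ⟨_, ⟨z, hz, rfl⟩, rfl⟩
    · rintro ⟨_, ⟨z, hz, rfl⟩, hw⟩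
      refine ⟨z, hz, ?_⟩
      have h4 : x * (z : V ≃ₗ[ZMod p] V) * x⁻¹ = x * y * x⁻¹ := hw
      exact mul_left_cancel (mul_right_cancel h4)
  case cent =>
    rintro _ ⟨x, hx, rfl⟩ hR hE
    refine ⟨x, ?_, rfl⟩
    refine cent hAn hA hmax hC hF hx (comm_of_map hR) fun L l hl => ?_
    apply Subtype.ext
    refine hE (e L) l ⟨l, ?_, rfl⟩
    change l ∈ (e.symm (e L)).1
    rw [e.symm_apply_apply]
    exact hl

end Cfsg.Agent.H680.B57.ExStr
end

-- part: H223/B57/BigSupport
section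
set_option autoImplicit false

open Subgroup

namespace Cfsg.Agent.H223.B57

open Cfsg.Agent.H830.B57
open scoped commutatorElement

section FV

variable {p : ℕ} [Fact p.Prime] {V : Type} [AddCommGroup V] [Module (ZMod p) V]

/-- the fixed space -/
def FV (x : V ≃ₗ[ZMod p] V) : Submodule (ZMod p) V where
  carrier := {v | x v = v}
  add_mem' := by
    intro a b ha hb
    simp only [Set.mem_ofPred_eq] at *
    rw [map_add, ha, hb]
  zero_mem' := by simp
  smul_mem' := by
    intro c v hv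
    simp only [Set.mem_ofPred_eq] at *
    rw [map_smul, hv]

theorem card_FV (x : V ≃ₗ[ZMod p] V) : Nat.card {v : V // x v = v} = Nat.card (FV x) := rfl

/-- `|A| |B| ≤ |V| |A ∩ B|` -/
theorem card_mul_le [Finite V] (A B : Submodule (ZMod p) V) :
    Nat.card A * Nat.card B ≤ Nat.card V * Nat.card (A ⊓ B : Submodule (ZMod p) V) := by
  have hp := (Fact.out : p.Prime)
  rw [Module.natCard_eq_pow_finrank (K := ZMod p) (V := A), Module.natCard_eq_pow_finrank (K := ZMod p) (V := B),
    Module.natCard_eq_pow_finrank (K := ZMod p) (V := V),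
    Module.natCard_eq_pow_finrank (K := ZMod p) (V := (A ⊓ B : Submodule (ZMod p) V)), ← pow_add, ← pow_add]
  apply Nat.pow_le_pow_right
  · rw [Nat.card_zmod]; exact hp.pos
  · have h1 := Submodule.finrank_sup_add_finrank_inf_eq A B
    have h2 := Submodule.finrank_le (A ⊔ B)
    omega

/-- the image of a submodule -/
def im (g : V ≃ₗ[ZMod p] V) (W : Submodule (ZMod p) V) : Submodule (ZMod p) V :=
  W.map (g : V →ₗ[ZMod p] V)

theorem mem_im {g : V ≃ₗ[ZMod p] V} {W : Submodule (ZMod p) V} {v : V} : v ∈ im g W ↔ g⁻¹ v ∈ W := by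
  unfold im
  rw [Submodule.mem_map]
  constructor
  · rintro ⟨w, hw, rfl⟩
    have : g⁻¹ (g w) = w := by
      rw [← LinearEquiv.mul_apply, inv_mul_cancel, LinearEquiv.coe_one, id]
    change g⁻¹ (g w) ∈ W
    rw [this]; exact hw
  · intro h
    refine ⟨_, h, ?_⟩
    change g (g⁻¹ v) = v
    rw [← LinearEquiv.mul_apply, mul_inv_cancel, LinearEquiv.coe_one, id]

theorem card_im (g : V ≃ₗ[ZMod p] V) (W : Submodule (ZMod p) V) : Nat.card (im g W) = Nat.card W := by
  unfold im
  exact Nat.card_congr (LinearEquiv.submoduleMap g W).symm.toEquiv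

/-- an element fixing `v` and `g⁻¹ v` gives a commutator fixing `v` -/
theorem comm_fix {x g : V ≃ₗ[ZMod p] V} {v : V} (h1 : x v = v) (h2 : x (g⁻¹ v) = g⁻¹ v) :
    (x * g * x⁻¹ * g⁻¹) v = v := by
  have h3 : x⁻¹ (g⁻¹ v) = g⁻¹ v := by
    have := congrArg (x⁻¹ : V ≃ₗ[ZMod p] V) h2
    rw [← LinearEquiv.mul_apply, inv_mul_cancel, LinearEquiv.coe_one, id] at this
    exact this.symm
  rw [LinearEquiv.mul_apply, LinearEquiv.mul_apply, LinearEquiv.mul_apply, h3, ← LinearEquiv.mul_apply g g⁻¹,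
    mul_inv_cancel, LinearEquiv.coe_one, id, h1]

theorem comm_fix' {g d : V ≃ₗ[ZMod p] V} {v : V} (h1 : d v = v) (h2 : d (g⁻¹ v) = g⁻¹ v) :
    (g * d * g⁻¹ * d⁻¹) v = v := by
  have h3 : d⁻¹ v = v := by
    have := congrArg (d⁻¹ : V ≃ₗ[ZMod p] V) h1
    rw [← LinearEquiv.mul_apply, inv_mul_cancel, LinearEquiv.coe_one, id] at this
    exact this.symm
  rw [LinearEquiv.mul_apply, LinearEquiv.mul_apply, LinearEquiv.mul_apply, h3, h2, ← LinearEquiv.mul_apply g g⁻¹,
    mul_inv_cancel, LinearEquiv.coe_one, id]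

/-- `|C_V(x)|² ≤ |V| |C_V([x,g])|` -/
theorem sq_le [Finite V] (x g : V ≃ₗ[ZMod p] V) :
    Nat.card (FV x) ^ 2 ≤ Nat.card V * Nat.card (FV (x * g * x⁻¹ * g⁻¹)) := by
  have h1 := card_mul_le (FV x) (im g (FV x))
  rw [card_im] at h1
  have h2 : Nat.card (FV x ⊓ im g (FV x) : Submodule (ZMod p) V) ≤ Nat.card (FV (x * g * x⁻¹ * g⁻¹)) := by
    have hle : (FV x ⊓ im g (FV x) : Submodule (ZMod p) V) ≤ FV (x * g * x⁻¹ * g⁻¹) := by
      intro v hv
      obtain ⟨ha, hb⟩ := Submodule.mem_inf.1 hv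
      rw [mem_im] at hb
      exact comm_fix ha hb
    exact Nat.card_le_card_of_injective (Submodule.inclusion hle) (Submodule.inclusion_injective hle)
  calc Nat.card (FV x) ^ 2 = Nat.card (FV x) * Nat.card (FV x) := sq _
    _ ≤ _ := h1
    _ ≤ _ := Nat.mul_le_mul_left _ h2

theorem card_FV_of_semireg [Finite V] {y : V ≃ₗ[ZMod p] V} (h : ∀ v : V, y v = v → v = 0) : Nat.card (FV y) = 1 := by
  rw [Nat.card_eq_one_iff_unique]
  refine ⟨⟨fun a b => ?_⟩, ⟨0⟩⟩
  ext
  rw [h _ a.2, h _ b.2]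

theorem card_le_card [Finite V] {A B : Submodule (ZMod p) V} (h : A ≤ B) : Nat.card A ≤ Nat.card B :=
  Nat.card_le_card_of_injective (Submodule.inclusion h) (Submodule.inclusion_injective h)

end FV

/-! ### the group theoretic part -/

/-- In a quasisimple group a non-central normal subgroup is everything. -/
theorem quasi_normal {E : Type*} [Group E] (hperf : commutator E = ⊤) (hsimp : IsSimpleGroup (E ⧸ center E))
    (K : Subgroup E) [K.Normal] (hK : ¬ K ≤ center E) : K = ⊤ := by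
  have h1 : K.map (QuotientGroup.mk' (center E)) = ⊤ := by
    have : (K.map (QuotientGroup.mk' (center E))).Normal :=
      Subgroup.Normal.map inferInstance _ (QuotientGroup.mk'_surjective _)
    rcases hsimp.eq_bot_or_eq_top_of_normal (K.map (QuotientGroup.mk' (center E))) this with h | h
    · exfalso
      apply hK
      intro k hk
      have : QuotientGroup.mk' (center E) k ∈ K.map (QuotientGroup.mk' (center E)) := Subgroup.mem_map_of_mem _ hk
      rw [h, Subgroup.mem_bot] at this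
      exact (QuotientGroup.eq_one_iff k).1 this
    · exact h
  have h2 : ∀ e : E, ∃ k ∈ K, ∃ z ∈ center E, e = k * z := by
    intro e
    have : QuotientGroup.mk' (center E) e ∈ K.map (QuotientGroup.mk' (center E)) := by rw [h1]; trivial
    obtain ⟨k, hk, hke⟩ := this
    refine ⟨k, hk, k⁻¹ * e, ?_, by group⟩
    exact QuotientGroup.eq.1 hke
  rw [eq_top_iff, ← hperf, commutator_def, Subgroup.commutator_le]
  rintro a - b -
  obtain ⟨k, hk, z, hz, rfl⟩ := h2 a
  obtain ⟨l, hl, w, hw, rfl⟩ := h2 b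
  have : ⁅k * z, l * w⁆ = ⁅k, l⁆ := by
    rw [Subgroup.mem_center_iff] at hz hw
    simp only [commutatorElement_def, mul_inv_rev]
    calc k * z * (l * w) * (z⁻¹ * k⁻¹) * (w⁻¹ * l⁻¹)
        = k * (z * l) * w * z⁻¹ * k⁻¹ * w⁻¹ * l⁻¹ := by group
      _ = k * (l * z) * w * z⁻¹ * k⁻¹ * w⁻¹ * l⁻¹ := by rw [hz l]
      _ = k * l * (z * w) * z⁻¹ * k⁻¹ * w⁻¹ * l⁻¹ := by group
      _ = k * l * (w * z) * z⁻¹ * k⁻¹ * w⁻¹ * l⁻¹ := by rw [hz w]
      _ = k * l * (w * k⁻¹) * w⁻¹ * l⁻¹ := by group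
      _ = k * l * (k⁻¹ * w) * w⁻¹ * l⁻¹ := by rw [hw k⁻¹]
      _ = k * l * k⁻¹ * l⁻¹ := by group
  rw [this]
  exact K.mul_mem (K.mul_mem (K.mul_mem hk hl) (K.inv_mem hk)) (K.inv_mem hl)

/-- the commutators with a noncentral element generate a quasisimple group -/
theorem closure_comm {E : Type*} [Group E] (hperf : commutator E = ⊤) (hsimp : IsSimpleGroup (E ⧸ center E))
    (g : E) (hg : g ∉ center E) : _root_.Subgroup.closure (Set.range fun h : E => g * h * g⁻¹ * h⁻¹) = ⊤ := by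
  set S := Set.range fun h : E => g * h * g⁻¹ * h⁻¹ with hS
  have hnorm : (closure S).Normal := by
    have key : ∀ k : E, ∀ s ∈ closure S, k * s * k⁻¹ ∈ closure S := by
      intro k s hs
      induction hs using closure_induction with
      | mem s hs =>
        obtain ⟨h, rfl⟩ := hs
        have e : k * (g * h * g⁻¹ * h⁻¹) * k⁻¹ = (g * k * g⁻¹ * k⁻¹)⁻¹ * (g * (k * h) * g⁻¹ * (k * h)⁻¹) := by group
        change k * (g * h * g⁻¹ * h⁻¹) * k⁻¹ ∈ _root_.Subgroup.closure S
        rw [e]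
        exact (closure S).mul_mem ((closure S).inv_mem (subset_closure ⟨k, rfl⟩)) (subset_closure ⟨k * h, rfl⟩)
      | one => simp
      | mul a b _ _ ha hb =>
        have : k * (a * b) * k⁻¹ = (k * a * k⁻¹) * (k * b * k⁻¹) := by group
        rw [this]; exact mul_mem ha hb
      | inv a _ ha =>
        have : k * a⁻¹ * k⁻¹ = (k * a * k⁻¹)⁻¹ := by group
        rw [this]; exact inv_mem ha
    exact ⟨fun s hs k => key k s hs⟩
  apply quasi_normal hperf hsimp
  intro hle
  -- `h ↦ [g,h]` is a homomorphism to the centre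
  let f : E →* center E :=
    { toFun := fun h => ⟨g * h * g⁻¹ * h⁻¹, hle (subset_closure ⟨h, rfl⟩)⟩
      map_one' := by ext; simp
      map_mul' := by
        intro k h
        ext
        have hc : g * h * g⁻¹ * h⁻¹ ∈ center E := hle (subset_closure ⟨h, rfl⟩)
        rw [Subgroup.mem_center_iff] at hc
        change g * (k * h) * g⁻¹ * (k * h)⁻¹ = (g * k * g⁻¹ * k⁻¹) * (g * h * g⁻¹ * h⁻¹)
        have e : g * (k * h) * g⁻¹ * (k * h)⁻¹ = (g * k * g⁻¹ * k⁻¹) * (k * (g * h * g⁻¹ * h⁻¹)) * k⁻¹ := by group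
        rw [e, hc k]; group }
  have htop : (⊤ : Subgroup E) ≤ f.ker := by
    rw [← hperf, commutator_def, Subgroup.commutator_le]
    rintro a - b -
    have hc : f a * f b = f b * f a := by
      ext
      exact ((Subgroup.mem_center_iff.1 (f a).2) (f b : E)).symm
    rw [MonoidHom.mem_ker, commutatorElement_def, map_mul, map_mul, map_mul, map_inv, map_inv, hc]
    group
  apply hg
  rw [Subgroup.mem_center_iff]
  intro h
  have : f h = 1 := htop (mem_top h)
  have h3 : g * h * g⁻¹ * h⁻¹ = 1 := congrArg Subtype.val this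
  have h4 : g * h = h * g := by
    have := congrArg (fun z => z * h * g) h3
    simpa only [mul_assoc, _root_.inv_mul_cancel, _root_.mul_one, _root_.one_mul] using this
  exact h4.symm

/-! ### the theorem modulo D1, D2 -/

section Main

variable {p : ℕ} [Fact p.Prime] {V : Type} [AddCommGroup V] [Module (ZMod p) V]

theorem big_support_of [Finite V] (X : Subgroup (V ≃ₗ[ZMod p] V))
    (A C R : Subgroup (V ≃ₗ[ZMod p] V)) (t : ℕ) (E : Fin t → Subgroup (V ≃ₗ[ZMod p] V))
    (hS : Str X A C R t E) (h2 : ∀ i, ∃ u v : E i ⧸ center (E i), _root_.Subgroup.closure {u, v} = ⊤)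
    (hA : ∀ a ∈ A, a ≠ 1 → ∀ v : V, a v = v → v = 0)
    (hE : ∀ i, ∀ v : V, (∀ e ∈ E i, e v = v) → v = 0)
    (x : V ≃ₗ[ZMod p] V) (hx : x ∈ X)
    (hcase : (∃ a ∈ A, x * a ≠ a * x) ∨ (∃ r ∈ R, x * r ≠ r * x) ∨
      (∃ i, ∃ y ∈ E i, x * y * x⁻¹ ∉ E i)) :
    Nat.card {v : V // x v = v} ^ 6 ≤ Nat.card V ^ 5 := by
  rw [card_FV]
  set n := Nat.card V with hn
  have hn1 : 1 ≤ n := Nat.card_pos
  -- two simple consequences
  have fin1 : Nat.card (FV x) ^ 2 ≤ n → Nat.card (FV x) ^ 6 ≤ n ^ 5 := by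
    intro h
    calc Nat.card (FV x) ^ 6 = (Nat.card (FV x) ^ 2) ^ 3 := by ring
      _ ≤ n ^ 3 := Nat.pow_le_pow_left h 3
      _ ≤ n ^ 5 := Nat.pow_le_pow_right hn1 (by norm_num)
  have fin2 : Nat.card (FV x) ^ 4 ≤ n ^ 3 → Nat.card (FV x) ^ 6 ≤ n ^ 5 := by
    intro h
    have h3 : (Nat.card (FV x) ^ 6) ^ 2 ≤ (n ^ 5) ^ 2 := by
      calc (Nat.card (FV x) ^ 6) ^ 2 = (Nat.card (FV x) ^ 4) ^ 3 := by ring
        _ ≤ (n ^ 3) ^ 3 := Nat.pow_le_pow_left h 3
        _ = n ^ 9 := by ring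
        _ ≤ n ^ 10 := Nat.pow_le_pow_right hn1 (by norm_num)
        _ = (n ^ 5) ^ 2 := by ring
    exact (Nat.pow_le_pow_iff_left (by norm_num)).1 h3
  have sqA : ∀ (z g : V ≃ₗ[ZMod p] V), z * g * z⁻¹ * g⁻¹ ∈ A → z * g ≠ g * z → Nat.card (FV z) ^ 2 ≤ n := by
    intro z g hmem hne
    have hne' : z * g * z⁻¹ * g⁻¹ ≠ 1 := by
      intro h
      apply hne
      have := congrArg (fun w => w * g * z) h
      simpa only [mul_assoc, _root_.inv_mul_cancel, _root_.mul_one, _root_.one_mul] using this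
    have h := sq_le z g
    rwa [card_FV_of_semireg (hA _ hmem hne'), mul_one] at h
  rcases hcase with ⟨a, ha, hxa⟩ | ⟨r, hr, hxr⟩ | ⟨i, y0, hy0, hxy⟩
  · apply fin1
    exact sqA x a (A.mul_mem (hS.Anorm x hx a ha) (A.inv_mem ha)) hxa
  · set y := x * r * x⁻¹ * r⁻¹ with hy
    have hyR : y ∈ R := R.mul_mem (hS.Rnorm x hx r hr) (R.inv_mem hr)
    by_cases hyA : y ∈ A
    · apply fin1
      exact sqA x r hyA hxr
    · have : ∃ r' ∈ R, y * r' ≠ r' * y := by
        by_contra hcon
        push Not at hcon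
        exact hyA (hS.Rcent y hyR hcon)
      obtain ⟨r', hr', hyr'⟩ := this
      apply fin2
      have h1 := sqA y r' (hS.Rcomm y hyR r' hr') hyr'
      have h3 := sq_le x r
      calc Nat.card (FV x) ^ 4 = (Nat.card (FV x) ^ 2) ^ 2 := by ring
        _ ≤ (n * Nat.card (FV y)) ^ 2 := Nat.pow_le_pow_left h3 2
        _ = n ^ 2 * Nat.card (FV y) ^ 2 := by ring
        _ ≤ n ^ 2 * n := Nat.mul_le_mul_left _ h1
        _ = n ^ 3 := by ring
  · obtain ⟨j, hj⟩ := hS.Eperm x hx i
    have hji : j ≠ i := by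
      rintro rfl
      exact hxy ((hj y0).1 hy0)
    obtain ⟨u, v, huv⟩ := h2 i
    obtain ⟨e, rfl⟩ := QuotientGroup.mk_surjective u
    obtain ⟨f, rfl⟩ := QuotientGroup.mk_surjective v
    set y := x * (e : V ≃ₗ[ZMod p] V) * x⁻¹ * (e : V ≃ₗ[ZMod p] V)⁻¹ with hy
    set y' := x * (f : V ≃ₗ[ZMod p] V) * x⁻¹ * (f : V ≃ₗ[ZMod p] V)⁻¹ with hy'
    set W := FV y ⊓ FV y' with hW
    -- `|C_V(x)|³ ≤ |V|² |W|`
    have hc1 : Nat.card (FV x) ^ 3 ≤ n ^ 2 * Nat.card W := by
      have h1 := card_mul_le (FV x) (im (e : V ≃ₗ[ZMod p] V) (FV x))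
      have h3 := card_mul_le (FV x ⊓ im (e : V ≃ₗ[ZMod p] V) (FV x)) (im (f : V ≃ₗ[ZMod p] V) (FV x))
      rw [card_im] at h1 h3
      have h4 : Nat.card (FV x ⊓ im (e : V ≃ₗ[ZMod p] V) (FV x) ⊓ im (f : V ≃ₗ[ZMod p] V) (FV x) :
          Submodule (ZMod p) V) ≤ Nat.card W := by
        apply card_le_card
        intro v hv
        obtain ⟨hv1, hv2⟩ := Submodule.mem_inf.1 hv
        obtain ⟨hv3, hv4⟩ := Submodule.mem_inf.1 hv1
        rw [mem_im] at hv2 hv4
        exact Submodule.mem_inf.2 ⟨comm_fix hv3 hv4, comm_fix hv3 hv2⟩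
      calc Nat.card (FV x) ^ 3 = (Nat.card (FV x) * Nat.card (FV x)) * Nat.card (FV x) := by ring
        _ ≤ (n * Nat.card (FV x ⊓ im (e : V ≃ₗ[ZMod p] V) (FV x) : Submodule (ZMod p) V)) * Nat.card (FV x) :=
            Nat.mul_le_mul_right _ h1
        _ = n * (Nat.card (FV x ⊓ im (e : V ≃ₗ[ZMod p] V) (FV x) : Submodule (ZMod p) V) * Nat.card (FV x)) := by ring
        _ ≤ n * (n * Nat.card W) := Nat.mul_le_mul_left _ (h3.trans (Nat.mul_le_mul_left _ h4))
        _ = n ^ 2 * Nat.card W := by ring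
    -- a noncentral element of `E i`
    obtain ⟨a, b, hab⟩ := hS.Enab i
    obtain ⟨g, rfl⟩ := QuotientGroup.mk_surjective a
    obtain ⟨b, rfl⟩ := QuotientGroup.mk_surjective b
    have hg : g ∉ center (E i) := by
      intro h
      rw [Subgroup.mem_center_iff] at h
      apply hab
      rw [← QuotientGroup.mk_mul, ← QuotientGroup.mk_mul, h b]
    -- the projection of `D` to `E i / Z`
    let D : Subgroup (V ≃ₗ[ZMod p] V) := _root_.Subgroup.closure {y, y'}
    have hproj : ∀ q : E i ⧸ center (E i), ∃ d ∈ D, ∃ d2 ∈ E j, ∃ d1 : E i, d = d2 * (d1 : V ≃ₗ[ZMod p] V) ∧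
        (QuotientGroup.mk d1 : E i ⧸ center (E i)) = q := by
      intro q
      have hq : q ∈ _root_.Subgroup.closure ({(QuotientGroup.mk e : E i ⧸ center (E i)), QuotientGroup.mk f} : Set _) := by
        rw [huv]; trivial
      induction hq using closure_induction with
      | mem s hs =>
        rcases hs with rfl | rfl
        · refine ⟨y⁻¹, inv_mem (_root_.Subgroup.subset_closure (by simp)), (x * (e : V ≃ₗ[ZMod p] V) * x⁻¹)⁻¹,
            inv_mem ((hj _).1 e.2), e, ?_, rfl⟩
          have hcm : (x * (e : V ≃ₗ[ZMod p] V) * x⁻¹) * (e : V ≃ₗ[ZMod p] V) =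
              (e : V ≃ₗ[ZMod p] V) * (x * (e : V ≃ₗ[ZMod p] V) * x⁻¹) :=
            hS.Ecomm j i hji _ ((hj _).1 e.2) _ e.2
          have hy2 : y = (x * (e : V ≃ₗ[ZMod p] V) * x⁻¹) * (e : V ≃ₗ[ZMod p] V)⁻¹ := rfl
          rw [hy2, mul_inv_rev, inv_inv]
          rw [eq_inv_mul_iff_mul_eq, ← mul_assoc, hcm, mul_assoc, mul_inv_cancel, mul_one]
        · refine ⟨y'⁻¹, inv_mem (_root_.Subgroup.subset_closure (by simp)), (x * (f : V ≃ₗ[ZMod p] V) * x⁻¹)⁻¹,
            inv_mem ((hj _).1 f.2), f, ?_, rfl⟩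
          have hcm : (x * (f : V ≃ₗ[ZMod p] V) * x⁻¹) * (f : V ≃ₗ[ZMod p] V) =
              (f : V ≃ₗ[ZMod p] V) * (x * (f : V ≃ₗ[ZMod p] V) * x⁻¹) :=
            hS.Ecomm j i hji _ ((hj _).1 f.2) _ f.2
          have hy2 : y' = (x * (f : V ≃ₗ[ZMod p] V) * x⁻¹) * (f : V ≃ₗ[ZMod p] V)⁻¹ := rfl
          rw [hy2, mul_inv_rev, inv_inv]
          rw [eq_inv_mul_iff_mul_eq, ← mul_assoc, hcm, mul_assoc, mul_inv_cancel, mul_one]
      | one => exact ⟨1, one_mem _, 1, one_mem _, 1, by simp, by simp⟩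
      | mul s s' _ _ hs hs' =>
        obtain ⟨d, hd, d2, hd2, d1, rfl, rfl⟩ := hs
        obtain ⟨c, hc, c2, hc2, c1, rfl, rfl⟩ := hs'
        refine ⟨_, mul_mem hd hc, d2 * c2, mul_mem hd2 hc2, d1 * c1, ?_, by rw [QuotientGroup.mk_mul]⟩
        have hcm := hS.Ecomm j i hji c2 hc2 _ d1.2
        rw [Subgroup.coe_mul]
        calc d2 * (d1 : V ≃ₗ[ZMod p] V) * (c2 * (c1 : V ≃ₗ[ZMod p] V))
            = d2 * ((d1 : V ≃ₗ[ZMod p] V) * c2) * (c1 : V ≃ₗ[ZMod p] V) := by group
          _ = d2 * (c2 * (d1 : V ≃ₗ[ZMod p] V)) * (c1 : V ≃ₗ[ZMod p] V) := by rw [hcm]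
          _ = d2 * c2 * ((d1 : V ≃ₗ[ZMod p] V) * (c1 : V ≃ₗ[ZMod p] V)) := by group
      | inv s _ hs =>
        obtain ⟨d, hd, d2, hd2, d1, rfl, rfl⟩ := hs
        refine ⟨_, inv_mem hd, d2⁻¹, inv_mem hd2, d1⁻¹, ?_, by rw [QuotientGroup.mk_inv]⟩
        have hcm := hS.Ecomm j i hji d2 hd2 _ d1.2
        rw [hcm, mul_inv_rev, Subgroup.coe_inv]
    -- `W ∩ g W = 0`
    have hWg : Nat.card (W ⊓ im (g : V ≃ₗ[ZMod p] V) W : Submodule (ZMod p) V) = 1 := by
      rw [Nat.card_eq_one_iff_unique]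
      refine ⟨⟨fun s s' => ?_⟩, ⟨0⟩⟩
      have hzero : ∀ w ∈ (W ⊓ im (g : V ≃ₗ[ZMod p] V) W : Submodule (ZMod p) V), w = 0 := by
        intro w hw
        obtain ⟨hw1, hw2⟩ := Submodule.mem_inf.1 hw
        rw [mem_im] at hw2
        -- all of `D` fixes `w` and `g⁻¹ w`
        have hfix : ∀ (z : V), z ∈ W → ∀ d ∈ D, d z = z := by
          intro z hz d hd
          have hle : D ≤ (MulAction.stabilizer (V ≃ₗ[ZMod p] V) z) := by
            rw [closure_le]
            rintro s (rfl | rfl)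
            · exact (Submodule.mem_inf.1 hz).1
            · exact (Submodule.mem_inf.1 hz).2
          exact hle hd
        apply hE i
        intro h hh
        have hall : (⟨h, hh⟩ : E i) ∈ _root_.Subgroup.closure (Set.range fun h : E i => g * h * g⁻¹ * h⁻¹) := by
          rw [closure_comm (hS.Eperf i) (hS.Esimp i) g hg]; trivial
        have hst : ∀ k ∈ _root_.Subgroup.closure (Set.range fun h : E i => g * h * g⁻¹ * h⁻¹),
            (k : V ≃ₗ[ZMod p] V) w = w := by
          intro k hk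
          have hle : _root_.Subgroup.closure (Set.range fun h : E i => g * h * g⁻¹ * h⁻¹) ≤
              (MulAction.stabilizer (V ≃ₗ[ZMod p] V) w).subgroupOf (E i) := by
            rw [closure_le]
            rintro s ⟨l, rfl⟩
            change ((g * l * g⁻¹ * l⁻¹ : E i) : V ≃ₗ[ZMod p] V) w = w
            obtain ⟨d, hd, d2, hd2, d1, hdd, hq⟩ := hproj (QuotientGroup.mk l)
            have h5 := comm_fix' (g := (g : V ≃ₗ[ZMod p] V)) (hfix w hw1 d hd) (hfix _ hw2 d hd)
            -- `[g,d] = [g,d1] = [g,l]`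
            have hc2 := hS.Ecomm j i hji d2 hd2 _ g.2
            have hcd : d2 * ((g * d1 * g⁻¹ * d1⁻¹ : E i) : V ≃ₗ[ZMod p] V) =
                ((g * d1 * g⁻¹ * d1⁻¹ : E i) : V ≃ₗ[ZMod p] V) * d2 :=
              hS.Ecomm j i hji d2 hd2 _ (g * d1 * g⁻¹ * d1⁻¹ : E i).2
            have e1 : (g : V ≃ₗ[ZMod p] V) * d * (g : V ≃ₗ[ZMod p] V)⁻¹ * d⁻¹ =
                ((g * d1 * g⁻¹ * d1⁻¹ : E i) : V ≃ₗ[ZMod p] V) := by
              have : (g : V ≃ₗ[ZMod p] V) * d * (g : V ≃ₗ[ZMod p] V)⁻¹ * d⁻¹ =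
                  d2 * ((g * d1 * g⁻¹ * d1⁻¹ : E i) : V ≃ₗ[ZMod p] V) * d2⁻¹ := by
                rw [hdd]
                push_cast
                calc (g : V ≃ₗ[ZMod p] V) * (d2 * (d1 : V ≃ₗ[ZMod p] V)) * (g : V ≃ₗ[ZMod p] V)⁻¹ *
                    (d2 * (d1 : V ≃ₗ[ZMod p] V))⁻¹
                    = ((g : V ≃ₗ[ZMod p] V) * d2) * (d1 : V ≃ₗ[ZMod p] V) * (g : V ≃ₗ[ZMod p] V)⁻¹ *
                      (d2 * (d1 : V ≃ₗ[ZMod p] V))⁻¹ := by group
                  _ = (d2 * (g : V ≃ₗ[ZMod p] V)) * (d1 : V ≃ₗ[ZMod p] V) * (g : V ≃ₗ[ZMod p] V)⁻¹ *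
                      (d2 * (d1 : V ≃ₗ[ZMod p] V))⁻¹ := by rw [hc2]
                  _ = d2 * ((g : V ≃ₗ[ZMod p] V) * (d1 : V ≃ₗ[ZMod p] V) * (g : V ≃ₗ[ZMod p] V)⁻¹ *
                      (d1 : V ≃ₗ[ZMod p] V)⁻¹) * d2⁻¹ := by group
              rw [this, hcd, mul_inv_cancel_right]
            have hz : d1⁻¹ * l ∈ center (E i) := QuotientGroup.eq.1 hq
            rw [Subgroup.mem_center_iff] at hz
            have e2 : g * l * g⁻¹ * l⁻¹ = g * d1 * g⁻¹ * d1⁻¹ := by
              calc g * l * g⁻¹ * l⁻¹ = g * d1 * ((d1⁻¹ * l) * g⁻¹) * l⁻¹ := by group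
                _ = g * d1 * (g⁻¹ * (d1⁻¹ * l)) * l⁻¹ := by rw [hz g⁻¹]
                _ = g * d1 * g⁻¹ * d1⁻¹ := by group
            rw [e2, ← e1]
            exact h5
          exact hle hk
        exact hst _ hall
      ext
      rw [hzero _ s.2, hzero _ s'.2]
    have hc2 : Nat.card W ^ 2 ≤ n := by
      have h1 := card_mul_le W (im (g : V ≃ₗ[ZMod p] V) W)
      rw [card_im, hWg, mul_one] at h1
      rw [sq]; exact h1
    calc Nat.card (FV x) ^ 6 = (Nat.card (FV x) ^ 3) ^ 2 := by ring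
      _ ≤ (n ^ 2 * Nat.card W) ^ 2 := Nat.pow_le_pow_left hc1 2
      _ = n ^ 4 * Nat.card W ^ 2 := by ring
      _ ≤ n ^ 4 * n := Nat.mul_le_mul_left _ hc2
      _ = n ^ 5 := by ring

end Main

end Cfsg.Agent.H223.B57
end

-- part: H39/B57/RA
section
/-!
# S5717, D6: the index of `A` in `R`
-/

set_option autoImplicit false

open Subgroup

namespace Cfsg.Agent.H39.B57

variable {p : ℕ} [Fact p.Prime] {V : Type} [AddCommGroup V] [Module (ZMod p) V]

/-- `R / A` is at most `(dim V)^2` when `A = Z(R)`, `R' ≤ A` and `A` lies in a field of endomorphisms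
commuting with `R`. -/
theorem relIndex_le_of_field [Finite V] (A R : Subgroup (V ≃ₗ[ZMod p] V)) (hAR : A ≤ R)
    (hRA : ∀ x ∈ R, ∀ a ∈ A, x * a = a * x)
    (Rcomm : ∀ x ∈ R, ∀ y ∈ R, x * y * x⁻¹ * y⁻¹ ∈ A)
    (Rcent : ∀ x ∈ R, (∀ y ∈ R, x * y = y * x) → x ∈ A)
    (hnt : ∃ v : V, v ≠ 0)
    (hE : ∃ (E : Subalgebra (ZMod p) (Module.End (ZMod p) V)), IsField E ∧
      (∀ a ∈ A, ((a : V ≃ₗ[ZMod p] V) : V →ₗ[ZMod p] V) ∈ E) ∧
      ∀ x : V ≃ₗ[ZMod p] V, (∀ a ∈ A, x * a = a * x) → ∀ z ∈ E,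
        (x : V →ₗ[ZMod p] V) * z = z * (x : V →ₗ[ZMod p] V)) :
    A.relIndex R ≤ (Module.finrank (ZMod p) V) ^ 2 := by
  classical
  obtain ⟨E, hF, hAE, hcomm⟩ := hE
  let : Field E := hF.toField
  have : Finite E := by
    have : Finite (Module.End (ZMod p) V) := by
      refine Finite.of_injective (fun f : Module.End (ZMod p) V => (f : V → V)) ?_
      intro f g h
      exact DFunLike.coe_injective h
    infer_instance
  have : FiniteDimensional E V := Module.Finite.of_finite
  have : FiniteDimensional (ZMod p) V := Module.Finite.of_finite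
  have : FiniteDimensional (ZMod p) E := Module.Finite.of_finite
  -- elements of `R` as `E`-linear maps
  let rK : R → (V →ₗ[E] V) := fun r =>
    { toFun := fun v => (r : V ≃ₗ[ZMod p] V) v
      map_add' := fun v w => map_add _ v w
      map_smul' := by
        intro z v
        have h := hcomm (r : V ≃ₗ[ZMod p] V) (fun a ha => hRA r r.2 a ha) z z.2
        exact congrArg (fun f : Module.End (ZMod p) V => f v) h }
  -- the characters
  let chi : R → (R →* E) := fun r =>
    { toFun := fun x => ⟨(((x : V ≃ₗ[ZMod p] V) * r * (x : V ≃ₗ[ZMod p] V)⁻¹ * (r : V ≃ₗ[ZMod p] V)⁻¹ :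
          V ≃ₗ[ZMod p] V) : V →ₗ[ZMod p] V), hAE _ (Rcomm x x.2 r r.2)⟩
      map_one' := by
        apply Subtype.ext
        simp only [_root_.OneMemClass.coe_one, _root_.one_mul, _root_.inv_one, _root_.mul_one, _root_.mul_inv_cancel, _root_.LinearEquiv.coe_toLinearMap_one]
        rfl
      map_mul' := by
        intro x y
        apply Subtype.ext
        have h1 := hRA (x : V ≃ₗ[ZMod p] V) x.2 _ (Rcomm y y.2 r r.2)
        have h2 := hRA (x : V ≃ₗ[ZMod p] V)⁻¹ (R.inv_mem x.2) _ (Rcomm y y.2 r r.2)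
        have h3 : ((x * y : R) : V ≃ₗ[ZMod p] V) * r * ((x * y : R) : V ≃ₗ[ZMod p] V)⁻¹ *
            (r : V ≃ₗ[ZMod p] V)⁻¹ =
            ((x : V ≃ₗ[ZMod p] V) * r * (x : V ≃ₗ[ZMod p] V)⁻¹ * (r : V ≃ₗ[ZMod p] V)⁻¹) *
            ((y : V ≃ₗ[ZMod p] V) * r * (y : V ≃ₗ[ZMod p] V)⁻¹ * (r : V ≃ₗ[ZMod p] V)⁻¹) := by
          have hb := Rcomm x x.2 r r.2
          have h4 := hRA _ (hAR hb) _ (Rcomm y y.2 r r.2)
          simp only [Subgroup.coe_mul, mul_inv_rev]
          rw [h4]
          have h5 : (y : V ≃ₗ[ZMod p] V) * r * (y : V ≃ₗ[ZMod p] V)⁻¹ =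
            ((y : V ≃ₗ[ZMod p] V) * r * (y : V ≃ₗ[ZMod p] V)⁻¹ * (r : V ≃ₗ[ZMod p] V)⁻¹) * r := by group
          calc (x : V ≃ₗ[ZMod p] V) * y * r * ((y : V ≃ₗ[ZMod p] V)⁻¹ * (x : V ≃ₗ[ZMod p] V)⁻¹) *
                (r : V ≃ₗ[ZMod p] V)⁻¹
              = (x : V ≃ₗ[ZMod p] V) * ((y : V ≃ₗ[ZMod p] V) * r * (y : V ≃ₗ[ZMod p] V)⁻¹) *
                (x : V ≃ₗ[ZMod p] V)⁻¹ * (r : V ≃ₗ[ZMod p] V)⁻¹ := by group
            _ = ((x : V ≃ₗ[ZMod p] V) * ((y : V ≃ₗ[ZMod p] V) * r * (y : V ≃ₗ[ZMod p] V)⁻¹ *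
                (r : V ≃ₗ[ZMod p] V)⁻¹)) * r * (x : V ≃ₗ[ZMod p] V)⁻¹ * (r : V ≃ₗ[ZMod p] V)⁻¹ := by
                rw [h5]; group
            _ = (((y : V ≃ₗ[ZMod p] V) * r * (y : V ≃ₗ[ZMod p] V)⁻¹ *
                (r : V ≃ₗ[ZMod p] V)⁻¹) * (x : V ≃ₗ[ZMod p] V)) * r * (x : V ≃ₗ[ZMod p] V)⁻¹ *
                (r : V ≃ₗ[ZMod p] V)⁻¹ := by rw [h1]
            _ = _ := by group
        change ((((x * y : R) : V ≃ₗ[ZMod p] V) * r * ((x * y : R) : V ≃ₗ[ZMod p] V)⁻¹ *
            (r : V ≃ₗ[ZMod p] V)⁻¹ : V ≃ₗ[ZMod p] V) : V →ₗ[ZMod p] V) = _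
        rw [h3]
        rfl }
  have hchi : ∀ r x : R, ((chi r x : E) : V →ₗ[ZMod p] V) =
      (((x : V ≃ₗ[ZMod p] V) * r * (x : V ≃ₗ[ZMod p] V)⁻¹ * (r : V ≃ₗ[ZMod p] V)⁻¹ :
          V ≃ₗ[ZMod p] V) : V →ₗ[ZMod p] V) := fun r x => rfl
  let A' := A.subgroupOf R
  have hinj : Function.Injective (fun i : R ⧸ A' => chi (Quotient.out i)) := by
    intro i j hij
    have hij' : chi (Quotient.out i) = chi (Quotient.out j) := hij
    rw [← Quotient.out_eq i, ← Quotient.out_eq j]
    change ((Quotient.out i : R) : R ⧸ A') = ((Quotient.out j : R) : R ⧸ A')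
    rw [QuotientGroup.eq]
    change (((Quotient.out i : R)⁻¹ * (Quotient.out j : R) : R) : V ≃ₗ[ZMod p] V) ∈ A
    refine Rcent _ (Subtype.coe_prop _) ?_
    intro y hy
    have h1 := congrArg (fun f : R →* E => ((f ⟨y⁻¹, R.inv_mem hy⟩ : E) : V →ₗ[ZMod p] V)) hij'
    simp only [hchi] at h1
    have h2 := LinearEquiv.toLinearMap_injective h1
    set r : V ≃ₗ[ZMod p] V := ((Quotient.out i : R) : V ≃ₗ[ZMod p] V) with hr
    set s : V ≃ₗ[ZMod p] V := ((Quotient.out j : R) : V ≃ₗ[ZMod p] V) with hs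
    have h3 : y⁻¹ * r * y * r⁻¹ = y⁻¹ * s * y * s⁻¹ := by
      simpa only [_root_.inv_inv] using h2
    have h4 : r * y * r⁻¹ = s * y * s⁻¹ := by
      have := congrArg (fun z => y * z) h3
      simpa only [mul_assoc, _root_.mul_inv_cancel_left] using this
    have h5 : (r⁻¹ * s) * y = y * (r⁻¹ * s) := by
      calc (r⁻¹ * s) * y = r⁻¹ * (s * y * s⁻¹) * s := by group
        _ = r⁻¹ * (r * y * r⁻¹) * s := by rw [h4]
        _ = y * (r⁻¹ * s) := by group
    simpa only [hr, hs, _root_.Subgroup.coe_mul, _root_.InvMemClass.coe_inv] using h5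
  have hli0 := (linearIndependent_monoidHom R E).comp _ hinj
  have : Finite (V ≃ₗ[ZMod p] V) := by
    refine Finite.of_injective (fun f : V ≃ₗ[ZMod p] V => (f : V → V)) ?_
    intro f g h
    exact DFunLike.coe_injective h
  have : Fintype (R ⧸ A') := Fintype.ofFinite _
  have hli : LinearIndependent E (fun i : R ⧸ A' => rK (Quotient.out i)) := by
    simp only [Fintype.linearIndependent_iff] at hli0 ⊢
    intro c hc
    -- the relation on vectors
    have hrel : ∀ (x : R) (v : V), ∑ i, c i • ((chi (Quotient.out i) x : E) • rK (Quotient.out i) v) = 0 := by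
      intro x v
      have h1 := congrArg (fun f : V →ₗ[E] V => rK x (f (((x : V ≃ₗ[ZMod p] V)⁻¹) v))) hc
      simp only [LinearMap.coe_sum, Finset.sum_apply, LinearMap.smul_apply, map_sum, map_smul,
        LinearMap.zero_apply, map_zero] at h1
      rw [← h1]
      refine Finset.sum_congr rfl fun i _ => ?_
      congr 1
      change ((((x : V ≃ₗ[ZMod p] V) * ((Quotient.out i : R) : V ≃ₗ[ZMod p] V) *
        (x : V ≃ₗ[ZMod p] V)⁻¹ * ((Quotient.out i : R) : V ≃ₗ[ZMod p] V)⁻¹ :
          V ≃ₗ[ZMod p] V) * ((Quotient.out i : R) : V ≃ₗ[ZMod p] V)) v) =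
        (((x : V ≃ₗ[ZMod p] V) * ((Quotient.out i : R) : V ≃ₗ[ZMod p] V) *
        (x : V ≃ₗ[ZMod p] V)⁻¹) v)
      congr 1
      group
    intro i
    by_contra hci
    obtain ⟨v0, hv0⟩ := hnt
    -- a vector and a functional
    set v : V := (((Quotient.out i : R) : V ≃ₗ[ZMod p] V)⁻¹) v0 with hv
    have hiv : rK (Quotient.out i) v = v0 := by
      change (((Quotient.out i : R) : V ≃ₗ[ZMod p] V) * ((Quotient.out i : R) : V ≃ₗ[ZMod p] V)⁻¹) v0 = v0
      rw [mul_inv_cancel]; rfl
    obtain ⟨lam, hlam⟩ : ∃ lam : V →ₗ[E] E, lam v0 ≠ 0 := by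
      by_contra hcon
      push Not at hcon
      exact hv0 ((Module.forall_dual_apply_eq_zero_iff E v0).1 hcon)
    have h2 := hli0 (fun i => c i * lam (rK (Quotient.out i) v)) (by
      funext x
      have h3 := congrArg lam (hrel x v)
      rw [map_sum, map_zero] at h3
      simp only [Finset.sum_apply, Pi.smul_apply, smul_eq_mul, Function.comp_apply, Pi.zero_apply]
      rw [← h3]
      refine Finset.sum_congr rfl fun i _ => ?_
      rw [map_smul, map_smul, smul_eq_mul, smul_eq_mul]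
      ring) i
    rw [hiv] at h2
    rcases mul_eq_zero.1 h2 with h | h
    · exact hci h
    · exact hlam h
  have hcard := hli.fintype_card_le_finrank
  have h1 : Fintype.card (R ⧸ A') = A.relIndex R := by
    rw [← Nat.card_eq_fintype_card]; rfl
  rw [h1, Module.finrank_linearMap] at hcard
  have h2 : Module.finrank E V ≤ Module.finrank (ZMod p) V := by
    have h3 := Module.finrank_mul_finrank (ZMod p) E V
    have h4 : 0 < Module.finrank (ZMod p) E := Module.finrank_pos
    nlinarith only [h3, h4]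
  calc A.relIndex R ≤ Module.finrank E V * Module.finrank E V := hcard
    _ ≤ Module.finrank (ZMod p) V ^ 2 := by
      rw [sq]
      exact Nat.mul_le_mul h2 h2

/-- D6: the number of cosets of `A` in `R`, from the field property of `A` (D2). -/
theorem card_RA_of [Finite V]
    (D2 : ∀ (X : Subgroup (V ≃ₗ[ZMod p] V)), H830.B57.PrimLin X →
      ∀ (A : Subgroup (V ≃ₗ[ZMod p] V)), A ≤ X → (∀ x ∈ X, ∀ y ∈ A, x * y * x⁻¹ ∈ A) →
      (∀ x ∈ A, ∀ y ∈ A, x * y = y * x) →
      IsCyclic A ∧ (∀ a ∈ A, a ≠ 1 → ∀ v : V, a v = v → v = 0) ∧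
      ∃ (E : Subalgebra (ZMod p) (Module.End (ZMod p) V)), IsField E ∧
        (∀ a ∈ A, ((a : V ≃ₗ[ZMod p] V) : V →ₗ[ZMod p] V) ∈ E) ∧
        ∀ x : V ≃ₗ[ZMod p] V, (∀ a ∈ A, x * a = a * x) → ∀ z ∈ E,
          (x : V →ₗ[ZMod p] V) * z = z * (x : V →ₗ[ZMod p] V))
    (X : Subgroup (V ≃ₗ[ZMod p] V)) (hX : H830.B57.PrimLin X)
    (A C R : Subgroup (V ≃ₗ[ZMod p] V)) (t : ℕ) (E : Fin t → Subgroup (V ≃ₗ[ZMod p] V))
    (hS : H830.B57.Str X A C R t E) : A.relIndex R ≤ (Module.finrank (ZMod p) V) ^ 2 := by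
  refine relIndex_le_of_field A R hS.AR ?_ hS.Rcomm hS.Rcent hX.nt
    (D2 X hX A (hS.AR.trans (hS.RC.trans hS.CX)) hS.Anorm hS.Acomm).2.2
  intro x hx a ha
  exact ((hS.Ceq x).1 (hS.RC hx)).2 a ha

end Cfsg.Agent.H39.B57
end

-- part: H457/Bs/LinPrim
section
/-!
# S5717: primitive linear groups

**`linPrim_of_tbase`** : `TBase T k` for all non-abelian simple groups `T` without an `A_d` section gives
`LinPrim d (k + K)`.
-/

set_option autoImplicit false

open Subgroup

namespace Cfsg.Agent.H457.Bs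

open Cfsg.Agent.H830.B57

section

variable {p : ℕ} [Fact p.Prime] {V : Type} [AddCommGroup V] [Module (ZMod p) V]

theorem fix_zero_of_hg {E : Subgroup (V ≃ₗ[ZMod p] V)} (hE : Hg E)
    (hna : ∃ x y : E ⧸ center E, x * y ≠ y * x) (v : V) (hv : ∀ e ∈ E, e v = v) : v = 0 := by
  by_contra hv0
  obtain ⟨u, hu⟩ := hE.ex
  have hst : Stb E (Submodule.span (ZMod p) {v}) := by
    intro e he w hw
    obtain ⟨c, rfl⟩ := Submodule.mem_span_singleton.1 hw
    rw [map_smul, hv e he]
    exact hw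
  have hne : Submodule.span (ZMod p) {v} ≠ ⊥ := by
    rw [Ne, Submodule.span_singleton_eq_bot]
    exact hv0
  obtain ⟨w, hw, hw0, hsame⟩ := hE.copy u hu _ hst hne
  obtain ⟨c, rfl⟩ := Submodule.mem_span_singleton.1 hw
  have h1 : ∀ e ∈ E, e u = u := by
    intro e he
    have h2 := (hsame ((e : V →ₗ[ZMod p] V) - 1) (sub_mem (mem_RR he) (one_mem _))).2 (by
      rw [LinearMap.sub_apply, Module.End.one_apply]
      show e (c • v) - c • v = 0
      rw [map_smul, hv e he, sub_self])
    rw [LinearMap.sub_apply, Module.End.one_apply] at h2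
    exact sub_eq_zero.1 h2
  have h2 : ∀ b ∈ RR E, ∃ c : ZMod p, b u = c • u := by
    intro b hb
    have hs : Stb E (Submodule.span (ZMod p) {u}) := by
      intro e he w hw
      obtain ⟨c, rfl⟩ := Submodule.mem_span_singleton.1 hw
      rw [map_smul, h1 e he]
      exact hw
    have h3 := RR_stb hs hb u (Submodule.mem_span_singleton_self u)
    obtain ⟨c, hc⟩ := Submodule.mem_span_singleton.1 h3
    exact ⟨c, hc.symm⟩
  have h3 : ∀ e ∈ E, e = 1 := by
    intro e he
    have h4 := hE.faithful u hu ((e : V →ₗ[ZMod p] V) - 1) (sub_mem (mem_RR he) (one_mem _)) (by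
      intro b hb
      obtain ⟨c, hc⟩ := h2 b hb
      rw [hc, map_smul, LinearMap.sub_apply, Module.End.one_apply]
      show c • (e u - u) = 0
      rw [h1 e he, sub_self, smul_zero])
    ext v
    have h5 := LinearMap.congr_fun h4 v
    rw [LinearMap.sub_apply, Module.End.one_apply, LinearMap.zero_apply] at h5
    exact sub_eq_zero.1 h5
  obtain ⟨a, b, hab⟩ := hna
  obtain ⟨a, rfl⟩ := QuotientGroup.mk_surjective a
  obtain ⟨b, rfl⟩ := QuotientGroup.mk_surjective b
  apply hab
  have ha : a = 1 := Subtype.ext (h3 a a.2)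
  rw [ha, QuotientGroup.mk_one, one_mul, mul_one]

/-- an element mapping `E` into `E` normalises `E` -/
theorem norm_of_le [Finite V] {E : Subgroup (V ≃ₗ[ZMod p] V)} {x : V ≃ₗ[ZMod p] V}
    (h : ∀ y ∈ E, x * y * x⁻¹ ∈ E) : ∀ y, y ∈ E ↔ x * y * x⁻¹ ∈ E := by
  have hfin : Finite (V ≃ₗ[ZMod p] V) :=
    Finite.of_injective (fun f : V ≃ₗ[ZMod p] V => (f : V → V)) DFunLike.coe_injective
  intro y
  refine ⟨h y, fun hy => ?_⟩
  let f : E → E := fun e => ⟨x * e * x⁻¹, h e e.2⟩
  have hf : Function.Injective f := by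
    intro a b hab
    have h1 : x * (a : V ≃ₗ[ZMod p] V) * x⁻¹ = x * b * x⁻¹ := congrArg Subtype.val hab
    exact Subtype.ext (mul_left_cancel (mul_right_cancel h1))
  obtain ⟨e, he⟩ := (Finite.injective_iff_surjective.1 hf) ⟨_, hy⟩
  have h1 : x * (e : V ≃ₗ[ZMod p] V) * x⁻¹ = x * y * x⁻¹ := congrArg Subtype.val he
  have h2 : (e : V ≃ₗ[ZMod p] V) = y := mul_left_cancel (mul_right_cancel h1)
  rw [← h2]
  exact e.2

end

/-- **Primitive linear groups.** -/
theorem linPrim_of_tbase : ∃ K : ℕ, ∀ (d k : ℕ),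
    (∀ (T : Type) [Group T] [Finite T] [IsSimpleGroup T], ∃ u v : T, _root_.Subgroup.closure {u, v} = ⊤) →
    (∀ (T : Type) [Group T] [Finite T] [IsSimpleGroup T], (∃ x y : T, x * y ≠ y * x) →
      ¬ Cfsg.Involves (alternatingGroup (Fin d)) T → TBase T k) → LinPrim d (k + K) := by
  classical
  obtain ⟨K, hK⟩ := H86.B57.card_stab
  refine ⟨6 * K + 9, ?_⟩
  intro d k h2 hT p _ V _ _ _ X hX hna
  have hfinE : Finite (V ≃ₗ[ZMod p] V) :=
    Finite.of_injective (fun f : V ≃ₗ[ZMod p] V => (f : V → V)) DFunLike.coe_injective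
  obtain ⟨A, C, R, t, E, hS⟩ := _root_.Cfsg.Agent.H680.B57.ExStr.exists_str X hX
  have hAX : A ≤ X := hS.AR.trans (hS.RC.trans hS.CX)
  obtain ⟨hcyc, hsemi, -⟩ := H315.B57.abelian_normal X hX A hAX hS.Anorm hS.Acomm
  have hdec := fun i => H131.B57.comp_dec_of_D1 X hX (H594.B57.homDec_of_normal X hX) A C R t E hS i
  have hRA : A.relIndex R ≤ (Module.finrank (ZMod p) V) ^ 2 :=
    H39.B57.card_RA_of (fun X hX A h1 h2 h3 => H315.B57.abelian_normal X hX A h1 h2 h3) X hX A C R t E hS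
  have hHg : ∀ i, Hg (E i) := by
    intro i
    obtain ⟨U, _, _, M, ρ, φ, h, -⟩ := hdec i
    exact hg_of_homDec h hX.nt
  have ht : 2 ^ (t - 1) ≤ Module.finrank (ZMod p) V := by
    have hfr : 1 ≤ Module.finrank (ZMod p) V := by
      obtain ⟨v, hv⟩ := hX.nt
      have : Nontrivial V := ⟨⟨v, 0, hv⟩⟩
      have : Module.Finite (ZMod p) V := Module.Finite.of_finite
      exact Module.finrank_pos
    rcases Nat.eq_zero_or_pos t with h0 | h0
    · subst h0
      simpa using hfr
    · obtain ⟨U, _, _, M, ρ, φ, h, hM⟩ := hdec ⟨0, h0⟩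
      refine hM.trans ?_
      have : Module.Finite (ZMod p) V := Module.Finite.of_finite
      obtain ⟨u, hu⟩ := h.nt
      have hMpos : 0 < M := lt_of_lt_of_le (Nat.two_pow_pos _) hM
      have hfinU : Finite U := by
        refine Finite.of_injective (fun u : U => φ.symm fun _ => u) ?_
        intro a b hab
        exact congrFun (φ.symm.injective hab) ⟨0, hMpos⟩
      have : Module.Finite (ZMod p) U := Module.Finite.of_finite
      have : Nontrivial U := ⟨⟨u, 0, hu⟩⟩
      have h1 : Module.finrank (ZMod p) V = M * Module.finrank (ZMod p) U := by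
        rw [LinearEquiv.finrank_eq φ, Module.finrank_pi_fintype, Finset.sum_const, Finset.card_univ, Fintype.card_fin,
          smul_eq_mul]
      rw [h1]
      exact Nat.le_mul_of_pos_right _ Module.finrank_pos
  have hTE : ∀ i, TBase (E i ⧸ center (E i)) k := by
    intro i
    have := hS.Esimp i
    refine hT _ (hS.Enab i) fun h => hna ?_
    have h3 := involves_of_surjective (QuotientGroup.mk' (center (E i))) (QuotientGroup.mk'_surjective _) h
    exact involves_of_injective (Subgroup.inclusion ((hS.EC i).trans hS.CX))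
      (Subgroup.inclusion_injective _) h3
  obtain ⟨v, hv0, hv⟩ := comp_vecs E hHg hS.Ecomm hS.Eperf hS.Enab k hTE hX.nt
  obtain ⟨v0, hv00⟩ := hX.nt
  obtain ⟨a0, ha0⟩ := hcyc.exists_generator
  -- the stabiliser
  let S : Subgroup (V ≃ₗ[ZMod p] V) :=
    { carrier := {x | x ∈ X ∧ x v0 = v0 ∧ x ((a0 : V ≃ₗ[ZMod p] V) v0) = (a0 : V ≃ₗ[ZMod p] V) v0 ∧
        ∀ j, x (v j) = v j}
      one_mem' := ⟨one_mem _, rfl, rfl, fun _ => rfl⟩
      mul_mem' := by
        rintro x y ⟨hx, hx1, hx2, hx3⟩ ⟨hy, hy1, hy2, hy3⟩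
        refine ⟨mul_mem hx hy, ?_, ?_, fun j => ?_⟩
        · rw [mul_app, hy1, hx1]
        · rw [mul_app, hy2, hx2]
        · rw [mul_app, hy3, hx3]
      inv_mem' := by
        rintro x ⟨hx, hx1, hx2, hx3⟩
        refine ⟨inv_mem hx, ?_, ?_, fun j => ?_⟩
        · conv_lhs => rw [← hx1]
          exact inv_app _ _
        · conv_lhs => rw [← hx2]
          exact inv_app _ _
        · conv_lhs => rw [← hx3 j]
          exact inv_app _ _ }
  have hSmem : ∀ x, x ∈ S ↔ x ∈ X ∧ x v0 = v0 ∧ x ((a0 : V ≃ₗ[ZMod p] V) v0) = (a0 : V ≃ₗ[ZMod p] V) v0 ∧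
        ∀ j, x (v j) = v j := fun x => Iff.rfl
  have hSA : ∀ x ∈ S, ∀ a ∈ A, x * a = a * x := by
    intro x hx a ha
    obtain ⟨hxX, hx1, hx2, -⟩ := (hSmem x).1 hx
    have hx1' : x⁻¹ v0 = v0 := by
      conv_lhs => rw [← hx1]
      exact inv_app _ _
    have h3 : (a0 : V ≃ₗ[ZMod p] V)⁻¹ * (x * a0 * x⁻¹) ∈ A := mul_mem (inv_mem a0.2) (hS.Anorm x hxX _ a0.2)
    have h4 : (a0 : V ≃ₗ[ZMod p] V)⁻¹ * (x * a0 * x⁻¹) = 1 := by
      by_contra hne
      refine hv00 (hsemi _ h3 hne v0 ?_)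
      rw [mul_app, mul_app, mul_app, hx1', hx2]
      exact inv_app _ _
    have h5 : x * (a0 : V ≃ₗ[ZMod p] V) = a0 * x := by
      have h6 := inv_mul_eq_one.1 h4
      calc x * (a0 : V ≃ₗ[ZMod p] V) = (x * a0 * x⁻¹) * x := by group
        _ = a0 * x := by rw [← h6]
    obtain ⟨n, hn⟩ := Subgroup.mem_zpowers_iff.1 (ha0 ⟨a, ha⟩)
    have h6 : (a : V ≃ₗ[ZMod p] V) = (a0 : V ≃ₗ[ZMod p] V) ^ n := by
      have := congrArg Subtype.val hn
      simpa using this.symm
    rw [h6]
    exact (show Commute x (a0 : V ≃ₗ[ZMod p] V) from h5).zpow_right n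
  have hSC : S ≤ C := fun x hx => (hS.Ceq x).2 ⟨((hSmem x).1 hx).1, hSA x hx⟩
  have hSbot : S ⊓ A = ⊥ := by
    rw [eq_bot_iff]
    rintro x ⟨hx, hxA⟩
    by_contra hne
    exact hv00 (hsemi x hxA (fun h => hne (Subgroup.mem_bot.2 h)) v0 ((hSmem x).1 hx).2.1)
  have hSE : ∀ x ∈ S, (∀ i, ∀ y, y ∈ E i ↔ x * y * x⁻¹ ∈ E i) → ∀ i, ∀ e ∈ E i, x * e = e * x :=
    fun x hx hn => hv x hn ((hSmem x).1 hx).2.2.2
  have hScard := hK p V X A C R t E hS hcyc ht hRA S hSC hSbot hSE
  have hbig : ∀ x ∈ S, x ≠ 1 → Nat.card {v : V // x v = v} ^ 6 ≤ Nat.card V ^ 5 := by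
    intro x hx hx1
    refine H223.B57.big_support_of X A C R t E hS (fun i => ?_) hsemi (fun i => fix_zero_of_hg (hHg i) (hS.Enab i))
      x ((hSmem x).1 hx).1 ?_
    · have := hS.Esimp i
      exact h2 _
    · by_contra hcon
      push Not at hcon
      obtain ⟨-, hc2, hc3⟩ := hcon
      apply hx1
      have h3 : x ∈ A := hS.cent x (hSC hx) hc2 (hSE x hx fun i => norm_of_le (hc3 i))
      have h4 : x ∈ S ⊓ A := ⟨hx, h3⟩
      rw [hSbot] at h4
      exact Subgroup.mem_bot.1 h4
  obtain ⟨w, hw⟩ := exists_tuple ⟨v0, hv00⟩ S K hScard hbig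
  refine ⟨{v0, (a0 : V ≃ₗ[ZMod p] V) v0} ∪ (Finset.univ.image v ∪ Finset.univ.image w), ?_, ?_⟩
  · refine (Finset.card_union_le _ _).trans ?_
    have h3 : ({v0, (a0 : V ≃ₗ[ZMod p] V) v0} : Finset V).card ≤ 2 := Finset.card_le_two
    have h4 : (Finset.univ.image v).card ≤ k + 1 := Finset.card_image_le.trans (by simp)
    have h5 : (Finset.univ.image w).card ≤ 6 * (K + 1) := Finset.card_image_le.trans (by simp)
    have h6 := Finset.card_union_le (Finset.univ.image v) (Finset.univ.image w)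
    omega
  · intro g hg hfix
    refine hw g ((hSmem g).2 ⟨hg, hfix _ ?_, hfix _ ?_, fun j => hfix _ ?_⟩) fun j => hfix _ ?_
    · simp only [_root_.Finset.insert_union, _root_.Finset.singleton_union, _root_.Finset.mem_insert, _root_.Finset.mem_union, _root_.Finset.mem_image, _root_.Finset.mem_univ, _root_.true_and, _root_.true_or]
    · simp only [_root_.Finset.insert_union, _root_.Finset.singleton_union, _root_.Finset.mem_insert, _root_.Finset.mem_union, _root_.Finset.mem_image, _root_.Finset.mem_univ, _root_.true_and, _root_.true_or, _root_.or_true]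
    · simp only [_root_.Finset.insert_union, _root_.Finset.singleton_union, _root_.Finset.mem_insert, _root_.Finset.mem_union, _root_.Finset.mem_image, _root_.Finset.mem_univ, _root_.true_and, _root_.exists_apply_eq_apply, _root_.true_or, _root_.or_true]
    · simp only [_root_.Finset.insert_union, _root_.Finset.singleton_union, _root_.Finset.mem_insert, _root_.Finset.mem_union, _root_.Finset.mem_image, _root_.Finset.mem_univ, _root_.true_and, _root_.exists_apply_eq_apply, _root_.or_true]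

end Cfsg.Agent.H457.Bs
end

private theorem dce_e9f17b959418 : _root_.True := by
  try have : _root_.True := by simp only [_root_.Cfsg.Agent.H680.B57.ExStr.LL.eq_1]
  try have : _root_.True := by simp only [_root_.Cfsg.Agent.H680.B57.ExStr.RR.eq_1]
  exact _root_.True.intro
end

-- part: H870/B57/Wr_mg
section
prune_inst 0xf56001412d62000010000586910024e57e00059200630400dd070f4606c7d7624002af60ff803c155a28aa04003d002000dc00f080400000040004000118058110a8120631400000000096003080000000000000000000000000000000071004200000000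
set_option linter.all false
open scoped Cfsg.Agent.FastGrp

-- part: H870/B57/Wr
section
/-!
# S5717, A2: bases in product action (helper870)
-/

set_option autoImplicit false

namespace Cfsg.Agent.H870.B57

open Cfsg.Agent.H830.B57

/-- A2 (wr): bases in product action; `X` = disjoint union of the coordinate sets over `I`. -/
theorem wr {G I X Ω : Type} [Group G] [MulAction G I] [MulAction G X] [MulAction G Ω] [Finite I]
    [Finite X] (π : X → I) (hπ : ∀ (g : G) (x : X), π (g • x) = g • π x) (ev : Ω → I → X)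
    (hev : ∀ ω i, π (ev ω i) = i)
    (hsurj : ∀ s : I → X, (∀ i, π (s i) = i) → ∃ ω, ev ω = s) (hinj : Function.Injective ev)
    (heq : ∀ (g : G) (ω : Ω) (i : I), ev (g • ω) (g • i) = g • ev ω i) (htr : MulAction.IsPretransitive G I)
    (i0 : I) (b : ℕ) (B : Finset X) (hB : ∀ x ∈ B, π x = i0) (hBc : B.card ≤ b)
    (hbase : ∀ g : G, g • i0 = i0 → (∀ x ∈ B, g • x = x) → ∀ x : X, π x = i0 → g • x = x)
    (hne : ∃ x y : X, x ≠ y ∧ π x = i0 ∧ π y = i0) (c : ℕ) (F : I → Fin c)
    (hF : ∀ g : G, (∀ i : I, F (g • i) = F i) → ∀ i : I, g • i = i) :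
    BaseLE G Ω (b + Nat.clog 2 c) := by
  classical
  obtain ⟨x0, y0, hxy, hx0, hy0⟩ := hne
  choose k hk using fun i : I => htr.exists_smul_eq i0 i
  have hsec : ∀ u : I → X, (∀ i, π (u i) = i0) → ∃ ω, ev ω = fun i => k i • u i := fun u hu =>
    hsurj _ fun i => by rw [hπ, hu, hk]
  have hf : ∀ x : X, ∃ ω, π x = i0 → ev ω = fun i => k i • x := by
    intro x
    by_cases hx : π x = i0
    · obtain ⟨ω, hω⟩ := hsec (fun _ => x) fun _ => hx
      exact ⟨ω, fun _ => hω⟩
    · obtain ⟨ω, -⟩ := hsec (fun _ => x0) fun _ => hx0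
      exact ⟨ω, fun h => absurd h hx⟩
  choose f hf using hf
  -- the bits
  let u : ℕ → I → X := fun l i => if (F i : ℕ).testBit l then x0 else y0
  have hu : ∀ l i, π (u l i) = i0 := by
    intro l i
    show π (if (F i : ℕ).testBit l then x0 else y0) = i0
    split_ifs
    exacts [hx0, hy0]
  choose w hw using fun l : ℕ => hsec (u l) (hu l)
  refine ⟨B.image f ∪ (Finset.range (Nat.clog 2 c)).image w, ?_, ?_⟩
  · refine (Finset.card_union_le _ _).trans (add_le_add (Finset.card_image_le.trans hBc) ?_)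
    exact Finset.card_image_le.trans (Finset.card_range _).le
  intro g hg
  have key : ∀ ω, g • ω = ω → ∀ i, ev ω (g • i) = g • ev ω i := by
    intro ω hω i
    have h1 := heq g ω i
    rwa [hω] at h1
  -- the elements `h i = (k (g i))⁻¹ g (k i)`
  have h0 : ∀ i, ((k (g • i))⁻¹ * g * k i) • i0 = i0 := by
    intro i
    rw [mul_smul, hk, mul_smul, inv_smul_eq_iff, hk]
  have h1 : ∀ i, ∀ x ∈ B, ((k (g • i))⁻¹ * g * k i) • x = x := by
    intro i x hx
    have h2 := key (f x) (hg _ (Finset.mem_union_left _ (Finset.mem_image_of_mem _ hx))) i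
    rw [hf x (hB x hx)] at h2
    have h3 : k (g • i) • x = g • k i • x := h2
    rw [mul_smul, mul_smul, inv_smul_eq_iff, h3]
  have h2 : ∀ i, ∀ x, π x = i0 → ((k (g • i))⁻¹ * g * k i) • x = x := fun i => hbase _ (h0 i) (h1 i)
  have hFg : ∀ i, F (g • i) = F i := by
    intro i
    apply Fin.ext
    apply Nat.eq_of_testBit_eq
    intro l
    by_cases hl : l < Nat.clog 2 c
    · have h3 := key (w l) (hg _ (Finset.mem_union_right _ (Finset.mem_image_of_mem _ (Finset.mem_range.2 hl)))) i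
      rw [hw l] at h3
      have h4 : k (g • i) • u l (g • i) = g • k i • u l i := h3
      have h5 := h2 i (u l i) (hu l i)
      rw [mul_smul, mul_smul, inv_smul_eq_iff, ← h4] at h5
      have h6 : u l (g • i) = u l i := smul_left_cancel _ h5
      have h7 : (if (F (g • i) : ℕ).testBit l then x0 else y0) = if (F i : ℕ).testBit l then x0 else y0 := h6
      by_cases ha : (F (g • i) : ℕ).testBit l <;> by_cases hb : (F i : ℕ).testBit l
      · rw [ha, hb]
      · rw [if_pos ha, if_neg hb] at h7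
        exact absurd h7 hxy
      · rw [if_neg ha, if_pos hb] at h7
        exact absurd h7.symm hxy
      · rw [Bool.not_eq_true] at ha hb
        rw [ha, hb]
    · have h3 : ∀ j : Fin c, (j : ℕ).testBit l = false := by
        intro j
        apply Nat.testBit_lt_two_pow
        calc (j : ℕ) < c := j.2
          _ ≤ 2 ^ Nat.clog 2 c := Nat.le_pow_clog (by norm_num) c
          _ ≤ 2 ^ l := Nat.pow_le_pow_right (by norm_num) (not_lt.1 hl)
      rw [h3, h3]
  have hgi := hF g hFg
  have hgx : ∀ x : X, g • x = x := by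
    intro x
    have h3 : π ((k (π x))⁻¹ • x) = i0 := by rw [hπ, inv_smul_eq_iff, hk]
    have h4 := h2 (π x) _ h3
    rw [hgi, mul_smul, mul_smul, inv_smul_eq_iff, smul_inv_smul] at h4
    exact h4
  intro ω
  apply hinj
  funext i
  have h3 := heq g ω i
  rw [hgi, hgx] at h3
  exact h3

end Cfsg.Agent.H870.B57
end

-- part: H830/B57/OfRow
section
/-!
# S5717: from bases of almost simple groups to `TBase`

`RowBase b T` is the field `base` of `Cfsg.Agent.H254.BS.Row` (with `b = c * d`).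
-/

set_option autoImplicit false

open Subgroup

namespace Cfsg.Agent.H830.B57

section

variable {T : Type} [Group T]

end

end Cfsg.Agent.H830.B57
end

-- part: H830/B57/Union
section
/-!
# S5717: union bounds
-/

set_option autoImplicit false

open Subgroup Finset

namespace Cfsg.Agent.H830.B57

/-- union bound -/
theorem exists_tuple {A Ω : Type*} [Finite Ω] (S : Finset A) (R : A → Ω → Prop) (b : ℕ)
    (h : ∑ a ∈ S, (Nat.card {ω // R a ω}) ^ b < (Nat.card Ω) ^ b) :
    ∃ w : Fin b → Ω, ∀ a ∈ S, ∃ j, ¬ R a (w j) := by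
  classical
  have := Fintype.ofFinite Ω
  by_contra hcon
  push Not at hcon
  have hcov : (Finset.univ : Finset (Fin b → Ω)) ⊆
      S.biUnion fun a => Finset.univ.filter (fun w : Fin b → Ω => ∀ j, R a (w j)) := by
    intro w _
    obtain ⟨a, ha, hw⟩ := hcon w
    exact Finset.mem_biUnion.2 ⟨a, ha, Finset.mem_filter.2 ⟨Finset.mem_univ _, hw⟩⟩
  have h1 := Finset.card_le_card hcov
  have h2 := Finset.card_biUnion_le (s := S)
    (t := fun a => Finset.univ.filter (fun w : Fin b → Ω => ∀ j, R a (w j)))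
  have h3 : ∀ a, (Finset.univ.filter (fun w : Fin b → Ω => ∀ j, R a (w j))).card =
      (Nat.card {ω // R a ω}) ^ b := by
    intro a
    rw [← Fintype.card_subtype, ← Nat.card_eq_fintype_card]
    have e : {w : Fin b → Ω // ∀ j, R a (w j)} ≃ (Fin b → {ω // R a ω}) :=
      { toFun := fun w j => ⟨w.1 j, w.2 j⟩
        invFun := fun w => ⟨fun j => (w j).1, fun j => (w j).2⟩
        left_inv := fun w => rfl
        right_inv := fun w => rfl }
    rw [Nat.card_congr e, Nat.card_fun, Nat.card_fin]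
  have h4 : (Finset.univ : Finset (Fin b → Ω)).card = (Nat.card Ω) ^ b := by
    rw [Finset.card_univ, ← Nat.card_eq_fintype_card, Nat.card_fun, Nat.card_fin]
  rw [h4] at h1
  have h5 : (Nat.card Ω) ^ b ≤ ∑ a ∈ S, (Nat.card {ω // R a ω}) ^ b := by
    refine h1.trans (h2.trans (le_of_eq ?_))
    exact Finset.sum_congr rfl fun a _ => h3 a
  exact absurd h (not_lt.2 h5)

/-- more points -/
theorem TBase.mono {T : Type*} [Group T] {k l : ℕ} (h : TBase T k) (hkl : k ≤ l) : TBase T l := by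
  intro H hH
  obtain ⟨t, ht⟩ := h H hH
  refine ⟨fun j => if hj : (j : ℕ) < k then t ⟨j, hj⟩ else 1, ?_⟩
  intro a ha hfix
  refine ht a ha fun j => ?_
  have h1 := hfix ⟨j, lt_of_lt_of_le j.2 hkl⟩
  simpa [j.2] using h1

section real

/-- the numerical heart -/
theorem num1 (C : ℕ) (hC : 2 ≤ C) (F x : ℝ) (hF0 : 0 ≤ F) (hx : 2 ≤ x) (h1 : F ^ C * x ≤ C)
    (h2 : C * F ≤ C - 1) :
    F ^ (C ^ 2 * (4 * C + 4) + 2 * C * (2 * C + 2)) * x ^ (2 * C + 2) ≤ 1 := by
  have hC' : (2 : ℝ) ≤ C := by exact_mod_cast hC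
  have hCpos : (0 : ℝ) < C := by linarith
  have hF1 : F ≤ 1 := by
    by_contra hcon
    push Not at hcon
    nlinarith
  have hxpos : 0 < x := by linarith
  rcases le_or_gt ((C : ℝ) ^ 2) x with hx2 | hx2
  · -- large `x`
    have h3 : F ^ C ≤ C / x := by
      rw [le_div_iff₀ hxpos]; exact h1
    have h4 : F ^ (2 * C) ≤ 1 / x := by
      rw [mul_comm, pow_mul]
      calc (F ^ C) ^ 2 ≤ (C / x) ^ 2 := by gcongr
        _ = C ^ 2 / x ^ 2 := by rw [div_pow]
        _ ≤ x / x ^ 2 := by gcongr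
        _ = 1 / x := by field_simp
    have h5 : F ^ (2 * C * (2 * C + 2)) * x ^ (2 * C + 2) ≤ 1 := by
      rw [pow_mul, ← mul_pow]
      apply pow_le_one₀ (by positivity)
      calc F ^ (2 * C) * x ≤ 1 / x * x := by gcongr
        _ = 1 := by field_simp
    rw [pow_add, mul_assoc]
    calc F ^ (C ^ 2 * (4 * C + 4)) * (F ^ (2 * C * (2 * C + 2)) * x ^ (2 * C + 2)) ≤ 1 * 1 := by
          gcongr
          exact pow_le_one₀ hF0 hF1
      _ = 1 := one_mul 1
  · -- small `x`
    have h3 : F ^ C ≤ 1 / 2 := by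
      have hF2 : F ≤ (C - 1) / C := by
        rw [le_div_iff₀ hCpos]; linarith
      have hb : (2 : ℝ) ≤ (C / (C - 1)) ^ C := by
        have hC1 : (0 : ℝ) < C - 1 := by linarith
        have e1 : (C : ℝ) / (C - 1) = 1 + 1 / (C - 1) := by field_simp; ring
        rw [e1]
        have h6 := one_add_mul_le_pow (a := (1 : ℝ) / (C - 1)) (by
          have : (0 : ℝ) ≤ 1 / (C - 1) := by positivity
          linarith) C
        have h7 : (1 : ℝ) ≤ C * (1 / (C - 1)) := by
          rw [mul_one_div, le_div_iff₀ hC1]; linarith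
        linarith
      calc F ^ C ≤ ((C - 1) / C) ^ C := by gcongr
        _ = 1 / (C / (C - 1)) ^ C := by
            rw [← one_div_pow, one_div_div]
        _ ≤ 1 / 2 := by gcongr
    have h4 : x ^ (2 * C + 2) ≤ 2 ^ (C * (4 * C + 4)) := by
      have h6 : (C : ℝ) ≤ 2 ^ C := by exact_mod_cast Nat.lt_two_pow_self.le
      calc x ^ (2 * C + 2) ≤ ((C : ℝ) ^ 2) ^ (2 * C + 2) := by gcongr
        _ = (C : ℝ) ^ (4 * C + 4) := by rw [← pow_mul]; congr 1; ring
        _ ≤ (2 ^ C) ^ (4 * C + 4) := by gcongr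
        _ = 2 ^ (C * (4 * C + 4)) := by rw [← pow_mul]
    have h5 : F ^ (C ^ 2 * (4 * C + 4)) ≤ (1 / 2) ^ (C * (4 * C + 4)) := by
      have : C ^ 2 * (4 * C + 4) = C * (C * (4 * C + 4)) := by ring
      rw [this, pow_mul]
      gcongr
    rw [pow_add]
    have h6 : F ^ (2 * C * (2 * C + 2)) ≤ 1 := pow_le_one₀ hF0 hF1
    calc F ^ (C ^ 2 * (4 * C + 4)) * F ^ (2 * C * (2 * C + 2)) * x ^ (2 * C + 2)
        ≤ (1 / 2) ^ (C * (4 * C + 4)) * 1 * 2 ^ (C * (4 * C + 4)) := by gcongr
      _ = 1 := by rw [mul_one, ← mul_pow]; norm_num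

/-- a geometric sum over a finite set of positive integers -/
theorem geo (S : Finset ℕ) (hS : ∀ s ∈ S, 1 ≤ s) : ∑ s ∈ S, ((1 : ℝ) / 4) ^ s ≤ 1 / 3 := by
  have h0 : 0 ∉ S := fun h => absurd (hS 0 h) (by norm_num)
  have hsum : Summable fun s : ℕ => ((1 : ℝ) / 4) ^ s :=
    summable_geometric_of_lt_one (by norm_num) (by norm_num)
  have h1 : ∑ s ∈ insert 0 S, ((1 : ℝ) / 4) ^ s ≤ ∑' s : ℕ, ((1 : ℝ) / 4) ^ s :=
    hsum.sum_le_tsum _ fun s _ => by positivity
  rw [tsum_geometric_of_lt_one (by norm_num) (by norm_num), Finset.sum_insert h0] at h1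
  norm_num at h1 ⊢
  linarith

end real

end Cfsg.Agent.H830.B57
end
end

-- part: H830/B57/Top_mg
section
prune_inst 0x54010410940000010000506100000850400040200408000084604400000002240002040090034060a0080000001000000000020004000c0040000000000010000000200b0480000020000000000000000000000000000000000000000030000000000000
set_option linter.all false
open scoped Cfsg.Agent.FastGrp

-- part: H830/B57/Final
section
/-!
# S5717: final assembly of the reductions
-/

set_option autoImplicit false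

open Subgroup

namespace Cfsg.Agent.H830.B57

theorem clog_le {x : ℕ} (hx : 64 ≤ x) : Nat.clog 2 (2 * x + 2) ≤ x / 8 := by
  apply (Nat.clog_le_iff_le_pow (by norm_num)).2
  have h1 : ∀ y : ℕ, 8 ≤ y → 16 * y + 16 ≤ 2 ^ y := by
    intro y hy
    induction y, hy using Nat.le_induction with
    | base => norm_num
    | succ n hn ih =>
      rw [pow_succ]
      omega
  have h2 := h1 (x / 8) (by omega)
  omega

/-- the hypotheses of the nonaffine reduction -/
def NonAff : Prop :=
  ∀ (d k b : ℕ), 5 ≤ d →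
    (∀ (T : Type) [Group T] [Finite T] [IsSimpleGroup T], ∃ u v : T, _root_.Subgroup.closure {u, v} = ⊤) →
    (∀ (T : Type) [Group T] [Finite T] [IsSimpleGroup T], (∃ x y : T, x * y ≠ y * x) →
      ¬ Cfsg.Involves (alternatingGroup (Fin d)) T → TBase T k) →
    ∀ (G Ω : Type) [Group G] [Finite G] [MulAction G Ω] [FaithfulSMul G Ω] [Finite Ω],
    MulAction.IsPreprimitive G Ω → ¬ Cfsg.Involves (alternatingGroup (Fin d)) G →
    ∀ (N : Subgroup G) [N.Normal], (∀ M : Subgroup G, M.Normal → M ≤ N → M = ⊥ ∨ M = N) →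
    (¬ ∀ x ∈ N, ∀ y ∈ N, Commute x y) →
    (∀ (L Δ : Type) [Group L] [Finite L] [MulAction L Δ] [Finite Δ] (f : L →* G),
      Function.Injective f → MulAction.IsPreprimitive L Δ → Nontrivial Δ →
      Nat.card Δ < Nat.card Ω → BaseLE L Δ b) →
    BaseLE G Ω (k + 4 + 2 * Nat.clog 2 (2 * b + 2))

/-- the hypotheses of the affine reduction -/
def Aff : Prop :=
  ∀ (d b1 b : ℕ), LinPrim d b1 →
    ∀ (G Ω : Type) [Group G] [Finite G] [MulAction G Ω] [FaithfulSMul G Ω] [Finite Ω],
    MulAction.IsPreprimitive G Ω → ¬ Cfsg.Involves (alternatingGroup (Fin d)) G →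
    ∀ (N : Subgroup G) [N.Normal], N ≠ ⊥ →
    (∀ M : Subgroup G, M.Normal → M ≤ N → M = ⊥ ∨ M = N) →
    (∀ x ∈ N, ∀ y ∈ N, Commute x y) →
    (∀ (L Δ : Type) [Group L] [Finite L] [MulAction L Δ] [Finite Δ] (f : L →* G),
      Function.Injective f → MulAction.IsPreprimitive L Δ → Nontrivial Δ →
      Nat.card Δ < Nat.card Ω → BaseLE L Δ b) →
    BaseLE G Ω (1 + b1 + Nat.clog 2 (2 * b + 2))

theorem exists_min {G : Type} [Group G] [Finite G] (hne : ∃ g : G, g ≠ 1) :
    ∃ N : Subgroup G, N.Normal ∧ N ≠ ⊥ ∧ ∀ M : Subgroup G, M.Normal → M ≤ N → M = ⊥ ∨ M = N := by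
  have hfin : {M : Subgroup G | M.Normal ∧ M ≠ ⊥}.Finite := Set.toFinite _
  have hnon : {M : Subgroup G | M.Normal ∧ M ≠ ⊥}.Nonempty := by
    obtain ⟨g, hg⟩ := hne
    exact ⟨⊤, inferInstance, fun h => hg ((eq_bot_iff_forall _).1 h g (mem_top g))⟩
  obtain ⟨N, hN⟩ := hfin.exists_minimal hnon
  refine ⟨N, hN.1.1, hN.1.2, ?_⟩
  intro M hM hMN
  by_cases hb : M = ⊥
  · exact Or.inl hb
  · right
    exact le_antisymm hMN (hN.2 ⟨hM, hb⟩ hMN)

theorem main_of (C1 C2 : ℕ)
    (h2 : ∀ (T : Type) [Group T] [Finite T] [IsSimpleGroup T], ∃ u v : T, _root_.Subgroup.closure {u, v} = ⊤)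
    (hT : ∀ d : ℕ, 5 ≤ d → ∀ (T : Type) [Group T] [Finite T] [IsSimpleGroup T],
      (∃ x y : T, x * y ≠ y * x) → ¬ Cfsg.Involves (alternatingGroup (Fin d)) T →
      TBase T (C1 * d))
    (hL : ∀ d : ℕ, 5 ≤ d → LinPrim d (C2 * d)) (hna : NonAff) (ha : Aff) (d : ℕ) (hd : 5 ≤ d) :
    ∀ (n : ℕ) (G Ω : Type) [Group G] [Finite G] [MulAction G Ω] [Finite Ω],
      Nat.card Ω = n → MulAction.IsPreprimitive G Ω →
      ¬ Cfsg.Involves (alternatingGroup (Fin d)) G →
      BaseLE G Ω ((2 * C1 + 2 * C2 + 20) * d) := by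
  intro n
  induction n using Nat.strong_induction_on with
  | _ n ih =>
  intro G Ω _ _ _ _ hn hp hG
  classical
  set c := 2 * C1 + 2 * C2 + 20 with hc
  -- the image in the symmetric group
  let P : Subgroup (Equiv.Perm Ω) := (MulAction.toPermHom G Ω).range
  let r : G →* P := (MulAction.toPermHom G Ω).rangeRestrict
  have hr : Function.Surjective r := (MulAction.toPermHom G Ω).rangeRestrict_surjective
  have hact : ∀ (g : G) (x : Ω), r g • x = g • x := fun g x => rfl
  have hfaith : FaithfulSMul P Ω := inferInstance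
  have hpP : MulAction.IsPreprimitive P Ω := by
    have hmap : Function.Surjective (r : G → P) := hr
    let f : Ω →ₑ[(r : G → P)] Ω := { toFun := id, map_smul' := fun g x => (hact g x).symm }
    exact MulAction.IsPreprimitive.of_surjective (f := f) Function.surjective_id
  have hGP : ¬ Cfsg.Involves (alternatingGroup (Fin d)) P := fun h =>
    hG (involves_of_surjective r hr h)
  have hfinP : Finite P := inferInstance
  -- it suffices to find a base for the image
  suffices hb : BaseLE P Ω (c * d) by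
    obtain ⟨B, hB1, hB2⟩ := hb
    refine ⟨B, hB1, ?_⟩
    intro g hg x
    have h1 := hB2 (r g) (fun y hy => (hact g y).trans (hg y hy)) x
    rw [hact] at h1
    exact h1
  by_cases hne : ∃ g : P, g ≠ 1
  swap
  · push Not at hne
    exact ⟨∅, by simp, fun g _ x => by rw [hne g, one_smul]⟩
  have ihP : ∀ (L Δ : Type) [Group L] [Finite L] [MulAction L Δ] [Finite Δ] (f : L →* P),
      Function.Injective f → MulAction.IsPreprimitive L Δ → Nontrivial Δ →
      Nat.card Δ < Nat.card Ω → BaseLE L Δ (c * d) := by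
    intro L Δ _ _ _ _ f hf hL' _ hlt
    exact ih (Nat.card Δ) (hn ▸ hlt) L Δ rfl hL' (fun h => hGP (involves_of_injective f hf h))
  obtain ⟨N, hNn, hNb, hmin⟩ := exists_min hne
  have hx : 64 ≤ c * d := by nlinarith only [hd, hc]
  have hcl := clog_le hx
  have hcd : c * d = 2 * (C1 * d) + 2 * (C2 * d) + 20 * d := by rw [hc]; ring
  by_cases hab : ∀ x ∈ N, ∀ y ∈ N, Commute x y
  · refine (ha d (C2 * d) (c * d) (hL d hd) P Ω hpP hGP N hNb hmin hab ihP).mono ?_
    omega
  · refine (hna d (C1 * d) (c * d) hd h2 (fun T _ _ _ h1 h3 => hT d hd T h1 h3) P Ω hpP hGP N hmin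
      hab ihP).mono ?_
    omega

end Cfsg.Agent.H830.B57
end

-- part: H830/B57/Uni
section
/-!
# S5717: universe transfer
-/

set_option autoImplicit false

open Subgroup

namespace Cfsg.Agent.H830.B57

/-- from `Type` to arbitrary universes, and from weak bases to bases of faithful actions -/
theorem transfer {c : ℕ} (h : ∀ (d : ℕ), 5 ≤ d → ∀ (G Ω : Type) [Group G] [Finite G]
      [MulAction G Ω] [Finite Ω], MulAction.IsPreprimitive G Ω →
      ¬ Cfsg.Involves (alternatingGroup (Fin d)) G → BaseLE G Ω (c * d))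
    (d : ℕ) (hd : 5 ≤ d) (G Ω : Type*) [Group G] [Finite G] [MulAction G Ω] [FaithfulSMul G Ω]
    [Fintype Ω] (hp : MulAction.IsPreprimitive G Ω)
    (hG : ¬ Cfsg.Involves (alternatingGroup (Fin d)) G) :
    ∃ B : Finset Ω, B.card ≤ c * d ∧ ∀ g : G, (∀ b ∈ B, g • b = b) → g = 1 := by
  classical
  let n := Nat.card Ω
  let e : Ω ≃ Fin n := (Finite.equivFin Ω)
  let P : Subgroup (Equiv.Perm (Fin n)) := ((e.permCongrHom).toMonoidHom.comp
    (MulAction.toPermHom G Ω)).range
  let r : G →* P := ((e.permCongrHom).toMonoidHom.comp (MulAction.toPermHom G Ω)).rangeRestrict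
  have hr : Function.Surjective r := MonoidHom.rangeRestrict_surjective _
  have hact : ∀ (g : G) (x : Ω), r g • e x = e (g • x) := by
    intro g x
    change e (g • e.symm (e x)) = e (g • x)
    rw [e.symm_apply_apply]
  have hpP : MulAction.IsPreprimitive P (Fin n) := by
    let f : Ω →ₑ[(r : G → P)] Fin n := { toFun := e, map_smul' := fun g x => (hact g x).symm }
    exact MulAction.IsPreprimitive.of_surjective (f := f) e.surjective
  have hGP : ¬ Cfsg.Involves (alternatingGroup (Fin d)) P := fun h' =>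
    hG (involves_of_surjective r hr h')
  obtain ⟨B, hB1, hB2⟩ := h d hd P (Fin n) hpP hGP
  refine ⟨B.map e.symm.toEmbedding, by simpa using hB1, ?_⟩
  intro g hg
  have h1 : ∀ x : Fin n, r g • x = x := by
    apply hB2
    intro y hy
    have h2 := hg (e.symm y) (by simpa using hy)
    have h3 := hact g (e.symm y)
    rw [e.apply_symm_apply, h2, e.apply_symm_apply] at h3
    exact h3
  apply FaithfulSMul.eq_of_smul_eq_smul (α := Ω)
  intro x
  have h2 := h1 (e x)
  rw [hact] at h2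
  rw [one_smul]
  exact e.injective h2

end Cfsg.Agent.H830.B57
end

-- part: H637/B57/NonAff
section
/-!
# Bases of primitive groups with a nonabelian minimal normal subgroup (helper637, task 4661, for S5717)

`nonaff_of` : the statement `nonaff` from the product case and the diagonal case.
-/

set_option autoImplicit false
set_option linter.unusedVariables false

open Subgroup

namespace Cfsg.Agent.H637.B57

open Cfsg.Agent.H830.B57 Cfsg.Agent

theorem BaseLE.mono {G Ω : Type*} [Group G] [MulAction G Ω] {a b : ℕ} (h : BaseLE G Ω a) (hab : a ≤ b) :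
    BaseLE G Ω b := by
  obtain ⟨B, hB, h1⟩ := h
  exact ⟨B, hB.trans hab, h1⟩

/-- a section of a subgroup is a section -/
theorem involves_of_subgroup {A G : Type*} [Group A] [Group G] {H : Subgroup G} (h : Cfsg.Involves A H) :
    Cfsg.Involves A G := by
  have h1 : Lib.Involves.Involves H A := Lib.Involves.involves_iff.2 h
  exact Lib.Involves.involves_iff.1 (Lib.Involves.of_subgroup h1)

/-- the product case -/
def ProdCase : Prop := ∀ (G Ω : Type) [Group G] [Finite G] [MulAction G Ω] [FaithfulSMul G Ω] [Finite Ω]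
    (_ : MulAction.IsPreprimitive G Ω) (N : Subgroup G) [N.Normal]
    (m : ℕ) (T : Fin m → Subgroup G) (e : N ≃* (∀ i, T i)) (_ : H893.Fac N m T e)
    (ω : Ω) (_ : ¬ N ≤ MulAction.stabilizer G ω)
    (_ : ∀ n : N, (n : G) ∈ MulAction.stabilizer G ω ↔
      ∀ i, ((e n i : T i) : G) ∈ MulAction.stabilizer G ω) (k b : ℕ) (_ : ∀ i, TBase (T i) k)
    (_ : ∀ (L Δ : Type) [Group L] [Finite L] [MulAction L Δ] [Finite Δ] (f : L →* G),
      Function.Injective f → MulAction.IsPreprimitive L Δ → Nontrivial Δ →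
      Nat.card Δ < Nat.card Ω → BaseLE L Δ b),
    BaseLE G Ω (k + 1 + Nat.clog 2 (2 * b + 2))

/-- the diagonal case -/
def DiagCase : Prop := ∀ (G Ω : Type) [Group G] [Finite G] [MulAction G Ω] [FaithfulSMul G Ω] [Finite Ω]
    (_ : MulAction.IsPreprimitive G Ω) (N : Subgroup G) [N.Normal]
    (m : ℕ) (T : Fin m → Subgroup G) (e : N ≃* (∀ i, T i)) (_ : H893.Fac N m T e)
    (ω : Ω) (_ : ¬ N ≤ MulAction.stabilizer G ω) (c : Fin m → Fin m) (_ : ∀ i, c (c i) = c i)
    (_ : ∀ i, ∃ j, j ≠ i ∧ c j = c i)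
    (_ : ∀ n : N, (n : G) ∈ MulAction.stabilizer G ω → (∀ i, e n (c i) = 1) → n = 1)
    (_ : ∀ x : ∀ i, T i, ∃ n : N, (n : G) ∈ MulAction.stabilizer G ω ∧ ∀ i, e n (c i) = x (c i))
    (_ : ∀ i, ∃ u v : T i, _root_.Subgroup.closure {u, v} = ⊤) (b : ℕ)
    (_ : ∀ (L Δ : Type) [Group L] [Finite L] [MulAction L Δ] [Finite Δ] (f : L →* G),
      Function.Injective f → MulAction.IsPreprimitive L Δ → Nontrivial Δ →
      Nat.card Δ < Nat.card Ω → BaseLE L Δ b),
    BaseLE G Ω (4 + 2 * Nat.clog 2 (2 * b + 2))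

/-- B3: primitive groups with a nonabelian minimal normal subgroup -/
theorem nonaff_of (hprod : ProdCase) (hdiag : DiagCase) (d k b : ℕ) (hd : 5 ≤ d)
    (h2 : ∀ (T : Type) [Group T] [Finite T] [IsSimpleGroup T], ∃ u v : T, _root_.Subgroup.closure {u, v} = ⊤)
    (hk : ∀ (T : Type) [Group T] [Finite T] [IsSimpleGroup T], (∃ x y : T, x * y ≠ y * x) →
      ¬ Cfsg.Involves (alternatingGroup (Fin d)) T → TBase T k)
    (G Ω : Type) [Group G] [Finite G] [MulAction G Ω] [FaithfulSMul G Ω] [Finite Ω]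
    (hp : MulAction.IsPreprimitive G Ω) (hG : ¬ Cfsg.Involves (alternatingGroup (Fin d)) G)
    (N : Subgroup G) [N.Normal] (hmin : ∀ M : Subgroup G, M.Normal → M ≤ N → M = ⊥ ∨ M = N)
    (hna : ¬ ∀ x ∈ N, ∀ y ∈ N, Commute x y)
    (ih : ∀ (L Δ : Type) [Group L] [Finite L] [MulAction L Δ] [Finite Δ] (f : L →* G),
      Function.Injective f → MulAction.IsPreprimitive L Δ → Nontrivial Δ →
      Nat.card Δ < Nat.card Ω → BaseLE L Δ b) :
    BaseLE G Ω (k + 4 + 2 * Nat.clog 2 (2 * b + 2)) := by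
  have hN : N ≠ ⊥ := by
    rintro rfl
    apply hna
    intro x hx y hy
    rw [mem_bot] at hx hy
    rw [hx, hy]
  obtain ⟨htr, hKN, hNK⟩ := H893.prim_normal hp N hN
  have hne : Nonempty Ω := by
    by_contra h
    rw [not_nonempty_iff] at h
    apply hN
    rw [eq_bot_iff]
    intro x _
    rw [mem_bot]
    exact FaithfulSMul.eq_of_smul_eq_smul fun a : Ω => (h.false a).elim
  obtain ⟨ω⟩ := hne
  have hnt : Nontrivial Ω := by
    by_contra h
    rw [not_nontrivial_iff_subsingleton] at h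
    exact hNK ω fun x _ => Subsingleton.elim _ _
  obtain ⟨m, T, e, hf⟩ := H893.exists_fac N hmin hna
  have hTinv : ∀ i, ¬ Cfsg.Involves (alternatingGroup (Fin d)) (T i) := fun i h =>
    hG (involves_of_subgroup h)
  have hT : ∀ i, TBase (T i) k := fun i => by
    have := hf.simple i
    exact hk (T i) (hf.nonab i) (hTinv i)
  have h2' : ∀ i, ∃ u v : T i, _root_.Subgroup.closure {u, v} = ⊤ := fun i => by
    have := hf.simple i
    exact h2 (T i)
  rcases hf.scott (MulAction.stabilizer G ω) (hKN ω) (hNK ω)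
    (fun X hX hKX hinv => H893.prim_max_inv hp N ω X hX hKX hinv) with h | ⟨c, hc, hc2, hinj, hsur⟩
  · exact BaseLE.mono (hprod G Ω hp N m T e hf ω (hNK ω) h k b hT ih) (by omega)
  · exact BaseLE.mono (hdiag G Ω hp N m T e hf ω (hNK ω) c hc hc2 hinj hsur h2' b ih) (by omega)

end Cfsg.Agent.H637.B57
end

-- part: H855/B57/ProdCase
section
/-!
# Bases of primitive groups: the product case

`prod_case`: `G` primitive with a non-abelian minimal normal subgroup `N = T_1 × ... × T_m` such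
that `N_ω` is the product of its projections.  The coordinate sets are the orbits of the
subgroups `C_N(T_i)`: `Pt e Ω` is the disjoint union of the coordinate sets.
-/

set_option autoImplicit false

open Subgroup

namespace Cfsg.Agent.H855.B57

open Cfsg.Agent.H830.B57 Cfsg.Agent

section Coord

variable {G Ω : Type*} [Group G] [MulAction G Ω] {N : Subgroup G} {m : ℕ}
  {T : Fin m → Subgroup G}

/-- `(i, w)` and `(i, n w)` are equivalent, if the `i`-coordinate of `n ∈ N` is trivial. -/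
def ptSetoid (e : N ≃* (∀ i, T i)) (Ω : Type*) [MulAction G Ω] : Setoid (Fin m × Ω) where
  r p q := p.1 = q.1 ∧ ∃ n : N, e n p.1 = 1 ∧ q.2 = (n : G) • p.2
  iseqv :=
    { refl := fun p => ⟨rfl, 1, by rw [map_one]; rfl, by simp⟩
      symm := by
        rintro ⟨i, w⟩ ⟨j, v⟩ ⟨hij, n, hn, hv⟩
        change i = j at hij
        change v = (n : G) • w at hv
        subst hij
        refine ⟨rfl, n⁻¹, ?_, ?_⟩
        · change e n⁻¹ i = 1
          have hn' : e n i = 1 := hn
          rw [map_inv, Pi.inv_apply, hn', inv_one]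
        · change w = ((n⁻¹ : N) : G) • v
          rw [hv, InvMemClass.coe_inv, inv_smul_smul]
      trans := by
        rintro ⟨i, w⟩ ⟨j, v⟩ ⟨l, u⟩ ⟨hij, n, hn, hv⟩ ⟨hjl, n', hn', hu⟩
        change i = j at hij
        change j = l at hjl
        subst hij hjl
        change v = (n : G) • w at hv
        change u = (n' : G) • v at hu
        change e n i = 1 at hn
        change e n' i = 1 at hn'
        refine ⟨rfl, n' * n, ?_, ?_⟩
        · change e (n' * n) i = 1
          rw [map_mul, Pi.mul_apply, hn, hn', one_mul]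
        · change u = ((n' * n : N) : G) • w
          rw [hu, hv, Subgroup.coe_mul, mul_smul] }

/-- the disjoint union of the coordinate sets -/
def Pt (e : N ≃* (∀ i, T i)) (Ω : Type*) [MulAction G Ω] : Type _ := Quotient (ptSetoid e Ω)

variable {e : N ≃* (∀ i, T i)}

/-- the coordinate of a point -/
def pt (e : N ≃* (∀ i, T i)) (i : Fin m) (w : Ω) : Pt e Ω := Quotient.mk (ptSetoid e Ω) (i, w)

theorem pt_eq {i : Fin m} {w v : Ω} :
    pt e i w = pt e i v ↔ ∃ n : N, e n i = 1 ∧ v = (n : G) • w := by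
  constructor
  · intro h
    have h1 : (ptSetoid e Ω) (i, w) (i, v) := Quotient.exact h
    exact h1.2
  · intro h
    exact Quotient.sound ⟨rfl, h⟩

/-- the projection -/
def prj (x : Pt e Ω) : Fin m :=
  Quotient.lift (s := ptSetoid e Ω) (fun p : Fin m × Ω => p.1) (fun _ _ h => h.1) x

theorem prj_pt (i : Fin m) (w : Ω) : prj (pt e i w) = i := rfl

theorem exists_pt (x : Pt e Ω) : ∃ w : Ω, x = pt e (prj x) w := by
  induction x using Quotient.inductionOn with
  | h p => exact ⟨p.2, rfl⟩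

instance [Finite Ω] : Finite (Pt e Ω) := by
  unfold Pt
  infer_instance

variable [N.Normal]

/-- `g • (i, w) = (g i, g w)`. -/
noncomputable def smulPt (hf : H893.Fac N m T e) (g : G) (x : Pt e Ω) : Pt e Ω :=
  Quotient.lift (s := ptSetoid e Ω) (fun p : Fin m × Ω => pt e (hf.perm g p.1) (g • p.2)) (by
    rintro ⟨i, w⟩ ⟨j, v⟩ ⟨hij, n, hn, hv⟩
    change i = j at hij
    subst hij
    change v = (n : G) • w at hv
    change e n i = 1 at hn
    change pt e (hf.perm g i) (g • w) = pt e (hf.perm g i) (g • v)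
    rw [pt_eq]
    refine ⟨H893.Fac.cj N g n, ?_, ?_⟩
    · rw [hf.cj_eq_one g i (hf.perm g i) (hf.perm_spec g i)]
      exact hn
    · change g • v = (g * (n : G) * g⁻¹) • g • w
      rw [hv, smul_smul, smul_smul]
      congr 1
      group) x

theorem smulPt_pt (hf : H893.Fac N m T e) (g : G) (i : Fin m) (w : Ω) :
    smulPt hf g (pt e i w) = pt e (hf.perm g i) (g • w) := rfl

/-- the action on the coordinate sets -/
@[reducible] noncomputable def actPt (hf : H893.Fac N m T e) : MulAction G (Pt e Ω) where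
  smul := smulPt hf
  one_smul x := by
    obtain ⟨w, hw⟩ := exists_pt x
    rw [hw]
    change smulPt hf 1 (pt e (prj x) w) = pt e (prj x) w
    rw [smulPt_pt, map_one, one_smul]
    rfl
  mul_smul a b x := by
    obtain ⟨w, hw⟩ := exists_pt x
    rw [hw]
    change smulPt hf (a * b) (pt e (prj x) w) = smulPt hf a (smulPt hf b (pt e (prj x) w))
    rw [smulPt_pt, smulPt_pt, smulPt_pt, map_mul, mul_smul]
    rfl

end Coord

section Main

variable {G Ω : Type} [Group G] [MulAction G Ω] {N : Subgroup G} {m : ℕ}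
  {T : Fin m → Subgroup G} {e : N ≃* (∀ i, T i)}

/-- The `i`-coordinate of an element of `N ∩ K` is in `K`. -/
theorem coord_mem {ω : Ω}
    (hprod : ∀ n : N, (n : G) ∈ MulAction.stabilizer G ω ↔
      ∀ i, ((e n i : T i) : G) ∈ MulAction.stabilizer G ω) {n : N} (hn : (n : G) • ω = ω)
    (i : Fin m) : ((e n i : T i) : G) • ω = ω :=
  (hprod n).mp hn i

theorem e_coe_self (hf : H893.Fac N m T e) {i : Fin m} (t : T i) (hN : (t : G) ∈ N) :
    e ⟨(t : G), hN⟩ i = t := by
  classical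
  have h1 : (⟨(t : G), hN⟩ : N) = e.symm (Pi.mulSingle i t) := by
    apply Subtype.ext
    rw [hf.single]
  rw [h1, MulEquiv.apply_symm_apply, Pi.mulSingle_eq_same]

/-- comparing points `s ω` and `t ω` -/
theorem pt_eq_iff (hf : H893.Fac N m T e) {ω : Ω}
    (hprod : ∀ n : N, (n : G) ∈ MulAction.stabilizer G ω ↔
      ∀ i, ((e n i : T i) : G) ∈ MulAction.stabilizer G ω) (i : Fin m) (s t : T i) :
    pt e i ((s : G) • ω) = pt e i ((t : G) • ω) ↔ ((s⁻¹ * t : T i) : G) • ω = ω := by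
  rw [pt_eq]
  have hs : (s : G) ∈ N := hf.le i s.2
  have ht : (t : G) ∈ N := hf.le i t.2
  constructor
  · rintro ⟨n, hn, h⟩
    -- `s⁻¹ n⁻¹ t ∈ K`
    have h1 : (((⟨(s : G), hs⟩ : N)⁻¹ * n⁻¹ * (⟨(t : G), ht⟩ : N) : N) : G) • ω = ω := by
      change ((s : G)⁻¹ * (n : G)⁻¹ * (t : G)) • ω = ω
      rw [mul_smul, mul_smul, h, inv_smul_smul, inv_smul_smul]
    have h2 := coord_mem hprod h1 i
    rwa [map_mul, map_mul, map_inv, map_inv, Pi.mul_apply, Pi.mul_apply, Pi.inv_apply,
      Pi.inv_apply, hn, inv_one, mul_one, e_coe_self hf, e_coe_self hf] at h2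
  · intro h
    refine ⟨1, by rw [map_one]; rfl, ?_⟩
    have h1 : ((s : G)⁻¹ * (t : G)) • ω = ω := h
    rw [OneMemClass.coe_one, one_smul]
    calc (t : G) • ω = (s : G) • ((s : G)⁻¹ * (t : G)) • ω := by
          rw [mul_smul, smul_inv_smul]
      _ = (s : G) • ω := by rw [h1]

/-- every point of a coordinate set is `t ω` -/
theorem exists_pt_coord (hf : H893.Fac N m T e) {ω : Ω}
    (htr : ∀ w : Ω, ∃ n : N, w = (n : G) • ω) (x : Pt e Ω) (i : Fin m) (hi : prj x = i) :
    ∃ t : T i, x = pt e i ((t : G) • ω) := by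
  obtain ⟨w, hw⟩ := exists_pt x
  rw [hi] at hw
  obtain ⟨n, hn⟩ := htr w
  refine ⟨e n i, ?_⟩
  have ht : ((e n i : T i) : G) ∈ N := hf.le _ (e n i).2
  have h1 : pt e i w = pt e i (((e n i : T i) : G) • ω) := by
    rw [pt_eq]
    refine ⟨(⟨_, ht⟩ : N) * n⁻¹, ?_, ?_⟩
    · rw [map_mul, map_inv, Pi.mul_apply, Pi.inv_apply, e_coe_self hf, mul_inv_cancel]
    · change _ = (((e n i : T i) : G) * (n : G)⁻¹) • w
      rw [hn, mul_smul, inv_smul_smul]
  exact hw.trans h1

/-- the coordinates determine the point -/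
theorem pt_inj {ω : Ω} (htr : ∀ w : Ω, ∃ n : N, w = (n : G) • ω)
    (hprod : ∀ n : N, (n : G) ∈ MulAction.stabilizer G ω ↔
      ∀ i, ((e n i : T i) : G) ∈ MulAction.stabilizer G ω) {w v : Ω}
    (h : ∀ i, pt e i w = pt e i v) : w = v := by
  obtain ⟨u, hu⟩ := htr w
  obtain ⟨s, hs⟩ := htr v
  have h1 : ((u⁻¹ * s : N) : G) ∈ MulAction.stabilizer G ω := by
    rw [hprod]
    intro i
    obtain ⟨n, hn, hv⟩ := pt_eq.mp (h i)
    have h2 : ((u⁻¹ * n⁻¹ * s : N) : G) • ω = ω := by
      change ((u : G)⁻¹ * (n : G)⁻¹ * (s : G)) • ω = ω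
      rw [mul_smul, mul_smul, ← hs, hv, inv_smul_smul, hu, inv_smul_smul]
    have h3 := coord_mem hprod h2 i
    have h4 : e (u⁻¹ * s) i = e (u⁻¹ * n⁻¹ * s) i := by
      rw [map_mul, map_mul, map_mul, map_inv, map_inv, Pi.mul_apply, Pi.mul_apply, Pi.mul_apply,
        Pi.inv_apply, Pi.inv_apply, hn, inv_one, mul_one]
    rw [h4]
    exact h3
  have h5 : ((u : G)⁻¹ * (s : G)) • ω = ω := h1
  calc w = (u : G) • ω := hu
    _ = (u : G) • ((u : G)⁻¹ * (s : G)) • ω := by rw [h5]
    _ = (s : G) • ω := by rw [mul_smul, smul_inv_smul]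
    _ = v := hs.symm

/-- every family of coordinates comes from a point -/
theorem pt_surj (hf : H893.Fac N m T e) {ω : Ω}
    (htr : ∀ w : Ω, ∃ n : N, w = (n : G) • ω) (s : Fin m → Pt e Ω) (hs : ∀ i, prj (s i) = i) :
    ∃ w : Ω, (fun i => pt e i w) = s := by
  have h1 : ∀ i, ∃ t : T i, s i = pt e i ((t : G) • ω) :=
    fun i => exists_pt_coord hf htr (s i) i (hs i)
  choose t ht using h1
  refine ⟨((e.symm t : N) : G) • ω, ?_⟩
  funext i
  rw [ht i, pt_eq]
  have hti : ((t i : T i) : G) ∈ N := hf.le _ (t i).2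
  refine ⟨(⟨_, hti⟩ : N) * (e.symm t)⁻¹, ?_, ?_⟩
  · rw [map_mul, map_inv, Pi.mul_apply, Pi.inv_apply, e_coe_self hf, MulEquiv.apply_symm_apply,
      mul_inv_cancel]
  · change _ = ((t i : G) * ((e.symm t : N) : G)⁻¹) • _
    rw [mul_smul, inv_smul_smul]

/-- the point stabiliser does not contain a factor -/
theorem exists_not_mem (hf : H893.Fac N m T e) {ω : Ω}
    (hNK : ¬ N ≤ MulAction.stabilizer G ω)
    (hprod : ∀ n : N, (n : G) ∈ MulAction.stabilizer G ω ↔
      ∀ i, ((e n i : T i) : G) ∈ MulAction.stabilizer G ω)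
    (htr : ∀ w : Ω, ∃ n : N, w = (n : G) • ω) (i : Fin m) :
    ∃ t : T i, ¬ (t : G) • ω = ω := by
  by_contra hcon
  push Not at hcon
  apply hNK
  intro n hn
  have h0 : ((⟨n, hn⟩ : N) : G) ∈ MulAction.stabilizer G ω := by
    rw [hprod]
    intro j
    obtain ⟨g, hg⟩ := hf.trans i j
    obtain ⟨u, hu⟩ := htr (g⁻¹ • ω)
    -- `g⁻¹ ω = u ω`, `k = g u ∈ K`, `T_j = g T_i g⁻¹ = k T_i k⁻¹`
    have hk : (g * (u : G)) • ω = ω := by
      rw [mul_smul, ← hu, smul_inv_smul]
    have h1 : (T i).map (MulAut.conj (u : G)).toMonoidHom = T i :=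
      mem_normalizer_iff_map_conj_eq.mp (hf.norm i u.2)
    have h2 : T j = (T i).map (MulAut.conj (g * (u : G))).toMonoidHom := by
      rw [← Lib.MinNormal.map_conj_map_conj, h1, hg]
    have h3 : ((e ⟨n, hn⟩ j : T j) : G) ∈ (T i).map (MulAut.conj (g * (u : G))).toMonoidHom := by
      rw [← h2]
      exact (e ⟨n, hn⟩ j).2
    obtain ⟨t, ht, htn⟩ := h3
    rw [← htn]
    change (g * (u : G) * t * (g * (u : G))⁻¹) • ω = ω
    rw [mul_smul, mul_smul, (inv_smul_eq_iff.mpr hk.symm : (g * (u : G))⁻¹ • ω = ω),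
      hcon ⟨t, ht⟩, hk]
  exact h0

/-- the degree is large -/
theorem lt_card [Finite Ω] (hf : H893.Fac N m T e) {ω : Ω}
    (hNK : ¬ N ≤ MulAction.stabilizer G ω)
    (hprod : ∀ n : N, (n : G) ∈ MulAction.stabilizer G ω ↔
      ∀ i, ((e n i : T i) : G) ∈ MulAction.stabilizer G ω)
    (htr : ∀ w : Ω, ∃ n : N, w = (n : G) • ω) : m < Nat.card Ω := by
  classical
  choose t ht using exists_not_mem hf hNK hprod htr
  have h1 : ∀ s : Fin m → Bool, ∃ w : Ω,
      (fun i => pt e i w) = fun i => if s i then pt e i ((t i : G) • ω) else pt e i ω := by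
    intro s
    apply pt_surj hf htr
    intro i
    by_cases h : s i = true
    · rw [if_pos h, prj_pt]
    · rw [if_neg h, prj_pt]
  choose f hf1 using h1
  have hne : ∀ i, pt e i ((t i : G) • ω) ≠ pt e i ω := by
    intro i h
    apply ht i
    have h2 : pt e i (((1 : T i) : G) • ω) = pt e i ((t i : G) • ω) := by
      rw [h, OneMemClass.coe_one, one_smul]
    rw [pt_eq_iff hf hprod, inv_one, one_mul] at h2
    exact h2
  have hinj : Function.Injective f := by
    intro s s' h
    funext i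
    have h2 : (if s i then pt e i ((t i : G) • ω) else pt e i ω) =
        if s' i then pt e i ((t i : G) • ω) else pt e i ω := by
      have h3 := congrFun (hf1 s) i
      have h4 := congrFun (hf1 s') i
      rw [h] at h3
      exact h3.symm.trans h4
    cases hs : s i <;> cases hs' : s' i <;> rw [hs, hs'] at h2
    · exact absurd h2.symm (hne i)
    · exact absurd h2 (hne i)
  have h5 := Nat.card_le_card_of_injective f hinj
  have h6 : Nat.card (Fin m → Bool) = 2 ^ m := by
    simp only [_root_.Nat.card_eq_fintype_card, _root_.Fintype.card_pi, _root_.Fintype.card_bool, _root_.Finset.prod_const, _root_.Finset.card_univ, _root_.Fintype.card_fin]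
  rw [h6] at h5
  exact lt_of_lt_of_le Nat.lt_two_pow_self h5

variable [N.Normal]

/-- a base of the stabiliser of a factor on its coordinate set -/
theorem base_coord [Finite Ω] (hf : H893.Fac N m T e) {ω : Ω}
    (hNK : ¬ N ≤ MulAction.stabilizer G ω)
    (hprod : ∀ n : N, (n : G) ∈ MulAction.stabilizer G ω ↔
      ∀ i, ((e n i : T i) : G) ∈ MulAction.stabilizer G ω)
    (htr : ∀ w : Ω, ∃ n : N, w = (n : G) • ω) (i : Fin m) (k : ℕ) (hT : TBase (T i) k) :
    ∃ B : Finset (Pt e Ω), (∀ x ∈ B, prj x = i) ∧ B.card ≤ k + 1 ∧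
      ∀ g : G, hf.perm g i = i → (∀ x ∈ B, smulPt hf g x = x) →
        ∀ x : Pt e Ω, prj x = i → smulPt hf g x = x := by
  classical
  let H : Subgroup (T i) := (MulAction.stabilizer G ω).subgroupOf (T i)
  have hH : ∀ t : T i, t ∈ H ↔ (t : G) • ω = ω := fun t => Iff.rfl
  have hHtop : H ≠ ⊤ := by
    intro h
    obtain ⟨t, ht⟩ := exists_not_mem hf hNK hprod htr i
    apply ht
    rw [← hH, h]
    exact mem_top t
  obtain ⟨t, ht⟩ := hT H hHtop
  refine ⟨insert (pt e i ω) (Finset.univ.image fun j => pt e i ((t j : G) • ω)), ?_, ?_, ?_⟩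
  · intro x hx
    rw [Finset.mem_insert, Finset.mem_image] at hx
    rcases hx with rfl | ⟨j, _, rfl⟩
    · rfl
    · rfl
  · refine (Finset.card_insert_le _ _).trans (Nat.succ_le_succ ?_)
    refine Finset.card_image_le.trans ?_
    rw [Finset.card_univ, Fintype.card_fin]
  · intro g hgi hfix x hx
    have h0 : smulPt hf g (pt e i ω) = pt e i ω := hfix _ (Finset.mem_insert_self _ _)
    rw [smulPt_pt, hgi] at h0
    obtain ⟨n, hn, hω⟩ := pt_eq.mp h0
    obtain ⟨y, hydef⟩ : ∃ y : G, y = (n : G) * g := ⟨_, rfl⟩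
    have hy : y • ω = ω := by rw [hydef, mul_smul, ← hω]
    have hyg : ∀ w : Ω, pt e i (g • w) = pt e i (y • w) := by
      intro w
      rw [hydef, mul_smul, pt_eq]
      exact ⟨n, hn, rfl⟩
    have hyi : hf.perm y i = i := by
      have h1 : hf.perm (n : G) = 1 := hf.le_ker_perm n.2
      rw [hydef, map_mul, h1, one_mul, hgi]
    have hyN : T i = (T i).map (MulAut.conj y).toMonoidHom := by
      have h1 := hf.perm_spec y i
      rwa [hyi] at h1
    obtain ⟨a, ha⟩ : ∃ a : MulAut (T i), ∀ t : T i, ((a t : T i) : G) = y * (t : G) * y⁻¹ :=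
      ⟨((MulAut.conj y).subgroupMap (T i)).trans (MulEquiv.subgroupCongr hyN.symm),
        fun t => rfl⟩
    have hyinv : y⁻¹ • ω = ω := by rw [inv_smul_eq_iff, hy]
    have hay : ∀ t : T i, y • (t : G) • ω = ((a t : T i) : G) • ω := by
      intro t
      rw [ha, mul_smul, mul_smul, hyinv]
    have haH : ∀ h, h ∈ H ↔ a h ∈ H := by
      intro h
      rw [hH, hH, ← hay]
      constructor
      · intro h1
        rw [h1, hy]
      · intro h1
        have h2 : (h : G) • ω = y⁻¹ • ω := by rw [eq_inv_smul_iff, h1]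
        rw [h2, hyinv]
    have hj : ∀ j, (t j)⁻¹ * a (t j) ∈ H := by
      intro j
      have h1 : smulPt hf g (pt e i ((t j : G) • ω)) = pt e i ((t j : G) • ω) :=
        hfix _ (Finset.mem_insert_of_mem
          (Finset.mem_image_of_mem (fun j => pt e i ((t j : G) • ω)) (Finset.mem_univ j)))
      rw [smulPt_pt, hgi, hyg, hay] at h1
      rw [hH]
      exact (pt_eq_iff hf hprod i (t j) (a (t j))).mp h1.symm
    have ha1 : a = 1 := ht a haH hj
    obtain ⟨u, hu⟩ := exists_pt_coord hf htr x i hx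
    rw [hu, smulPt_pt, hgi, hyg, hay, ha1]
    rfl

/-- **B1, product case** -/
theorem prod_case (G Ω : Type) [Group G] [Finite G] [MulAction G Ω] [FaithfulSMul G Ω]
    [Finite Ω] (hp : MulAction.IsPreprimitive G Ω) (N : Subgroup G) [N.Normal]
    (m : ℕ) (T : Fin m → Subgroup G) (e : N ≃* (∀ i, T i)) (hf : H893.Fac N m T e)
    (ω : Ω) (hNK : ¬ N ≤ MulAction.stabilizer G ω)
    (hprod : ∀ n : N, (n : G) ∈ MulAction.stabilizer G ω ↔
      ∀ i, ((e n i : T i) : G) ∈ MulAction.stabilizer G ω) (k b : ℕ) (hT : ∀ i, TBase (T i) k)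
    (ih : ∀ (L Δ : Type) [Group L] [Finite L] [MulAction L Δ] [Finite Δ] (f : L →* G),
      Function.Injective f → MulAction.IsPreprimitive L Δ → Nontrivial Δ →
      Nat.card Δ < Nat.card Ω → BaseLE L Δ b) :
    BaseLE G Ω (k + 1 + Nat.clog 2 (2 * b + 2)) := by
  classical
  -- `N` is transitive
  have hNtr : MulAction.IsPretransitive N Ω := by
    apply MulAction.IsQuasiPreprimitive.isPretransitive_of_normal (G := G)
    intro h
    apply hNK
    intro n hn
    have h1 : ω ∈ MulAction.fixedPoints N Ω := by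
      rw [h]
      exact Set.mem_univ ω
    exact h1 ⟨n, hn⟩
  have htr : ∀ w : Ω, ∃ n : N, w = (n : G) • ω := by
    intro w
    obtain ⟨n, hn⟩ := hNtr.exists_smul_eq ω w
    exact ⟨n, hn.symm⟩
  have hm := lt_card hf hNK hprod htr
  let aI : MulAction G (Fin m) := MulAction.compHom (Fin m) hf.perm
  let aX : MulAction G (Pt e Ω) := actPt hf
  have : Nonempty (Fin m) := ⟨⟨0, hf.pos⟩⟩
  have htrI : MulAction.IsPretransitive G (Fin m) := by
    refine ⟨fun i j => ?_⟩
    obtain ⟨g, hg⟩ := hf.trans i j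
    refine ⟨g, ?_⟩
    change hf.perm g i = j
    apply hf.inj
    rw [hf.perm_spec, hg]
  obtain ⟨F, hF⟩ := H486.B57.col b (2 * b + 2) le_rfl G (Fin m) htrI
    (fun L Δ _ _ _ _ f hfi hpr hnt hle => ih L Δ f hfi hpr hnt
      (lt_of_le_of_lt hle (by rwa [Nat.card_fin])))
  have i0 : Fin m := ⟨0, hf.pos⟩
  obtain ⟨B, hB1, hB2, hB3⟩ := base_coord hf hNK hprod htr i0 k (hT i0)
  obtain ⟨t, ht⟩ := exists_not_mem hf hNK hprod htr i0
  refine H870.B57.wr (G := G) (I := Fin m) (X := Pt e Ω) (Ω := Ω) prj ?_ (fun w i => pt e i w)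
    (fun w i => rfl) (fun s hs => pt_surj hf htr s hs) ?_ ?_ htrI i0 (k + 1) B hB1 hB2 ?_ ?_
    (2 * b + 2) (F 0) ?_
  · intro g x
    obtain ⟨w, hw⟩ := exists_pt x
    rw [hw]
    rfl
  · intro w v h
    exact pt_inj htr hprod fun i => congrFun h i
  · intro g w i
    rfl
  · exact hB3
  · refine ⟨pt e i0 ω, pt e i0 ((t : G) • ω), ?_, rfl, rfl⟩
    intro h
    apply ht
    have h2 : pt e i0 (((1 : T i0) : G) • ω) = pt e i0 ((t : G) • ω) := by
      rw [← h, OneMemClass.coe_one, one_smul]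
    rw [pt_eq_iff hf hprod, inv_one, one_mul] at h2
    exact h2
  · intro g hg
    exact (hF 0 0 g hg).2

end Main

end Cfsg.Agent.H855.B57
end

-- part: H505/B57/Sys
section
/-!
# S5717, task C1: systems of imprimitivity of a linear group (helper505)

`ρ : K →* GL(V)` irreducible, `S` a system of imprimitivity with a maximal number of members, `W₀ ∈ S`: `K` is
transitive on `S` and the group induced on `W₀` by its stabiliser is a primitive linear group.
-/

set_option autoImplicit false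

open Subgroup

namespace Cfsg.Agent.H505.B57

open Cfsg Cfsg.Agent.H830.B57

section

variable {p : ℕ} [Fact p.Prime] {V : Type} [AddCommGroup V] [Module (ZMod p) V]
variable {K : Type} [Group K] (ρ : K →* (V ≃ₗ[ZMod p] V))

/-- the translate of a submodule -/
def tr (k : K) : Submodule (ZMod p) V ≃o Submodule (ZMod p) V := Submodule.orderIsoMapComap (ρ k)

theorem mem_tr {k : K} {W : Submodule (ZMod p) V} {v : V} (h : v ∈ W) : ρ k v ∈ tr ρ k W :=
  Submodule.mem_map_of_mem (f := ((ρ k : V ≃ₗ[ZMod p] V) : V →ₗ[ZMod p] V)) h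

theorem exists_of_mem_tr {k : K} {W : Submodule (ZMod p) V} {v : V} (h : v ∈ tr ρ k W) : ∃ w ∈ W, ρ k w = v := by
  obtain ⟨w, hw, hv⟩ := Submodule.mem_map.1 h
  exact ⟨w, hw, hv⟩

theorem tr_le_iff {k : K} {W U : Submodule (ZMod p) V} : tr ρ k W ≤ U ↔ ∀ v ∈ W, ρ k v ∈ U := by
  constructor
  · intro h v hv
    exact h (mem_tr ρ hv)
  · intro h v hv
    obtain ⟨w, hw, rfl⟩ := exists_of_mem_tr ρ hv
    exact h w hw

theorem tr_one (W : Submodule (ZMod p) V) : tr ρ 1 W = W := by
  ext v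
  constructor
  · intro h
    obtain ⟨w, hw, rfl⟩ := exists_of_mem_tr ρ h
    rw [map_one]
    exact hw
  · intro h
    have := mem_tr ρ (k := 1) h
    rwa [map_one] at this

theorem tr_mul (k l : K) (W : Submodule (ZMod p) V) : tr ρ (k * l) W = tr ρ k (tr ρ l W) := by
  ext v
  constructor
  · intro h
    obtain ⟨w, hw, rfl⟩ := exists_of_mem_tr ρ h
    rw [map_mul]
    exact mem_tr ρ (mem_tr ρ hw)
  · intro h
    obtain ⟨w, hw, rfl⟩ := exists_of_mem_tr ρ h
    obtain ⟨u, hu, rfl⟩ := exists_of_mem_tr ρ hw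
    have := mem_tr ρ (k := k * l) hu
    rwa [map_mul] at this

theorem tr_inv_tr (k : K) (W : Submodule (ZMod p) V) : tr ρ k⁻¹ (tr ρ k W) = W := by
  rw [← tr_mul, inv_mul_cancel, tr_one]

theorem tr_tr_inv (k : K) (W : Submodule (ZMod p) V) : tr ρ k (tr ρ k⁻¹ W) = W := by
  rw [← tr_mul, mul_inv_cancel, tr_one]

/-- systems of imprimitivity -/
structure Sys (S : Set (Submodule (ZMod p) V)) : Prop where
  bot : ⊥ ∉ S
  indep : ∀ W ∈ S, Disjoint W (sSup (S \ {W}))
  top : sSup S = ⊤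
  inv : ∀ k, ∀ W ∈ S, tr ρ k W ∈ S

variable {ρ}

/-- irreducibility -/
def Irr (ρ : K →* (V ≃ₗ[ZMod p] V)) : Prop :=
  ∀ W : Submodule (ZMod p) V, (∀ k, ∀ v ∈ W, ρ k v ∈ W) → W = ⊥ ∨ W = ⊤

theorem Irr.iSup_tr (hirr : Irr ρ) {W : Submodule (ZMod p) V} (hW : W ≠ ⊥) : ⨆ k, tr ρ k W = ⊤ := by
  rcases hirr (⨆ k, tr ρ k W) (fun k v hv => by
    have h1 : tr ρ k (⨆ l, tr ρ l W) ≤ ⨆ l, tr ρ l W := by
      rw [OrderIso.map_iSup]
      refine iSup_le fun l => ?_
      rw [← tr_mul]
      exact le_iSup (fun l => tr ρ l W) (k * l)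
    exact (tr_le_iff ρ).1 h1 v hv) with h | h
  · exfalso
    apply hW
    rw [eq_bot_iff, ← h]
    have h2 := le_iSup (fun l => tr ρ l W) 1
    simpa only [tr_one] using h2
  · exact h

theorem Sys.trans {S : Set (Submodule (ZMod p) V)} (hS : Sys ρ S) (hirr : Irr ρ) {W₀ W : Submodule (ZMod p) V}
    (h₀ : W₀ ∈ S) (h : W ∈ S) : ∃ k, tr ρ k W₀ = W := by
  by_contra hne
  push Not at hne
  have h0 : W₀ ≠ ⊥ := fun h1 => hS.bot (h1 ▸ h₀)
  have h1 := hirr.iSup_tr h0
  have h2 : ⨆ k, tr ρ k W₀ ≤ sSup (S \ {W}) := iSup_le fun k => le_sSup ⟨hS.inv k _ h₀, hne k⟩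
  rw [h1, top_le_iff] at h2
  have h3 := hS.indep W h
  rw [h2, disjoint_top] at h3
  exact hS.bot (h3 ▸ h)

/-- the system with one member -/
theorem sys_top (hV : ∃ v : V, v ≠ 0) : Sys ρ {(⊤ : Submodule (ZMod p) V)} where
  bot h := by
    obtain ⟨v, hv⟩ := hV
    have h1 : (⊥ : Submodule (ZMod p) V) = ⊤ := h
    have h2 : v ∈ (⊤ : Submodule (ZMod p) V) := trivial
    rw [← h1] at h2
    exact hv ((Submodule.mem_bot _).1 h2)
  indep W hW := by
    have h1 : W = ⊤ := hW
    subst h1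
    rw [Set.sdiff_self, sSup_empty]
    exact disjoint_bot_right
  top := sSup_singleton
  inv k W hW := by
    have h1 : W = ⊤ := hW
    subst h1
    exact OrderIso.map_top _

/-- two members with a common nonzero submodule are equal -/
theorem Sys.eq_of_le {S : Set (Submodule (ZMod p) V)} (hS : Sys ρ S) {W W' U : Submodule (ZMod p) V}
    (hW : W ∈ S) (hW' : W' ∈ S) (hU : U ≠ ⊥) (h : U ≤ W) (h' : U ≤ W') : W = W' := by
  by_contra hne
  have h1 : W' ≤ sSup (S \ {W}) := le_sSup ⟨hW', fun h2 => hne h2.symm⟩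
  exact hU (le_bot_iff.1 (hS.indep W hW h (h'.trans h1)))

/-! ### the primitive group induced on a member -/

/-- the stabiliser of a submodule -/
def stab (ρ : K →* (V ≃ₗ[ZMod p] V)) (W : Submodule (ZMod p) V) : Subgroup K where
  carrier := {k | tr ρ k W = W}
  one_mem' := tr_one ρ W
  mul_mem' {a b} ha hb := by
    have ha' : tr ρ a W = W := ha
    have hb' : tr ρ b W = W := hb
    show tr ρ (a * b) W = W
    rw [tr_mul, hb', ha']
  inv_mem' {a} ha := by
    have ha' : tr ρ a W = W := ha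
    show tr ρ a⁻¹ W = W
    conv_lhs => rw [← ha']
    exact tr_inv_tr ρ a W

/-- the restriction to an invariant submodule -/
def res (ρ : K →* (V ≃ₗ[ZMod p] V)) (W : Submodule (ZMod p) V) : stab ρ W →* (W ≃ₗ[ZMod p] W) where
  toFun k := (ρ k).ofSubmodules W W k.2
  map_one' := by
    ext w
    show ρ 1 w = w
    rw [map_one]
    rfl
  map_mul' a b := by
    ext w
    show ρ (a * b) w = ρ a (ρ b w)
    rw [map_mul]
    rfl

theorem eq_bot_of_map {W : Submodule (ZMod p) V} {U : Submodule (ZMod p) W} (h : U.map W.subtype = ⊥) : U = ⊥ := by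
  rw [eq_bot_iff]
  intro u hu
  have h1 : (u : V) ∈ U.map W.subtype := ⟨u, hu, rfl⟩
  rw [h] at h1
  exact (Submodule.mem_bot _).2 (Subtype.ext ((Submodule.mem_bot _).1 h1))

theorem modular {W C U : Submodule (ZMod p) V} (hC : Disjoint W C) (hU : U ≤ W) : W ⊓ (U ⊔ C) = U := by
  rw [inf_comm, sup_inf_assoc_of_le C hU, inf_comm C W, hC.eq_bot, sup_bot_eq]

theorem primLin [Finite V] {S : Set (Submodule (ZMod p) V)} (hS : Sys ρ S) (hirr : Irr ρ)
    (hmax : ∀ S' : Set (Submodule (ZMod p) V), Sys ρ S' → S'.ncard ≤ S.ncard) {W₀ : Submodule (ZMod p) V}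
    (h₀ : W₀ ∈ S) : PrimLin (res ρ W₀).range := by
  classical
  have hfin : Finite (Submodule (ZMod p) V) :=
    Finite.of_injective (fun W : Submodule (ZMod p) V => (W : Set V)) SetLike.coe_injective
  have hW0 : W₀ ≠ ⊥ := fun h1 => hS.bot (h1 ▸ h₀)
  have hC := hS.indep W₀ h₀
  have hinj : Function.Injective W₀.subtype := Subtype.val_injective
  refine ⟨?_, ?_, ?_⟩
  · obtain ⟨v, hv, hv0⟩ := Submodule.exists_mem_ne_zero_of_ne_bot hW0
    exact ⟨⟨v, hv⟩, fun h => hv0 (congrArg Subtype.val h)⟩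
  · intro U hU
    by_cases hU0 : U = ⊥
    · exact Or.inl hU0
    refine Or.inr ?_
    have hU' : U.map W₀.subtype ≠ ⊥ := by
      intro h
      exact hU0 (eq_bot_of_map h)
    have h1 := hirr.iSup_tr hU'
    have h2 : ⨆ k, tr ρ k (U.map W₀.subtype) ≤ U.map W₀.subtype ⊔ sSup (S \ {W₀}) := by
      refine iSup_le fun k => ?_
      by_cases hk : tr ρ k W₀ = W₀
      · refine le_sup_of_le_left ?_
        rw [tr_le_iff]
        rintro _ ⟨w, hw, rfl⟩
        exact ⟨res ρ W₀ ⟨k, hk⟩ w, hU _ ⟨⟨k, hk⟩, rfl⟩ w hw, rfl⟩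
      · refine le_sup_of_le_right (le_trans ((tr ρ k).monotone (Submodule.map_subtype_le _ _)) (le_sSup ?_))
        exact ⟨hS.inv k _ h₀, hk⟩
    rw [h1, top_le_iff] at h2
    have h3 := modular hC (Submodule.map_subtype_le W₀ U)
    rw [h2, inf_top_eq] at h3
    rw [eq_top_iff]
    intro w _
    have h4 : (w : V) ∈ U.map W₀.subtype := by rw [← h3]; exact w.2
    obtain ⟨u, hu, hu2⟩ := h4
    have h5 : u = w := Subtype.ext hu2
    rwa [← h5]
  · intro ι _ U hU htop hbot hperm
    let U' : ι → Submodule (ZMod p) V := fun i => (U i).map W₀.subtype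
    have hle : ∀ i, U' i ≤ W₀ := fun i => Submodule.map_subtype_le _ _
    have hne : ∀ i, U' i ≠ ⊥ := fun i h => hbot i (eq_bot_of_map h)
    have hsup : ⨆ i, U' i = W₀ := by
      show ⨆ i, (U i).map W₀.subtype = W₀
      rw [← Submodule.map_iSup, htop, Submodule.map_top, Submodule.range_subtype]
    have hdis : ∀ i, Disjoint (U' i) (⨆ j, ⨆ (_ : j ≠ i), U' j) := by
      intro i
      have h1 := Submodule.disjoint_map hinj (hU i)
      have h2 : (⨆ j, ⨆ (_ : j ≠ i), U j).map W₀.subtype = ⨆ j, ⨆ (_ : j ≠ i), U' j := by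
        rw [Submodule.map_iSup]
        exact iSup_congr fun j => Submodule.map_iSup _ _
      rwa [h2] at h1
    have hperm' : ∀ k, tr ρ k W₀ = W₀ → ∀ i, ∃ j, tr ρ k (U' i) = U' j := by
      intro k hk i
      obtain ⟨j, hj⟩ := hperm (res ρ W₀ ⟨k, hk⟩) ⟨_, rfl⟩ i
      refine ⟨j, le_antisymm ?_ ?_⟩
      · rw [tr_le_iff]
        rintro _ ⟨w, hw, rfl⟩
        exact ⟨res ρ W₀ ⟨k, hk⟩ w, (hj w).1 hw, rfl⟩
      · rintro _ ⟨w, hw, rfl⟩
        obtain ⟨u, hu⟩ := (res ρ W₀ ⟨k, hk⟩).surjective w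
        have h1 : u ∈ U i := by
          rw [hj u]
          rw [hu]
          exact hw
        have h2 : W₀.subtype w = ρ k (u : V) := by
          rw [← hu]
          rfl
        rw [h2]
        exact mem_tr ρ ⟨u, h1, rfl⟩
    let S' : Set (Submodule (ZMod p) V) := {M | ∃ k i, tr ρ k (U' i) = M}
    have hU'S : ∀ i, U' i ∈ S' := fun i => ⟨1, i, tr_one ρ _⟩
    -- the base case of the independence
    have hind : ∀ i, Disjoint (U' i) (sSup (S' \ {U' i})) := by
      intro i
      have h1 : sSup (S' \ {U' i}) ≤ (⨆ j, ⨆ (_ : j ≠ i), U' j) ⊔ sSup (S \ {W₀}) := by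
        refine sSup_le ?_
        rintro M ⟨⟨k, j, rfl⟩, hM⟩
        by_cases hk : tr ρ k W₀ = W₀
        · obtain ⟨j', hj'⟩ := hperm' k hk j
          refine le_sup_of_le_left ?_
          rw [hj'] at hM ⊢
          have h2 : j' ≠ i := by
            rintro rfl
            exact hM rfl
          exact le_iSup_of_le j' (le_iSup_of_le h2 le_rfl)
        · exact le_sup_of_le_right (le_trans ((tr ρ k).monotone (hle j)) (le_sSup ⟨hS.inv k _ h₀, hk⟩))
      have hA : (⨆ j, ⨆ (_ : j ≠ i), U' j) ≤ W₀ := iSup_le fun j => iSup_le fun _ => hle j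
      rw [disjoint_iff_inf_le]
      have h2 : U' i ⊓ sSup (S' \ {U' i}) ≤ U' i ⊓ (⨆ j, ⨆ (_ : j ≠ i), U' j) := by
        refine le_inf inf_le_left ?_
        rw [← modular hC hA]
        exact le_inf (inf_le_left.trans (hle i)) (inf_le_right.trans h1)
      exact h2.trans (hdis i).le_bot
    have hS' : Sys ρ S' := by
      refine ⟨?_, ?_, ?_, ?_⟩
      · rintro ⟨k, i, h⟩
        apply hne i
        rw [← tr_inv_tr ρ k (U' i), h, OrderIso.map_bot]
      · rintro _ ⟨k, i, rfl⟩
        have h1 := (hind i).map_orderIso (tr ρ k)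
        refine h1.mono_right (sSup_le ?_)
        rintro M ⟨⟨l, j, rfl⟩, hM⟩
        rw [OrderIso.map_sSup]
        have h2 : tr ρ k⁻¹ (tr ρ l (U' j)) ∈ S' \ {U' i} := by
          refine ⟨⟨k⁻¹ * l, j, tr_mul ρ _ _ _⟩, fun h3 => hM ?_⟩
          have h4 : tr ρ k⁻¹ (tr ρ l (U' j)) = U' i := h3
          show tr ρ l (U' j) = tr ρ k (U' i)
          rw [← h4, tr_tr_inv]
        refine le_iSup_of_le _ (le_iSup_of_le h2 ?_)
        rw [tr_tr_inv]
      · rw [eq_top_iff, ← hirr.iSup_tr hW0]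
        refine iSup_le fun k => ?_
        rw [← hsup, OrderIso.map_iSup]
        exact iSup_le fun i => le_sSup ⟨k, i, rfl⟩
      · rintro k _ ⟨l, i, rfl⟩
        exact ⟨k * l, i, tr_mul ρ _ _ _⟩
    refine ⟨fun i₀ i₁ => ?_⟩
    by_contra hi
    -- the injection
    have htr : ∀ W : Submodule (ZMod p) V, ∃ k, W ∈ S → tr ρ k W₀ = W := by
      intro W
      by_cases h : W ∈ S
      · obtain ⟨k, hk⟩ := hS.trans hirr h₀ h
        exact ⟨k, fun _ => hk⟩
      · exact ⟨1, fun h' => (h h').elim⟩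
    choose κ hκ using htr
    let f : Submodule (ZMod p) V → Submodule (ZMod p) V := fun W => tr ρ (κ W) (U' i₀)
    have hfle : ∀ W ∈ S, f W ≤ W := by
      intro W hW
      have h1 : tr ρ (κ W) (U' i₀) ≤ tr ρ (κ W) W₀ := (tr ρ (κ W)).monotone (hle i₀)
      rwa [hκ W hW] at h1
    have hfne : ∀ W, f W ≠ ⊥ := by
      intro W h
      apply hne i₀
      rw [← tr_inv_tr ρ (κ W) (U' i₀)]
      have h' : tr ρ (κ W) (U' i₀) = ⊥ := h
      rw [h', OrderIso.map_bot]
    have hfinj : Set.InjOn f S := by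
      intro W hW W' hW' h
      exact hS.eq_of_le hW hW' (hfne W) (hfle W hW) (h ▸ hfle W' hW')
    obtain ⟨j, hj⟩ := hperm' (κ W₀) (hκ W₀ h₀) i₀
    obtain ⟨i, hij⟩ : ∃ i, i ≠ j := by
      by_cases h : i₀ = j
      · exact ⟨i₁, fun h' => hi (h.trans h'.symm)⟩
      · exact ⟨i₀, h⟩
    have hlt : f '' S ⊂ S' := by
      refine ⟨?_, fun h => ?_⟩
      · rintro _ ⟨W, -, rfl⟩
        exact ⟨κ W, i₀, rfl⟩
      · obtain ⟨W, hW, hWi⟩ := h (hU'S i)
        have h1 : W = W₀ := hS.eq_of_le hW h₀ (hne i) (hWi ▸ hfle W hW) (hle i)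
        rw [h1] at hWi
        have h2 : U' j = U' i := hj.symm.trans hWi
        apply hne i
        refine le_bot_iff.1 ((hdis i) le_rfl ?_)
        rw [← h2]
        exact le_iSup_of_le j (le_iSup_of_le (Ne.symm hij) le_rfl)
    have h5 := Set.ncard_lt_ncard hlt (Set.toFinite _)
    rw [hfinj.ncard_image] at h5
    have h6 := hmax S' hS'
    omega

/-! ### components -/

theorem Sys.exists_sum {S : Set (Submodule (ZMod p) V)} [Fintype S] (hS : Sys ρ S) (v : V) :
    ∃ x : S → V, (∀ W, x W ∈ W.1) ∧ ∑ W, x W = v := by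
  classical
  let T : Submodule (ZMod p) V :=
    { carrier := {v | ∃ x : S → V, (∀ W, x W ∈ W.1) ∧ ∑ W, x W = v}
      zero_mem' := ⟨0, fun W => W.1.zero_mem, by simp only [_root_.Pi.zero_apply, _root_.Finset.sum_const_zero]⟩
      add_mem' := by
        rintro _ _ ⟨x, hx, rfl⟩ ⟨y, hy, rfl⟩
        exact ⟨x + y, fun W => W.1.add_mem (hx W) (hy W), by simp only [Finset.sum_add_distrib, _root_.Pi.add_apply]⟩
      smul_mem' := by
        rintro c _ ⟨x, hx, rfl⟩
        exact ⟨c • x, fun W => W.1.smul_mem c (hx W), by simp [Finset.smul_sum]⟩ }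
  have h1 : sSup S ≤ T := by
    refine sSup_le fun W hW w hw => ?_
    refine ⟨Pi.single ⟨W, hW⟩ w, fun W' => ?_, ?_⟩
    · by_cases h : W' = ⟨W, hW⟩
      · subst h
        rw [Pi.single_eq_same]
        exact hw
      · rw [Pi.single_eq_of_ne h]
        exact W'.1.zero_mem
    · rw [Finset.sum_pi_single']
      simp only [_root_.Finset.mem_univ, ↓ _root_.reduceIte]
  rw [hS.top] at h1
  exact h1 trivial

theorem Sys.sum_unique {S : Set (Submodule (ZMod p) V)} [Fintype S] (hS : Sys ρ S) {x y : S → V}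
    (hx : ∀ W, x W ∈ W.1) (hy : ∀ W, y W ∈ W.1) (h : ∑ W, x W = ∑ W, y W) : x = y := by
  classical
  funext W
  have h1 : ∑ W, (x W - y W) = 0 := by rw [Finset.sum_sub_distrib, h, sub_self]
  rw [← Finset.add_sum_erase _ _ (Finset.mem_univ W)] at h1
  have h2 : x W - y W = - ∑ W' ∈ Finset.univ.erase W, (x W' - y W') := eq_neg_of_add_eq_zero_left h1
  have h3 : x W - y W ∈ sSup (S \ {W.1}) := by
    rw [h2]
    refine Submodule.neg_mem _ (Submodule.sum_mem _ fun W' hW' => ?_)
    have h4 : W'.1 ≤ sSup (S \ {W.1}) := le_sSup ⟨W'.2, fun h5 => (Finset.mem_erase.1 hW').1 (Subtype.ext h5)⟩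
    exact h4 (W'.1.sub_mem (hx W') (hy W'))
  have h4 := (Submodule.disjoint_def.1 (hS.indep W.1 W.2)) _ (W.1.sub_mem (hx W) (hy W)) h3
  exact sub_eq_zero.1 h4

end

end Cfsg.Agent.H505.B57
end

-- part: H505/B57/Aff
section
/-!
# S5717, task C1: affine primitive groups (helper505)

`aff_of` : the statement `aff` of the plan from the statements `col` (A1) and `wr` (A2); `aff` : the statement of the plan.
-/

set_option autoImplicit false
set_option linter.style.haveILetI false

open Subgroup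

namespace Cfsg.Agent.H505.B57

open Cfsg Cfsg.Agent.H830.B57

/-- the statement of A1 -/
def Col : Prop := ∀ (b c : ℕ) (_ : 2 * b + 2 ≤ c) (K Ω : Type) [Group K] [Finite K] [MulAction K Ω]
    [Finite Ω] [Nonempty Ω] (_ : MulAction.IsPretransitive K Ω)
    (_ : ∀ (L Δ : Type) [Group L] [Finite L] [MulAction L Δ] [Finite Δ] (f : L →* K),
      Function.Injective f → MulAction.IsPreprimitive L Δ → Nontrivial Δ →
      Nat.card Δ ≤ Nat.card Ω → BaseLE L Δ b),
    ∃ F : Fin c → Ω → Fin c, ∀ (i j : Fin c) (g : K), (∀ x : Ω, F i (g • x) = F j x) →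
      i = j ∧ ∀ x : Ω, g • x = x

/-- the statement of A2 -/
def Wr : Prop := ∀ {G I X Ω : Type} [Group G] [MulAction G I] [MulAction G X] [MulAction G Ω] [Finite I]
    [Finite X] (π : X → I) (_ : ∀ (g : G) (x : X), π (g • x) = g • π x) (ev : Ω → I → X)
    (_ : ∀ ω i, π (ev ω i) = i)
    (_ : ∀ s : I → X, (∀ i, π (s i) = i) → ∃ ω, ev ω = s) (_ : Function.Injective ev)
    (_ : ∀ (g : G) (ω : Ω) (i : I), ev (g • ω) (g • i) = g • ev ω i) (_ : MulAction.IsPretransitive G I)
    (i0 : I) (b : ℕ) (B : Finset X) (_ : ∀ x ∈ B, π x = i0) (_ : B.card ≤ b)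
    (_ : ∀ g : G, g • i0 = i0 → (∀ x ∈ B, g • x = x) → ∀ x : X, π x = i0 → g • x = x)
    (_ : ∃ x y : X, x ≠ y ∧ π x = i0 ∧ π y = i0) (c : ℕ) (F : I → Fin c)
    (_ : ∀ g : G, (∀ i : I, F (g • i) = F i) → ∀ i : I, g • i = i),
    BaseLE G Ω (b + Nat.clog 2 c)

section

variable {p : ℕ} [Fact p.Prime] {V : Type} [AddCommGroup V] [Module (ZMod p) V]
variable {K : Type} [Group K] {ρ : K →* (V ≃ₗ[ZMod p] V)}

theorem not_involves_range {d : ℕ} (hG : ¬ Cfsg.Involves (alternatingGroup (Fin d)) K)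
    (W : Submodule (ZMod p) V) : ¬ Cfsg.Involves (alternatingGroup (Fin d)) (res ρ W).range := by
  intro h
  apply hG
  rw [H793.involves_lib_iff] at h ⊢
  exact Lib.Involves.of_subgroup (Lib.Involves.trans
    (Lib.Involves.of_surjective (res ρ W).rangeRestrict (res ρ W).rangeRestrict_surjective) h)

/-- **The linear part.** -/
theorem lin_case (hcol : Col) (hwr : Wr) (d b1 b : ℕ) (hL : LinPrim d b1) [Finite V] [Finite K]
    (hirr : Irr ρ) (hV : ∃ v : V, v ≠ 0) (hG : ¬ Cfsg.Involves (alternatingGroup (Fin d)) K)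
    (ih : ∀ (L Δ : Type) [Group L] [Finite L] [MulAction L Δ] [Finite Δ] (f : L →* K),
      Function.Injective f → MulAction.IsPreprimitive L Δ → Nontrivial Δ →
      Nat.card Δ < Nat.card V → BaseLE L Δ b) :
    ∃ B : Finset V, B.card ≤ b1 + Nat.clog 2 (2 * b + 2) ∧ ∀ k : K, (∀ v ∈ B, ρ k v = v) → ∀ v, ρ k v = v := by
  classical
  have hfin : Finite (Submodule (ZMod p) V) :=
    Finite.of_injective (fun W : Submodule (ZMod p) V => (W : Set V)) SetLike.coe_injective
  -- the maximal system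
  have hne : Nonempty {S : Set (Submodule (ZMod p) V) // Sys ρ S} := ⟨⟨_, sys_top hV⟩⟩
  obtain ⟨⟨S, hS⟩, hmax⟩ := Finite.exists_max (fun S : {S : Set (Submodule (ZMod p) V) // Sys ρ S} => S.1.ncard)
  have hmax' : ∀ S' : Set (Submodule (ZMod p) V), Sys ρ S' → S'.ncard ≤ S.ncard := fun S' h => hmax ⟨S', h⟩
  have := Fintype.ofFinite S
  obtain ⟨W₀, h₀⟩ : S.Nonempty := by
    rw [Set.nonempty_iff_ne_empty]
    rintro rfl
    have h1 := hS.top
    rw [sSup_empty] at h1
    obtain ⟨v, hv⟩ := hV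
    have h2 : v ∈ (⊤ : Submodule (ZMod p) V) := trivial
    rw [← h1] at h2
    exact hv ((Submodule.mem_bot _).1 h2)
  have hW0 : W₀ ≠ ⊥ := fun h1 => hS.bot (h1 ▸ h₀)
  have hprim := primLin hS hirr hmax' h₀
  obtain ⟨B, hBc, hB⟩ := hL p W₀ _ hprim (not_involves_range hG W₀)
  -- the actions
  letI : MulAction K S :=
    { smul := fun k W => ⟨tr ρ k W.1, hS.inv k _ W.2⟩
      one_smul := fun W => Subtype.ext (tr_one ρ W.1)
      mul_smul := fun k l W => Subtype.ext (tr_mul ρ k l W.1) }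
  letI : MulAction K V :=
    { smul := fun k v => ρ k v
      one_smul := fun v => by
        show ρ 1 v = v
        rw [map_one]
        rfl
      mul_smul := fun k l v => by
        show ρ (k * l) v = ρ k (ρ l v)
        rw [map_mul]
        rfl }
  let X : Type := {q : S × V // q.2 ∈ q.1.1}
  letI : MulAction K X :=
    { smul := fun k q => ⟨(k • q.1.1, k • q.1.2), mem_tr ρ q.2⟩
      one_smul := fun q => Subtype.ext (Prod.ext (one_smul K q.1.1) (one_smul K q.1.2))
      mul_smul := fun k l q => Subtype.ext (Prod.ext (mul_smul k l q.1.1) (mul_smul k l q.1.2)) }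
  have hsS : ∀ (k : K) (W : S), (k • W : S).1 = tr ρ k W.1 := fun _ _ => rfl
  have hsV : ∀ (k : K) (v : V), k • v = ρ k v := fun _ _ => rfl
  have hX1 : ∀ (k : K) (q : X), (k • q).1.1 = k • q.1.1 := fun _ _ => rfl
  have hX2 : ∀ (k : K) (q : X), (k • q).1.2 = ρ k q.1.2 := fun _ _ => rfl
  have htr : MulAction.IsPretransitive K S := by
    refine ⟨fun W W' => ?_⟩
    obtain ⟨k, hk⟩ := hS.trans hirr W.2 W'.2
    exact ⟨k, Subtype.ext hk⟩
  -- the number of blocks
  have hcard : Nat.card S < Nat.card V := by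
    have h1 : ∀ W : S, ∃ v : V, v ∈ W.1 ∧ v ≠ 0 := fun W =>
      Submodule.exists_mem_ne_zero_of_ne_bot fun h => hS.bot (h ▸ W.2)
    choose v hv hv0 using h1
    have hinj : Function.Injective v := by
      intro W W' h
      refine Subtype.ext (hS.eq_of_le W.2 W'.2 (U := Submodule.span (ZMod p) {v W}) ?_ ?_ ?_)
      · rw [Ne, Submodule.span_singleton_eq_bot]
        exact hv0 W
      · rw [Submodule.span_singleton_le_iff_mem]
        exact hv W
      · rw [Submodule.span_singleton_le_iff_mem, h]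
        exact hv W'
    have := Fintype.ofFinite V
    rw [Nat.card_eq_fintype_card, Nat.card_eq_fintype_card]
    refine Fintype.card_lt_of_injective_of_notMem v hinj (b := 0) ?_
    rintro ⟨W, hW⟩
    exact hv0 W hW
  have : Nonempty S := ⟨⟨W₀, h₀⟩⟩
  obtain ⟨F, hF⟩ := hcol b (2 * b + 2) le_rfl K S htr (fun L Δ _ _ _ _ f hf h1 h2 h3 =>
    ih L Δ f hf h1 h2 (lt_of_le_of_lt h3 hcard))
  -- components
  choose comp hcomp hsum using fun v => hS.exists_sum v
  have hcu : ∀ (v : V) (x : S → V), (∀ W, x W ∈ W.1) → ∑ W, x W = v → comp v = x := fun v x hx h =>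
    hS.sum_unique (hcomp v) hx ((hsum v).trans h.symm)
  have hceq : ∀ (k : K) (v : V) (W : S), comp (k • v) (k • W) = ρ k (comp v W) := by
    intro k v W
    have h1 := hcu (k • v) (fun W' => ρ k (comp v (k⁻¹ • W'))) (fun W' => by
      have h2 := mem_tr ρ (k := k) (hcomp v (k⁻¹ • W'))
      rw [hsS, tr_tr_inv] at h2
      exact h2) (by
      rw [← map_sum, hsV]
      congr 1
      rw [← hsum v]
      conv_lhs => rw [hsum v]
      exact (Fintype.sum_equiv (MulAction.toPerm k⁻¹) _ _ (fun W' => rfl)))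
    rw [h1]
    show ρ k (comp v (k⁻¹ • k • W)) = _
    rw [inv_smul_smul]
  have key := hwr (G := K) (I := S) (X := X) (Ω := V) (fun q => q.1.1) (fun _ _ => rfl)
    (fun v W => ⟨(W, comp v W), hcomp v W⟩) (fun _ _ => rfl)
    (fun s hs => ⟨∑ W, (s W).1.2, by
      funext W
      have h1 : comp (∑ W, (s W).1.2) = fun W => (s W).1.2 := hcu _ _ (fun W => by
        have h2 := (s W).2
        rw [hs W] at h2
        exact h2) rfl
      refine Subtype.ext (Prod.ext (hs W).symm ?_)
      show comp (∑ W, (s W).1.2) W = (s W).1.2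
      rw [h1]⟩)
    (fun v v' h => by
      have h1 : comp v = comp v' := by
        funext W
        exact congrArg (fun q : X => q.1.2) (congrFun h W)
      rw [← hsum v, h1, hsum v'])
    (fun k v W => Subtype.ext (Prod.ext rfl (hceq k v W))) htr ⟨W₀, h₀⟩ b1
    (B.image fun w : W₀ => (⟨(⟨W₀, h₀⟩, w), w.2⟩ : X))
    (fun x hx => by
      obtain ⟨w, -, rfl⟩ := Finset.mem_image.1 hx
      rfl)
    (Finset.card_image_le.trans hBc)
    (fun k hk hfix x hx => by
      have hk' : tr ρ k W₀ = W₀ := congrArg Subtype.val hk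
      have h1 : res ρ W₀ ⟨k, hk'⟩ = 1 := hB _ ⟨_, rfl⟩ fun w hw => by
        have h2 := hfix _ (Finset.mem_image_of_mem _ hw)
        have h3 : ρ k (w : V) = w := congrArg (fun q : X => q.1.2) h2
        exact Subtype.ext h3
      have h4 : x.1.2 ∈ W₀ := by
        have h5 := x.2
        rw [hx] at h5
        exact h5
      refine Subtype.ext (Prod.ext ?_ ?_)
      · rw [hX1, hx]
        exact hk
      · rw [hX2]
        have h5 : res ρ W₀ ⟨k, hk'⟩ ⟨x.1.2, h4⟩ = ⟨x.1.2, h4⟩ := by rw [h1]; rfl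
        exact congrArg Subtype.val h5)
    (by
      obtain ⟨v, hv, hv0⟩ := Submodule.exists_mem_ne_zero_of_ne_bot hW0
      refine ⟨⟨(⟨W₀, h₀⟩, v), hv⟩, ⟨(⟨W₀, h₀⟩, 0), W₀.zero_mem⟩, fun h => hv0 ?_, rfl, rfl⟩
      exact congrArg (fun q : X => q.1.2) h)
    (2 * b + 2) (F 0) (fun k hk => (hF 0 0 k hk).2)
  exact key

end

/-! ### the affine group -/

section affine

variable {V : Type} [AddCommGroup V] {K : Type} [Group K]

/-- additive automorphisms are linear over the prime field -/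
def rhoOf (p : ℕ) [Module (ZMod p) V] (φ : K → V ≃+ V) (h1 : ∀ v, φ 1 v = v)
    (hm : ∀ a b v, φ (a * b) v = φ a (φ b v)) : K →* (V ≃ₗ[ZMod p] V) where
  toFun k := { φ k with map_smul' := fun c v => ZMod.map_smul (φ k) c v }
  map_one' := by
    ext v
    exact h1 v
  map_mul' a b := by
    ext v
    exact hm a b v

/-- the linear part in the language of groups -/
theorem add_case (hcol : Col) (hwr : Wr) (d b1 b : ℕ) (hL : LinPrim d b1) [Finite V] [Nontrivial V] [Finite K]
    (φ : K → V ≃+ V) (hφ1 : ∀ v, φ 1 v = v) (hφm : ∀ a b v, φ (a * b) v = φ a (φ b v)) (hirr : ∀ M : AddSubgroup V, (∀ k, ∀ x ∈ M, φ k x ∈ M) → M = ⊥ ∨ M = ⊤)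
    (hG : ¬ Cfsg.Involves (alternatingGroup (Fin d)) K)
    (ih : ∀ (L Δ : Type) [Group L] [Finite L] [MulAction L Δ] [Finite Δ] (f : L →* K),
      Function.Injective f → MulAction.IsPreprimitive L Δ → Nontrivial Δ →
      Nat.card Δ < Nat.card V → BaseLE L Δ b) :
    ∃ B : Finset V, B.card ≤ b1 + Nat.clog 2 (2 * b + 2) ∧ ∀ k : K, (∀ v ∈ B, φ k v = v) → ∀ v, φ k v = v := by
  classical
  -- the prime
  have hN1 : Nat.card V ≠ 1 := Finite.one_lt_card.ne'
  obtain ⟨p, hpp, hpd⟩ := Nat.exists_prime_and_dvd hN1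
  have := Fact.mk hpp
  have hexp : ∀ x : V, p • x = 0 := by
    let M : AddSubgroup V :=
      { carrier := {x | p • x = 0}
        zero_mem' := nsmul_zero p
        add_mem' := fun {a b} ha hb => by
          have ha' : p • a = 0 := ha
          have hb' : p • b = 0 := hb
          show p • (a + b) = 0
          rw [nsmul_add, ha', hb', add_zero]
        neg_mem' := fun {a} ha => by
          have ha' : p • a = 0 := ha
          show p • (-a) = 0
          rw [smul_neg, ha', neg_zero] }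
    rcases hirr M (fun k x hx => by
      have hx' : p • x = 0 := hx
      show p • (φ k x) = 0
      rw [← map_nsmul, hx', map_zero]) with h | h
    · exfalso
      obtain ⟨x, hx⟩ := exists_prime_addOrderOf_dvd_card' p hpd
      have h1 : x ∈ M := by
        show p • x = 0
        rw [← hx, addOrderOf_nsmul_eq_zero]
      rw [h, AddSubgroup.mem_bot] at h1
      rw [h1, addOrderOf_zero] at hx
      exact hpp.one_lt.ne hx
    · intro x
      have h1 : x ∈ M := by rw [h]; trivial
      exact h1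
  obtain ⟨hmod⟩ : Nonempty (Module (ZMod p) V) := ⟨AddCommGroup.zmodModule hexp⟩
  have hirr' : Irr (rhoOf p φ hφ1 hφm) := by
    intro W hW
    rcases hirr W.toAddSubgroup (fun k x hx => hW k x hx) with h | h
    · left
      rw [eq_bot_iff]
      intro v hv
      have h1 : v ∈ W.toAddSubgroup := hv
      rw [h, AddSubgroup.mem_bot] at h1
      rw [h1]
      exact Submodule.zero_mem _
    · right
      rw [eq_top_iff]
      intro v _
      have h1 : v ∈ W.toAddSubgroup := by rw [h]; trivial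
      exact h1
  obtain ⟨B, hBc, hB⟩ := lin_case (ρ := rhoOf p φ hφ1 hφm) hcol hwr d b1 b hL hirr' (exists_ne 0) hG ih
  exact ⟨B, hBc, hB⟩

/-- the same for multiplicative groups -/
theorem grp_case {A : Type} [CommGroup A] (hcol : Col) (hwr : Wr) (d b1 b : ℕ) (hL : LinPrim d b1) [Finite A]
    [Nontrivial A] [Finite K] (φ : K →* MulAut A)
    (hirr : ∀ M : Subgroup A, (∀ k, ∀ x ∈ M, φ k x ∈ M) → M = ⊥ ∨ M = ⊤)
    (hG : ¬ Cfsg.Involves (alternatingGroup (Fin d)) K)
    (ih : ∀ (L Δ : Type) [Group L] [Finite L] [MulAction L Δ] [Finite Δ] (f : L →* K),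
      Function.Injective f → MulAction.IsPreprimitive L Δ → Nontrivial Δ →
      Nat.card Δ < Nat.card A → BaseLE L Δ b) :
    ∃ B : Finset A, B.card ≤ b1 + Nat.clog 2 (2 * b + 2) ∧ ∀ k : K, (∀ v ∈ B, φ k v = v) → ∀ v, φ k v = v := by
  classical
  have hfin : Finite (Additive A) := Finite.of_equiv A Additive.ofMul
  have hnt : Nontrivial (Additive A) := Additive.ofMul.symm.nontrivial
  have hcd : Nat.card (Additive A) = Nat.card A := Nat.card_congr Additive.toMul
  let ψ : K → Additive A ≃+ Additive A := fun k => MulEquiv.toAdditive (φ k)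
  have hψ : ∀ k (x : A), ψ k (Additive.ofMul x) = Additive.ofMul (φ k x) := fun _ _ => rfl
  obtain ⟨B, hBc, hB⟩ := add_case hcol hwr d b1 b hL ψ (fun v => by
    show Additive.ofMul (φ 1 v.toMul) = v
    rw [map_one]
    rfl) (fun a b v => by
    show Additive.ofMul (φ (a * b) v.toMul) = Additive.ofMul (φ a (φ b v.toMul))
    rw [map_mul]
    rfl) (fun M hM => by
    rcases hirr (AddSubgroup.toSubgroup' M) (fun k x hx => hM k _ hx) with h | h
    · left
      rw [eq_bot_iff]
      intro v hv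
      obtain ⟨x, rfl⟩ := Additive.ofMul.surjective v
      have h1 : x ∈ AddSubgroup.toSubgroup' M := hv
      rw [h, Subgroup.mem_bot] at h1
      rw [h1, ofMul_one, AddSubgroup.mem_bot]
    · right
      rw [eq_top_iff]
      intro v _
      obtain ⟨x, rfl⟩ := Additive.ofMul.surjective v
      have h1 : x ∈ AddSubgroup.toSubgroup' M := by rw [h]; trivial
      exact h1) hG (fun L Δ _ _ _ _ f hf h1 h2 h3 => ih L Δ f hf h1 h2 (by rw [← hcd]; exact h3))
  refine ⟨B.image Additive.toMul, Finset.card_image_le.trans hBc, fun k hk x => ?_⟩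
  have h1 := hB k (fun v hv => by
    obtain ⟨y, rfl⟩ := Additive.ofMul.surjective v
    rw [hψ, hk y (Finset.mem_image.2 ⟨_, hv, rfl⟩)]) (Additive.ofMul x)
  rw [hψ] at h1
  exact Additive.ofMul.injective h1

end affine

/-- **C1** from A1 and A2. -/
theorem aff_of (hcol : Col) (hwr : Wr) (d b1 b : ℕ) (hL : LinPrim d b1)
    (G Ω : Type) [Group G] [Finite G] [MulAction G Ω] [FaithfulSMul G Ω] [Finite Ω]
    (hp : MulAction.IsPreprimitive G Ω) (hG : ¬ Cfsg.Involves (alternatingGroup (Fin d)) G)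
    (N : Subgroup G) [N.Normal] (hN : N ≠ ⊥)
    (hmin : ∀ M : Subgroup G, M.Normal → M ≤ N → M = ⊥ ∨ M = N)
    (hab : ∀ x ∈ N, ∀ y ∈ N, Commute x y)
    (ih : ∀ (L Δ : Type) [Group L] [Finite L] [MulAction L Δ] [Finite Δ] (f : L →* G),
      Function.Injective f → MulAction.IsPreprimitive L Δ → Nontrivial Δ →
      Nat.card Δ < Nat.card Ω → BaseLE L Δ b) :
    BaseLE G Ω (1 + b1 + Nat.clog 2 (2 * b + 2)) := by
  classical
  -- `N` is transitive and semiregular
  have htr : MulAction.IsPretransitive N Ω := by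
    refine MulAction.IsQuasiPreprimitive.isPretransitive_of_normal (G := G) (X := Ω) (N := N) fun h => hN ?_
    rw [eq_bot_iff]
    intro n hn
    rw [Subgroup.mem_bot]
    refine FaithfulSMul.eq_of_smul_eq_smul (α := Ω) fun x => ?_
    have h1 : x ∈ MulAction.fixedPoints N Ω := by rw [h]; trivial
    rw [one_smul]
    exact h1 ⟨n, hn⟩
  have hne : Nonempty Ω := by
    by_contra hne
    apply hN
    rw [eq_bot_iff]
    intro n _
    rw [Subgroup.mem_bot]
    exact FaithfulSMul.eq_of_smul_eq_smul (α := Ω) fun x => (hne ⟨x⟩).elim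
  obtain ⟨ω⟩ := hne
  have hreg : ∀ n ∈ N, n • ω = ω → n = 1 := by
    intro n hn h
    refine FaithfulSMul.eq_of_smul_eq_smul (α := Ω) fun x => ?_
    obtain ⟨m, rfl⟩ := MulAction.exists_smul_eq N ω x
    have h1 : n • ((m : G) • ω) = (m : G) • ω := by
      rw [← mul_smul, (hab n hn m m.2).eq, mul_smul, h]
    rw [one_smul]
    exact h1
  letI : CommGroup N := { (inferInstance : Group N) with
    mul_comm := fun x y => Subtype.ext (hab x x.2 y y.2).eq }
  let K : Subgroup G := MulAction.stabilizer G ω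
  have : Nontrivial N := (Subgroup.nontrivial_iff_ne_bot N).2 hN
  have hirr : ∀ M : Subgroup N, (∀ k : K, ∀ x ∈ M, (MulAut.conjNormal.comp K.subtype) k x ∈ M) → M = ⊥ ∨ M = ⊤ := by
    intro M hM
    have hMn : (M.map N.subtype).Normal := by
      refine ⟨?_⟩
      rintro _ ⟨x, hx, rfl⟩ g
      obtain ⟨n, hn⟩ := MulAction.exists_smul_eq N ω (g • ω)
      have hk : (n : G)⁻¹ * g ∈ K := by
        rw [MulAction.mem_stabilizer_iff, mul_smul, inv_smul_eq_iff]
        exact hn.symm
      have h1 := hM ⟨_, hk⟩ x hx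
      refine ⟨_, h1, ?_⟩
      show (MulAut.conjNormal ((n : G)⁻¹ * g) x : G) = g * x * g⁻¹
      rw [MulAut.conjNormal_apply]
      have h3 := hab (g * x * g⁻¹) (Subgroup.Normal.conj_mem ‹N.Normal› (x : G) x.2 g) n n.2
      calc (n : G)⁻¹ * g * x * ((n : G)⁻¹ * g)⁻¹ = (n : G)⁻¹ * ((g * x * g⁻¹) * n) := by group
        _ = (n : G)⁻¹ * (n * (g * x * g⁻¹)) := by rw [h3.eq]
        _ = g * x * g⁻¹ := by group
    rcases hmin _ hMn (Subgroup.map_subtype_le M) with h | h
    · left
      exact (Subgroup.map_eq_bot_iff_of_injective M N.subtype_injective).1 h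
    · right
      rw [eq_top_iff]
      intro x _
      have h1 : (x : G) ∈ M.map N.subtype := by rw [h]; exact x.2
      obtain ⟨y, hy, hxy⟩ := h1
      have h2 : y = x := Subtype.ext hxy
      rwa [← h2]
  have hcardV : Nat.card N = Nat.card Ω := by
    refine Nat.card_eq_of_bijective (fun v : N => (v : G) • ω) ⟨?_, ?_⟩
    · intro v w h
      have h' : (v : G) • ω = (w : G) • ω := h
      have h1 : (w : G)⁻¹ * (v : G) = 1 :=
        hreg _ (N.mul_mem (N.inv_mem w.2) v.2) (by rw [mul_smul, h', inv_smul_smul])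
      exact Subtype.ext (inv_mul_eq_one.1 h1).symm
    · intro x
      obtain ⟨n, hn⟩ := MulAction.exists_smul_eq N ω x
      exact ⟨n, hn⟩
  have hGK : ¬ Cfsg.Involves (alternatingGroup (Fin d)) K := by
    intro h
    apply hG
    rw [H793.involves_lib_iff] at h ⊢
    exact Lib.Involves.of_subgroup h
  obtain ⟨B, hBc, hB⟩ := grp_case hcol hwr d b1 b hL (MulAut.conjNormal.comp K.subtype) hirr hGK
    (fun L Δ _ _ _ _ f hf h1 h2 h3 =>
      ih L Δ (K.subtype.comp f) (K.subtype_injective.comp hf) h1 h2 (by rw [← hcardV]; exact h3))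
  refine ⟨insert ω (B.image fun v : N => (v : G) • ω), ?_, fun g hg => ?_⟩
  · refine (Finset.card_insert_le _ _).trans ?_
    have h1 := (Finset.card_image_le (s := B) (f := fun v : N => (v : G) • ω))
    omega
  have hk : g ∈ K := hg ω (Finset.mem_insert_self _ _)
  have hgω : g • ω = ω := hk
  have hconj : ∀ n : N, g • ((n : G) • ω) = ((MulAut.conjNormal g n : N) : G) • ω := by
    intro n
    rw [MulAut.conjNormal_apply, mul_smul, mul_smul]
    conv_rhs => rw [← hgω]
    rw [inv_smul_smul]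
  have h1 := hB ⟨g, hk⟩ (fun n hn => by
    have h2 := hg _ (Finset.mem_insert_of_mem (Finset.mem_image_of_mem _ hn))
    have h3 : g • ((n : G) • ω) = (n : G) • ω := h2
    rw [hconj] at h3
    have h4 : (n : G)⁻¹ * ((MulAut.conjNormal g n : N) : G) = 1 :=
      hreg _ (N.mul_mem (N.inv_mem n.2) (MulAut.conjNormal g n : N).2) (by rw [mul_smul, h3, inv_smul_smul])
    exact Subtype.ext (inv_mul_eq_one.1 h4).symm)
  intro x
  obtain ⟨n, rfl⟩ := MulAction.exists_smul_eq N ω x
  have h3 : MulAut.conjNormal g n = n := h1 n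
  show g • ((n : G) • ω) = (n : G) • ω
  rw [hconj, h3]

/-- **C1: affine primitive groups.** -/
theorem aff (d b1 b : ℕ) (hL : LinPrim d b1)
    (G Ω : Type) [Group G] [Finite G] [MulAction G Ω] [FaithfulSMul G Ω] [Finite Ω]
    (hp : MulAction.IsPreprimitive G Ω) (hG : ¬ Cfsg.Involves (alternatingGroup (Fin d)) G)
    (N : Subgroup G) [N.Normal] (hN : N ≠ ⊥)
    (hmin : ∀ M : Subgroup G, M.Normal → M ≤ N → M = ⊥ ∨ M = N)
    (hab : ∀ x ∈ N, ∀ y ∈ N, Commute x y)
    (ih : ∀ (L Δ : Type) [Group L] [Finite L] [MulAction L Δ] [Finite Δ] (f : L →* G),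
      Function.Injective f → MulAction.IsPreprimitive L Δ → Nontrivial Δ →
      Nat.card Δ < Nat.card Ω → BaseLE L Δ b) :
    BaseLE G Ω (1 + b1 + Nat.clog 2 (2 * b + 2)) :=
  aff_of Cfsg.Agent.H486.B57.col Cfsg.Agent.H870.B57.wr d b1 b hL G Ω hp hG N hN hmin hab ih

end Cfsg.Agent.H505.B57
end

-- part: H830/B57/AsmII
section
/-!
# S5717, Part II: assembly

`main2`: from `TBase T (C₁ d)` for all simple groups and `LinPrim d (C₂ d)` to all primitive groups.
-/

set_option autoImplicit false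

open Subgroup

namespace Cfsg.Agent.H830.B57

theorem nonAff : NonAff := by
  intro d k b hd h2 hk G Ω _ _ _ _ _ hp hG N _ hmin hna ih
  refine H637.B57.nonaff_of ?_ ?_ d k b hd h2 (fun T _ _ _ => hk T) G Ω hp hG N hmin hna ih
  · intro G Ω _ _ _ _ _ hp N _ m T e hf ω hNK hprod k b hT ih
    exact H855.B57.prod_case G Ω hp N m T e hf ω hNK hprod k b hT ih
  · intro G Ω _ _ _ _ _ hp N _ m T e hf ω hNK c hc hc2 hinj hsur h2 b ih
    exact H112.B57.diag_case G Ω hp N m T e hf ω hNK c hc hc2 hinj hsur h2 b ih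

theorem aff' : Aff := by
  intro d b1 b hL G Ω _ _ _ _ _ hp hG N _ hN hmin hab ih
  exact H505.B57.aff d b1 b hL G Ω hp hG N hN hmin hab ih

/-- Part II -/
theorem main2 (C1 C2 : ℕ)
    (h2 : ∀ (T : Type) [Group T] [Finite T] [IsSimpleGroup T], ∃ u v : T, _root_.Subgroup.closure {u, v} = ⊤)
    (hT : ∀ d : ℕ, 5 ≤ d → ∀ (T : Type) [Group T] [Finite T] [IsSimpleGroup T],
      (∃ x y : T, x * y ≠ y * x) → ¬ Cfsg.Involves (alternatingGroup (Fin d)) T →
      TBase T (C1 * d))
    (hL : ∀ d : ℕ, 5 ≤ d → LinPrim d (C2 * d)) (d : ℕ) (hd : 5 ≤ d) (G Ω : Type) [Group G]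
    [Finite G] [MulAction G Ω] [Finite Ω] (hp : MulAction.IsPreprimitive G Ω)
    (hG : ¬ Cfsg.Involves (alternatingGroup (Fin d)) G) :
    BaseLE G Ω ((2 * C1 + 2 * C2 + 20) * d) :=
  main_of C1 C2 h2 hT hL nonAff aff' d hd _ G Ω rfl hp hG

end Cfsg.Agent.H830.B57
end

-- part: H77/TBaseAlt
section
/-!
# S5717, A4: bases of the alternating groups from the length of subgroup chains (helper77)

* `LenLE.of_surjective`;
* `tbase_of_len` : `T` simple, `LenLE (MulAut T) k → TBase T k`;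
* `tbase_alt`.
-/

set_option autoImplicit false

open Subgroup

namespace Cfsg.Agent.H77.TBaseAlt

open Cfsg.Agent.H901.ChainLen Cfsg.Agent.H830.B57

theorem lenLE_of_surjective {G Q : Type*} [Group G] [Group Q] {k : ℕ} (h : LenLE G k) (f : G →* Q)
    (hf : Function.Surjective f) : LenLE Q k := by
  obtain ⟨r, hr, hk⟩ := exists_rank h
  refine of_rank (fun K => r (K.comap f)) ?_ fun K => hk _
  intro A B hAB
  apply hr
  refine lt_of_le_of_ne (Subgroup.comap_mono hAB.le) fun he => hAB.ne ?_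
  have h1 := congrArg (Subgroup.map f) he
  rwa [Subgroup.map_comap_eq_self_of_surjective hf, Subgroup.map_comap_eq_self_of_surjective hf] at h1

section base

variable {T : Type*} [Group T]

/-- an automorphism which moves every element inside its coset of a proper subgroup is trivial -/
theorem eq_one_of_forall [IsSimpleGroup T] {H : Subgroup T} (hH : H ≠ ⊤) {a : MulAut T} (h : ∀ t, t⁻¹ * a t ∈ H) :
    a = 1 := by
  let M : Subgroup T := Subgroup.closure (Set.range fun t => t⁻¹ * a t)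
  have hM : ∀ t, t⁻¹ * a t ∈ M := fun t => Subgroup.subset_closure ⟨t, rfl⟩
  have hn : M.Normal := by
    rw [← Subgroup.normalizer_eq_top_iff, Subgroup.eq_top_iff']
    intro s
    have key : ∀ s : T, ∀ m ∈ M, s * m * s⁻¹ ∈ M := by
      intro s m hm
      induction hm using Subgroup.closure_induction with
      | mem x hx =>
        obtain ⟨t, rfl⟩ := hx
        have h1 : s * (t⁻¹ * a t) * s⁻¹ = ((t * s⁻¹)⁻¹ * a (t * s⁻¹)) * ((s⁻¹)⁻¹ * a (s⁻¹))⁻¹ := by
          rw [map_mul, map_inv]; group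
        show s * (t⁻¹ * a t) * s⁻¹ ∈ M
        rw [h1]
        exact mul_mem (hM _) (inv_mem (hM _))
      | one => rw [mul_one, mul_inv_cancel]; exact one_mem _
      | mul x y _ _ hx hy =>
        have h1 : s * (x * y) * s⁻¹ = (s * x * s⁻¹) * (s * y * s⁻¹) := by group
        rw [h1]; exact mul_mem hx hy
      | inv x _ hx =>
        have h1 : s * x⁻¹ * s⁻¹ = (s * x * s⁻¹)⁻¹ := by group
        rw [h1]; exact inv_mem hx
    rw [Subgroup.mem_normalizer_iff]
    intro m
    refine ⟨key s m, fun hm => ?_⟩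
    have h1 := key s⁻¹ _ hm
    have h2 : s⁻¹ * (s * m * s⁻¹) * s⁻¹⁻¹ = m := by group
    rwa [h2] at h1
  have hle : M ≤ H := by
    rw [Subgroup.closure_le]
    rintro _ ⟨t, rfl⟩
    exact h t
  rcases hn.eq_bot_or_eq_top with h1 | h1
  · ext t
    have h2 := hM t
    rw [h1, Subgroup.mem_bot, inv_mul_eq_one] at h2
    exact h2.symm
  · exact absurd (top_le_iff.1 (h1 ▸ hle)) hH

/-- the automorphisms fixing the coset `t H` -/
def st (H : Subgroup T) (t : T) : Subgroup (MulAut T) where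
  carrier := {a | (∀ h, h ∈ H ↔ a h ∈ H) ∧ t⁻¹ * a t ∈ H}
  one_mem' := ⟨fun h => Iff.rfl, by rw [MulAut.one_apply, inv_mul_cancel]; exact one_mem _⟩
  mul_mem' := by
    rintro a b ⟨ha, ha'⟩ ⟨hb, hb'⟩
    refine ⟨fun h => ?_, ?_⟩
    · rw [MulAut.mul_apply, ← ha, ← hb]
    · have h1 : t⁻¹ * (a * b) t = (t⁻¹ * a t) * a (t⁻¹ * b t) := by
        rw [MulAut.mul_apply, map_mul, map_inv]; group
      rw [h1]
      exact mul_mem ha' ((ha _).1 hb')
  inv_mem' := by
    rintro a ⟨ha, ha'⟩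
    have h0 : ∀ h, h ∈ H ↔ (a⁻¹ : MulAut T) h ∈ H := fun h => by
      conv_lhs => rw [← MulAut.apply_inv_self T a h]
      exact (ha _).symm
    refine ⟨h0, ?_⟩
    have h1 : t⁻¹ * (a⁻¹ : MulAut T) t = (a⁻¹ : MulAut T) ((t⁻¹ * a t)⁻¹) := by
      rw [mul_inv_rev, map_mul, inv_inv, ← map_inv a t, MulAut.inv_apply_self]
    rw [h1]
    exact (h0 _).1 (inv_mem ha')

theorem tbase_of_len [IsSimpleGroup T] {k : ℕ} (h : LenLE (MulAut T) k) : TBase T k := by
  intro H hH
  obtain ⟨r, hr, hk⟩ := exists_rank h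
  have key : ∀ m : ℕ, ∀ B : Subgroup (MulAut T), (∀ a ∈ B, ∀ h, h ∈ H ↔ a h ∈ H) → r B ≤ m →
      ∃ t : Fin m → T, ∀ a ∈ B, (∀ j, (t j)⁻¹ * a (t j) ∈ H) → a = 1 := by
    intro m
    induction m with
    | zero =>
      intro B _ hB
      have h1 : B = ⊥ := by
        by_contra hne
        have h2 := hr (bot_lt_iff_ne_bot.2 hne)
        omega
      refine ⟨fun j => j.elim0, fun a ha _ => ?_⟩
      rwa [h1, Subgroup.mem_bot] at ha
    | succ m ih =>
      intro B hBH hB
      by_cases hne : ∀ a ∈ B, a = 1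
      · exact ⟨fun _ => 1, fun a ha _ => hne a ha⟩
      push Not at hne
      obtain ⟨a, ha, ha1⟩ := hne
      obtain ⟨t₀, ht₀⟩ : ∃ t, t⁻¹ * a t ∉ H := by
        by_contra hcon
        push Not at hcon
        exact ha1 (eq_one_of_forall hH hcon)
      have hlt : B ⊓ st H t₀ < B := by
        refine lt_of_le_of_ne inf_le_left fun he => ht₀ ?_
        have h1 : a ∈ B ⊓ st H t₀ := by rw [he]; exact ha
        exact h1.2.2
      obtain ⟨t, ht⟩ := ih (B ⊓ st H t₀) (fun b hb => hBH b hb.1) (by have := hr hlt; omega)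
      refine ⟨Fin.cons t₀ t, fun b hb hj => ?_⟩
      refine ht b ⟨hb, hBH b hb, ?_⟩ fun j => ?_
      · simpa using hj 0
      · simpa using hj j.succ
  let A₀ : Subgroup (MulAut T) :=
    { carrier := {a | ∀ h, h ∈ H ↔ a h ∈ H}
      one_mem' := fun h => Iff.rfl
      mul_mem' := by
        intro a b ha hb h
        rw [MulAut.mul_apply, ← ha, ← hb]
      inv_mem' := by
        intro a ha h
        conv_lhs => rw [← MulAut.apply_inv_self T a h]
        exact (ha _).symm }
  obtain ⟨t, ht⟩ := key k A₀ (fun a ha => ha) (hk _)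
  exact ⟨t, fun a ha hj => ht a ha hj⟩

end base

theorem F_le (n : ℕ) : H901.PopCount.F n ≤ 2 * n := by
  unfold H901.PopCount.F
  omega

/-- the automorphism groups of the alternating groups -/
theorem lenLE_aut {n : ℕ} (hn : 7 ≤ n) : LenLE (MulAut (alternatingGroup (Fin n))) (2 * n) := by
  obtain ⟨m, rfl⟩ : ∃ m, n = m + 2 := ⟨n - 2, by omega⟩
  have h1 := (H901.ChainUpper.lenLE_perm H901.PrimBound.primBound (m + 2)).mono (F_le (m + 2))
  refine lenLE_of_surjective h1 (MulAut.conjNormal (H := alternatingGroup (Fin (m + 2)))) ?_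
  intro e
  obtain ⟨σ, hσ⟩ := StandardComponent.AltAut.exists_conj (m := m) (by omega) e
  refine ⟨σ, ?_⟩
  ext1 x
  apply Subtype.ext
  rw [MulAut.conjNormal_apply, hσ]

/-- **A4** -/
theorem tbase_alt : ∃ C' : ℕ, ∀ (n : ℕ), 5 ≤ n → ∀ (T : Type) [Group T] [Finite T],
    Nonempty (T ≃* alternatingGroup (Fin n)) → TBase T (C' * n) := by
  set c5 := ArithmeticFunction.cardFactors (Nat.card (MulAut (alternatingGroup (Fin 5))))
  set c6 := ArithmeticFunction.cardFactors (Nat.card (MulAut (alternatingGroup (Fin 6))))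
  refine ⟨2 + c5 + c6, fun n hn T _ _ ⟨e⟩ => ?_⟩
  have hs : IsSimpleGroup (alternatingGroup (Fin n)) := alternatingGroup.isSimpleGroup (by rw [Nat.card_fin]; exact hn)
  have : IsSimpleGroup T := e.isSimpleGroup
  apply tbase_of_len
  have key : ∀ k, LenLE (MulAut (alternatingGroup (Fin n))) k → LenLE (MulAut T) k := fun k h =>
    h.of_equiv (MulAut.congr e)
  rcases (by omega : n = 5 ∨ n = 6 ∨ 7 ≤ n) with rfl | rfl | h7
  · exact key _ (LenLE.of_card.mono (by omega))
  · exact key _ (LenLE.of_card.mono (by omega))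
  · refine key _ ((lenLE_aut h7).mono ?_)
    nlinarith

end Cfsg.Agent.H77.TBaseAlt
end

-- part: H830/B57/AllRows
section
/-!
# S5717: all simple groups, and the theorem from the rows
-/

set_option autoImplicit false

open Subgroup

namespace Cfsg.Agent.H830.B57

open Cfsg.Agent.H254.BS.PI

/-- `A_d` is a subgroup of `A_n` for `d ≤ n` -/
theorem involves_alt {d n : ℕ} (h : d ≤ n) :
    Cfsg.Involves (alternatingGroup (Fin d)) (alternatingGroup (Fin n)) := by
  classical
  let f : Fin d ≃ {x : Fin n // x ∈ Set.range (Fin.castLE h)} :=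
    Equiv.ofInjective (Fin.castLE h) (Fin.castLE_injective h)
  let φ : Equiv.Perm (Fin d) →* Equiv.Perm (Fin n) := Equiv.Perm.extendDomainHom f
  have hφ : Function.Injective φ := Equiv.Perm.extendDomainHom_injective f
  have hsign : ∀ σ : Equiv.Perm (Fin d), Equiv.Perm.sign (φ σ) = Equiv.Perm.sign σ := by
    intro σ
    exact Equiv.Perm.sign_extendDomain σ f
  let ψ : alternatingGroup (Fin d) →* alternatingGroup (Fin n) :=
    (φ.comp (alternatingGroup (Fin d)).subtype).codRestrict _ (fun σ => by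
      rw [Equiv.Perm.mem_alternatingGroup]
      exact (hsign σ).trans (Equiv.Perm.mem_alternatingGroup.1 σ.2))
  have hψ : Function.Injective ψ := by
    intro a b hab
    exact Subtype.ext (hφ (congrArg Subtype.val hab))
  refine involves_of_injective ψ hψ ?_
  exact inv_iff.2 ⟨⊤, (Subgroup.topEquiv (G := alternatingGroup (Fin d))).toMonoidHom,
    (Subgroup.topEquiv (G := alternatingGroup (Fin d))).surjective⟩

theorem rows_alt : Rows (fun T _ => Cfsg.IsAlternating T) := by
  obtain ⟨c, hc⟩ := H77.TBaseAlt.tbase_alt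
  refine ⟨c + 1, by omega, ?_⟩
  intro d hd T _ _ _ hT hno
  obtain ⟨n, hn, ⟨e⟩⟩ := hT
  have hlt : n < d := by
    by_contra hcon
    push Not at hcon
    exact hno (involves_of_equiv e (involves_alt hcon))
  refine (hc n hn T ⟨e⟩).mono ?_
  calc c * n ≤ c * d := Nat.mul_le_mul_left _ hlt.le
    _ ≤ (c + 1) * d := Nat.mul_le_mul_right _ (Nat.le_succ c)

theorem all_tbase
    (hcl : ∀ (T : Type) [Group T] [Finite T] [IsSimpleGroup T], Cfsg.IsKnownSimple' T)
    (r1 : Rows (fun T _ => Cfsg.IsPSL T)) (r2 : Rows (fun T _ => Cfsg.IsPSp T))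
    (r3 : Rows (fun T _ => Cfsg.IsPSU T)) (r4 : Rows (fun T _ => Cfsg.IsPOmegaOdd T))
    (r5 : Rows (fun T _ => Cfsg.IsPOmegaPlus T)) (r6 : Rows (fun T _ => Cfsg.IsPOmegaMinus T))
    (r7 : Rows (fun T _ => Cfsg.IsExceptionalLieType T))
    (r8 : Rows (fun T _ => Cfsg.IsSporadicGroup T)) :
    ∃ C : ℕ, ∀ d : ℕ, 5 ≤ d → ∀ (T : Type) [Group T] [Finite T] [IsSimpleGroup T],
      (∃ x y : T, x * y ≠ y * x) → ¬ Cfsg.Involves (alternatingGroup (Fin d)) T →
      TBase T (C * d) := by
  obtain ⟨c0, -, h0⟩ := rows_alt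
  obtain ⟨c1, -, h1⟩ := r1
  obtain ⟨c2, -, h2⟩ := r2
  obtain ⟨c3, -, h3⟩ := r3
  obtain ⟨c4, -, h4⟩ := r4
  obtain ⟨c5, -, h5⟩ := r5
  obtain ⟨c6, -, h6⟩ := r6
  obtain ⟨c7, -, h7⟩ := r7
  obtain ⟨c8, -, h8⟩ := r8
  refine ⟨c0 + c1 + c2 + c3 + c4 + c5 + c6 + c7 + c8, ?_⟩
  intro d hd T _ _ _ hna hno
  have mono : ∀ c, c ≤ c0 + c1 + c2 + c3 + c4 + c5 + c6 + c7 + c8 → TBase T (c * d) →
      TBase T ((c0 + c1 + c2 + c3 + c4 + c5 + c6 + c7 + c8) * d) := fun c hc h =>
    h.mono (Nat.mul_le_mul_right _ hc)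
  rcases hcl T with h | h | h | h | h | h | h | h | h | h
  · exfalso
    obtain ⟨x, y, hxy⟩ := hna
    have hp : Fact (Nat.card T).Prime := ⟨h⟩
    have hcyc : IsCyclic T := isCyclic_of_prime_card rfl
    obtain ⟨g, hg⟩ := hcyc.exists_generator
    obtain ⟨i, rfl⟩ := mem_zpowers_iff.1 (hg x)
    obtain ⟨j, rfl⟩ := mem_zpowers_iff.1 (hg y)
    exact hxy (by rw [← zpow_add, ← zpow_add, add_comm])
  · exact mono c0 (by omega) (h0 d hd T h hno)
  · exact mono c1 (by omega) (h1 d hd T h hno)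
  · exact mono c2 (by omega) (h2 d hd T h hno)
  · exact mono c3 (by omega) (h3 d hd T h hno)
  · exact mono c4 (by omega) (h4 d hd T h hno)
  · exact mono c5 (by omega) (h5 d hd T h hno)
  · exact mono c6 (by omega) (h6 d hd T h hno)
  · exact mono c7 (by omega) (h7 d hd T h hno)
  · exact mono c8 (by omega) (h8 d hd T h hno)

end Cfsg.Agent.H830.B57
end

-- part: H830/B57/Top
section
/-!
# S5717: the theorem from the rows of the simple groups and the primitive linear groups
-/

set_option autoImplicit false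

open Subgroup

namespace Cfsg.Agent.H830.B57

open Cfsg.Agent.H254.BS.PI

theorem LinPrim.mono {d a b : ℕ} (h : LinPrim d a) (hab : a ≤ b) : LinPrim d b := by
  intro p _ V _ _ _ X hX hno
  obtain ⟨B, hB, hB2⟩ := h p V X hX hno
  exact ⟨B, hB.trans hab, hB2⟩

/-- the assertion of the linear part (helper457) -/
def LinPart : Prop :=
  ∃ K : ℕ, ∀ d k : ℕ,
    (∀ (T : Type) [Group T] [Finite T] [IsSimpleGroup T], (∃ x y : T, x * y ≠ y * x) →
      ¬ Cfsg.Involves (alternatingGroup (Fin d)) T → TBase T k) → LinPrim d (k + K)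

theorem top
    (hcl : ∀ (T : Type) [Group T] [Finite T] [IsSimpleGroup T], Cfsg.IsKnownSimple' T)
    (h2 : ∀ (T : Type) [Group T] [Finite T] [IsSimpleGroup T], ∃ u v : T, _root_.Subgroup.closure {u, v} = ⊤)
    (r1 : Rows (fun T _ => Cfsg.IsPSL T)) (r2 : Rows (fun T _ => Cfsg.IsPSp T))
    (r3 : Rows (fun T _ => Cfsg.IsPSU T)) (r4 : Rows (fun T _ => Cfsg.IsPOmegaOdd T))
    (r5 : Rows (fun T _ => Cfsg.IsPOmegaPlus T)) (r6 : Rows (fun T _ => Cfsg.IsPOmegaMinus T))
    (r7 : Rows (fun T _ => Cfsg.IsExceptionalLieType T))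
    (r8 : Rows (fun T _ => Cfsg.IsSporadicGroup T)) (hlin : LinPart) :
    ∃ c : ℕ, ∀ (d : ℕ), 5 ≤ d → ∀ (G Ω : Type*) [Group G] [Finite G] [MulAction G Ω]
      [FaithfulSMul G Ω] [Fintype Ω], MulAction.IsPreprimitive G Ω →
      ¬ Cfsg.Involves (alternatingGroup (Fin d)) G →
      ∃ B : Finset Ω, B.card ≤ c * d ∧ ∀ g : G, (∀ b ∈ B, g • b = b) → g = 1 := by
  obtain ⟨C, hC⟩ := all_tbase hcl r1 r2 r3 r4 r5 r6 r7 r8
  obtain ⟨K, hK⟩ := hlin
  refine ⟨2 * C + 2 * (C + K) + 20, ?_⟩
  intro d hd G Ω _ _ _ _ _ hp hG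
  refine transfer (c := 2 * C + 2 * (C + K) + 20) ?_ d hd G Ω hp hG
  intro d hd G Ω _ _ _ _ hp hG
  refine main2 C (C + K) h2 hC (fun d hd => ?_) d hd G Ω hp hG
  refine (hK d (C * d) (fun T _ _ _ h3 h4 => hC d hd T h3 h4)).mono ?_
  calc C * d + K ≤ C * d + K * d := by
        apply Nat.add_le_add_left
        exact Nat.le_mul_of_pos_right _ (by omega)
    _ = (C + K) * d := by ring

end Cfsg.Agent.H830.B57
end

-- part: H830/B57/RootSU
section
/-!
# S5717, bounded rank: `SU_n(q)` (helper830)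
-/

set_option autoImplicit false
set_option linter.unusedVariables false
set_option linter.unusedSectionVars false

open Matrix

namespace Cfsg.Agent.H830.B57.RootSU

open Cfsg Cfsg.Agent.LieClassical.HermBasic Cfsg.Agent.LieClassical.HermSiegel
  Cfsg.Agent.LieClassical.HermGen Cfsg.Agent.LieClassical.HermSimple Cfsg.Agent.LieClassical.HermPerfect
  Cfsg.Agent.H917.FP Cfsg.Agent.H920.FP Cfsg.Agent.H830.B57.RootB Cfsg.Agent.H254.BS.PI

variable {F : Type} [Field F] [Fintype F] {q n : ℕ}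

/-- the fixed field -/
def K0 (hF : Fintype.card F = q ^ 2) : Subfield F where
  carrier := {x | x ^ q = x}
  mul_mem' := by
    intro a b ha hb
    rw [Set.mem_ofPred_eq] at *
    rw [mul_pow, ha, hb]
  one_mem' := one_pow q
  add_mem' := by
    intro a b ha hb
    rw [Set.mem_ofPred_eq] at *
    rw [add_pow_q hF, ha, hb]
  zero_mem' := zero_pow_q hF
  neg_mem' := by
    intro a ha
    rw [Set.mem_ofPred_eq] at *
    rw [neg_pow_q hF, ha]
  inv_mem' := by
    intro a ha
    rw [Set.mem_ofPred_eq] at *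
    rw [inv_pow, ha]

theorem mem_K0 (hF : Fintype.card F = q ^ 2) {x : F} : x ∈ K0 hF ↔ x ^ q = x := Iff.rfl

theorem card_K0 (hF : Fintype.card F = q ^ 2) : Nat.card (K0 hF) = q := card_fixed hF

/-- `SL₂` acting on the hyperbolic plane with basis `v`, `η w` -/
def slmat (q : ℕ) (η : F) (v w : Fin n → F) (a b c d : F) : Matrix (Fin n) (Fin n) F :=
  1 + (Matrix.vecMulVec v (fun j => (a - 1) * w j ^ q + b * η⁻¹ * v j ^ q) +
    Matrix.vecMulVec w (fun j => η * c * w j ^ q + (d - 1) * v j ^ q))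

theorem slmat_mulVec (η : F) (v w : Fin n → F) (a b c d : F) (x : Fin n → F) :
    slmat q η v w a b c d *ᵥ x = x + ((a - 1) * hermForm n F q x w + b * η⁻¹ * hermForm n F q x v) • v +
      (η * c * hermForm n F q x w + (d - 1) * hermForm n F q x v) • w := by
  have h1 : (fun j => (a - 1) * w j ^ q + b * η⁻¹ * v j ^ q) ⬝ᵥ x =
      (a - 1) * hermForm n F q x w + b * η⁻¹ * hermForm n F q x v := by
    rw [herm_def, herm_def, dotProduct, Finset.mul_sum, Finset.mul_sum, ← Finset.sum_add_distrib]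
    exact Finset.sum_congr rfl fun _ _ => by ring
  have h2 : (fun j => η * c * w j ^ q + (d - 1) * v j ^ q) ⬝ᵥ x =
      η * c * hermForm n F q x w + (d - 1) * hermForm n F q x v := by
    rw [herm_def, herm_def, dotProduct, Finset.mul_sum, Finset.mul_sum, ← Finset.sum_add_distrib]
    exact Finset.sum_congr rfl fun _ _ => by ring
  rw [slmat, Matrix.add_mulVec, Matrix.add_mulVec, Matrix.one_mulVec,
    Matrix.vecMulVec_mulVec, Matrix.vecMulVec_mulVec, h1, h2, op_smul_eq_smul, op_smul_eq_smul, add_assoc]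

/-- a hyperbolic pair -/
structure Pair (q : ℕ) (v w : Fin n → F) : Prop where
  hv : hermForm n F q v v = 0
  hw : hermForm n F q w w = 0
  hvw : hermForm n F q v w = 1

theorem Pair.wv {v w : Fin n → F} (h : Pair q v w) (hF : Fintype.card F = q ^ 2) : hermForm n F q w v = 1 := by
  rw [herm_swap hF v w, h.hvw, one_pow]

theorem Pair.symm {v w : Fin n → F} (h : Pair q v w) (hF : Fintype.card F = q ^ 2) : Pair q w v :=
  ⟨h.hw, h.hv, h.wv hF⟩

theorem slmat_mul (hF : Fintype.card F = q ^ 2) {η : F} (hη : η ≠ 0) {v w : Fin n → F} (h : Pair q v w)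
    (a b c d a' b' c' d' : F) :
    slmat q η v w a b c d * slmat q η v w a' b' c' d' =
      slmat q η v w (a * a' + b * c') (a * b' + b * d') (c * a' + d * c') (c * b' + d * d') := by
  apply Matrix.ext_of_mulVec_single
  intro i
  rw [← Matrix.mulVec_mulVec, slmat_mulVec, slmat_mulVec, slmat_mulVec]
  simp only [herm_add_left, herm_smul_left, h.hv, h.hw, h.hvw, h.wv hF]
  set α := hermForm n F q (Pi.single i 1) w
  set β := hermForm n F q (Pi.single i 1) v
  funext j
  simp only [Pi.add_apply, Pi.smul_apply, smul_eq_mul]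
  field_simp
  ring

theorem slmat_herm (hF : Fintype.card F = q ^ 2) {η : F} (hη : η ≠ 0) (hη2 : η ^ q = -η) {v w : Fin n → F}
    (h : Pair q v w) {a b c d : F} (ha : a ^ q = a) (hb : b ^ q = b) (hc : c ^ q = c) (hd : d ^ q = d)
    (hdet : a * d - b * c = 1) (x y : Fin n → F) :
    hermForm n F q (slmat q η v w a b c d *ᵥ x) (slmat q η v w a b c d *ᵥ y) = hermForm n F q x y := by
  rw [slmat_mulVec, slmat_mulVec]
  simp only [herm_add_left, herm_smul_left, herm_add_right hF, herm_smul_right, h.hv, h.hw, h.hvw, h.wv hF]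
  have e1 : hermForm n F q v y = hermForm n F q y v ^ q := herm_swap hF y v
  have e2 : hermForm n F q w y = hermForm n F q y w ^ q := herm_swap hF y w
  rw [e1, e2]
  simp only [add_pow_q hF, mul_pow, sub_pow_q hF, inv_pow, ha, hb, hc, hd, hη2, one_pow]
  set α := hermForm n F q x w
  set β := hermForm n F q x v
  set α' := hermForm n F q y w ^ q
  set β' := hermForm n F q y v ^ q
  field_simp
  ring_nf
  linear_combination (α * β' + β * α') * η ^ 2 * hdet

/-- the homomorphism to the matrices -/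
noncomputable def pre (hF : Fintype.card F = q ^ 2) {η : F} (hη : η ≠ 0) {v w : Fin n → F} (h : Pair q v w) :
    Matrix.SpecialLinearGroup (Fin 2) (K0 hF) →* Matrix (Fin n) (Fin n) F where
  toFun g := slmat q η v w (g.1 0 0) (g.1 0 1) (g.1 1 0) (g.1 1 1)
  map_one' := by
    apply Matrix.ext_of_mulVec_single
    intro i
    rw [slmat_mulVec, Matrix.one_mulVec]
    simp only [_root_.Fin.isValue, _root_.Matrix.SpecialLinearGroup.coe_one, _root_.Matrix.one_apply_eq, _root_.OneMemClass.coe_one, _root_.sub_self, _root_.MulZeroClass.zero_mul, _root_.ne_eq, _root_.zero_ne_one, _root_.not_false_eq_true, _root_.Matrix.one_apply_ne, _root_.ZeroMemClass.coe_zero, _root_.add_zero, _root_.zero_smul, _root_.one_ne_zero, _root_.MulZeroClass.mul_zero]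
  map_mul' g g' := by
    rw [slmat_mul hF hη h]
    simp only [Matrix.mul_apply, Fin.sum_univ_two, _root_.Fin.isValue, _root_.Matrix.SpecialLinearGroup.coe_mul, _root_.Subfield.coe_add, _root_.Subfield.coe_mul]

theorem pre_det (hF : Fintype.card F = q ^ 2) {η : F} (hη : η ≠ 0) {v w : Fin n → F} (h : Pair q v w) (h4 : 4 ≤ q)
    (g : Matrix.SpecialLinearGroup (Fin 2) (K0 hF)) : (pre hF hη h g).det = 1 := by
  have := Fintype.ofFinite (K0 hF)
  have hc : commutator (Matrix.SpecialLinearGroup (Fin 2) (K0 hF)) = ⊤ := by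
    apply Cfsg.Agent.H259.NatMod.commutator_eq_top
    rw [← Nat.card_eq_fintype_card, card_K0 hF]
    omega
  let f : Matrix.SpecialLinearGroup (Fin 2) (K0 hF) →* Fˣ := (Matrix.detMonoidHom.comp (pre hF hη h)).toHomUnits
  have h1 : commutator (Matrix.SpecialLinearGroup (Fin 2) (K0 hF)) ≤ f.ker := Abelianization.commutator_subset_ker f
  rw [hc] at h1
  have h2 : f g = 1 := h1 (Subgroup.mem_top g)
  have h3 := congrArg Units.val h2
  exact h3

theorem pre_herm (hF : Fintype.card F = q ^ 2) {η : F} (hη : η ≠ 0) (hη2 : η ^ q = -η) {v w : Fin n → F}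
    (h : Pair q v w) (g : Matrix.SpecialLinearGroup (Fin 2) (K0 hF)) (x y : Fin n → F) :
    hermForm n F q (pre hF hη h g *ᵥ x) (pre hF hη h g *ᵥ y) = hermForm n F q x y := by
  refine slmat_herm hF hη hη2 h (g.1 0 0).2 (g.1 0 1).2 (g.1 1 0).2 (g.1 1 1).2 ?_ x y
  have := g.2
  rw [Matrix.det_fin_two] at this
  have := congrArg (Subtype.val) this
  simpa only [_root_.Fin.isValue, _root_.AddSubgroupClass.coe_sub, _root_.Subfield.coe_mul, _root_.OneMemClass.coe_one] using this

/-- the homomorphism to `SU` -/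
noncomputable def phi (hF : Fintype.card F = q ^ 2) {η : F} (hη : η ≠ 0) (hη2 : η ^ q = -η) {v w : Fin n → F}
    (h : Pair q v w) (h4 : 4 ≤ q) : Matrix.SpecialLinearGroup (Fin 2) (K0 hF) →* SU n F q where
  toFun g := mkSU (pre hF hη h g) (pre_det hF hη h h4 g) (pre_herm hF hη hη2 h g)
  map_one' := by
    apply mat_injective
    exact map_one (pre hF hη h)
  map_mul' g g' := by
    apply mat_injective
    rw [mat_mul]
    exact map_mul (pre hF hη h) g g'

theorem act_phi (hF : Fintype.card F = q ^ 2) {η : F} (hη : η ≠ 0) (hη2 : η ^ q = -η) {v w : Fin n → F}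
    (h : Pair q v w) (h4 : 4 ≤ q) (g : Matrix.SpecialLinearGroup (Fin 2) (K0 hF)) (x : Fin n → F) :
    _root_.Cfsg.Agent.LieClassical.HermSiegel.act (phi hF hη hη2 h h4 g) x =
      x + (((g.1 0 0 : F) - 1) * hermForm n F q x w + (g.1 0 1 : F) * η⁻¹ * hermForm n F q x v) • v +
      (η * (g.1 1 0 : F) * hermForm n F q x w + ((g.1 1 1 : F) - 1) * hermForm n F q x v) • w :=
  slmat_mulVec _ _ _ _ _ _ _ _

/-- transvections -/
theorem isS (hF : Fintype.card F = q ^ 2) {u : Fin n → F} (hu : hermForm n F q u u = 0) {μ : F} (hμ : μ + μ ^ q = 0) :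
    IsSiegel q u 0 μ :=
  ⟨hu, herm_zero_left u, by rw [herm_zero_left, add_zero]; exact hμ⟩

theorem tr_of (hF : Fintype.card F = q ^ 2) {η : F} (hη2 : η ^ q = -η) (c : K0 hF) :
    η * (c : F) + (η * (c : F)) ^ q = 0 := by
  rw [mul_pow, hη2, (mem_K0 hF).1 c.2]; ring

theorem tr_of' (hF : Fintype.card F = q ^ 2) {η : F} (hη2 : η ^ q = -η) (c : K0 hF) :
    (c : F) * η⁻¹ + ((c : F) * η⁻¹) ^ q = 0 := by
  rw [mul_pow, inv_pow, hη2, (mem_K0 hF).1 c.2, inv_neg]; ring

theorem phi_lo (hF : Fintype.card F = q ^ 2) {η : F} (hη : η ≠ 0) (hη2 : η ^ q = -η) {v w : Fin n → F}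
    (h : Pair q v w) (h4 : 4 ≤ q) (c : K0 hF) :
    phi hF hη hη2 h h4 (lo c) = siegel hF w 0 (η * (c : F)) (isS hF h.hw (tr_of hF hη2 c)) := by
  apply ext_act
  intro x
  rw [act_phi, act_siegel]
  have e1 : ((lo c).1 0 0 : K0 hF) = 1 := rfl
  have e2 : ((lo c).1 0 1 : K0 hF) = 0 := rfl
  have e3 : ((lo c).1 1 0 : K0 hF) = c := rfl
  have e4 : ((lo c).1 1 1 : K0 hF) = 1 := rfl
  rw [e1, e2, e3, e4, herm_zero_right hF]
  funext j
  simp only [_root_.OneMemClass.coe_one, _root_.sub_self, _root_.MulZeroClass.zero_mul, _root_.ZeroMemClass.coe_zero, _root_.add_zero, _root_.zero_smul, _root_.Pi.add_apply, _root_.Pi.smul_apply, _root_.smul_eq_mul, _root_.smul_zero, _root_.sub_zero]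

theorem phi_up (hF : Fintype.card F = q ^ 2) {η : F} (hη : η ≠ 0) (hη2 : η ^ q = -η) {v w : Fin n → F}
    (h : Pair q v w) (h4 : 4 ≤ q) (c : K0 hF) :
    phi hF hη hη2 h h4 (up c) = siegel hF v 0 ((c : F) * η⁻¹) (isS hF h.hv (tr_of' hF hη2 c)) := by
  apply ext_act
  intro x
  rw [act_phi, act_siegel]
  have e1 : ((up c).1 0 0 : K0 hF) = 1 := rfl
  have e2 : ((up c).1 0 1 : K0 hF) = c := rfl
  have e3 : ((up c).1 1 0 : K0 hF) = 0 := rfl
  have e4 : ((up c).1 1 1 : K0 hF) = 1 := rfl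
  rw [e1, e2, e3, e4, herm_zero_right hF]
  funext j
  simp only [_root_.OneMemClass.coe_one, _root_.sub_self, _root_.MulZeroClass.zero_mul, _root_.zero_add, _root_.ZeroMemClass.coe_zero, _root_.MulZeroClass.mul_zero, _root_.add_zero, _root_.zero_smul, _root_.Pi.add_apply, _root_.Pi.smul_apply, _root_.smul_eq_mul, _root_.Pi.zero_apply, _root_.smul_zero, _root_.sub_zero]

/-- the transvection group -/
def T (hF : Fintype.card F = q ^ 2) (u : Fin n → F) : Set (SU n F q) :=
  {g | ∃ (μ : F) (h : IsSiegel q u 0 μ), siegel hF u 0 μ h = g}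

theorem mem_T_lo (hF : Fintype.card F = q ^ 2) {η : F} (hη : η ≠ 0) (hη2 : η ^ q = -η) {v w : Fin n → F}
    (h : Pair q v w) (h4 : 4 ≤ q) (x : SU n F q) : x ∈ T hF w ↔ ∃ c, phi hF hη hη2 h h4 (lo c) = x := by
  constructor
  · rintro ⟨μ, hμ, rfl⟩
    have h1 := hμ.tr
    rw [herm_zero_left, add_zero] at h1
    have h2 : μ ^ q = -μ := (neg_eq_of_add_eq_zero_right h1).symm
    refine ⟨⟨η⁻¹ * μ, ?_⟩, ?_⟩
    · rw [mem_K0, mul_pow, inv_pow, h2, hη2, inv_neg, neg_mul_neg]
    · rw [phi_lo]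
      exact siegel_congr hF _ _ rfl rfl (mul_inv_cancel_left₀ hη μ)
  · rintro ⟨c, rfl⟩
    rw [phi_lo]
    exact ⟨_, _, rfl⟩

theorem mem_T_up (hF : Fintype.card F = q ^ 2) {η : F} (hη : η ≠ 0) (hη2 : η ^ q = -η) {v w : Fin n → F}
    (h : Pair q v w) (h4 : 4 ≤ q) (x : SU n F q) : x ∈ T hF v ↔ ∃ c, phi hF hη hη2 h h4 (up c) = x := by
  constructor
  · rintro ⟨μ, hμ, rfl⟩
    have h1 := hμ.tr
    rw [herm_zero_left, add_zero] at h1
    have h2 : μ ^ q = -μ := (neg_eq_of_add_eq_zero_right h1).symm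
    refine ⟨⟨μ * η, ?_⟩, ?_⟩
    · rw [mem_K0, mul_pow, h2, hη2, neg_mul_neg]
    · rw [phi_up]
      exact siegel_congr hF _ _ rfl rfl (mul_inv_cancel_right₀ hη μ)
  · rintro ⟨c, rfl⟩
    rw [phi_up]
    exact ⟨_, _, rfl⟩

theorem T_smul (hF : Fintype.card F = q ^ 2) {u : Fin n → F} {c : F} (hc : c ≠ 0) : T hF (c • u) = T hF u := by
  have key : ∀ (u : Fin n → F) (c : F), c ≠ 0 → hermForm n F q u u = 0 → T hF (c • u) ⊆ T hF u := by
    rintro u c hc hu _ ⟨μ, hμ, rfl⟩
    have h0 : IsSiegel q u 0 μ := ⟨hu, herm_zero_left u, hμ.tr⟩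
    have h1 := siegel_smul hF (c := c) h0
    have h2 : IsSiegel q u 0 (c * c ^ q * μ) := by
      have := h0.smul' hF (c := c)
      rwa [smul_zero] at this
    refine ⟨c * c ^ q * μ, h2, ?_⟩
    rw [h1]
    exact siegel_congr hF _ _ rfl (smul_zero _).symm rfl
  by_cases hu : hermForm n F q u u = 0
  · apply Set.Subset.antisymm (key u c hc hu)
    have h1 := key (c • u) c⁻¹ (inv_ne_zero hc) (by rw [herm_smul_left, herm_smul_right, hu]; ring)
    rwa [smul_smul, inv_mul_cancel₀ hc, one_smul] at h1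
  · ext x
    constructor
    · rintro ⟨μ, hμ, rfl⟩
      exfalso
      have h1 := hμ.iso
      rw [herm_smul_left, herm_smul_right] at h1
      exact hu ((mul_eq_zero.1 ((mul_eq_zero.1 h1).resolve_left hc)).resolve_left (pow_ne_zero _ hc))
    · rintro ⟨μ, hμ, rfl⟩
      exact absurd hμ.iso hu

theorem T_conj (hF : Fintype.card F = q ^ 2) (u : Fin n → F) (g : SU n F q) : cj g (T hF u) = T hF (_root_.Cfsg.Agent.LieClassical.HermSiegel.act g u) := by
  ext x
  constructor
  · rintro ⟨_, ⟨μ, hμ, rfl⟩, rfl⟩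
    have h1 := conj_siegel hF hμ g
    have h2 : IsSiegel q (_root_.Cfsg.Agent.LieClassical.HermSiegel.act g u) 0 μ := by
      have := hμ.map g
      rwa [act_zero] at this
    exact ⟨μ, h2, (h1.trans (siegel_congr hF _ _ rfl (act_zero g) rfl)).symm⟩
  · rintro ⟨μ, hμ, rfl⟩
    have h0 : IsSiegel q u 0 μ := by
      have := hμ.map g⁻¹
      rwa [act_zero, act_inv_act] at this
    have h1 := conj_siegel hF h0 g
    exact ⟨_, ⟨μ, h0, rfl⟩, h1.trans (siegel_congr hF _ _ rfl (act_zero g) rfl)⟩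

/-- isotropic vectors not orthogonal to `v` span -/
theorem span_iso (hF : Fintype.card F = q ^ 2) {v : Fin n → F} (hv0 : v ≠ 0) (hv : hermForm n F q v v = 0) :
    Submodule.span F {u : Fin n → F | hermForm n F q u u = 0 ∧ hermForm n F q u v ≠ 0} = ⊤ := by
  obtain ⟨w, hw, hvw⟩ := exists_partner hF hv0 hv
  have hwv : hermForm n F q w v = 1 := by rw [herm_swap hF v w, hvw, one_pow]
  obtain ⟨κ, hκ0, hκ⟩ := exists_trace_zero_ne hF
  set W := Submodule.span F {u : Fin n → F | hermForm n F q u u = 0 ∧ hermForm n F q u v ≠ 0} with hW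
  have hwW : w ∈ W := Submodule.subset_span ⟨hw, by rw [hwv]; exact one_ne_zero⟩
  have h1 : w + κ • v ∈ W := by
    apply Submodule.subset_span
    constructor
    · simp only [herm_add_left, herm_add_right hF, herm_smul_left, herm_smul_right, hw, hv, hvw, hwv]
      linear_combination hκ
    · rw [herm_add_left, herm_smul_left, hv, hwv]
      simp
  have hvW : v ∈ W := by
    have h2 := W.sub_mem h1 hwW
    rw [add_sub_cancel_left] at h2
    have h3 := W.smul_mem κ⁻¹ h2
    rwa [smul_smul, inv_mul_cancel₀ hκ0, one_smul] at h3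
  have key : ∀ x : Fin n → F, hermForm n F q x v ≠ 0 → x ∈ W := by
    intro x hx
    have hx' : hermForm n F q v x ≠ 0 := fun h => hx (herm_eq_zero_swap hF h)
    obtain ⟨t, ht⟩ := exists_iso_correct hF hv hx'
    have h2 : x + t • v ∈ W := by
      apply Submodule.subset_span
      refine ⟨ht, ?_⟩
      rw [herm_add_left, herm_smul_left, hv, mul_zero, add_zero]
      exact hx
    have h3 := W.sub_mem h2 (W.smul_mem t hvW)
    rwa [add_sub_cancel_right] at h3
  rw [eq_top_iff]
  intro x _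
  by_cases hx : hermForm n F q x v = 0
  · have h2 : x + w ∈ W := by
      apply key
      rw [herm_add_left, hx, hwv, zero_add]
      exact one_ne_zero
    have h3 := W.sub_mem h2 hwW
    rwa [add_sub_cancel_right] at h3
  · exact key x hx

/-- few elements map `v` into `v^⊥` -/
theorem card_bad_le (hF : Fintype.card F = q ^ 2) {v : Fin n → F} (hv0 : v ≠ 0) (hv : hermForm n F q v v = 0) :
    q * Nat.card {u : SU n F q | hermForm n F q (_root_.Cfsg.Agent.LieClassical.HermSiegel.act u v) v = 0} ≤ n * Nat.card (SU n F q) := by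
  classical
  obtain ⟨η, hη0, hη⟩ := exists_trace_zero_ne hF
  have hη2 : η ^ q = -η := (neg_eq_of_add_eq_zero_right hη).symm
  set S := {u : Fin n → F | hermForm n F q u u = 0 ∧ hermForm n F q u v ≠ 0} with hS
  let b := Module.Basis.ofSpan (span_iso hF hv0 hv).ge
  have hbS : ∀ i, b i ∈ S := by
    intro i
    have := Module.Basis.ofSpan_subset (span_iso hF hv0 hv).ge
    exact this ⟨i, rfl⟩
  have := Fintype.ofFinite (SU n F q)
  have hfin : Fintype ((linearIndepOn_empty F id).extend (Set.empty_subset S)) := Fintype.ofFinite _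
  have hcardb : Fintype.card ((linearIndepOn_empty F id).extend (Set.empty_subset S)) = n := by
    rw [← Module.finrank_eq_card_basis b, Module.finrank_fintype_fun_eq_card, Fintype.card_fin]
  -- one basis vector
  have hone : ∀ i, q * (Finset.univ.filter fun u : SU n F q => hermForm n F q (_root_.Cfsg.Agent.LieClassical.HermSiegel.act u v) v = 0 ∧
      hermForm n F q (_root_.Cfsg.Agent.LieClassical.HermSiegel.act u v) (b i) ≠ 0).card ≤ Nat.card (SU n F q) := by
    intro i
    have hbi := hbS i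
    set z := b i with hz
    let τ : K0 hF → SU n F q := fun c => siegel hF z 0 (η * (c : F)) (isS hF hbi.1 (tr_of hF hη2 c))
    have hτ : ∀ c x, _root_.Cfsg.Agent.LieClassical.HermSiegel.act (τ c) x = x + (η * (c : F) * hermForm n F q x z) • z := by
      intro c x
      simp only [τ]
      rw [act_siegel, herm_zero_right hF]
      simp
    let E := {u : SU n F q // hermForm n F q (_root_.Cfsg.Agent.LieClassical.HermSiegel.act u v) v = 0 ∧ hermForm n F q (_root_.Cfsg.Agent.LieClassical.HermSiegel.act u v) z ≠ 0}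
    have hinj : Function.Injective (fun p : K0 hF × E => τ p.1 * p.2.1) := by
      rintro ⟨c, u, hu1, hu2⟩ ⟨c', u', hu1', hu2'⟩ he
      simp only at he
      have h1 := congrArg (fun g => hermForm n F q (_root_.Cfsg.Agent.LieClassical.HermSiegel.act g v) v) he
      have h2 := congrArg (fun g => hermForm n F q (_root_.Cfsg.Agent.LieClassical.HermSiegel.act g v) z) he
      simp only [act_mul, hτ, herm_add_left, herm_smul_left, hbi.1, hu1, hu1', mul_zero, add_zero, zero_add] at h1 h2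
      rw [← h2] at h1
      have h3 : (η * ((c : F) - c')) * (hermForm n F q (_root_.Cfsg.Agent.LieClassical.HermSiegel.act u v) z * hermForm n F q z v) = 0 := by
        linear_combination h1
      have h4 : (c : F) = c' := by
        rcases mul_eq_zero.1 h3 with h5 | h5
        · exact sub_eq_zero.1 ((mul_eq_zero.1 h5).resolve_left hη0)
        · exact absurd h5 (mul_ne_zero hu2 hbi.2)
      have h5 : c = c' := Subtype.ext h4
      subst h5
      have h6 : u = u' := mul_left_cancel he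
      subst h6
      rfl
    have h1 := Nat.card_le_card_of_injective _ hinj
    rw [Nat.card_prod, card_K0] at h1
    refine le_trans (Nat.mul_le_mul_left q (le_of_eq ?_)) h1
    rw [Nat.card_eq_fintype_card, Fintype.card_subtype]
  have hcov : (Finset.univ.filter fun u : SU n F q => hermForm n F q (_root_.Cfsg.Agent.LieClassical.HermSiegel.act u v) v = 0) ⊆
      Finset.univ.biUnion fun i => Finset.univ.filter fun u : SU n F q => hermForm n F q (_root_.Cfsg.Agent.LieClassical.HermSiegel.act u v) v = 0 ∧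
      hermForm n F q (_root_.Cfsg.Agent.LieClassical.HermSiegel.act u v) (b i) ≠ 0 := by
    intro u hu
    have hu := (Finset.mem_filter.1 hu).2
    rw [Finset.mem_biUnion]
    by_contra hcon
    push Not at hcon
    have h1 : ∀ i, hermForm n F q (_root_.Cfsg.Agent.LieClassical.HermSiegel.act u v) (b i) = 0 := by
      intro i
      by_contra h2
      exact hcon i (Finset.mem_univ _) (Finset.mem_filter.2 ⟨Finset.mem_univ _, hu, h2⟩)
    have h2 : _root_.Cfsg.Agent.LieClassical.HermSiegel.act u v = 0 := by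
      apply herm_nondeg hF
      intro x
      rw [← b.sum_repr x, herm_sum_right hF]
      exact Finset.sum_eq_zero fun i _ => by rw [herm_smul_right, h1, mul_zero]
    exact hv0 ((act_eq_zero u).1 h2)
  have h1 := Finset.card_le_card hcov
  have h2 : Nat.card {u : SU n F q | hermForm n F q (_root_.Cfsg.Agent.LieClassical.HermSiegel.act u v) v = 0} =
      (Finset.univ.filter fun u : SU n F q => hermForm n F q (_root_.Cfsg.Agent.LieClassical.HermSiegel.act u v) v = 0).card := by
    rw [Nat.card_eq_fintype_card, ← Set.toFinset_card]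
    congr 1
    ext u
    simp only [_root_.Set.toFinset_ofPred, _root_.Finset.mem_filter, _root_.Finset.mem_univ, _root_.true_and]
  rw [h2]
  calc q * (Finset.univ.filter fun u : SU n F q => hermForm n F q (_root_.Cfsg.Agent.LieClassical.HermSiegel.act u v) v = 0).card
      ≤ q * ∑ i, (Finset.univ.filter fun u : SU n F q => hermForm n F q (_root_.Cfsg.Agent.LieClassical.HermSiegel.act u v) v = 0 ∧
        hermForm n F q (_root_.Cfsg.Agent.LieClassical.HermSiegel.act u v) (b i) ≠ 0).card := Nat.mul_le_mul_left q (h1.trans Finset.card_biUnion_le)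
    _ = ∑ i, q * (Finset.univ.filter fun u : SU n F q => hermForm n F q (_root_.Cfsg.Agent.LieClassical.HermSiegel.act u v) v = 0 ∧
        hermForm n F q (_root_.Cfsg.Agent.LieClassical.HermSiegel.act u v) (b i) ≠ 0).card := Finset.mul_sum _ _ _
    _ ≤ ∑ _i : ((linearIndepOn_empty F id).extend (Set.empty_subset S)), Nat.card (SU n F q) :=
        Finset.sum_le_sum fun i _ => hone i
    _ = n * Nat.card (SU n F q) := by rw [Finset.sum_const, smul_eq_mul, Finset.card_univ, hcardb]

/-- a partner of `v` orthogonal to `v'` -/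
theorem exists_pair (hF : Fintype.card F = q ^ 2) {v v' : Fin n → F} (hv0 : v ≠ 0) (hv : hermForm n F q v v = 0)
    (hv'0 : v' ≠ 0) (hvv' : hermForm n F q v v' = 0) (hne : ¬ ∃ c : F, v' = c • v) :
    ∃ w, Pair q w v ∧ hermForm n F q v' w = 0 := by
  obtain ⟨y0, hy0⟩ := exists_herm_ne_zero hF hv'0
  -- normalise
  obtain ⟨y1, hy1⟩ : ∃ y1, hermForm n F q v' y1 = 1 :=
    ⟨((hermForm n F q v' y0)⁻¹ ^ q) • y0, by rw [herm_smul_right, pow_q_pow_q hF, inv_mul_cancel₀ hy0]⟩
  set a := hermForm n F q v y1 with ha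
  set u := v - a • v' with hu
  have hu0 : u ≠ 0 := by
    intro h
    have h1 : v = a • v' := sub_eq_zero.1 h
    by_cases ha0 : a = 0
    · rw [ha0, zero_smul] at h1
      exact hv0 h1
    · apply hne
      exact ⟨a⁻¹, by rw [h1, smul_smul, inv_mul_cancel₀ ha0, one_smul]⟩
  have huy1 : hermForm n F q u y1 = 0 := by
    rw [hu, herm_sub_left, herm_smul_left, hy1, mul_one, ← ha, sub_self]
  obtain ⟨y2, hy2⟩ := exists_herm_ne_zero hF hu0
  set y := y2 - (hermForm n F q v' y2 ^ q) • y1 with hy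
  have h1 : hermForm n F q v' y = 0 := by
    rw [hy, herm_sub_right hF, herm_smul_right, hy1, pow_q_pow_q hF, mul_one, sub_self]
  have h2 : hermForm n F q v y ≠ 0 := by
    have h3 : hermForm n F q u y = hermForm n F q u y2 := by
      rw [hy, herm_sub_right hF, herm_smul_right, huy1, mul_zero, sub_zero]
    have h4 : hermForm n F q v y = hermForm n F q u y := by
      rw [hu, herm_sub_left, herm_smul_left, h1, mul_zero, sub_zero]
    rw [h4, h3]
    exact hy2
  obtain ⟨t, ht⟩ := exists_iso_correct hF hv h2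
  have hv'v : hermForm n F q v' v = 0 := herm_eq_zero_swap hF hvv'
  have h3 : hermForm n F q v (y + t • v) = hermForm n F q v y := by
    rw [herm_add_right hF, herm_smul_right, hv, mul_zero, add_zero]
  have h4 : hermForm n F q v' (y + t • v) = 0 := by
    rw [herm_add_right hF, herm_smul_right, hv'v, mul_zero, h1, add_zero]
  refine ⟨((hermForm n F q v y)⁻¹ ^ q) • (y + t • v), ⟨?_, hv, ?_⟩, ?_⟩
  · rw [herm_smul_left, herm_smul_right, ht, mul_zero, mul_zero]
  · have h5 : hermForm n F q v (((hermForm n F q v y)⁻¹ ^ q) • (y + t • v)) = 1 := by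
      rw [herm_smul_right, h3, pow_q_pow_q hF, inv_mul_cancel₀ h2]
    rw [herm_swap hF v, h5, one_pow]
  · rw [herm_smul_right, h4, mul_zero]

theorem normalClosure_T (hF : Fintype.card F = q ^ 2) (hn : 3 ≤ n) (h32 : ¬ (n = 3 ∧ q = 2)) {v : Fin n → F}
    (hv0 : v ≠ 0) (hv : hermForm n F q v v = 0) : Subgroup.normalClosure (T hF v) = ⊤ := by
  apply normal_eq_top hF hn h32
  intro hle
  obtain ⟨w, hw, hvw⟩ := exists_partner hF hv0 hv
  have hwv : hermForm n F q w v = 1 := by rw [herm_swap hF v w, hvw, one_pow]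
  obtain ⟨κ, hκ0, hκ⟩ := exists_trace_zero_ne hF
  have h1 : siegel hF v 0 κ (isS hF hv hκ) ∈ Subgroup.center (SU n F q) :=
    hle (Subgroup.subset_normalClosure ⟨κ, isS hF hv hκ, rfl⟩)
  have h2 := Subgroup.mem_center_iff.1 h1 (siegel hF w 0 κ (isS hF hw hκ))
  have h3 := congrArg (fun g => _root_.Cfsg.Agent.LieClassical.HermSiegel.act g v) h2
  simp only [act_mul, act_siegel, herm_zero_right hF, herm_add_left, herm_smul_left, hv, hvw, hwv,
    mul_zero, sub_zero, zero_smul, add_zero, smul_zero, mul_one, zero_add] at h3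
  have h4 : (κ * κ) • v = 0 := by
    have h6 : v + κ • w + (κ * κ) • v = v + κ • w := h3.symm
    rwa [add_eq_left] at h6
  rcases smul_eq_zero.1 h4 with h5 | h5
  · exact hκ0 (mul_self_eq_zero.1 h5)
  · exact hv0 h5

/-- the root group bound for `SU` -/
theorem fpr_T (hF : Fintype.card F = q ^ 2) (hn : 3 ≤ n) (h4 : 4 ≤ q) {v : Fin n → F}
    (hv0 : v ≠ 0) (hv : hermForm n F q v v = 0)
    (hq : 2 * (Nat.log 2 (Nat.card (SU n F q)) + 1) * n ≤ q)
    (Ω : Type*) [Finite Ω] [MulAction (SU n F q) Ω] (hΩ : ∀ ω : Ω, ∃ g : SU n F q, g • ω ≠ ω) :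
    fpr Ω (T hF v) ≤ 2 * ((Nat.log 2 (Nat.card (SU n F q)) + 1 : ℕ) : ℝ) / q := by
  obtain ⟨η, hη0, hη⟩ := exists_trace_zero_ne hF
  have hη2 : η ^ q = -η := (neg_eq_of_add_eq_zero_right hη).symm
  have h1 := root_bound (K := K0 hF) (T hF v) (normalClosure_T hF hn (by omega) hv0 hv)
    {u : SU n F q | hermForm n F q (_root_.Cfsg.Agent.LieClassical.HermSiegel.act u v) v ≠ 0} ?_ ?_ Ω hΩ
  · rwa [card_K0] at h1
  · have h2 := card_bad_le hF hv0 hv
    have h3 : ({u : SU n F q | hermForm n F q (_root_.Cfsg.Agent.LieClassical.HermSiegel.act u v) v ≠ 0}ᶜ : Set (SU n F q)) =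
        {u : SU n F q | hermForm n F q (_root_.Cfsg.Agent.LieClassical.HermSiegel.act u v) v = 0} := by
      ext u
      simp
    rw [h3]
    set N := Nat.card {u : SU n F q | hermForm n F q (_root_.Cfsg.Agent.LieClassical.HermSiegel.act u v) v = 0}
    set k := Nat.log 2 (Nat.card (SU n F q)) + 1
    have h5 : n * (2 * k * N) ≤ n * Nat.card (SU n F q) := by
      calc n * (2 * k * N) = (2 * k * n) * N := by ring
        _ ≤ q * N := Nat.mul_le_mul_right N hq
        _ ≤ n * Nat.card (SU n F q) := h2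
    exact Nat.le_of_mul_le_mul_left h5 (by omega)
  · intro u hu
    have hu' : hermForm n F q (_root_.Cfsg.Agent.LieClassical.HermSiegel.act u v) v ≠ 0 := hu
    set c := (hermForm n F q (_root_.Cfsg.Agent.LieClassical.HermSiegel.act u v) v)⁻¹ with hc
    have hc0 : c ≠ 0 := inv_ne_zero hu'
    have hP : Pair q (c • _root_.Cfsg.Agent.LieClassical.HermSiegel.act u v) v := by
      refine ⟨?_, hv, ?_⟩
      · rw [herm_smul_left, herm_smul_right, herm_act, hv, mul_zero, mul_zero]
      · rw [herm_smul_left, hc, inv_mul_cancel₀ hu']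
    refine ⟨phi hF hη0 hη2 hP h4, mem_T_lo hF hη0 hη2 hP h4, fun x => ?_⟩
    rw [T_conj, ← T_smul hF hc0]
    exact mem_T_up hF hη0 hη2 hP h4 x

/-- the product of nontrivial upper and lower unitriangular matrices is not central -/
theorem not_central {K : Type*} [Field K] {a b : K} (ha : a ≠ 0) :
    up a * lo b ∉ Subgroup.center (Matrix.SpecialLinearGroup (Fin 2) K) := by
  intro h
  have h1 := Subgroup.mem_center_iff.1 h (lo 1)
  have h2 := congrArg (fun g => g.1 0 0) h1
  simp only [Matrix.SpecialLinearGroup.coe_mul, Matrix.mul_apply, Fin.sum_univ_two] at h2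
  simp only [lo, up, _root_.Fin.isValue, _root_.Matrix.of_apply, _root_.Matrix.cons_val', _root_.Matrix.cons_val_zero, _root_.Matrix.cons_val_fin_one, _root_.mul_one, _root_.Matrix.cons_val_one, _root_.one_mul, _root_.zero_add, _root_.MulZeroClass.zero_mul, _root_.add_zero, _root_.MulZeroClass.mul_zero, _root_.left_eq_add] at h2
  exact ha h2

/-- upper unitriangular matrices as a homomorphism -/
def upH (K : Type*) [Field K] : Multiplicative K →* Matrix.SpecialLinearGroup (Fin 2) K where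
  toFun c := up (Multiplicative.toAdd c)
  map_one' := by
    apply Subtype.ext
    show !![1, 0; (0 : K), 1] = (1 : Matrix (Fin 2) (Fin 2) K)
    rw [Matrix.one_fin_two]
  map_mul' a b := by
    apply Subtype.ext
    show !![1, Multiplicative.toAdd a + Multiplicative.toAdd b; 0, 1] =
      !![1, Multiplicative.toAdd a; 0, 1] * !![1, Multiplicative.toAdd b; 0, 1]
    rw [Matrix.mul_fin_two]
    simp [add_comm]

/-- the bound for one element -/
theorem fpr_four (hF : Fintype.card F = q ^ 2) (hn : 3 ≤ n) (h4 : 4 ≤ q)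
    (hq : 2 * (Nat.log 2 (Nat.card (SU n F q)) + 1) * n ≤ q) {x : SU n F q}
    (hx : x ∉ Subgroup.center (SU n F q))
    (Ω : Type) [Finite Ω] [MulAction (SU n F q) Ω] (hΩ : ∀ ω : Ω, ∃ g : SU n F q, g • ω ≠ ω) :
    fpr Ω {x} ^ 4 ≤ 2 * (2 * ((Nat.log 2 (Nat.card (SU n F q)) + 1 : ℕ) : ℝ) / q + 7 / √(q : ℝ)) + 10 / (q : ℝ) := by
  have := Fintype.ofFinite (K0 hF)
  have hcardK : Fintype.card (K0 hF) = q := by rw [← Nat.card_eq_fintype_card, card_K0]
  obtain ⟨η, hη0, hη⟩ := exists_trace_zero_ne hF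
  have hη2 : η ^ q = -η := (neg_eq_of_add_eq_zero_right hη).symm
  obtain ⟨v, hv, hne⟩ : ∃ v : Fin n → F, hermForm n F q v v = 0 ∧ ¬ ∃ c : F, _root_.Cfsg.Agent.LieClassical.HermSiegel.act x v = c • v := by
    by_contra hcon
    push Not at hcon
    obtain ⟨d, hd⟩ := scalar_of_fix_iso hF hn (g := x) hcon
    exact hx (mem_center_of_scalar hd)
  have hv0 : v ≠ 0 := by
    rintro rfl
    exact hne ⟨0, by rw [act_zero, smul_zero]⟩
  have hv'0 : _root_.Cfsg.Agent.LieClassical.HermSiegel.act x v ≠ 0 := fun h => hv0 ((act_eq_zero x).1 h)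
  have hv' : hermForm n F q (_root_.Cfsg.Agent.LieClassical.HermSiegel.act x v) (_root_.Cfsg.Agent.LieClassical.HermSiegel.act x v) = 0 := by rw [herm_act, hv]
  set δ := 2 * ((Nat.log 2 (Nat.card (SU n F q)) + 1 : ℕ) : ℝ) / q + 7 / √(q : ℝ) with hδ
  have hδ0 : 0 ≤ δ := by (clear * - h4; positivity)
  have hqpos : (0 : ℝ) < q := by exact_mod_cast (by omega : 0 < q)
  have hT := fpr_T hF hn h4 hv0 hv hq Ω hΩ
  by_cases horth : hermForm n F q (_root_.Cfsg.Agent.LieClassical.HermSiegel.act x v) v = 0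
  · -- orthogonal case
    obtain ⟨w, hw, hxw⟩ := exists_pair hF hv0 hv hv'0 (herm_eq_zero_swap hF horth) hne
    have h1 := fpr_of_commute Ω (phi hF hη0 hη2 hw h4) x ?_ hδ0 ?_
    · rwa [card_K0] at h1
    · intro c y
      rw [phi_lo, conj_siegel]
      set t := siegel hF (_root_.Cfsg.Agent.LieClassical.HermSiegel.act x v) (_root_.Cfsg.Agent.LieClassical.HermSiegel.act x 0) (η * (c : F)) _ with ht
      have h5 : phi hF hη0 hη2 hw h4 y * t * (phi hF hη0 hη2 hw h4 y)⁻¹ = t := by
        rw [ht, conj_siegel]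
        apply siegel_congr hF _ _ _ _ rfl
        · rw [act_phi, horth, hxw]
          simp only [_root_.Fin.isValue, _root_.MulZeroClass.mul_zero, _root_.add_zero, _root_.zero_smul]
        · rw [act_zero, act_zero]
      exact (mul_inv_eq_iff_eq_mul.1 h5).symm
    · intro z hz
      refine (fpr_sl2_hom (by rw [hcardK]; exact h4) (phi hF hη0 hη2 hw h4) hz).trans ?_
      rw [hcardK, hδ]
      gcongr
      refine (fpr_anti Ω ?_).trans hT
      intro g hg
      obtain ⟨c, rfl⟩ := (mem_T_lo hF hη0 hη2 hw h4 g).1 hg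
      exact ⟨_, rfl⟩
  · -- opposite case
    set c := (hermForm n F q (_root_.Cfsg.Agent.LieClassical.HermSiegel.act x v) v)⁻¹ with hc
    have hc0 : c ≠ 0 := inv_ne_zero horth
    have hP : Pair q (c • _root_.Cfsg.Agent.LieClassical.HermSiegel.act x v) v := by
      refine ⟨?_, hv, ?_⟩
      · rw [herm_smul_left, herm_smul_right, herm_act, hv, mul_zero, mul_zero]
      · rw [herm_smul_left, hc, inv_mul_cancel₀ horth]
    have h1 := cs_comm_hom Ω ((phi hF hη0 hη2 hP h4).comp (loH (K0 hF))) x {1} δ hδ0 ?_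
    · have h2 : (Nat.card ({1} : Set (Multiplicative (K0 hF))) : ℝ) = 1 := by simp
      have h3 : (Nat.card (Multiplicative (K0 hF)) : ℝ) = q := by
        rw [Nat.card_congr Multiplicative.toAdd, card_K0]
      rw [h2, h3] at h1
      have h5 := fpr_nonneg Ω ({x} : Set (SU n F q))
      have h6 := fpr_le_one Ω ({x} : Set (SU n F q))
      have h7 : fpr Ω {x} ^ 4 ≤ fpr Ω {x} ^ 2 := pow_le_pow_of_le_one h5 h6 (by norm_num)
      have h8 : 1 / (q : ℝ) ≤ 10 / q := by gcongr; norm_num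
      linarith only [hδ0, h1, h7, h8]
    · intro y hy
      have hy0 : Multiplicative.toAdd y ≠ 0 := fun h => hy h
      set b := Multiplicative.toAdd y with hb
      have e0 : ((phi hF hη0 hη2 hP h4).comp (loH (K0 hF))) y = phi hF hη0 hη2 hP h4 (lo b) := rfl
      rw [e0]
      -- the conjugate lies in the other root group
      have h5 : x * phi hF hη0 hη2 hP h4 (lo b) * x⁻¹ ∈ T hF (c • _root_.Cfsg.Agent.LieClassical.HermSiegel.act x v) := by
        rw [T_smul hF hc0, ← T_conj]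
        exact ⟨_, (mem_T_lo hF hη0 hη2 hP h4 _).2 ⟨b, rfl⟩, rfl⟩
      obtain ⟨a, ha⟩ := (mem_T_up hF hη0 hη2 hP h4 _).1 h5
      have ha0 : a ≠ 0 := by
        rintro rfl
        have h6 : (up 0 : Matrix.SpecialLinearGroup (Fin 2) (K0 hF)) = 1 := map_one (upH (K0 hF))
        rw [h6, map_one] at ha
        have h7 : phi hF hη0 hη2 hP h4 (lo b) = 1 := by
          have := congrArg (fun g => x⁻¹ * g * x) ha
          simp only [mul_one, inv_mul_cancel] at this
          rw [eq_comm] at this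
          have h8 : x⁻¹ * (x * phi hF hη0 hη2 hP h4 (lo b) * x⁻¹) * x = phi hF hη0 hη2 hP h4 (lo b) := by group
          rwa [h8] at this
        have h8 := congrArg (fun g => _root_.Cfsg.Agent.LieClassical.HermSiegel.act g (c • _root_.Cfsg.Agent.LieClassical.HermSiegel.act x v)) h7
        simp only [act_phi, act_one] at h8
        have e1 : ((lo b).1 0 0 : K0 hF) = 1 := rfl
        have e2 : ((lo b).1 0 1 : K0 hF) = 0 := rfl
        have e3 : ((lo b).1 1 0 : K0 hF) = b := rfl
        have e4 : ((lo b).1 1 1 : K0 hF) = 1 := rfl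
        rw [e1, e2, e3, e4, hP.hvw, hP.hv] at h8
        simp only [_root_.OneMemClass.coe_one, _root_.sub_self, _root_.mul_one, _root_.ZeroMemClass.coe_zero, _root_.MulZeroClass.zero_mul, _root_.MulZeroClass.mul_zero, _root_.add_zero, _root_.zero_smul, _root_.add_eq_left, _root_.smul_eq_zero, _root_.mul_eq_zero, _root_.ZeroMemClass.coe_eq_zero] at h8
        rcases h8 with (h8 | h8) | h8
        · exact hη0 h8
        · exact hy0 h8
        · exact hv0 h8
      have e1 : x * (phi hF hη0 hη2 hP h4 (lo b) * x⁻¹ * (phi hF hη0 hη2 hP h4 (lo b))⁻¹) =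
          phi hF hη0 hη2 hP h4 (up a * lo (-b)) := by
        rw [map_mul, ← lo_inv, map_inv, ha]
        group
      rw [e1]
      refine (fpr_sl2_hom (by rw [hcardK]; exact h4) (phi hF hη0 hη2 hP h4) (not_central ha0)).trans ?_
      rw [hcardK, hδ]
      gcongr
      refine (fpr_anti Ω ?_).trans hT
      intro g hg
      obtain ⟨c, rfl⟩ := (mem_T_lo hF hη0 hη2 hP h4 g).1 hg
      exact ⟨_, rfl⟩

theorem card_SU_le : Nat.card (SU n F q) ≤ Fintype.card F ^ n ^ 2 := by
  have h1 : Nat.card (SU n F q) ≤ Nat.card (Matrix (Fin n) (Fin n) F) :=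
    Nat.card_le_card_of_injective mat mat_injective
  refine h1.trans (le_of_eq ?_)
  show Nat.card (Fin n → Fin n → F) = _
  rw [Nat.card_fun, Nat.card_fun, Nat.card_eq_fintype_card, Nat.card_fin, ← pow_mul, sq]

theorem br_su : BR_SU := by
  intro n₀
  obtain ⟨C, hC0, hC⟩ := num (2 * n₀ ^ 2) n₀
  refine ⟨C, hC0, ?_⟩
  intro F _ _ n q hF hn hn0 h32 x hx Ω _ _ hΩ
  have hq1 : 1 ≤ q := q_pos hF
  have h1 := hC q (Nat.card (SU n F q)) (fpr Ω {x}) hq1 Nat.card_pos ?_ (fpr_nonneg Ω _) (fpr_le_one Ω _) ?_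
  · have h2 : (Fintype.card F : ℝ) = (q : ℝ) ^ 2 := by rw [hF]; push_cast; rfl
    rw [h2]
    exact h1
  · refine card_SU_le.trans ?_
    rw [hF, ← pow_mul]
    apply Nat.pow_le_pow_right hq1
    gcongr
  · intro h4 hq
    refine fpr_four hF hn h4 ?_ hx Ω hΩ
    refine le_trans ?_ hq
    gcongr

end Cfsg.Agent.H830.B57.RootSU
end

private theorem dce_70882de39248 : _root_.True := by
  try have : _root_.True := by simp only [_root_.Cfsg.Agent.H830.B57.RootSU.T.congr_simp]
  try have : _root_.True := by simp only [_root_.Cfsg.Agent.H830.B57.RootSU.phi.congr_simp]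
  try have : _root_.True := by simp only [_root_.Cfsg.Agent.H830.B57.RootSU.K0.congr_simp]
  try have : _root_.True := by simp only [_root_.Cfsg.Agent.H830.B57.RootSU.slmat.eq_1]
  exact _root_.True.intro
end
end
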